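import Cfsg.Agent.H4.BLift
import Cfsg.Agent.H4.DefectZero
import Cfsg.Agent.H5.DefectOne

/-! Adams operations and the Brauer lift for general linear groups. -/

set_option autoImplicit false

namespace Cfsg.Agent.Dg

open Cfsg Cfsg.Agent.H3 Cfsg.Agent.H4 Cfsg.Agent.H5 Polynomial Module

section Adams
variable {Y : Type*} [Group Y]

theorem isGen_intCast (n : ℤ) : IsGeneralizedCharacter Y fun _ => (n : ℂ) := by
  convert (isGeneralizedCharacter_one (G := Y)).intCast_smul n using 1
  ext; simp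

theorem sum_roots_pow {N : ℕ} [NeZero N] [Fintype (rootsOfUnity N ℂ)] (m : ℕ) :
    ∑ c : rootsOfUnity N ℂ, ((c : ℂˣ) : ℂ) ^ m = if N ∣ m then (N : ℂ) else 0 := by
  split_ifs with h
  · obtain ⟨d, rfl⟩ := h
    rw [Finset.sum_congr rfl fun c _ => by rw [pow_mul, (mem_rootsOfUnity' _ _).1 c.2, one_pow], Finset.sum_const,
      Finset.card_univ, ← Nat.card_eq_fintype_card, Complex.card_rootsOfUnity, nsmul_eq_mul, mul_one]
  · refine sum_hom_units_eq_zero ((powMonoidHom m).comp ((Units.coeHom ℂ).comp (rootsOfUnity N ℂ).subtype))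
      fun e => h ?_
    have hz := Complex.isPrimitiveRoot_exp N (NeZero.ne N)
    exact (hz.pow_eq_one_iff_dvd m).1 (DFunLike.congr_fun e (hz.toRootsOfUnity))

variable [Finite Y] {V : Type*} [AddCommGroup V] [Module ℂ V] [FiniteDimensional ℂ V]

theorem isGen_esymm (σ : Representation ℂ Y V) {n : ℕ} (b : Y → Basis (Fin n) ℂ V) (ε : Y → Fin n → ℂ)
    (h : ∀ y i, σ y (b y i) = ε y i • b y i) (l : ℕ) :
    IsGeneralizedCharacter Y fun y => (-1) ^ l * MvPolynomial.eval (ε y) (MvPolynomial.esymm (Fin n) ℂ l) := by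
  by_cases hl : n < l
  · convert isGeneralizedCharacter_zero (G := Y) using 1
    ext y
    simp [MvPolynomial.esymm, Finset.powersetCard_eq_empty.2 (show (Finset.univ : Finset (Fin n)).card < l by simpa)]
  haveI := Fintype.ofFinite Y
  haveI := Fintype.ofFinite (rootsOfUnity (n + 1) ℂ)
  let μ : rootsOfUnity (n + 1) ℂ →* ℂ := (Units.coeHom ℂ).comp (rootsOfUnity (n + 1) ℂ).subtype
  obtain ⟨Λ, h1, h2⟩ := exists_gen_det (twistRep σ μ)
  convert isGen_avg_fst (h1.mul (isIrrCharacter_monoidHom (((powMonoidHom (n + 1 - l)).comp μ).comp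
    (MonoidHom.fst _ Y))).isGeneralizedCharacter) using 2 with y
  have h3 : ∀ c, Λ (c, y) = ∑ s : Finset (Fin n), (-μ c) ^ s.card * ∏ i ∈ s, ε y i := fun c => by
    rw [h2 (c, y) (b y) (fun i => μ c * ε y i) fun i => by simp [twistRep, h, smul_smul]]
    simp only [sub_eq_add_neg, Finset.prod_one_add, Finset.powerset_univ, ← neg_mul, Finset.prod_mul_distrib,
      Finset.prod_const]
  simp only [Pi.mul_apply, h3, Finset.sum_mul, MonoidHom.comp_apply, MonoidHom.coe_fst, powMonoidHom_apply]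
  rw [Finset.sum_comm, Complex.card_rootsOfUnity, Finset.mul_sum, MvPolynomial.esymm, map_sum, Finset.mul_sum,
    Finset.powersetCard_eq_filter, Finset.sum_filter, Finset.powerset_univ]
  refine Finset.sum_congr rfl fun s _ => ?_
  have hs : s.card ≤ n := by simpa using s.card_le_univ
  rw [Finset.sum_congr rfl fun c _ => (by rw [neg_pow, pow_add]; ring :
    _ = (-1) ^ s.card * (∏ i ∈ s, ε y i) * μ c ^ (s.card + (n + 1 - l))), ← Finset.mul_sum]
  erw [sum_roots_pow]
  by_cases e : s.card = l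
  · rw [if_pos e, if_pos (by rw [e, Nat.add_sub_cancel' (by omega)]), e, mul_comm (_⁻¹), mul_assoc,
      mul_inv_cancel₀ (Nat.cast_ne_zero.2 (by omega)), mul_one]
    simp
  · rw [if_neg e, if_neg, mul_zero, mul_zero]
    rintro ⟨d, hd⟩
    rcases d with _ | _ | d
    · omega
    · omega
    · have : (n + 1) * (d + 1 + 1) = (n + 1) * d + 2 * n + 2 := by ring
      omega

/-- Adams operations -/
theorem isGen_adams (σ : Representation ℂ Y V) (j : ℕ) :
    IsGeneralizedCharacter Y fun y => σ.character (y ^ j) := by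
  choose b ε _ h using fun y => exists_eigenbasis σ y _ Nat.card_pos pow_card_eq_one'
  have e : ∀ j y, σ.character (y ^ j) = MvPolynomial.eval (ε y) (MvPolynomial.psum _ ℂ j) := fun j y => by
    rw [Representation.character, trace_eq_sum_of_eigenbasis (b y) _ (fun i => ε y i ^ j)
      fun i => by simpa using h y j i]
    simp [MvPolynomial.psum]
  have h1 := isGen_esymm σ b ε fun y i => by simpa using h y 1 i
  induction j using Nat.strong_induction_on with
  | _ j ih =>
  rcases Nat.eq_zero_or_pos j with rfl | hj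
  · simpa using isGen_intCast (Y := Y) (finrank ℂ V)
  convert ((isGen_intCast (-j)).mul (h1 j)).sub (isGeneralizedCharacter_sum
    {a ∈ Finset.HasAntidiagonal.antidiagonal j | a.1 ∈ Set.Ioo 0 j} _ fun a ha => (h1 a.1).mul (ih a.2 (by
      simp only [Finset.mem_filter, Finset.HasAntidiagonal.mem_antidiagonal, Set.mem_Ioo] at ha
      omega))) using 1
  ext y
  rw [e, MvPolynomial.psum_eq_mul_esymm_sub_sum _ _ _ hj]
  simp only [map_sub, map_mul, map_pow, map_neg, map_one, map_natCast, map_sum, Pi.sub_apply, Pi.mul_apply,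
    Finset.sum_apply, e]
  push_cast
  ring

end Adams

section Teich
variable (M : Ideal AlgInt) [M.IsMaximal] (p : ℕ)

open Classical in
/-- the Teichmüller lift -/
noncomputable def tch (r : Res M) : ℂ :=
  if h : ∃ z : ℂ, (∃ m, ¬ p ∣ m ∧ z ^ m = 1) ∧ red M z = r then h.choose else 0

variable {M p} [Fact p.Prime] [CharP (Res M) p]

theorem root_mem {z : ℂ} {m : ℕ} (hm : ¬ p ∣ m) (hz : z ^ m = 1) : z ∈ locRing M :=
  mem_locRing_of_isIntegral M (isIntegral_of_pow_eq_one
    (Nat.pos_of_ne_zero (by rintro rfl; exact hm (dvd_zero _))) hz)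

theorem red_root_ne {z : ℂ} {m : ℕ} (hm : ¬ p ∣ m) (hz : z ^ m = 1) : red M z ≠ 0 := fun e => by
  have := red_pow (root_mem (M := M) hm hz) m
  rw [hz, e, zero_pow (by rintro rfl; exact hm (dvd_zero _)), red_one] at this
  exact one_ne_zero this

theorem tch_red {z : ℂ} {m : ℕ} (hm : ¬ p ∣ m) (hz : z ^ m = 1) : tch M p (red M z) = z := by
  have h2 : ∃ w : ℂ, (∃ m, ¬ p ∣ m ∧ w ^ m = 1) ∧ red M w = red M z := ⟨z, ⟨m, hm, hz⟩, rfl⟩
  obtain ⟨⟨n, hn, h3⟩, h4⟩ := h2.choose_spec
  have h5 := red_root_ne (M := M) hm hz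
  rw [tch, dif_pos h2]
  refine (div_eq_one_iff_eq (ne_zero_of_red_ne_zero h5)).1 (eq_one_of_red_eq_one (M := M) (m := n * m)
    (fun h => ((Nat.Prime.dvd_mul Fact.out).1 h).elim hn hm)
    (by rw [div_pow, pow_mul, h3, one_pow, pow_mul', hz, one_pow, div_one]) ?_)
  rw [red_div (root_mem hn h3) h5, h4, div_self h5]

theorem tch_zero : tch M p 0 = 0 := dif_neg fun ⟨_, ⟨_, hm, hz⟩, e⟩ => red_root_ne hm hz e

theorem exists_red_root {r : Res M} {m : ℕ} (hm : ¬ p ∣ m) (hr : r ^ m = 1) : ∃ z : ℂ, z ^ m = 1 ∧ red M z = r := by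
  have hm0 : m ≠ 0 := by rintro rfl; exact hm (dvd_zero _)
  have hz := Complex.isPrimitiveRoot_exp m hm0
  set ζ := Complex.exp (2 * Real.pi * Complex.I / m)
  have h1 : IsPrimitiveRoot (red M ζ) m := IsPrimitiveRoot.mk_of_lt _ (Nat.pos_of_ne_zero hm0)
    (by rw [← red_pow (root_mem hm hz.pow_eq_one), hz.pow_eq_one, red_one]) fun l h0 hl e =>
      hz.pow_ne_one_of_pos_of_lt h0.ne' hl (eq_one_of_red_eq_one (M := M) hm
        (by rw [← pow_mul, mul_comm, pow_mul, hz.pow_eq_one, one_pow])
        (by rw [red_pow (root_mem hm hz.pow_eq_one), e]))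
  haveI : NeZero m := ⟨hm0⟩
  obtain ⟨i, -, rfl⟩ := h1.eq_pow_of_pow_eq_one hr
  exact ⟨ζ ^ i, by rw [← pow_mul, mul_comm, pow_mul, hz.pow_eq_one, one_pow],
    red_pow (root_mem hm hz.pow_eq_one) i⟩

theorem isGen_lift {H : Type*} [Group H] [Finite H] (hH : ¬ p ∣ Nat.card H) {k : ℕ}
    (ρ : H →* Matrix (Fin k) (Fin k) (Res M)) (j : ℕ) :
    IsGeneralizedCharacter H fun h => (((ρ h).charpoly.roots).map fun t => tch M p t ^ j).sum := by
  classical
  haveI := Fintype.ofFinite H
  obtain ⟨A, hA⟩ := exists_lift_matrix ((CharP.cast_eq_zero_iff _ p _).not.2 hH) ρ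
  let σ : Representation ℂ H _ := (Matrix.toLinAlgEquiv'.toMonoidHom.comp
    (locRing M).subtype.mapMatrix.toMonoidHom).comp A
  convert ((isGen_adams σ j).add (isGen_intCast k)).sub (isGen_intCast (Fintype.card (H × Fin k))) using 1
  ext h
  obtain ⟨b, ε, h1, h2⟩ := exists_eigenbasis σ h _ Nat.card_pos pow_card_eq_one'
  have h3 : (A h).charpoly.map (resHom M) = ∏ i, (X - C (red M (ε i))) := by
    have : (A h).charpoly = ∏ i, (X - C ⟨ε i, root_mem hH (h1 i)⟩) := by
      apply map_injective (locRing M).subtype Subtype.val_injective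
      rw [← Matrix.charpoly_map, ← Matrix.charpoly_toLin']
      refine (charpoly_of_eigenbasis b _ ε fun i => by
        have := h2 1 i
        rwa [zpow_one, zpow_one] at this).trans ?_
      simp [Polynomial.map_prod]
    simp [this, Polynomial.map_prod, red_of_mem (root_mem hH (h1 _))]
  have h4 := congrArg (fun q => (q.roots.map fun t => tch M p t ^ j).sum) (hA h).2
  have h0 : ∀ k, ((X : (Res M)[X]) - 1) ^ k ≠ 0 := fun k => pow_ne_zero _ (X_sub_C_ne_zero 1)
  have t1 : tch M p 1 = 1 := by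
    rw [← red_one, tch_red (m := 1) (Nat.Prime.not_dvd_one Fact.out) (one_pow _)]
  rw [h3, roots_mul (mul_ne_zero (h0 _) (monic_prod_of_monic _ _ fun _ _ => monic_X_sub_C _).ne_zero),
    roots_mul (mul_ne_zero (h0 _) (ρ h).charpoly_monic.ne_zero), ← C_1, roots_pow, roots_pow, roots_X_sub_C,
    roots_prod_fin] at h4
  simp only [Multiset.map_add, Multiset.sum_add, Multiset.map_nsmul, Multiset.sum_nsmul, Multiset.map_singleton,
    Multiset.sum_singleton, t1, one_pow, nsmul_eq_mul, mul_one, Multiset.map_map, Function.comp_def,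
    tch_red hH (h1 _), Fintype.card_fin] at h4
  simp only [Pi.sub_apply, Pi.add_apply, Int.cast_natCast]
  rw [Representation.character, trace_eq_sum_of_eigenbasis b _ (fun i => ε i ^ j) fun i => by simpa using h2 j i,
    eq_sub_iff_add_eq', ← h4, add_comm]
  rfl

end Teich

variable {F : Type} [Field F] [Finite F]

theorem exists_pow_eq_one {p : ℕ} [Fact p.Prime] [CharP F p] {t : AlgebraicClosure F} (ht : t ≠ 0) :
    ∃ m, ¬ p ∣ m ∧ t ^ m = 1 := by
  haveI := IntermediateField.adjoin.finiteDimensional (Algebra.IsIntegral.isIntegral (R := F) t)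
  haveI : Finite (IntermediateField.adjoin F {t}) := Module.finite_of_finite F
  haveI := Fintype.ofFinite (IntermediateField.adjoin F {t})
  haveI : CharP (IntermediateField.adjoin F {t}) p := charP_of_injective_algebraMap' F p
  obtain ⟨n, hp, hn⟩ := FiniteField.card (IntermediateField.adjoin F {t}) p
  refine ⟨Fintype.card (IntermediateField.adjoin F {t}) - 1, fun h => hp.not_dvd_one ?_, ?_⟩
  · have h1 : p ∣ Fintype.card (IntermediateField.adjoin F {t}) := hn ▸ dvd_pow_self p n.ne_zero
    simpa [Nat.sub_sub_self Fintype.card_pos] using Nat.dvd_sub h1 h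
  · exact congrArg Subtype.val (FiniteField.pow_card_sub_one_eq_one (IntermediateField.AdjoinSimple.gen F t)
      fun e => ht (congrArg Subtype.val e))

/-- the Brauer lift -/
theorem gen_beta : ∃ θ : AlgebraicClosure F →*₀ ℂ, Function.Injective θ ∧ ∀ k j : ℕ,
    IsGeneralizedCharacter (GL (Fin k) F) fun g => ((((g : Matrix (Fin k) (Fin k) F).charpoly.map
      (algebraMap F (AlgebraicClosure F))).roots).map fun t => θ t ^ j).sum := by
  obtain ⟨p, hp⟩ := CharP.exists F
  haveI := Fintype.ofFinite F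
  obtain ⟨f, hp', hf⟩ := FiniteField.card F p
  haveI : Fact p.Prime := ⟨hp'⟩
  obtain ⟨M, hM⟩ := H5.exists_isPModular p
  haveI := hM.2.1
  haveI := charP_res hM
  letI := ZMod.algebra F p
  letI := ZMod.algebra (Res M) p
  haveI : Algebra.IsAlgebraic (ZMod p) (AlgebraicClosure F) := Algebra.IsAlgebraic.trans (ZMod p) F _
  let ι : AlgebraicClosure F →+* Res M := (IsAlgClosed.lift (R := ZMod p) (S := AlgebraicClosure F) (M := Res M))
  have key : ∀ t ≠ 0, ∃ m, ¬ p ∣ m ∧ ∃ z : ℂ, z ^ m = 1 ∧ red M z = ι t := fun t ht => by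
    obtain ⟨m, hm, e⟩ := exists_pow_eq_one (p := p) ht
    exact ⟨m, hm, exists_red_root hm (by rw [← map_pow, e, map_one])⟩
  have hr : ∀ t, red M (tch M p (ι t)) = ι t := fun t => by
    by_cases ht : t = 0
    · simp [ht, tch_zero]
    · obtain ⟨m, hm, z, hz, e⟩ := key t ht
      rw [← e, tch_red hm hz]
  refine ⟨{ toFun t := tch M p (ι t)
            map_zero' := by rw [map_zero, tch_zero]
            map_one' := by
              rw [map_one, ← red_one, tch_red (m := 1) hp'.not_dvd_one (one_pow _)]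
            map_mul' s t := ?_ }, fun s t e => ι.injective ((hr s).symm.trans ((congrArg _ e).trans (hr t))),
    fun k j => brauer_characterization (fun g h => ?_) fun E r hr hE => ?_⟩
  · by_cases hs : s = 0
    · simp [hs, tch_zero]
    by_cases ht : t = 0
    · simp [ht, tch_zero]
    obtain ⟨m, hm, z, hz, e⟩ := key s hs
    obtain ⟨n, hn, w, hw, e'⟩ := key t ht
    rw [map_mul, ← e, ← e', ← red_mul (root_mem hm hz) (root_mem hn hw), tch_red hm hz, tch_red hn hw,
      tch_red (m := m * n) (fun h => (hp'.dvd_mul.1 h).elim hm hn)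
        (by rw [mul_pow, pow_mul, hz, one_pow, pow_mul', hw, one_pow, mul_one])]
  · simp only [Units.val_mul, Matrix.coe_units_inv, Matrix.charpoly_units_conj]
  · haveI := isNilpotent_of_isElementary hr hE
    obtain ⟨K, m, hm, hn⟩ := Nat.exists_eq_pow_mul_and_not_dvd (Nat.card_pos (α := E)).ne' p hp'.ne_one
    have hc : Nat.Coprime p m := hp'.coprime_iff_not_dvd.2 hm
    have h1 : p ^ K ∣ Fintype.card F ^ (m.totient * K) := by
      rw [hf, ← pow_mul]
      exact pow_dvd_pow p (Nat.le_mul_of_pos_left _ f.pos |>.trans' (Nat.le_mul_of_pos_left _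
        (Nat.totient_pos.2 (Nat.pos_of_ne_zero (by rintro rfl; exact hm (dvd_zero _))))))
    have h2 : Fintype.card F ^ (m.totient * K) ≡ 1 [MOD m] := by
      rw [pow_mul]
      simpa using (Nat.ModEq.pow_totient (hf ▸ hc.pow_left f)).pow K
    let s : E →* E := MonoidHom.mk' (fun x => x ^ Fintype.card F ^ (m.totient * K))
      (mul_pow_of_nilpotent hn (hc.pow_left K) h1 h2)
    have h3 : ¬ p ∣ Nat.card s.range := fun h => by
      obtain ⟨⟨_, y, rfl⟩, h4⟩ := exists_prime_orderOf_dvd_card' p h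
      refine hm (h4 ▸ orderOf_dvd_of_pow_eq_one (Subtype.ext ?_))
      change (y ^ _) ^ m = 1
      rw [← pow_mul]
      exact orderOf_dvd_iff_pow_eq_one.1 ((orderOf_dvd_natCard y).trans (hn ▸ Nat.mul_dvd_mul_right h1 m))
    convert (isGen_lift h3 (((ι.comp (algebraMap F _)).mapMatrix.toMonoidHom.comp (Units.coeHom _)).comp
      (E.subtype.comp s.range.subtype)) j).comp s.rangeRestrict using 3 with e
    have h4 : ∀ (a : ℕ) (x : Matrix (Fin k) (Fin k) F), (x ^ Fintype.card F ^ a).charpoly = x.charpoly := by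
      intro a
      induction a with
      | zero => simp
      | succ a ih => exact fun x => by rw [pow_succ, pow_mul, FiniteField.Matrix.charpoly_pow_card, ih]
    change _ = Multiset.map _ (Matrix.charpoly (Matrix.map
      ((e : GL (Fin k) F) ^ Fintype.card F ^ (m.totient * K)).val (ι.comp (algebraMap F _)))).roots
    rw [Matrix.charpoly_map, Units.val_pow_eq_pow_val, h4, ← Polynomial.map_map,
      (IsAlgClosed.splits _).roots_map ι, Multiset.map_map]
    rfl

end Cfsg.Agent.Dg
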