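import Cfsg.Agent.Dg.P6

/-! The cuspidal characters that are used. -/

set_option autoImplicit false

namespace Cfsg.Agent.Dg

open Cfsg Cfsg.Agent.H3 Cfsg.Agent.H4 Polynomial Module

variable {F K : Type} [Field F] [Field K] [Algebra F K] {k : ℕ} [Finite F]

theorem NR.ne_one {σ : GL (Fin k) F → ℂ} (h : NR σ) : σ ≠ 1 := fun e => by
  have := Fintype.ofFinite (GL (Fin k) F)
  rw [NR, e, ip_eq] at h
  exact one_ne_zero (isIrrCharacter_one.classInner_self.symm.trans h)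

variable [IsAlgClosed K] [Algebra.IsIntegral F K] {θ : K →*₀ ℂ}

theorem cusp_aux (h : BL F θ) (hk : 1 ≤ k) {j : ℕ} (j0 : 0 < j)
    (hj : j * (Nat.card F ^ (k - 1) + 1) < Nat.card F ^ k - 1) :
    ∃ σ : GL (Fin k) F → ℂ, Cusp σ ∧ NR σ ∧ σ (-1) = θ (-1) ^ j * σ 1 := by
  have := Fintype.ofFinite (GL (Fin k) F)
  have q1 : 1 < Nat.card F := Finite.one_lt_card
  have l : ∀ i < k, Nat.card F ^ i ≤ Nat.card F ^ (k - 1) := fun i hi => Nat.pow_le_pow_right (by omega) (by omega)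
  obtain ⟨σ, ε, -, h1, h2, h3, h4, h5, -⟩ := cusp_gen h hk j fun i i0 hi => Nat.not_dvd_of_pos_of_lt
    (Nat.mul_pos j0 (Nat.sub_pos_of_lt (Nat.one_lt_pow i0.ne' q1)))
    ((Nat.mul_le_mul_left j (by have := l i hi; omega)).trans_lt hj)
  have nr := h5 fun i hi => Nat.not_dvd_of_pos_of_lt (Nat.mul_pos j0 (Nat.succ_pos _))
    ((Nat.mul_le_mul_left j (by have := l i hi; omega)).trans_lt hj)
  refine ⟨σ, ⟨h1, h2, h3, nr.ne_one⟩, nr, ?_⟩
  have : Matrix.GeneralLinearGroup.scalar (Fin k) (-1 : Fˣ) = -1 := Units.ext (by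
    simp [Matrix.GeneralLinearGroup.scalar, ← Matrix.diagonal_neg])
  simpa [this] using h4 (-1)

theorem cusp_nr' (h : BL F θ) (hk : 1 ≤ k)
    (hq : ¬ (Nat.card F = 2 ∧ k ≤ 2) ∧ ¬ (Nat.card F = 3 ∧ k = 1)) :
    ∃ σ : GL (Fin k) F → ℂ, Cusp σ ∧ NR σ := by
  have q1 : 1 < Nat.card F := Finite.one_lt_card
  obtain ⟨σ, a, b, -⟩ := cusp_aux h hk one_pos (by
    obtain ⟨m, rfl⟩ := Nat.exists_eq_add_of_le' hk
    generalize Nat.card F = q at *
    rw [Nat.add_sub_cancel, pow_succ]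
    have : 2 < q ^ m * (q - 1) := by
      rcases m with _ | _ | m
      · simp at hq ⊢; omega
      · have : 3 * 2 ≤ q * (q - 1) := Nat.mul_le_mul (by omega) (by omega)
        simp; omega
      · have : 2 ^ 2 * 1 ≤ q ^ (m + 1 + 1) * (q - 1) := Nat.mul_le_mul
          ((Nat.pow_le_pow_left q1 2).trans (Nat.pow_le_pow_right (by omega) (by omega))) (by omega)
        omega
    rw [Nat.mul_sub_one] at this
    omega)
  exact ⟨σ, a, b⟩

theorem cusp_cen' (h : BL F θ) (hk : 1 ≤ k)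
    (hq : ¬ (Nat.card F = 2 ∧ k ≤ 2) ∧ ¬ (Nat.card F = 3 ∧ k ≤ 2) ∧ ¬ (Nat.card F = 5 ∧ k = 1)) :
    ∃ σ : GL (Fin k) F → ℂ, Cusp σ ∧ NR σ ∧ σ (-1) = σ 1 := by
  have := Fintype.ofFinite F
  by_cases h2 : ringChar F = 2
  · obtain ⟨σ, a, b⟩ := cusp_nr' h hk ⟨hq.1, fun c => hq.2.1 ⟨c.1, by omega⟩⟩
    have : CharP F 2 := h2 ▸ ringChar.charP F
    exact ⟨σ, a, b, congrArg σ (Units.ext (by ext i j; simp [CharTwo.neg_eq]))⟩
  have od := FiniteField.odd_card_of_char_ne_two h2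
  rw [← Nat.card_eq_fintype_card] at od
  have q1 : 1 < Nat.card F := Finite.one_lt_card
  obtain ⟨σ, a, b, c⟩ := cusp_aux h hk two_pos (by
    obtain ⟨m, rfl⟩ := Nat.exists_eq_add_of_le' hk
    generalize Nat.card F = q at *
    rw [Nat.add_sub_cancel, pow_succ]
    have : 3 < q ^ m * (q - 2) := by
      rcases m with _ | _ | m
      · simp at hq ⊢; omega
      · have : 5 * 3 ≤ q * (q - 2) := Nat.mul_le_mul (by omega) (by omega)
        simp; omega
      · have : 2 ^ 2 * 1 ≤ q ^ (m + 1 + 1) * (q - 2) := Nat.mul_le_mul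
          ((Nat.pow_le_pow_left q1 2).trans (Nat.pow_le_pow_right (by omega) (by omega))) (by omega)
        omega
    rw [Nat.mul_sub] at this
    omega)
  exact ⟨σ, a, b, by rw [c, ← map_pow]; simp⟩

theorem cusp_sd' (h : BL F θ) : ∃ σ : GL (Fin 2) F → ℂ, Cusp σ ∧
    (∀ z : Fˣ, σ (Matrix.GeneralLinearGroup.scalar _ z) = σ 1) ∧ ∃ s : ℂ, s * s = 1 ∧
      ∑ᶠ Y : {Y : GL (Fin 2) F // Matrix.trace Y.1 = 0}, σ Y = s * Nat.card F * (Nat.card F - 1) ^ 2 := by
  classical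
  have := Fintype.ofFinite F
  have q1 : 1 < Nat.card F := Finite.one_lt_card
  obtain ⟨p, hp⟩ : ∃ p, Nat.card F = p + 1 := ⟨Nat.card F - 1, by omega⟩
  have p0 : 0 < p := by omega
  have hN : Nat.card F ^ 2 - 1 = p * (p + 2) := by rw [hp]; exact Nat.sub_eq_of_eq_add (by ring)
  obtain ⟨σ, ε, hε, h1, h2, h3, h4, -, h5⟩ := cusp_gen h two_pos p fun i i0 hi => by
    rw [show i = 1 by omega, hN, hp, pow_one, Nat.add_sub_cancel]
    exact Nat.not_dvd_of_pos_of_lt (Nat.mul_pos p0 p0) (Nat.mul_lt_mul_of_pos_left (by omega) p0)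
  refine ⟨σ, ⟨h1, h2, h3, fun e => ?_⟩, fun z => ?_, ε * θ (-1), ?_, ?_⟩
  · have := h3 (Submodule.span F {Pi.single 0 1}) (by simp) (fun c => by
      have := finrank_span_singleton (K := F) (v := (Pi.single 0 1 : Fin 2 → F)) (by simp)
      rw [c] at this
      simp at this) 1
    have i := Fintype.ofFinite (rad (Submodule.span F {(Pi.single 0 1 : Fin 2 → F)}))
    simp [e, finsum_eq_sum_of_fintype] at this
  · rw [h4, ← map_pow, ← map_pow, show p = Fintype.card F - 1 by rw [← Nat.card_eq_fintype_card]; omega,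
      FiniteField.pow_card_sub_one_eq_one _ z.ne_zero, map_one, map_one, one_mul]
  · rw [mul_mul_mul_comm, hε, ← map_mul]; simp
  obtain ⟨ζ, hζ⟩ := exists_prim (F := F) (K := K) one_pos (N := p) (by rw [hp]; simp)
  have od : (-1 : K) ^ (p + 2) = 1 := by
    have := congrArg (algebraMap F K) (FiniteField.pow_card (-1 : F))
    rw [← Nat.card_eq_fintype_card, hp, map_pow, map_neg, map_one] at this
    rw [pow_succ, this]; simp
  have e := h5 fun m => if m.sum = 0 then 1 else 0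
  have e1 : ∑ t ∈ nthRootsFinset (p * (p + 2)) (1 : K), θ t ^ p *
      (if (orb (p + 1) 2 t).sum = 0 then 1 else 0) = p * θ (-1) := by
    simp only [mul_ite, mul_one, mul_zero]
    have : (nthRootsFinset (p * (p + 2)) (1 : K)).filter (fun t => (orb (p + 1) 2 t).sum = 0) =
        nthRootsFinset p (-1 : K) := by
      ext t
      have : (orb (p + 1) 2 t).sum = t * (t ^ p + 1) := by simp [orb, Multiset.range_succ]; ring
      rw [Finset.mem_filter, this, mem_nthRootsFinset p0, mem_nthRootsFinset (Nat.mul_pos p0 (by omega)),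
        mul_eq_zero, add_eq_zero_iff_eq_neg]
      refine ⟨fun ⟨a, b⟩ => b.resolve_left fun c => by simp [c, p0.ne'] at a, fun a => ⟨?_, .inr a⟩⟩
      rw [pow_mul, a, od]
    rw [← Finset.sum_filter, this, Finset.sum_congr rfl (g := fun _ => θ (-1)) fun t ht => by
      rw [← map_pow, (mem_nthRootsFinset p0 _).1 ht], Finset.sum_const, nsmul_eq_mul, nthRootsFinset_def,
      Multiset.toFinset_card_of_nodup (hζ.nthRoots_nodup (by simp)), hζ.card_nthRoots,
      if_pos (IsAlgClosed.exists_pow_nat_eq _ p0)]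
  have e2 : ∀ g : GL (Fin 2) F, (g.1.charpoly.aroots K).sum = 0 ↔ Matrix.trace g.1 = 0 := fun g => by
    rw [aroots_def, ← Matrix.charpoly_map, ← Matrix.trace_eq_sum_roots_charpoly, ← AddMonoidHom.map_trace,
      map_eq_zero]
  rw [hN, Matrix.card_GL_field, ← Nat.card_eq_fintype_card, hp, e1] at e
  simp only [e2, mul_ite, mul_one, mul_zero] at e
  rw [finsum_eq_sum_of_fintype, ← Finset.sum_subtype (Finset.univ.filter fun Y : GL (Fin 2) F => Matrix.trace Y.1 = 0)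
    (by simp) σ, Finset.sum_filter]
  refine mul_left_cancel₀ (Nat.cast_ne_zero.2 (Nat.mul_pos p0 (by omega)).ne') (e.trans ?_)
  rw [Fin.prod_univ_two, Fin.val_zero, Fin.val_one, pow_zero, pow_one, ← hp, hN, hp,
    show (p + 1) ^ 2 - (p + 1) = p * (p + 1) from Nat.sub_eq_of_eq_add (by ring)]
  push_cast; ring

end Cfsg.Agent.Dg
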