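import Cfsg.Agent.Dg.A1
import Cfsg.Agent.Dg.P7

/-! Existence of cuspidal characters. -/

set_option autoImplicit false

namespace Cfsg.Agent.Dg

open Cfsg

variable {F : Type} [Field F] [Finite F] {k : ℕ}

variable (F) in
theorem exists_BL : ∃ θ : AlgebraicClosure F →*₀ ℂ, BL F θ :=
  let ⟨θ, h1, h2⟩ := gen_beta (F := F)
  ⟨θ, h1, h2⟩

theorem cusp_nr (hk : 1 ≤ k) (hq : ¬ (Nat.card F = 2 ∧ k ≤ 2) ∧ ¬ (Nat.card F = 3 ∧ k = 1)) :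
    ∃ σ : GL (Fin k) F → ℂ, Cusp σ ∧ NR σ :=
  let ⟨_, h⟩ := exists_BL F
  cusp_nr' h hk hq

theorem cusp_cen (hk : 1 ≤ k)
    (hq : ¬ (Nat.card F = 2 ∧ k ≤ 2) ∧ ¬ (Nat.card F = 3 ∧ k ≤ 2) ∧ ¬ (Nat.card F = 5 ∧ k = 1)) :
    ∃ σ : GL (Fin k) F → ℂ, Cusp σ ∧ NR σ ∧ σ (-1) = σ 1 :=
  let ⟨_, h⟩ := exists_BL F
  cusp_cen' h hk hq

variable (F) in
theorem cusp_sd : ∃ σ : GL (Fin 2) F → ℂ, Cusp σ ∧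
    (∀ z : Fˣ, σ (Matrix.GeneralLinearGroup.scalar _ z) = σ 1) ∧ ∃ s : ℂ, s * s = 1 ∧
      ∑ᶠ Y : {Y : GL (Fin 2) F // Matrix.trace Y.1 = 0}, σ Y = s * Nat.card F * (Nat.card F - 1) ^ 2 :=
  let ⟨_, h⟩ := exists_BL F
  cusp_sd' h

end Cfsg.Agent.Dg
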