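import Cfsg.Agent.Dg.G1

/-! The abelianisation of an orthogonal group. -/

set_option autoImplicit false
set_option linter.unusedSectionVars false

namespace Cfsg.Agent.Dg

open Cfsg Module
open scoped commutatorElement

variable {F V : Type} [Field F] [Finite F] [AddCommGroup V] [Module F V] [Finite V]
  {o : Bool} {Q : V → F} {B : LinearMap.BilinForm F V} {a b w x y : V}

namespace Pol

theorem dsep (h : Pol o Q B) {W : Submodule F V} (hx : x ∉ W) :
    ∃ v, (∀ w ∈ W, B w v = 0) ∧ B x v = 1 := by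
  rw [← LinearMap.BilinForm.orthogonal_orthogonal h.nondeg h.isRefl W,
    LinearMap.BilinForm.mem_orthogonal_iff] at hx
  push Not at hx
  obtain ⟨v, h1, h2⟩ := hx
  have h3 : B x v ≠ 0 := fun e => h2 (h.perp_comm.1 e)
  exact ⟨(B x v)⁻¹ • v, fun w hw => by rw [map_smul, show B w v = 0 from h1 w hw, smul_zero],
    by rw [map_smul, smul_eq_mul, inv_mul_cancel₀ h3]⟩

theorem dsep1 (h : Pol o Q B) (hx : ∀ c : F, c • w ≠ x) : ∃ v, B w v = 0 ∧ B x v = 1 :=
  let ⟨v, h1, h2⟩ := h.dsep (W := Submodule.span F {w}) fun e =>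
    let ⟨c, hc⟩ := Submodule.mem_span_singleton.1 e; hx c hc
  ⟨v, h1 w (Submodule.mem_span_singleton_self w), h2⟩

theorem dsep0 (h : Pol o Q B) (hx : x ≠ 0) : ∃ v, B x v = 1 :=
  let ⟨v, _, e⟩ := h.dsep (W := ⊥) hx; ⟨v, e⟩

variable (h : Pol true Q B)
include h

theorem oadd (u v : V) : Q (u + v) = Q u + Q v + B u v := by simpa [dl] using h.add u v

theorem osub (u v : V) : Q (u - v) = Q u + Q v - B u v := by simpa [dl] using h.sub u v

theorem osym (u v : V) : B u v = B v u := by simpa [ep] using h.sym u v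

/-- the reflection in `a` (the identity if `a` is singular) -/
noncomputable def rf (a : V) : Iso Q B :=
  h.qr a (Q a)⁻¹ (by by_cases e : Q a = 0 <;> simp [e, dl])

theorem rf_apply (a v : V) : (h.rf a).1 v = v - ((Q a)⁻¹ * B a v) • a := h.qr_apply _ _ _ _

theorem rf_fix (e : B a x = 0) : (h.rf a).1 x = x := by simp [rf_apply, e]

theorem oei_apply (hw : Q w = 0) (ha : B w a = 0) (v : V) :
    (h.ei w a hw ha).1 v = v + B w v • a - (B a v + Q a * B w v) • w := by simp [ei_apply, ep]

theorem rf_conj (g : Iso Q B) (a : V) : g * h.rf a = h.rf (g.1 a) * g := Iso.ext fun v => by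
  simp only [Iso.mul_apply, rf_apply, map_sub, map_smul, Iso.q, Iso.b]

theorem rf_smul {c : F} (hc : c ≠ 0) (a : V) : h.rf (c • a) = h.rf a := Iso.ext fun v => by
  simp only [rf_apply, h.smul, map_smul, LinearMap.smul_apply, smul_smul, smul_eq_mul]
  congr 2
  field_simp

theorem rf_mul_self (a : V) : h.rf a * h.rf a = 1 := Iso.ext fun v => by
  rw [Iso.mul_apply, rf_apply, rf_apply, map_sub, map_smul, h.self, smul_eq_mul, sub_sub, ← add_smul,
    show (Q a)⁻¹ * B a v + (Q a)⁻¹ * (B a v - (Q a)⁻¹ * B a v * (2 * Q a)) = 0 by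
      by_cases e : Q a = 0
      · simp [e]
      · field_simp; ring, zero_smul, sub_zero, Iso.one_apply]

theorem rf_swap (e : Q x = Q y) (q : Q (x - y) ≠ 0) : (h.rf (x - y)).1 x = y := by
  have : B (x - y) x = Q (x - y) := by
    rw [h.osub, map_sub, LinearMap.sub_apply, h.self, h.osym y, ← e]; ring
  rw [rf_apply, this, inv_mul_cancel₀ q]; simp

theorem ei_mul (hw : Q w = 0) (ha : B w a = 0) (hb : B w b = 0) (hc : B w (a + b) = 0) :
    h.ei w a hw ha * h.ei w b hw hb = h.ei w (a + b) hw hc := Iso.ext fun v => by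
  simp only [Iso.mul_apply, oei_apply, map_add, map_sub, map_smul, smul_eq_mul, hb,
    h.self_of_sing hw, h.oadd, h.osym a w, ha, LinearMap.add_apply]
  module

theorem ei_conj (g : Iso Q B) (hw : Q w = 0) (ha : B w a = 0) (hx : Q x = 0) (hb : B x b = 0)
    (e1 : g.1 w = x) (e2 : g.1 a = b) : g * h.ei w a hw ha = h.ei x b hx hb * g :=
  Iso.ext fun v => by
    subst e1 e2
    simp only [Iso.mul_apply, oei_apply, map_add, map_sub, map_smul, Iso.q, Iso.b]

/-- a subspace with totally singular orthogonal complement is large -/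
theorem dns {W : Submodule F V} (hW : 2 * finrank F W < finrank F V ∨
    2 * finrank F W ≤ finrank F V ∧ ∃ a ∈ W, Q a ≠ 0) : ∃ b, (∀ w ∈ W, B w b = 0) ∧ Q b ≠ 0 := by
  by_contra! hn
  have h1 : B.orthogonal W ≤ W := by
    refine le_of_le_of_eq ?_ (LinearMap.BilinForm.orthogonal_orthogonal h.nondeg h.isRefl W)
    intro b hb u hu
    have := h.oadd u b
    rw [hn _ (add_mem hu hb), hn u hu, hn b hb] at this
    simpa using this.symm
  have h2 := LinearMap.BilinForm.finrank_orthogonal h.nondeg W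
  have h3 := Submodule.finrank_mono h1
  rcases hW with e | ⟨e, a, ha, q⟩
  · omega
  · rw [← Submodule.eq_of_le_of_finrank_le h1 (by omega)] at ha
    exact q (hn a ha)

omit h in
theorem finrank_span3 (x y a : V) : finrank F (Submodule.span F {x, y, a}) ≤ 3 := by
  classical
  exact (finrank_span_le_card ({x, y, a} : Set V)).trans (by simpa using Finset.card_le_three)

omit h in
theorem finrank_span2 (x y : V) : finrank F (Submodule.span F {x, y}) ≤ 2 := by
  classical
  exact (finrank_span_le_card ({x, y} : Set V)).trans (by simpa using Finset.card_le_two)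

theorem ns2 (hd : 5 ≤ finrank F V) (x y : V) : ∃ b, B x b = 0 ∧ B y b = 0 ∧ Q b ≠ 0 := by
  obtain ⟨b, h1, h2⟩ := h.dns (W := Submodule.span F {x, y})
    (.inl (by have := finrank_span2 (F := F) x y; omega))
  exact ⟨b, h1 _ (Submodule.subset_span (by simp)), h1 _ (Submodule.subset_span (by simp)), h2⟩

/-- every value is taken on the orthogonal complement of two vectors -/
theorem univ2 (hd : 6 ≤ finrank F V) (x y : V) (c : F) : ∃ b, B x b = 0 ∧ B y b = 0 ∧ Q b = c := by
  obtain ⟨a, a1, a2, a3⟩ := h.ns2 (by omega) x y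
  obtain ⟨b, h1, b4⟩ := h.dns (W := Submodule.span F {x, y, a}) (.inr
    ⟨by have := finrank_span3 (F := F) x y a; omega, a, Submodule.subset_span (by simp), a3⟩)
  have b1 := h1 x (Submodule.subset_span (by simp))
  have b2 := h1 y (Submodule.subset_span (by simp))
  have b3 := h1 a (Submodule.subset_span (by simp))
  obtain ⟨s, t, e⟩ : ∃ s t : F, s * s * Q a + t * t * Q b = c := by
    have := Fintype.ofFinite F
    rcases eq_or_ne (ringChar F) 2 with e | e
    · obtain ⟨s, hs⟩ := FiniteField.isSquare_of_char_two e (c / Q a)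
      exact ⟨s, 0, by rw [← hs]; simp [a3]⟩
    · obtain ⟨s, t, hs⟩ := FiniteField.exists_root_sum_quadratic
        (f := Polynomial.C (Q a) * Polynomial.X ^ 2)
        (g := Polynomial.C (Q b) * Polynomial.X ^ 2 + Polynomial.C (-c))
        (Polynomial.degree_C_mul_X_pow 2 a3) (by
          rw [Polynomial.degree_add_C] <;> rw [Polynomial.degree_C_mul_X_pow 2 b4] <;> norm_num)
        (FiniteField.odd_card_of_char_ne_two e)
      exact ⟨s, t, by simp at hs; linear_combination hs⟩
  exact ⟨s • a + t • b, by simp [a1, b1], by simp [a2, b2], by simp [h.oadd, h.smul, b3, e]⟩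

theorem ei_mem (hd : 5 ≤ finrank F V) (hw : Q w = 0) (ha : B w a = 0) :
    h.ei w a hw ha ∈ commutator (Iso Q B) := by
  have key : ∀ b (hb : B w b = 0), Q b ≠ 0 → h.ei w b hw hb ∈ commutator (Iso Q B) := fun b hb q => by
    obtain ⟨v, v1, v2⟩ := h.dsep1 (w := w) (x := b) fun t e => q (by rw [← e, h.smul, hw, mul_zero])
    have v3 : B w (-Q b • v) = 0 := by rw [map_smul, v1, smul_zero]
    have e := h.ei_conj (h.rf b) hw v3 hw (b := b + -Q b • v) (by rw [map_add, hb, v3, add_zero])
      (h.rf_fix ((h.osym _ _).trans hb)) (by rw [rf_apply, map_smul, v2]; simp [q, add_comm])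
    rw [← h.ei_mul hw hb v3] at e
    rw [show h.ei w b hw hb = ⁅h.rf b, h.ei w _ hw v3⁆ by rw [commutatorElement_def, e]; group]
    exact Subgroup.commutator_mem_commutator (Subgroup.mem_top _) (Subgroup.mem_top _)
  obtain ⟨b, b1, b2, b3⟩ := h.ns2 hd w a
  by_cases q : Q a = 0
  · have := mul_mem (key (a + b) (by simp [ha, b1]) (by simpa [h.oadd, q, b2] using b3))
      (key (-b) (by simp [b1]) (by simpa [h.neg] using b3))
    rw [h.ei_mul hw _ _ (by simp [ha])] at this
    simpa using this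
  · exact key a ha q

/-- vectors with the same nonzero value are conjugate -/
theorem exists_conj (e : Q x = Q y) (q : Q x ≠ 0) : ∃ g : Iso Q B, g.1 x = y := by
  by_cases q' : Q (x - y) = 0
  · obtain ⟨v, v1, v2⟩ := h.dsep1 (w := x - y) (x := x) fun t e => q (by
      rw [← e, h.smul, q', mul_zero])
    have : B (x - y) x = 0 := by
      rw [← q', h.osub, map_sub, LinearMap.sub_apply, h.self, h.osym y, ← e]; ring
    exact ⟨h.ei _ v q' v1, by rw [oei_apply, this, h.osym v, v2]; simp⟩
  · exact ⟨_, h.rf_swap e q'⟩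

theorem of_rf {c : F} (e : Q x = c * c * Q y) (q : Q x ≠ 0) :
    Abelianization.of (h.rf x) = Abelianization.of (h.rf y) := by
  obtain ⟨g, hg⟩ := h.exists_conj (e.trans (h.smul c y).symm) q
  have := congrArg Abelianization.of (h.rf_conj g x)
  rwa [hg, h.rf_smul (by rintro rfl; simp [q] at e), map_mul, map_mul, mul_comm, mul_left_inj] at this

/-- the orthogonal group is generated by the reflections and the commutator subgroup -/
theorem gen_ind (hd : 5 ≤ finrank F V) {H : Subgroup (Iso Q B)} (h1 : commutator _ ≤ H)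
    (h2 : ∀ a, Q a ≠ 0 → h.rf a ∈ H) (g : Iso Q B) : g ∈ H := by
  suffices ∀ (W : Submodule F V) (g : Iso Q B), LinearMap.ker (g.1.toLinearMap - 1) = W → g ∈ H from
    this _ g rfl
  intro W
  induction W using WellFoundedGT.induction with | ind W ih
  rintro g rfl
  have m : ∀ (g : Iso Q B) u, u ∈ LinearMap.ker (g.1.toLinearMap - 1) ↔ g.1 u = u := fun g u =>
    sub_eq_zero
  have o : ∀ v u, g.1 u = u → B (g.1 v - v) u = 0 := fun v u hu => by
    rw [map_sub, LinearMap.sub_apply, ← Iso.b g v u, hu, sub_self]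
  by_cases g1 : ∀ v, g.1 v = v
  · rw [show g = 1 from Iso.ext g1]; exact one_mem _
  obtain ⟨s, hs, s1, v, hv, s2⟩ : ∃ s ∈ H, (∀ u, g.1 u = u → s.1 u = u) ∧
      ∃ v, g.1 v ≠ v ∧ s.1 (g.1 v) = v := by
    by_cases H : ∀ v, Q (g.1 v - v) = 0
    · obtain ⟨v, hv⟩ := not_forall.1 g1
      have a1 : ∀ u v, B (g.1 u - u) (g.1 v - v) = 0 := fun u v => by
        have := h.oadd (g.1 u - u) (g.1 v - v)
        rw [← add_sub_add_comm, ← map_add, H, H, H] at this
        simpa only [zero_add] using this.symm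
      have a2 : ∀ v, B (g.1 v - v) (g.1 v) = 0 := fun v => by
        rw [← H v, h.osub, map_sub, LinearMap.sub_apply, h.self, Iso.q g, h.osym v]; ring
      obtain ⟨u, hu⟩ := h.dsep0 (sub_ne_zero.2 hv)
      have a3 : B (g.1 u - u) (g.1 v) = -1 := by
        simp only [map_sub, LinearMap.sub_apply, Iso.b g, h.osym u] at hu ⊢
        linear_combination -hu
      refine ⟨_, h1 (h.ei_mem hd (H v) (a := -(g.1 u - u)) (by rw [map_neg, a1, neg_zero])),
        fun x hx => ?_, v, hv, ?_⟩
      · rw [oei_apply, map_neg, LinearMap.neg_apply, o _ x hx, o _ x hx]; simp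
      · rw [oei_apply, map_neg, LinearMap.neg_apply, a2, a3]; simp
    · obtain ⟨v, hv⟩ := not_forall.1 H
      exact ⟨_, h2 _ hv, fun u hu => h.rf_fix (o v u hu), v, fun e => hv (by rw [e, sub_self, h.zero]),
        h.rf_swap (Iso.q g v) hv⟩
  refine (mul_mem_cancel_left hs).1 (ih _ (lt_of_le_of_ne (b := LinearMap.ker ((s * g).1.toLinearMap - 1))
    (fun u hu => (m _ _).2 ?_) fun e => hv ((m _ _).1 (e.ge ((m _ _).2 s2)))) _ rfl)
  rw [Iso.mul_apply, (m _ _).1 hu, s1 u ((m _ _).1 hu)]

/-- the commutator subgroup has the same orbits on pairs of vectors -/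
theorem gen_fix (hd : 6 ≤ finrank F V) (x y : V) (g : Iso Q B) :
    ∃ ω ∈ commutator (Iso Q B), ω.1 x = g.1 x ∧ ω.1 y = g.1 y := by
  let S : Subgroup (Iso Q B) :=
    { carrier := {s | s.1 x = x ∧ s.1 y = y}
      one_mem' := ⟨rfl, rfl⟩
      mul_mem' := fun {s t} hs ht => ⟨by rw [Iso.mul_apply, ht.1, hs.1], by rw [Iso.mul_apply, ht.2, hs.2]⟩
      inv_mem' := fun {s} hs => ⟨by rw [← hs.1, Iso.inv_apply, hs.1], by rw [← hs.2, Iso.inv_apply, hs.2]⟩ }
  obtain ⟨s, hs, e⟩ : g ∈ (S.map Abelianization.of).comap Abelianization.of := by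
    refine h.gen_ind (H := (S.map Abelianization.of).comap Abelianization.of) (by omega)
      (fun k hk => ⟨1, one_mem _, ?_⟩) (fun a q => ?_) g
    · rw [map_one, eq_comm, ← MonoidHom.mem_ker, Abelianization.ker_of]; exact hk
    · obtain ⟨b, b1, b2, b3⟩ := h.univ2 hd x y (Q a)
      exact ⟨h.rf b, ⟨h.rf_fix ((h.osym _ _).trans b1), h.rf_fix ((h.osym _ _).trans b2)⟩,
        h.of_rf (c := 1) (by rw [b3]; ring) (b3 ▸ q)⟩
  refine ⟨g * s⁻¹, ?_, by rw [Iso.mul_apply, (S.inv_mem hs).1], by rw [Iso.mul_apply, (S.inv_mem hs).2]⟩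
  rw [← Abelianization.ker_of, MonoidHom.mem_ker, map_mul, map_inv, e, mul_inv_cancel]

/-- every isometry is a product of reflections in `a`, `b` modulo the commutator subgroup -/
theorem gen (hd : 5 ≤ finrank F V)
    (hab : ∀ x, Q x ≠ 0 → (∃ c, Q x = c * c * Q a) ∨ ∃ c, Q x = c * c * Q b) (g : Iso Q B) :
    Abelianization.of g ∈ Subgroup.zpowers (Abelianization.of (h.rf a)) ⊔
      Subgroup.zpowers (Abelianization.of (h.rf b)) := by
  refine h.gen_ind (H := (_ ⊔ _ : Subgroup (Abelianization _)).comap Abelianization.of) hd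
    (fun k hk => ?_) (fun x q => ?_) g
  · rw [← Abelianization.ker_of] at hk
    exact Subgroup.mem_comap.2 (hk ▸ one_mem _)
  · rcases hab x q with ⟨c, e⟩ | ⟨c, e⟩
    · exact Subgroup.mem_sup_left (h.of_rf e q ▸ Subgroup.mem_zpowers _)
    · exact Subgroup.mem_sup_right (h.of_rf e q ▸ Subgroup.mem_zpowers _)

theorem index_dvd (hd : 5 ≤ finrank F V) :
    (commutator (Iso Q B)).index ∣ if Even (Nat.card F) then 2 else 4 := by
  classical
  have := Fintype.ofFinite F
  have o : ∀ a, Nat.card (Subgroup.zpowers (Abelianization.of (h.rf a))) ∣ 2 := fun a => by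
    rw [Nat.card_zpowers, orderOf_dvd_iff_pow_eq_one, sq, ← map_mul, rf_mul_self, map_one]
  have s : ∀ x : Abelianization (Iso Q B), ∃ g, Abelianization.of g = x := QuotientGroup.mk_surjective
  obtain ⟨a, -, -, q⟩ := h.ns2 hd 0 0
  change Nat.card (Abelianization (Iso Q B)) ∣ _
  by_cases H : ∀ x, Q x ≠ 0 → ∃ c, Q x = c * c * Q a
  · have : Subgroup.zpowers (Abelianization.of (h.rf a)) = ⊤ := eq_top_iff.2 fun x _ => by
      obtain ⟨g, rfl⟩ := s x
      simpa only [sup_idem] using h.gen hd (b := a) (fun x q => .inl (H x q)) g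
    have h2 := o a
    rw [this, Subgroup.card_top] at h2
    split_ifs
    exacts [h2, h2.trans (by norm_num)]
  · push Not at H
    obtain ⟨b, qb, hb⟩ := H
    have ns : ∀ x, (∀ c, Q x ≠ c * c * Q a) → quadraticChar F (Q x / Q a) = -1 := fun x hx =>
      quadraticChar_neg_one_iff_not_isSquare.2 fun ⟨c, e⟩ => hx c (by rw [← e]; field_simp)
    rw [if_neg fun e => ?_]
    · refine (Subgroup.card_dvd_of_surjective
        ((Subgroup.zpowers (Abelianization.of (h.rf a))).subtype.coprod
          (Subgroup.zpowers (Abelianization.of (h.rf b))).subtype) fun x => ?_).trans ?_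
      · obtain ⟨g, rfl⟩ := s x
        obtain ⟨y, hy, z, hz, e⟩ := Subgroup.mem_sup.1 (h.gen hd (a := a) (b := b) (fun x qx => by
          by_contra! hn
          obtain ⟨c, hc⟩ := (quadraticChar_one_iff_isSquare (F := F) (a := Q x / Q a * (Q b / Q a))
            (by simp [q, qx, qb])).1 (by rw [map_mul, ns x hn.1, ns b hb]; norm_num)
          exact hn.2 (c * Q a / Q b) (by field_simp at hc ⊢; linear_combination hc)) g)
        exact ⟨(⟨y, hy⟩, ⟨z, hz⟩), e⟩
      · rw [Nat.card_prod]
        exact mul_dvd_mul (o a) (o b)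
    · rw [Nat.card_eq_fintype_card, Nat.even_iff, ← FiniteField.even_card_iff_char_two] at e
      obtain ⟨c, hc⟩ := FiniteField.isSquare_of_char_two e (Q b / Q a)
      exact hb c (by rw [← hc]; field_simp)

end Pol

end Cfsg.Agent.Dg
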