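import Cfsg.Agent.Dg.D1
import Cfsg.Agent.H3.Orth

/-! Centres, and descent of character degrees to the simple groups. -/

set_option autoImplicit false
set_option linter.unusedSectionVars false

namespace Cfsg.Agent.Dg

open Cfsg Module Cfsg.Agent.H3 Cfsg.Agent.H4

section Grp
variable {G : Type*} [Group G] [Finite G]

theorem mem_charDegrees_quot {χ : G → ℂ} (hχ : IsIrrCharacter G χ) {D : ℕ} (h1 : χ 1 = D)
    (N : Subgroup G) [N.Normal] (hN : ∀ n ∈ N, χ n = χ 1) : D ∈ charDegrees (G ⧸ N) := by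
  obtain ⟨χ', h2, h3⟩ := hχ.exists_quotient N hN
  refine ⟨⟨χ', h2⟩, ?_⟩
  have : χ' 1 = D := (h3 1).trans h1
  simp [charDegree, this]

theorem exists_under_dvd (N : Subgroup G) [N.Normal] {m : ℕ} (hm : m = 2 ∨ m = 4) (hi : N.index ∣ m)
    {χ : G → ℂ} (hχ : IsIrrCharacter G χ) {D : ℕ} (h1 : χ 1 = D) :
    ∃ (θ : N → ℂ) (D' : ℕ), IsIrrCharacter N θ ∧ θ 1 = D' ∧ D ∣ m * D' ∧ D' ∣ D ∧
      ∀ n : N, χ n = χ 1 → θ n = θ 1 := by
  have := Fintype.ofFinite G
  have := Fintype.ofFinite N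
  obtain ⟨θ, hθ, h⟩ := exists_irr_under N.subtype hχ
  have hr : IsCharacter N fun n : N => χ n := hχ.isCharacter.comp N.subtype
  obtain ⟨d, d0, hd⟩ := hθ.exists_apply_one
  obtain ⟨e, he⟩ := hr.exists_nat_classInner hθ.isCharacter
  have h2 := clifford_degree N hχ hθ h
  have h3 := Subgroup.index_dvd_of_le (le_inertia N hθ.isClassFunction)
  have hc := isCharacter_indFun N hθ.isCharacter
  obtain ⟨k, hk⟩ := (isCharacter_sub_nsmul hc hχ).exists_apply_one
  rw [hc.classInner_comm hχ.isCharacter, frobenius_recip' N θ hχ.isClassFunction, he, Pi.sub_apply,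
    indFun_one, Pi.smul_apply, h1, hd, smul_eq_mul, sub_eq_iff_eq_add] at hk
  rw [h1, he, hd] at h2
  have e0 : e ≠ 0 := by
    rintro rfl
    exact h (he.trans Nat.cast_zero)
  norm_cast at h2 hk
  refine ⟨θ, d, hθ, hd, ?_, h2 ▸ Dvd.intro_left _ rfl, fun n hn => hr.constituent_apply_eq hθ h hn⟩
  generalize (inertia N θ).index = t at h2 h3
  subst h2
  refine Nat.mul_dvd_mul_right ?_ d
  have h4 : e * (e * t) ≤ N.index := Nat.le_of_mul_le_mul_right (by rw [hk]; nlinarith) d0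
  have h5 := h3.trans hi
  have h6 : e * (e * t) ≤ m := h4.trans (Nat.le_of_dvd (by omega) hi)
  have h7 : t ≤ 4 := (Nat.le_of_dvd (by omega) h5).trans (by omega)
  have t0 : t ≠ 0 := by rintro rfl; omega
  have h8 : e ≤ 2 := by
    by_contra! h9
    have : 3 * (3 * 1) ≤ e * (e * t) := by gcongr <;> omega
    omega
  rcases hm with rfl | rfl <;> interval_cases e <;> interval_cases t <;> omega

end Grp

variable {F V : Type} [Field F] [Finite F] [AddCommGroup V] [Module F V] [Finite V]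
  {o : Bool} {Q : V → F} {B : LinearMap.BilinForm F V} {d n : ℕ}

theorem Pol.pm_of (h : Pol o Q B) {z : Iso Q B} {e : V} (e0 : e ≠ 0) {c : F} (hc : c * c = 1)
    (hv : ∀ v, B e v ≠ 0 → z.1 v = c • v) : z = 1 ∨ ∀ v, z.1 v = -v := by
  obtain ⟨f, hf⟩ := h.dsep0 e0
  have : ∀ v, z.1 v = c • v := fun v => by
    by_cases e1 : B e v = 0
    · have := hv (v + f) (by simp [e1, hf])
      rwa [map_add, hv f (by simp [hf]), smul_add, add_left_inj] at this
    · exact hv v e1
  rcases mul_self_eq_one_iff.1 hc with rfl | rfl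
  · exact .inl (Iso.ext fun v => by simp [this])
  · exact .inr fun v => by simp [this]

theorem Pol.center_sp (h : Pol false Q B) {z : Iso Q B} (hz : z ∈ Subgroup.center (Iso Q B)) :
    z = 1 ∨ ∀ v, z.1 v = -v := by
  have key : ∀ w, w ≠ 0 → ∃ c : F, c * c = 1 ∧ z.1 w = c • w := fun w w0 => by
    have e : ∀ v, B w (z.1 v) • w = B w v • z.1 w := fun v => by
      have := congrArg (fun g : Iso Q B => g.1 v)
        (Subgroup.mem_center_iff.1 hz (h.qr w 1 (by simp [h.sp rfl, dl])))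
      simpa [h.qr_apply] using this
    obtain ⟨v, hv⟩ := h.dsep0 w0
    have e1 := e v
    rw [hv, one_smul] at e1
    have e2 := Iso.b z w v
    rw [← e1, map_smul, LinearMap.smul_apply, hv] at e2
    exact ⟨_, e2, e1.symm⟩
  rcases subsingleton_or_nontrivial V with _ | _
  · exact .inl (Iso.ext fun v => Subsingleton.elim _ _)
  obtain ⟨e, e0⟩ := exists_ne (0 : V)
  obtain ⟨c, c1, c2⟩ := key e e0
  refine h.pm_of e0 c1 fun v hv => ?_
  obtain ⟨t, t1, t2⟩ := key v (by rintro rfl; simp at hv)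
  have := Iso.b z e v
  simp only [c2, t2, map_smul, LinearMap.smul_apply, smul_eq_mul] at this
  rw [t2, show t = c from mul_right_cancel₀ hv (by linear_combination c * this - t * B e v * c1)]

theorem Pol.center_o (h : Pol true Q B) (hd : 5 ≤ finrank F V) {e : V} (e0 : e ≠ 0) (qe : Q e = 0)
    {z : Iso Q B} (hz : ∀ g ∈ commutator (Iso Q B), g * z = z * g) : z = 1 ∨ ∀ v, z.1 v = -v := by
  have key : ∀ w, Q w = 0 → ∃ c : F, z.1 w = c • w := fun w q => by
    by_contra! hn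
    obtain ⟨v, v1, v2⟩ := h.dsep1 (w := w) (x := z.1 w) fun c e => hn c e.symm
    obtain ⟨a, a1, a2, a3⟩ := h.ns2 hd w ((z⁻¹).1 w)
    have e1 := congrArg (fun g : Iso Q B => g.1 ((z⁻¹).1 v)) (hz _ (h.ei_mem hd q a1))
    have e2 : B w ((z⁻¹).1 v) = 1 := by rw [← Iso.b z, Iso.apply_inv, v2]
    have e3 : B w (z.1 a) = 0 := by rw [← a2, ← Iso.b z _ a, Iso.apply_inv]
    simp only [Iso.mul_apply, Iso.apply_inv, h.oei_apply, map_add, map_sub, map_smul, v1, e2,
      zero_smul, one_smul, add_zero, mul_zero, mul_one] at e1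
    generalize B a v = s at e1
    generalize B a _ + _ = t at e1
    have e4 : z.1 a = t • z.1 w - s • w := by linear_combination (norm := module) -e1
    have e5 := Iso.q z a
    rw [e4, map_sub, map_smul, map_smul, h.self_of_sing q, smul_zero, sub_zero] at e3
    rw [e4, h.osub, h.smul, h.smul, Iso.q z, q, h.osym] at e5
    simp only [map_smul, e3, LinearMap.smul_apply] at e5
    rw [smul_comm, e3] at e5
    exact a3 (by simpa using e5.symm)
  have k2 : ∀ {u v : V} {s t : F}, z.1 u = s • u → z.1 v = t • v → B u v ≠ 0 → s * t = 1 :=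
    fun {u v s t} h1 h2 h3 => by
      have := Iso.b z u v
      simp only [h1, h2, map_smul, LinearMap.smul_apply, smul_eq_mul] at this
      exact mul_right_cancel₀ h3 (by linear_combination this)
  have k3 : ∀ v, B e v ≠ 0 → Q (v - (Q v / B e v) • e) = 0 ∧ B e (v - (Q v / B e v) • e) = B e v :=
    fun v hv => ⟨by rw [h.osub, h.smul, qe, map_smul, h.osym v, smul_eq_mul]; field_simp; ring,
      by rw [map_sub, map_smul, h.self_of_sing qe, smul_zero, sub_zero]⟩
  obtain ⟨c, hc⟩ := key e qe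
  obtain ⟨f, f1, f2⟩ : ∃ f, Q f = 0 ∧ B e f = 1 :=
    let ⟨f, hf⟩ := h.dsep0 e0; ⟨_, hf ▸ k3 f (hf ▸ one_ne_zero)⟩
  obtain ⟨a, a1, a2, a3⟩ := h.ns2 hd e f
  obtain ⟨s, hs⟩ := key f f1
  obtain ⟨t, ht⟩ := key (a + e - Q a • f) (by
    simp [h.osub, h.oadd, h.smul, qe, f1, f2, h.osym a, a1, a2])
  have c1 := k2 hc hs (f2 ▸ one_ne_zero)
  have c2 := k2 hc ht (by simpa [a1, f2, h.self_of_sing qe] using a3)
  have c3 := k2 hs ht (by simp [a2, h.osym f e, f2, h.self_of_sing f1])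
  have c4 : c * c = 1 := by linear_combination (c * c) * (-c3) + (c * t) * c1 + c2
  refine h.pm_of e0 c4 fun v hv => ?_
  obtain ⟨r, hr⟩ := key _ (k3 v hv).1
  have c5 := k2 hc hr (by rw [(k3 v hv).2]; exact hv)
  rw [show r = c by linear_combination c * c5 - r * c4, map_sub, map_smul, hc, smul_sub,
    smul_comm c, sub_left_inj] at hr
  exact hr

theorem Ty.exists_sing (T : Ty o d n Q B) (hn : 1 ≤ n) : ∃ e, e ≠ 0 ∧ Q e = 0 := by
  obtain ⟨V₀, _, _, _, Q₀, B₀, h1, -, -, e, h4, -⟩ := T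
  refine ⟨e.symm (1, 0, 0), fun h => ?_, by rw [← h4]; simp [hQ, h1.zero]⟩
  simpa using congrFun (congrArg Prod.fst ((e.symm.map_eq_zero_iff).1 h)) ⟨0, hn⟩

theorem ds_sp (h : Pol false Q B) {D : ℕ} (hD : CD True Q B D) :
    D ∈ charDegrees (Iso Q B ⧸ Subgroup.center _) := by
  obtain ⟨χ, h1, h2, h3⟩ := hD
  refine mem_charDegrees_quot h1 h2 _ fun z hz => ?_
  rcases h.center_sp hz with rfl | e
  exacts [rfl, h3 trivial z e]

/-- an irreducible character of `Ω` trivial on `-1` gives a degree of `PΩ` -/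
theorem po_of_irr (T : Ty true d n Q B) (hn : 3 ≤ n) {θ : commutator (Iso Q B) → ℂ}
    (h1 : IsIrrCharacter _ θ) {D : ℕ} (h2 : θ 1 = D)
    (h3 : ∀ z : commutator (Iso Q B), (∀ v, z.1.1 v = -v) → θ z = θ 1) : D ∈ charDegrees (PO Q B) := by
  obtain ⟨e, e0, qe⟩ := T.exists_sing (by omega)
  refine mem_charDegrees_quot h1 h2 _ fun z hz => ?_
  rcases T.pol.center_o (by rw [T.finrank_eq]; omega) e0 qe (z := z.1) fun g hg =>
    congrArg Subtype.val (Subgroup.mem_center_iff.1 hz ⟨g, hg⟩) with e | e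
  exacts [by rw [show z = 1 from Subtype.ext e], h3 z e]

theorem ds_o (T : Ty true d n Q B) (hn : 3 ≤ n) {z : Prop} {D : ℕ} (hD : CD z Q B D)
    (hz : z ∨ Even (Nat.card F) ∨ NoNeg Q B) :
    ∃ D' ∈ charDegrees (PO Q B), D ∣ (if Even (Nat.card F) then 2 else 4) * D' := by
  obtain ⟨χ, h1, h2, h3⟩ := hD
  obtain ⟨θ, D', t1, t2, t3, -, t4⟩ := exists_under_dvd _ (by split_ifs <;> simp)
    (T.pol.index_dvd (by rw [T.finrank_eq]; omega)) h1 h2
  refine ⟨D', po_of_irr T hn t1 t2 fun x hx => ?_, t3⟩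
  rcases hz with e | e | e
  · exact t4 x (h3 e x hx)
  · have := Fintype.ofFinite F
    rw [Nat.card_eq_fintype_card, Nat.even_iff, ← FiniteField.even_card_iff_char_two] at e
    have : CharP F 2 := e ▸ ringChar.charP F
    rw [show x = 1 from Subtype.ext (Iso.ext fun v => by
      rw [hx, ← neg_one_smul F, CharTwo.neg_eq, one_smul]; rfl)]
  · exact (e x x.2 hx).elim

end Cfsg.Agent.Dg
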