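import Cfsg.Agent.Dg.G1
import Cfsg.Prelude.Def_Classical

/-! The symplectic and orthogonal groups of the statement as isometry groups of polar spaces. -/

set_option autoImplicit false
set_option linter.unusedSectionVars false

namespace Cfsg.Agent.Dg

open Cfsg Module
open scoped Matrix

section Mat
variable {F ι : Type} [Field F] [Fintype ι] [DecidableEq ι] {q : (ι → F) → F}
  {B : LinearMap.BilinForm F (ι → F)}

/-- invertible matrices as linear automorphisms -/
noncomputable def glEquiv : GL ι F ≃* ((ι → F) ≃ₗ[F] (ι → F)) :=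
  Matrix.GeneralLinearGroup.toLin.trans (LinearMap.GeneralLinearGroup.generalLinearEquiv F _)

theorem glEquiv_apply (g : GL ι F) (v : ι → F) : glEquiv g v = (g : Matrix ι ι F) *ᵥ v := rfl

theorem po_model (h : Pol true q B) : Nonempty (POmega F q ≃* PO q B) := by
  refine ⟨quotCenterCongr (commutatorCongr ((glEquiv.subgroupMap (isometryGroup F q)).trans
    (MulEquiv.subgroupCongr (Subgroup.ext fun g => ?_))))⟩
  obtain ⟨g, rfl⟩ := glEquiv.surjective g
  refine (Subgroup.mem_map_iff_mem glEquiv.injective).trans ⟨fun hg => ⟨fun v => hg v v, fun u v => ?_⟩,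
    fun hg u _ => hg.1 u⟩
  have e : ∀ v, q (glEquiv g v) = q v := fun v => hg v v
  have := h.add (glEquiv g u) (glEquiv g v)
  rw [← map_add, e, e, e, h.add] at this
  simpa [dl] using this.symm

theorem ty_model {V₀ : Type} [AddCommGroup V₀] [Module F V₀] [Module.Finite F V₀] {Q₀ : V₀ → F}
    {B₀ : LinearMap.BilinForm F V₀} {o : Bool} {d n : ℕ} (h : Pol o Q₀ B₀) (hd : finrank F V₀ = d)
    (h0 : ∀ v, Q₀ v = 0 → v = 0) (e : (ι → F) ≃ₗ[F] HV n F V₀) (he : ∀ v, hQ n o Q₀ (e v) = q v) :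
    Ty o d n q ((hB n o B₀).compl₁₂ e e) :=
  ⟨V₀, _, _, inferInstance, Q₀, B₀, h, hd, h0, e, he, fun _ _ => rfl⟩

theorem pol_triv (o : Bool) : Pol o (fun _ : Fin 0 → F => (0 : F)) 0 :=
  ⟨by simp, by simp, by simp, by simp, by simp, fun _ _ => Subsingleton.elim _ _⟩

/-- coordinates of a hyperbolic space -/
def sumHV (m : ℕ) : (Fin m ⊕ Fin m → F) ≃ₗ[F] HV m F (Fin 0 → F) where
  toFun v := (fun i => v (.inl i), 0, fun i => v (.inr i))
  invFun x := Sum.elim x.1 x.2.2
  map_add' _ _ := Prod.ext rfl (Prod.ext (Subsingleton.elim _ _) rfl)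
  map_smul' _ _ := Prod.ext rfl (Prod.ext (Subsingleton.elim _ _) rfl)
  left_inv v := by ext (i | i) <;> rfl
  right_inv x := Prod.ext rfl (Prod.ext (Subsingleton.elim _ _) rfl)

theorem hQ_true {V : Type} {k : ℕ} (Q : V → F) (x : HV k F V) :
    hQ k true Q x = x.1 ⬝ᵥ x.2.2 + Q x.2.1 := by simp [hQ, dl]

end Mat

variable {G : Type*} [Group G]

theorem model_sp (h : IsPSp G) : ∃ (F : Type) (_ : Field F) (_ : Finite F) (V : Type)
    (_ : AddCommGroup V) (_ : Module F V) (_ : Finite V) (Q : V → F) (B : LinearMap.BilinForm F V)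
    (n : ℕ), Ty false 0 n Q B ∧ 2 ≤ n ∧ (n = 2 → 3 ≤ Nat.card F) ∧
      Nonempty (G ≃* Iso Q B ⧸ Subgroup.center (Iso Q B)) := by
  obtain ⟨F, _, _, m, h1, h2, ⟨e⟩⟩ := h
  have T := ty_model (q := fun _ => 0) (pol_triv (F := F) false) (by simp : _ = 0)
    (fun _ _ => Subsingleton.elim _ _) (sumHV m) (by simp [hQ, dl])
  refine ⟨F, _, inferInstance, _, _, _, inferInstance, _, _, m, T, h1, by simpa using h2,
    ⟨e.trans (quotCenterCongr ?_)⟩⟩
  have h3 : ∀ u v, (hB m false (0 : LinearMap.BilinForm F (Fin 0 → F))).compl₁₂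
      (sumHV m).toLinearMap (sumHV m).toLinearMap u v = -(u ⬝ᵥ Matrix.J (Fin m) F *ᵥ v) := fun u v => by
    simp [sumHV, ep, Matrix.J, Matrix.fromBlocks_mulVec, dotProduct, Matrix.neg_mulVec]
    ring
  generalize (hB m false (0 : LinearMap.BilinForm F (Fin 0 → F))).compl₁₂
      (sumHV m).toLinearMap (sumHV m).toLinearMap = B at h3 T ⊢
  have key : ∀ A : Matrix (Fin m ⊕ Fin m) (Fin m ⊕ Fin m) F, A ∈ Matrix.symplecticGroup (Fin m) F ↔
      ∀ u v, B (A *ᵥ u) (A *ᵥ v) = B u v := fun A => by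
    have k : ∀ u v, B (A *ᵥ u) (A *ᵥ v) = -(u ⬝ᵥ (Aᵀ * Matrix.J (Fin m) F * A) *ᵥ v) := fun u v => by
      rw [h3, ← Matrix.mulVec_mulVec, ← Matrix.mulVec_mulVec, Matrix.dotProduct_mulVec u,
        Matrix.vecMul_transpose]
    simp only [k, SymplecticGroup.mem_iff']
    simp only [h3, neg_inj]
    refine ⟨fun h u v => by rw [h], fun h => Matrix.ext fun i j => ?_⟩
    simpa only [Matrix.mulVec_single_one, single_dotProduct, one_mul, Matrix.col_apply]
      using h (Pi.single i 1) (Pi.single j 1)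
  exact
    { toFun A := T.pol.mkIso (Matrix.toLin' A.1) (fun _ => rfl) ((key A).1 A.2)
      invFun g := ⟨LinearMap.toMatrix' g.1.toLinearMap, (key _).2 fun u v => by
        rw [LinearMap.toMatrix'_mulVec, LinearMap.toMatrix'_mulVec]; exact Iso.b g u v⟩
      left_inv A := Subtype.ext (LinearMap.toMatrix'_toLin' A.1)
      right_inv g := Iso.ext fun v => LinearMap.toMatrix'_mulVec g.1.toLinearMap v
      map_mul' A A' := Iso.ext fun v => (Matrix.mulVec_mulVec v A.1 A'.1).symm }

theorem model_plus (h : IsPOmegaPlus G) : ∃ (F : Type) (_ : Field F) (_ : Finite F) (V : Type)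
    (_ : AddCommGroup V) (_ : Module F V) (_ : Finite V) (Q : V → F) (B : LinearMap.BilinForm F V)
    (n : ℕ), Ty true 0 n Q B ∧ 4 ≤ n ∧ Nonempty (G ≃* PO Q B) := by
  obtain ⟨F, _, _, m, h1, ⟨e⟩⟩ := h
  have T := ty_model (q := quadFormPlus m F) (pol_triv (F := F) true) (by simp : _ = 0)
    (fun _ _ => Subsingleton.elim _ _) (sumHV m) fun v => (hQ_true _ _).trans (add_zero _)
  exact ⟨F, _, inferInstance, _, _, _, inferInstance, _, _, m, T, h1,
    (po_model T.pol).map e.trans⟩

theorem model_odd (h : IsPOmegaOdd G) : ∃ (F : Type) (_ : Field F) (_ : Finite F) (V : Type)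
    (_ : AddCommGroup V) (_ : Module F V) (_ : Finite V) (Q : V → F) (B : LinearMap.BilinForm F V)
    (n : ℕ), Ty true 1 n Q B ∧ 3 ≤ n ∧ Odd (Nat.card F) ∧ Nonempty (G ≃* PO Q B) := by
  obtain ⟨F, _, _, m, h1, h2, ⟨e⟩⟩ := h
  have h3 : (2 : F) ≠ 0 := Ring.two_ne_zero fun e => by
    rw [FiniteField.even_card_iff_char_two, ← Nat.even_iff] at e
    exact Nat.not_even_iff_odd.2 h2 e
  have P : Pol true (fun x : F => x ^ 2) ((2 : F) • LinearMap.mul F F) :=
    ⟨fun u v => by simp [dl]; ring, fun u v => by simp; ring, fun u v => by simp [ep, mul_comm],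
      fun v => by simp [sq], by simp, fun v hv => by simpa [h3] using hv 1⟩
  have T := ty_model (q := quadFormOdd m F) P (finrank_self F) (by simp)
    { toFun v := (fun i => v (.inr (.inl i)), v (.inl ()), fun i => v (.inr (.inr i)))
      invFun x := Sum.elim (fun _ => x.2.1) (Sum.elim x.1 x.2.2)
      map_add' _ _ := rfl
      map_smul' _ _ := rfl
      left_inv v := by ext (i | i | i) <;> rfl
      right_inv x := rfl } fun v => (hQ_true _ _).trans (add_comm _ _)
  exact ⟨F, _, inferInstance, _, _, _, inferInstance, _, _, m, T, h1, by simpa using h2,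
    (po_model T.pol).map e.trans⟩

theorem model_minus (h : IsPOmegaMinus G) : ∃ (F : Type) (_ : Field F) (_ : Finite F) (V : Type)
    (_ : AddCommGroup V) (_ : Module F V) (_ : Finite V) (Q : V → F) (B : LinearMap.BilinForm F V)
    (n : ℕ), Ty true 2 n Q B ∧ 3 ≤ n ∧ Nonempty (G ≃* PO Q B) := by
  obtain ⟨F, _, _, m, a, b, h1, h2, ⟨e⟩⟩ := h
  have h0 : ∀ z : Fin 2 → F, z 0 ^ 2 + a * z 0 * z 1 + b * z 1 ^ 2 = 0 → z = 0 := fun z hz =>
    funext (Fin.forall_fin_two.2 (h2 _ _ hz))
  have P : Pol true (fun z : Fin 2 → F => z 0 ^ 2 + a * z 0 * z 1 + b * z 1 ^ 2)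
      (Matrix.toBilin' !![2, a; a, 2 * b]) := by
    have hB : ∀ u v : Fin 2 → F, Matrix.toBilin' !![2, a; a, 2 * b] u v =
        2 * u 0 * v 0 + a * u 0 * v 1 + a * u 1 * v 0 + 2 * b * u 1 * v 1 := fun u v => by
      simp [Matrix.toBilin'_apply, Fin.sum_univ_two]; ring
    refine ⟨fun u v => by simp [dl, hB]; ring, fun u v => by simp; ring,
      fun u v => by simp [ep, hB]; ring, fun v => by rw [hB]; ring, by simp, fun v hv => ?_⟩
    rcases eq_or_ne (ringChar F) 2 with e' | e'
    · have : CharP F 2 := e' ▸ ringChar.charP F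
      have a0 : a ≠ 0 := fun a0 => by
        obtain ⟨c, hc⟩ := FiniteField.isSquare_of_char_two e' b
        exact one_ne_zero (h2 c 1 (by
          linear_combination (c * c) * CharTwo.two_eq_zero (R := F) + c * a0 + hc)).2
      have e1 := hv ![0, 1]
      have e2 := hv ![1, 0]
      rw [hB] at e1 e2
      simp [CharTwo.two_eq_zero, a0] at e1 e2
      exact h0 v (by simp [e1, e2])
    · have := hv v
      rw [hB] at this
      exact h0 v (mul_left_cancel₀ (Ring.two_ne_zero e') (by linear_combination this))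
  have T := ty_model (q := quadFormMinus (m - 1) F a b) P (by simp : _ = 2) h0
    { toFun v := (fun i => v (.inl (.inl i)), fun i => v (.inr i), fun i => v (.inl (.inr i)))
      invFun x := Sum.elim (Sum.elim x.1 x.2.2) x.2.1
      map_add' _ _ := rfl
      map_smul' _ _ := rfl
      left_inv v := by ext ((i | i) | i) <;> rfl
      right_inv x := rfl } fun v => hQ_true _ _
  exact ⟨F, _, inferInstance, _, _, _, inferInstance, _, _, m - 1, T, by omega,
    (po_model T.pol).map e.trans⟩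

end Cfsg.Agent.Dg
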