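import Cfsg.Agent.Dg.G3
import Cfsg.Agent.Dg.D1

/-! Cases where `-1` is not in `Ω`. -/

set_option autoImplicit false
set_option linter.unusedSectionVars false

namespace Cfsg.Agent.Dg

open Cfsg Module

variable {F V : Type} [Field F] [Finite F] [AddCommGroup V] [Module F V] [Finite V]
  {Q : V → F} {B : LinearMap.BilinForm F V} {d n : ℕ}

theorem Ty.two_ne (T : Ty true 1 n Q B) : (2 : F) ≠ 0 := fun e => by
  obtain ⟨V₀, _, _, _, Q₀, B₀, h1, h2, -⟩ := T
  obtain ⟨v, v0, hv⟩ := finrank_eq_one_iff'.1 h2
  refine v0 (h1.nd v fun u => ?_)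
  obtain ⟨c, rfl⟩ := hv u
  simp [h1.self, e]

theorem noneg_B (T : Ty true 1 n Q B) : NoNeg Q B := fun z hz e => by
  have h1 := Abelianization.commutator_subset_ker (LinearEquiv.det.comp (Iso Q B).subtype) hz
  have h2 : z.1.toLinearMap = (-1 : F) • LinearMap.id := LinearMap.ext fun v => by simp [e]
  have h3 := congrArg Units.val (MonoidHom.mem_ker.1 h1)
  rw [MonoidHom.comp_apply, LinearEquiv.coe_det, Subgroup.subtype_apply, h2, LinearMap.det_smul,
    T.finrank_eq, pow_succ, pow_mul] at h3
  exact T.two_ne (by simp at h3; linear_combination -h3)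

theorem noneg_of_card (h : Pol true Q B) (hc : Nat.card {v // Q v = 1} % 4 = 2) (h2 : (2 : F) ≠ 0) :
    NoNeg Q B := fun z hz e => by
  classical
  have := Fintype.ofFinite {v // Q v = 1}
  let f : Iso Q B →* Equiv.Perm {v // Q v = 1} := MonoidHom.mk'
    (fun g => g.1.toEquiv.subtypeEquiv fun v => by simp [Iso.q g]) fun _ _ => rfl
  have h1 := Abelianization.commutator_subset_ker (Equiv.Perm.sign.comp f) hz
  have : IsEmpty (Function.fixedPoints (f z)) := ⟨fun x => by
    have h3 : -x.1.1 = x.1.1 := (e _).symm.trans (congrArg Subtype.val x.2)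
    have h4 : (2 : F) • x.1.1 = 0 := by rw [two_smul]; nth_rw 1 [← h3]; rw [neg_add_cancel]
    have h5 := x.1.2
    rw [(smul_eq_zero.1 h4).resolve_left h2, h.zero] at h5
    exact zero_ne_one h5⟩
  rw [MonoidHom.mem_ker, MonoidHom.comp_apply, Equiv.Perm.sign_of_pow_two_eq_one (by
    ext x
    exact (e _).trans ((congrArg _ (e _)).trans (neg_neg _))), 
    Fintype.card_eq_zero (α := Function.fixedPoints (f z)), Nat.sub_zero,
    Odd.neg_one_pow (by rw [← Nat.card_eq_fintype_card, Nat.odd_iff]; omega)] at h1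
  exact absurd h1 (by decide)

theorem card_val_three (hq : Nat.card F = 3) (hd : d = 0 ∨ d = 2) (T : Ty true d n Q B) :
    Nat.card {v // Q v = 1} % 4 = 2 * (n % 2) := by
  induction n generalizing V with
  | zero =>
    have := Fintype.ofFinite F
    have h := T.pol
    rcases isEmpty_or_nonempty {v // Q v = 1} with _ | ⟨⟨a, ha⟩⟩
    · simp
    let e := ZMod.ringEquivOfPrime F Nat.prime_three (Nat.card_eq_fintype_card.symm.trans hq)
    have h2 : (2 : F) ≠ 0 := by
      rw [← map_ofNat e, e.map_ne_zero_iff]; decide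
    have hV : finrank F V = 2 := by
      have h3 := T.finrank_eq
      have : Nontrivial V := ⟨a, 0, by rintro rfl; exact zero_ne_one (h.zero.symm.trans ha)⟩
      have := finrank_pos (R := F) (M := V)
      omega
    obtain ⟨b, hb, b0⟩ := (Submodule.ne_bot_iff _).1
      (LinearMap.ker_ne_bot_of_finrank_lt (f := B a) (by simp [hV]))
    replace hb : B a b = 0 := hb
    have qb : Q b = 1 := by
      have h3 : Q b ≠ 0 := fun e => b0 (T.aniso b e)
      have h4 : 1 + Q b ≠ 0 := fun e => h2 (by
        simpa [h.self, ha, hb] using congrArg (B a) (T.aniso (a + b) (by rw [h.oadd, ha, hb, e, add_zero])))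
      obtain ⟨x, hx⟩ := e.surjective (Q b)
      rw [← hx, ← map_one e] at h4 ⊢
      rw [← hx, e.map_ne_zero_iff] at h3
      rw [← map_add, e.map_ne_zero_iff] at h4
      revert h3 h4
      rw [e.injective.eq_iff]
      generalize x = y
      decide +revert
    let L : (F × F) →ₗ[F] V := (LinearMap.toSpanSingleton F V a).coprod (LinearMap.toSpanSingleton F V b)
    have i : Function.Injective L := (injective_iff_map_eq_zero L).2 fun p hp => by
      have h3 : p.1 = 0 := by simpa [L, h.self, ha, hb, h2] using congrArg (B a) hp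
      exact Prod.ext h3 (by simpa [L, h3, b0] using hp)
    rw [← Nat.card_congr (((e.toEquiv.prodCongr e.toEquiv).trans (Equiv.ofBijective L ⟨i,
      (LinearMap.injective_iff_surjective_of_finrank_eq_finrank (by simp [hV])).1 i⟩)).subtypeEquiv
      (p := fun p => p.1 * p.1 + p.2 * p.2 = 1) fun p => by
        change _ ↔ Q (e p.1 • a + e p.2 • b) = 1
        simp only [h.oadd, h.smul, ha, hb, qb, map_smul, LinearMap.smul_apply, smul_zero, mul_one, add_zero]
        rw [← map_mul, ← map_mul, ← map_add, ← map_one e, e.injective.eq_iff]),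
      Nat.card_eq_fintype_card]
    decide
  | succ n ih =>
    obtain ⟨V', _, _, _, Q', B', T', e, h1, -⟩ := T.split
    have h2 := card_sing_hv (Q := fun v => Q' v - 1)
    have h3 : Nat.card V' % 2 = 1 := by
      rw [T'.card_eq, hq, ← Nat.odd_iff]
      exact Odd.pow (by decide)
    simp only [hQ, ← add_sub_assoc, sub_eq_zero, hq] at h2
    rw [Nat.card_congr (e.toEquiv.subtypeEquiv (q := fun x => hQ 1 true Q' x = 1) fun v => by
      simp [h1])]
    have := ih T'
    simp only [hQ, h2]
    omega

theorem noneg_3 (hq : Nat.card F = 3) (T : Ty true 2 3 Q B ∨ Ty true 0 5 Q B) : NoNeg Q B := by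
  have := Fintype.ofFinite F
  have h2 : (2 : F) ≠ 0 := Ring.two_ne_zero fun e => by
    rw [FiniteField.even_card_iff_char_two, ← Nat.card_eq_fintype_card, hq] at e
    omega
  rcases T with T | T
  exacts [noneg_of_card T.pol (card_val_three hq (.inr rfl) T) h2,
    noneg_of_card T.pol (card_val_three hq (.inl rfl) T) h2]

end Cfsg.Agent.Dg
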