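import Cfsg.Agent.Dg.I
import Cfsg.Prelude.Def_DegreeGraph

/-! Polar spaces: basic facts, isometries, quasi-reflections and Eichler maps. -/

set_option autoImplicit false
set_option linter.unusedSectionVars false

namespace Cfsg.Agent.Dg

open Cfsg Module
open scoped Matrix

variable {F V V' V'' : Type} [Field F] [AddCommGroup V] [Module F V] [AddCommGroup V'] [Module F V']
  [AddCommGroup V''] [Module F V''] {k : ℕ} {o : Bool} {Q : V → F} {B : LinearMap.BilinForm F V}
  {Q' : V' → F} {B' : LinearMap.BilinForm F V'} {Q'' : V'' → F} {B'' : LinearMap.BilinForm F V''}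

theorem dl_mul_ep (o : Bool) : dl F o * ep F o = dl F o := by cases o <;> simp [dl, ep]

theorem one_add_ep (o : Bool) : 1 + ep F o = 2 * dl F o := by cases o <;> norm_num [dl, ep]

theorem dl_mul_dl (o : Bool) : dl F o * dl F o = dl F o := by cases o <;> simp [dl]

namespace Pol

variable (h : Pol o Q B)
include h

theorem zero : Q 0 = 0 := by simpa using h.smul 0 0

theorem neg (v : V) : Q (-v) = Q v := by simpa using h.smul (-1) v

theorem sub (u v : V) : Q (u - v) = Q u + Q v - dl F o * B u v := by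
  rw [sub_eq_add_neg, h.add, h.neg, map_neg]; ring

theorem dl_mul (v : V) : dl F o * Q v = Q v := by
  cases o
  · simp [h.sp rfl]
  · simp [dl]

theorem dl_sym (u v : V) : dl F o * B u v = dl F o * B v u := by
  rw [h.sym u v, ← mul_assoc, dl_mul_ep]

theorem perp_comm {u v : V} : B u v = 0 ↔ B v u = 0 := by
  rw [h.sym u v, mul_eq_zero, or_iff_right (ep_ne o)]

theorem nd' (v : V) (hv : ∀ u, B u v = 0) : v = 0 := h.nd v fun u => h.perp_comm.1 (hv u)

theorem isRefl : B.IsRefl := fun _ _ => h.perp_comm.1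

theorem nondeg : B.Nondegenerate := ⟨h.nd, h.nd'⟩

theorem self_of_sing {v : V} (hv : Q v = 0) : B v v = 0 := by rw [h.self, hv, mul_zero]

/-- a map additive on quadratic values vanishes on a span -/
theorem q_span {W : Type} [AddCommGroup W] [Module F W] {QW : W → F} {BW : LinearMap.BilinForm F W}
    (hW : Pol o QW BW) (f : V →ₗ[F] W) (hB : ∀ u v, BW (f u) (f v) = B u v) {s : Set V}
    (hs : ∀ v ∈ s, QW (f v) = Q v) {v : V} (hv : v ∈ Submodule.span F s) : QW (f v) = Q v := by
  induction hv using Submodule.span_induction with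
  | mem x hx => exact hs x hx
  | zero => rw [map_zero, hW.zero, h.zero]
  | add x y _ _ hx hy => rw [map_add, hW.add, h.add, hx, hy, hB]
  | smul c x _ hx => rw [map_smul, hW.smul, h.smul, hx]

theorem sing_span {s : Set V} (hQ : ∀ v ∈ s, Q v = 0) (hB : ∀ u ∈ s, ∀ v ∈ s, B u v = 0) :
    (∀ v ∈ Submodule.span F s, Q v = 0) ∧
      ∀ u ∈ Submodule.span F s, ∀ v ∈ Submodule.span F s, B u v = 0 := by
  have h1 : ∀ u ∈ Submodule.span F s, ∀ v ∈ Submodule.span F s, B u v = 0 := by
    intro u hu v hv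
    induction hu, hv using Submodule.span_induction₂ with
    | mem_mem x y hx hy => exact hB x hx y hy
    | zero_left => simp
    | zero_right => simp
    | add_left x y z _ _ _ h1 h2 => simp [h1, h2]
    | add_right x y z _ _ _ h1 h2 => simp [h1, h2]
    | smul_left r x y _ _ h1 => simp [h1]
    | smul_right r x y _ _ h1 => simp [h1]
  refine ⟨fun v hv => ?_, h1⟩
  induction hv using Submodule.span_induction with
  | mem x hx => exact hQ x hx
  | zero => exact h.zero
  | add x y hx' hy' hx hy => rw [h.add, hx, hy, h1 x hx' y hy']; simp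
  | smul c x _ hx => rw [h.smul, hx, mul_zero]

theorem hv : Pol o (hQ k o Q) (hB k o B) where
  add u v := by
    simp only [hQ, hB_apply, Prod.fst_add, Prod.snd_add, add_dotProduct, dotProduct_add, h.add]
    rw [dotProduct_comm u.2.2 v.1]
    linear_combination (-(v.1 ⬝ᵥ u.2.2)) * dl_mul_ep (F := F) o
  smul c v := by
    simp only [hQ, Prod.smul_fst, Prod.smul_snd, smul_dotProduct, dotProduct_smul, h.smul,
      smul_eq_mul]
    ring
  sym u v := by
    simp only [hB_apply, h.sym u.2.1 v.2.1, dotProduct_comm u.1 v.2.2, dotProduct_comm u.2.2 v.1]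
    linear_combination (-(v.2.2 ⬝ᵥ u.1)) * ep_mul (F := F) o
  self v := by
    simp only [hQ, hB_apply, h.self, dotProduct_comm v.2.2 v.1]
    linear_combination (v.1 ⬝ᵥ v.2.2) * one_add_ep (F := F) o
  sp e v := by simp [hQ, h.sp e, e, dl]
  nd v hv := by
    refine Prod.ext (funext fun i => ?_) (Prod.ext (h.nd _ fun u => ?_) (funext fun i => ?_))
    · simpa using hv (0, 0, Pi.single i 1)
    · simpa using hv (0, u, 0)
    · simpa [ep_ne] using hv (Pi.single i 1, 0, 0)

/-- an isometry from a linear map -/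
noncomputable def mkIso [Finite V] (f : V →ₗ[F] V) (hQ : ∀ v, Q (f v) = Q v)
    (hB : ∀ u v, B (f u) (f v) = B u v) : Iso Q B :=
  ⟨LinearEquiv.ofBijective f (Finite.injective_iff_bijective.1 ((injective_iff_map_eq_zero f).2
    fun v hv => h.nd v fun u => by rw [← hB, hv, map_zero, LinearMap.zero_apply])), hQ, hB⟩

@[simp] theorem mkIso_apply [Finite V] (f : V →ₗ[F] V) (hQ : ∀ v, Q (f v) = Q v)
    (hB : ∀ u v, B (f u) (f v) = B u v) (v : V) : (h.mkIso f hQ hB).1 v = f v := rfl

/-- the quasi-reflection (reflection or transvection) `v ↦ v - c B(z,v) z` -/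
noncomputable def qr [Finite V] (z : V) (c : F) (hc : c * (c * Q z - dl F o) = 0) : Iso Q B :=
  h.mkIso (LinearMap.id - c • (B z).smulRight z)
    (fun v => by
      simp only [LinearMap.sub_apply, LinearMap.id_apply, LinearMap.smul_apply,
        LinearMap.smulRight_apply, smul_smul, h.sub, h.smul, map_smul, smul_eq_mul]
      linear_combination (B z v * B z v) * hc + (c * B z v) * h.dl_sym z v)
    (fun u v => by
      simp only [LinearMap.sub_apply, LinearMap.id_apply, LinearMap.smul_apply,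
        LinearMap.smulRight_apply, smul_smul, map_sub, map_smul, smul_eq_mul, h.self z, h.sym u z]
      linear_combination (2 * B z u * B z v) * hc - (c * B z u * B z v) * one_add_ep (F := F) o)

theorem qr_apply [Finite V] (z : V) (c : F) (hc : c * (c * Q z - dl F o) = 0) (v : V) :
    (h.qr z c hc).1 v = v - (c * B z v) • z := by
  simp [qr, smul_smul]

/-- the Eichler map -/
noncomputable def ei [Finite V] (w a : V) (hw : Q w = 0) (ha : B w a = 0) : Iso Q B :=
  h.mkIso (LinearMap.id + (B w).smulRight a - ep F o • (B a + Q a • B w).smulRight w)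
    (fun v => by
      simp only [LinearMap.sub_apply, LinearMap.add_apply, LinearMap.id_apply,
        LinearMap.smul_apply, LinearMap.smulRight_apply, smul_smul, h.sub, h.add, h.smul, map_smul,
        map_add, smul_eq_mul, hw, h.perp_comm.1 ha, h.sym v a, h.sym v w]
      linear_combination (B w v * B a v) * dl_mul_ep (F := F) o -
        (dl F o * B w v * (B a v + Q a * B w v)) * ep_mul (F := F) o -
        (B w v * B w v) * h.dl_mul a)
    (fun u v => by
      simp only [LinearMap.sub_apply, LinearMap.add_apply, LinearMap.id_apply,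
        LinearMap.smul_apply, LinearMap.smulRight_apply, smul_smul, map_sub, map_smul,
        map_add, smul_eq_mul, hw, ha, h.perp_comm.1 ha, h.sym u a, h.sym u w, h.self]
      linear_combination (-(B a v + Q a * B w v) * B w u) * ep_mul (F := F) o +
        (B a v * B w u - B a v * B w u - B w u * B w v * Q a) * one_add_ep (F := F) o -
        (2 * B w u * B w v) * h.dl_mul a)

theorem ei_apply [Finite V] (w a : V) (hw : Q w = 0) (ha : B w a = 0) (v : V) :
    (h.ei w a hw ha).1 v = v + B w v • a - (ep F o * (B a v + Q a * B w v)) • w := by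
  simp [ei, smul_smul]

end Pol

theorem Iso.q (g : Iso Q B) (v : V) : Q (g.1 v) = Q v := g.2.1 v

theorem Iso.b (g : Iso Q B) (u v : V) : B (g.1 u) (g.1 v) = B u v := g.2.2 u v

theorem Iso.ext {g g' : Iso Q B} (h : ∀ v, g.1 v = g'.1 v) : g = g' :=
  Subtype.ext (LinearEquiv.ext h)

@[simp] theorem Iso.mul_apply (g g' : Iso Q B) (v : V) : (g * g').1 v = g.1 (g'.1 v) := rfl

@[simp] theorem Iso.one_apply (v : V) : (1 : Iso Q B).1 v = v := rfl

@[simp] theorem Iso.apply_inv (g : Iso Q B) (v : V) : g.1 ((g⁻¹).1 v) = v := g.1.apply_symm_apply v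

@[simp] theorem Iso.inv_apply (g : Iso Q B) (v : V) : (g⁻¹).1 (g.1 v) = v := g.1.symm_apply_apply v

namespace Isom

theorem refl : Isom Q B Q B := ⟨LinearEquiv.refl _ _, fun _ => rfl, fun _ _ => rfl⟩

theorem symm (h : Isom Q B Q' B') : Isom Q' B' Q B := by
  obtain ⟨e, h1, h2⟩ := h
  exact ⟨e.symm, fun v => by rw [← h1]; simp, fun u v => by rw [← h2]; simp⟩

theorem trans (h : Isom Q B Q' B') (h' : Isom Q' B' Q'' B'') : Isom Q B Q'' B'' := by
  obtain ⟨e, h1, h2⟩ := h
  obtain ⟨e', h3, h4⟩ := h'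
  exact ⟨e.trans e', fun v => (h3 _).trans (h1 v), fun u v => (h4 _ _).trans (h2 u v)⟩

theorem pol (h : Isom Q B Q' B') (h' : Pol o Q' B') : Pol o Q B := by
  obtain ⟨e, h1, h2⟩ := h
  exact ⟨fun u v => by rw [← h1, map_add, h'.add, h1, h1, h2],
    fun c v => by rw [← h1, map_smul, h'.smul, h1], fun u v => by rw [← h2, h'.sym, h2],
    fun v => by rw [← h2, h'.self, h1], fun e' v => by rw [← h1, h'.sp e'],
    fun v hv => e.map_eq_zero_iff.1 (h'.nd _ fun u => by rw [← e.apply_symm_apply u, h2, hv])⟩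

theorem hv (h : Isom Q B Q' B') : Isom (hQ k o Q) (hB k o B) (hQ k o Q') (hB k o B') := by
  obtain ⟨e, h1, h2⟩ := h
  exact ⟨(LinearEquiv.refl _ _).prodCongr (e.prodCongr (LinearEquiv.refl _ _)),
    fun v => by simp [hQ, h1], fun u v => by simp [h2]⟩

theorem ty {d n : ℕ} (h : Isom Q B Q' B') (h' : Ty o d n Q' B') : Ty o d n Q B := by
  obtain ⟨V₀, _, _, _, Q₀, B₀, h1, h2, h3, h4⟩ := h'
  exact ⟨V₀, _, _, inferInstance, Q₀, B₀, h1, h2, h3, h.trans h4⟩

theorem equiv (h : Isom Q B Q' B') : ∃ φ : Iso Q B ≃* Iso Q' B', ∃ e : V ≃ₗ[F] V',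
    (∀ v, Q' (e v) = Q v) ∧ (∀ u v, B' (e u) (e v) = B u v) ∧
      ∀ g v, (φ g).1 (e v) = e (g.1 v) := by
  obtain ⟨e, h1, h2⟩ := h
  have h3 : ∀ v, Q (e.symm v) = Q' v := fun v => by rw [← h1]; simp
  have h4 : ∀ u v, B (e.symm u) (e.symm v) = B' u v := fun u v => by rw [← h2]; simp
  refine ⟨{ toFun g := ⟨e.symm.trans (g.1.trans e), fun v => by simp [h1, h3, Iso.q g],
              fun u v => by simp [h2, h4, Iso.b g]⟩
            invFun g := ⟨e.trans (g.1.trans e.symm), fun v => by simp [h1, h3, Iso.q g],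
              fun u v => by simp [h2, h4, Iso.b g]⟩
            left_inv g := Iso.ext fun v => by simp
            right_inv g := Iso.ext fun v => by simp
            map_mul' g g' := Iso.ext fun v => by simp }, e, h1, h2, fun g v => by simp⟩

theorem cd (h : Isom Q B Q' B') {z : Prop} {D : ℕ} (h' : CD z Q' B' D) : CD z Q B D := by
  obtain ⟨φ, e, -, -, hφ⟩ := h.equiv
  obtain ⟨χ, h1, h2, h3⟩ := h'
  refine ⟨fun g => χ (φ g), h1.comp_mulEquiv φ, by simpa using h2, fun hz g hg => ?_⟩
  beta_reduce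
  rw [map_one]
  exact h3 hz _ fun v => by rw [← e.apply_symm_apply v, hφ, hg, map_neg]

theorem noNeg (h : Isom Q B Q' B') (h' : NoNeg Q' B') : NoNeg Q B := by
  obtain ⟨φ, e, -, -, hφ⟩ := h.equiv
  refine fun z hz hn => h' (φ z) ?_ fun v => by rw [← e.apply_symm_apply v, hφ, hn, map_neg]
  have := Subgroup.mem_map_of_mem φ.toMonoidHom hz
  rwa [commutator_def, Subgroup.map_commutator, Subgroup.map_top_of_surjective _ φ.surjective]
    at this

theorem card_iso (h : Isom Q B Q' B') : Nat.card (Iso Q B) = Nat.card (Iso Q' B') := by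
  obtain ⟨φ, -⟩ := h.equiv
  exact Nat.card_congr φ.toEquiv

theorem card_sing (h : Isom Q B Q' B') : Nat.card {v // Q v = 0} = Nat.card {v // Q' v = 0} := by
  obtain ⟨e, h1, -⟩ := h
  exact Nat.card_congr (e.toEquiv.subtypeEquiv fun v => by simp [h1])

theorem noMid (h : Isom Q B Q' B') (h' : NoMid k Q' B') : NoMid k Q B := by
  obtain ⟨e, h1, h2⟩ := h
  intro S hQ hB
  rw [← LinearEquiv.finrank_map_eq e S]
  refine h' _ ?_ ?_
  · rintro _ ⟨v, hv, rfl⟩
    exact (h1 v).trans (hQ v hv)
  · rintro _ ⟨u, hu, rfl⟩ _ ⟨v, hv, rfl⟩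
    exact (h2 u v).trans (hB u hu v hv)

end Isom

/-- the central quotients of isomorphic groups are isomorphic -/
noncomputable def quotCenterCongr {G H : Type*} [Group G] [Group H] (φ : G ≃* H) :
    G ⧸ Subgroup.center G ≃* H ⧸ Subgroup.center H :=
  QuotientGroup.congr _ _ φ (by
    ext x
    obtain ⟨y, rfl⟩ := φ.surjective x
    simp only [Subgroup.mem_map, MonoidHom.coe_coe, EmbeddingLike.apply_eq_iff_eq, exists_eq_right,
      Subgroup.mem_center_iff, φ.surjective.forall, ← map_mul])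

/-- the commutator subgroups of isomorphic groups are isomorphic -/
noncomputable def commutatorCongr {G H : Type*} [Group G] [Group H] (φ : G ≃* H) :
    commutator G ≃* commutator H :=
  (φ.subgroupMap (commutator G)).trans (MulEquiv.subgroupCongr (by
    rw [commutator_def, Subgroup.map_commutator, Subgroup.map_top_of_surjective _ φ.surjective,
      commutator_def]))

theorem charDegrees_congr {G H : Type*} [Group G] [Group H] (φ : G ≃* H) :
    charDegrees G = charDegrees H := by
  ext d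
  exact ⟨fun ⟨χ, h⟩ => ⟨⟨_, χ.2.comp_mulEquiv φ.symm⟩, by simpa [charDegree] using h⟩,
    fun ⟨χ, h⟩ => ⟨⟨_, χ.2.comp_mulEquiv φ⟩, by simpa [charDegree] using h⟩⟩

theorem Isom.po_equiv (h : Isom Q B Q' B') : Nonempty (PO Q B ≃* PO Q' B') := by
  obtain ⟨φ, -⟩ := h.equiv
  exact ⟨quotCenterCongr (commutatorCongr φ)⟩

theorem Isom.po (h : Isom Q B Q' B') : charDegrees (PO Q B) = charDegrees (PO Q' B') :=
  h.po_equiv.elim charDegrees_congr

theorem Isom.psp (h : Isom Q B Q' B') :
    charDegrees (Iso Q B ⧸ Subgroup.center _) = charDegrees (Iso Q' B' ⧸ Subgroup.center _) := by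
  obtain ⟨φ, -⟩ := h.equiv
  exact charDegrees_congr (quotCenterCongr φ)

variable (o Q B) in
theorem isom_add (m k : ℕ) :
    Isom (hQ (m + k) o Q) (hB (m + k) o B) (hQ k o (hQ m o Q)) (hB k o (hB m o B)) :=
  ⟨{ toFun x := (fun i => x.1 (Fin.natAdd m i),
        (fun i => x.1 (Fin.castAdd k i), x.2.1, fun i => x.2.2 (Fin.castAdd k i)),
        fun i => x.2.2 (Fin.natAdd m i))
     invFun x := (Fin.append x.2.1.1 x.1, x.2.1.2.1, Fin.append x.2.1.2.2 x.2.2)
     map_add' _ _ := rfl
     map_smul' _ _ := rfl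
     left_inv x := by simp [Fin.append_castAdd_natAdd]
     right_inv x := by simp },
    fun v => by simp [hQ, dotProduct, Fin.sum_univ_add]; ring,
    fun u v => by simp [dotProduct, Fin.sum_univ_add]; ring⟩

variable (o Q B) in
theorem isom_zero : Isom (hQ 0 o Q) (hB 0 o B) Q B :=
  ⟨{ toFun x := x.2.1
     invFun v := (0, v, 0)
     map_add' _ _ := rfl
     map_smul' _ _ := rfl
     left_inv _ := Prod.ext (Subsingleton.elim _ _) (Prod.ext rfl (Subsingleton.elim _ _))
     right_inv _ := rfl }, fun v => by simp [hQ], fun u v => by simp⟩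

namespace Ty

variable {d m n : ℕ}

theorem pol (h : Ty o d n Q B) : Pol o Q B := by
  obtain ⟨V₀, _, _, _, Q₀, B₀, h1, -, -, h4⟩ := h
  exact h4.pol h1.hv

theorem hv (h : Ty o d m Q B) : Ty o d (m + k) (hQ k o Q) (hB k o B) := by
  obtain ⟨V₀, _, _, _, Q₀, B₀, h1, h2, h3, h4⟩ := h
  exact ⟨V₀, _, _, inferInstance, Q₀, B₀, h1, h2, h3, h4.hv.trans (isom_add o Q₀ B₀ m k).symm⟩

theorem split [Finite F] (h : Ty o d (m + k) Q B) :
    ∃ (V' : Type) (_ : AddCommGroup V') (_ : Module F V') (_ : Finite V') (Q' : V' → F)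
      (B' : LinearMap.BilinForm F V'), Ty o d m Q' B' ∧ Isom Q B (hQ k o Q') (hB k o B') := by
  obtain ⟨V₀, _, _, _, Q₀, B₀, h1, h2, h3, h4⟩ := h
  haveI : Finite V₀ := Module.finite_of_finite F
  exact ⟨HV m F V₀, _, _, inferInstance, hQ m o Q₀, hB m o B₀,
    ⟨V₀, _, _, inferInstance, Q₀, B₀, h1, h2, h3, Isom.refl⟩, h4.trans (isom_add o Q₀ B₀ m k)⟩

theorem finrank_eq (h : Ty o d n Q B) : finrank F V = 2 * n + d := by
  obtain ⟨V₀, _, _, _, Q₀, B₀, -, h2, -, e, -⟩ := h
  rw [e.finrank_eq]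
  simp [h2]
  ring

theorem card_eq [Finite F] [Finite V] (h : Ty o d n Q B) :
    Nat.card V = Nat.card F ^ (2 * n + d) := by
  rw [← h.finrank_eq, Module.natCard_eq_pow_finrank (K := F)]

theorem aniso (h : Ty o d 0 Q B) (v : V) (hv : Q v = 0) : v = 0 := by
  obtain ⟨V₀, _, _, _, Q₀, B₀, -, -, h3, h4⟩ := h
  obtain ⟨e, h5, -⟩ := h4.trans (isom_zero o Q₀ B₀)
  exact e.map_eq_zero_iff.1 (h3 _ ((h5 v).trans hv))

theorem of_aniso [Module.Finite F V] (h : Pol o Q B) (h0 : ∀ v, Q v = 0 → v = 0) :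
    Ty o (finrank F V) 0 Q B :=
  ⟨V, _, _, inferInstance, Q, B, h, rfl, h0, (isom_zero o Q B).symm⟩

theorem d_eq_zero (h : Ty false d n Q B) : d = 0 := by
  obtain ⟨V₀, _, _, _, Q₀, B₀, h1, h2, h3, -⟩ := h
  haveI : Subsingleton V₀ := subsingleton_of_forall_eq 0 fun v => h3 v (h1.sp rfl v)
  rw [← h2, finrank_zero_of_subsingleton]

theorem nomid (h : Ty o d m Q B) (hk : m < k) : NoMid k Q B := by
  obtain ⟨V₀, _, _, _, Q₀, B₀, h1, -, h3, h4⟩ := h
  refine h4.noMid fun S hQ' hB' => lt_of_le_of_lt ?_ hk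
  let p : HV m F V₀ →ₗ[F] (Fin m → F) := LinearMap.snd F _ _ ∘ₗ LinearMap.snd F _ _
  let D : LinearMap.BilinForm F (Fin m → F) := dotProductBilin F F
  have hD : D.Nondegenerate := ⟨fun v hv => funext fun i => by simpa [D] using hv (Pi.single i 1),
    fun v hv => funext fun i => by simpa [D] using hv (Pi.single i 1)⟩
  have e1 := LinearMap.finrank_range_add_finrank_ker (p ∘ₗ S.subtype)
  have e2 := D.finrank_orthogonal hD (LinearMap.range (p ∘ₗ S.subtype))
  have e3 := Submodule.finrank_le (LinearMap.range (p ∘ₗ S.subtype))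
  have hz : ∀ x : LinearMap.ker (p ∘ₗ S.subtype), x.1.1.2 = 0 := fun x => by
    have h5 : x.1.1.2.2 = 0 := x.2
    exact Prod.ext (h3 _ (by simpa [hQ, h5] using hQ' _ x.1.2)) h5
  let f : LinearMap.ker (p ∘ₗ S.subtype) →ₗ[F] D.orthogonal (LinearMap.range (p ∘ₗ S.subtype)) :=
    LinearMap.codRestrict _ (LinearMap.fst F _ _ ∘ₗ S.subtype ∘ₗ Submodule.subtype _) fun x => by
      rintro _ ⟨y, rfl⟩
      have := hB' _ x.1.2 _ y.2
      simp only [hB_apply, hz x, Prod.fst_zero, Prod.snd_zero, map_zero, LinearMap.zero_apply,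
        zero_dotProduct, mul_zero, add_zero] at this
      exact (dotProduct_comm _ _).trans this
  have e4 := LinearMap.finrank_le_finrank_of_injective (f := f) fun x y hx =>
    Subtype.ext (Subtype.ext (Prod.ext (congrArg Subtype.val hx) ((hz x).trans (hz y).symm)))
  simp only [finrank_fintype_fun_eq_card, Fintype.card_fin] at e2 e3
  omega

end Ty

end Cfsg.Agent.Dg
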