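import Cfsg.Agent.Dg.G1

/-! The Levi subgroup, the swap and the unipotent radical of the parabolic subgroup. -/

set_option autoImplicit false
set_option linter.unusedSectionVars false

namespace Cfsg.Agent.Dg

open Cfsg Module
open scoped Matrix

variable {F V : Type} [Field F] [AddCommGroup V] [Module F V] {k : ℕ} {o : Bool} {Q : V → F}
  {B : LinearMap.BilinForm F V}

theorem dot_du (a : GL (Fin k) F) (x y : Fin k → F) :
    ((a : Matrix (Fin k) (Fin k) F) *ᵥ x) ⬝ᵥ ((du a : Matrix (Fin k) (Fin k) F) *ᵥ y) = x ⬝ᵥ y := by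
  rw [coe_du, Matrix.dotProduct_mulVec, Matrix.vecMul_transpose, Matrix.mulVec_mulVec,
    Units.inv_mul, Matrix.one_mulVec]

theorem du_du (a : GL (Fin k) F) : du (du a) = a := Units.ext (Matrix.transpose_transpose _)

variable (o) in
/-- the Levi subgroup -/
def lvHom : GL (Fin k) F × Iso Q B →* GG k o Q B where
  toFun p := ⟨{ toFun x := ((p.1 : Matrix (Fin k) (Fin k) F) *ᵥ x.1, p.2.1 x.2.1,
                  (du p.1 : Matrix (Fin k) (Fin k) F) *ᵥ x.2.2)
                invFun x := ((p.1⁻¹ : GL (Fin k) F).1 *ᵥ x.1, (p.2⁻¹).1 x.2.1,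
                  (du p.1⁻¹ : Matrix (Fin k) (Fin k) F) *ᵥ x.2.2)
                map_add' x y := by simp [Matrix.mulVec_add]
                map_smul' c x := by simp [Matrix.mulVec_smul]
                left_inv x := by
                  simp only [Matrix.mulVec_mulVec, ← Units.val_mul, ← map_mul, inv_mul_cancel,
                    map_one, Units.val_one, Matrix.one_mulVec, Iso.inv_apply]
                right_inv x := by
                  simp only [Matrix.mulVec_mulVec, ← Units.val_mul, ← map_mul, mul_inv_cancel,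
                    map_one, Units.val_one, Matrix.one_mulVec, Iso.apply_inv] },
    fun x => by simp [hQ, dot_du, Iso.q p.2], fun x y => by
      simp [dot_du, Iso.b p.2, dotProduct_comm ((du p.1 : Matrix (Fin k) (Fin k) F) *ᵥ x.2.2),
        dotProduct_comm x.2.2]⟩
  map_one' := Iso.ext fun x => by simp
  map_mul' p p' := Iso.ext fun x => by simp

variable (o) in
/-- an element of the Levi subgroup -/
def lv (a : GL (Fin k) F) (h : Iso Q B) : GG k o Q B := lvHom o (a, h)

@[simp] theorem lv_apply (a : GL (Fin k) F) (h : Iso Q B) (x : HV k F V) :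
    (lv o a h).1 x = ((a : Matrix (Fin k) (Fin k) F) *ᵥ x.1, h.1 x.2.1,
      (du a : Matrix (Fin k) (Fin k) F) *ᵥ x.2.2) := rfl

theorem lv_mul (a a' : GL (Fin k) F) (h h' : Iso Q B) :
    lv o (a * a') (h * h') = lv o a h * lv o a' h' := (lvHom o).map_mul (a, h) (a', h')

theorem lv_one : lv o (1 : GL (Fin k) F) (1 : Iso Q B) = 1 := (lvHom o).map_one

theorem lv_inv (a : GL (Fin k) F) (h : Iso Q B) : lv o a⁻¹ h⁻¹ = (lv o a h)⁻¹ :=
  (lvHom o).map_inv (a, h)

theorem mem_PP_of {g : GG k o Q B} [Finite F] (h : ∀ a : Fin k → F, (g.1 (a, 0)).2 = 0) :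
    g ∈ PP k o Q B := by
  intro x
  refine ⟨fun hx => ?_, fun hx => by rw [show x = (x.1, 0) from Prod.ext rfl hx]; exact h _⟩
  have hi : Function.Injective fun a : Fin k → F => (g.1 (a, 0)).1 := fun a a' e =>
    congrArg Prod.fst (g.1.injective (Prod.ext e ((h a).trans (h a').symm)))
  obtain ⟨a, ha⟩ := Finite.injective_iff_surjective.1 hi (g.1 x).1
  rw [← g.1.injective (Prod.ext ha ((h a).trans hx.symm))]

theorem lv_mem (a : GL (Fin k) F) (h : Iso Q B) : lv o a h ∈ PP k o Q B := fun x => by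
  have : (du a : Matrix (Fin k) (Fin k) F) *ᵥ x.2.2 = 0 ↔ x.2.2 = 0 :=
    ⟨fun e => by
      have := congrArg ((↑(du a)⁻¹ : Matrix (Fin k) (Fin k) F) *ᵥ ·) e
      simpa only [Matrix.mulVec_mulVec, Units.inv_mul, Matrix.one_mulVec, Matrix.mulVec_zero]
        using this, fun e => by rw [e, Matrix.mulVec_zero]⟩
  simp [Prod.ext_iff, this]

theorem pa_eq {g : PP k o Q B} {a : GL (Fin k) F}
    (h : ∀ x, (g.1.1 (x, 0)).1 = (a : Matrix (Fin k) (Fin k) F) *ᵥ x) : pa k o Q B g = a :=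
  Units.ext (Matrix.ext_iff_mulVec.2 fun x => by rw [← h, pa_apply])

theorem pb_eq {g : PP k o Q B} {h : Iso Q B} (e : ∀ v, (g.1.1 (0, v, 0)).2.1 = h.1 v) :
    pb k o Q B g = h := Iso.ext e

@[simp] theorem pa_lv (a : GL (Fin k) F) (h : Iso Q B) : pa k o Q B ⟨lv o a h, lv_mem a h⟩ = a :=
  pa_eq fun _ => rfl

@[simp] theorem pb_lv (a : GL (Fin k) F) (h : Iso Q B) : pb k o Q B ⟨lv o a h, lv_mem a h⟩ = h :=
  pb_eq fun _ => rfl

theorem lv_inj {a a' : GL (Fin k) F} {h h' : Iso Q B} (e : lv o a h = lv o a' h') :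
    a = a' ∧ h = h' := by
  have : (⟨lv o a h, lv_mem a h⟩ : PP k o Q B) = ⟨lv o a' h', lv_mem a' h'⟩ := Subtype.ext e
  exact ⟨by rw [← pa_lv (o := o) a h, this, pa_lv], by rw [← pb_lv (o := o) a h, this, pb_lv]⟩

/-- the action of an element of `PP` on the third component -/
theorem PP.third (g : PP k o Q B) (x : HV k F V) :
    (g.1.1 x).2.2 = (du (pa k o Q B g) : Matrix (Fin k) (Fin k) F) *ᵥ x.2.2 := by
  have h : ∀ a, ((pa k o Q B g : Matrix (Fin k) (Fin k) F) *ᵥ a) ⬝ᵥ (g.1.1 x).2.2 = a ⬝ᵥ x.2.2 :=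
    fun a => by simpa [pa_apply] using Iso.b g.1 (a, 0) x
  funext i
  have h1 := h ((↑(pa k o Q B g)⁻¹ : Matrix (Fin k) (Fin k) F) *ᵥ Pi.single i 1)
  rw [← dot_du (pa k o Q B g) _ x.2.2, Matrix.mulVec_mulVec, Units.mul_inv, Matrix.one_mulVec]
    at h1
  simpa using h1

variable (k o Q B) in
/-- the swap of the two totally singular summands -/
def sw : GG k o Q B :=
  ⟨{ toFun x := (ep F o • x.2.2, x.2.1, x.1)
     invFun x := (x.2.2, x.2.1, ep F o • x.1)
     map_add' x y := by simp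
     map_smul' c x := by simp [smul_comm c]
     left_inv x := by simp [smul_smul, ep_mul]
     right_inv x := by simp [smul_smul, ep_mul] },
    fun x => by simp [hQ, ← mul_assoc, dl_mul_ep, dotProduct_comm x.2.2], fun x y => by
      simp [← mul_assoc, ep_mul]; ring⟩

@[simp] theorem sw_apply (x : HV k F V) : (sw k o Q B).1 x = (ep F o • x.2.2, x.2.1, x.1) := rfl

@[simp] theorem sw_inv_apply (x : HV k F V) :
    ((sw k o Q B)⁻¹).1 x = (x.2.2, x.2.1, ep F o • x.1) := rfl

theorem sw_lv (a : GL (Fin k) F) (h : Iso Q B) :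
    sw k o Q B * lv o a h = lv o (du a) h * sw k o Q B :=
  Iso.ext fun x => by simp [du_du, Matrix.mulVec_smul]

variable (k F o) in
/-- the scalar `ε` -/
def epG : GL (Fin k) F := ⟨ep F o • 1, ep F o • 1, by simp [smul_smul, ep_mul],
  by simp [smul_smul, ep_mul]⟩

@[simp] theorem epG_mulVec (x : Fin k → F) :
    (epG F k o : Matrix (Fin k) (Fin k) F) *ᵥ x = ep F o • x := by
  simp [epG, Matrix.smul_mulVec]

theorem du_epG : du (epG F k o) = epG F k o := Units.ext (by simp [coe_du, epG])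

theorem sw_sw : sw k o Q B * sw k o Q B = lv o (epG F k o) 1 :=
  Iso.ext fun x => by simp [du_epG]

theorem sw_notMem (hk : 1 ≤ k) : sw k o Q B ∉ PP k o Q B := fun h => by
  have := (h (Pi.single ⟨0, hk⟩ 1, 0)).2 rfl
  simpa using congrFun (congrArg Prod.snd this) ⟨0, hk⟩

variable (o Q B) in
/-- the conditions on the parameters of a unipotent element -/
def UC (y : Fin k → V) (Z : Matrix (Fin k) (Fin k) F) : Prop :=
  (∀ i j, Z j i + B (y i) (y j) + ep F o * Z i j = 0) ∧ ∀ i, dl F o * Z i i + Q (y i) = 0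

/-- the underlying linear map of a unipotent element -/
def uuL (B : LinearMap.BilinForm F V) (y : Fin k → V) (Z : Matrix (Fin k) (Fin k) F) :
    HV k F V →ₗ[F] HV k F V where
  toFun x := (x.1 - (fun i => B x.2.1 (y i)) + Z *ᵥ x.2.2, x.2.1 + ∑ i, x.2.2 i • y i, x.2.2)
  map_add' x x' := by
    ext i <;> simp [Matrix.mulVec_add, add_smul, Finset.sum_add_distrib] <;> abel
  map_smul' c x := by
    ext i <;> simp [Matrix.mulVec_smul, Finset.smul_sum, smul_smul, mul_sub, mul_add]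

theorem uuL_b (h : Pol o Q B) {y : Fin k → V} {Z : Matrix (Fin k) (Fin k) F} (c : UC o Q B y Z)
    (x x' : HV k F V) : hB k o B (uuL B y Z x) (uuL B y Z x') = hB k o B x x' := by
  have e1 : ∀ f f' : Fin k → F, (Z *ᵥ f) ⬝ᵥ f' + B (∑ i, f i • y i) (∑ i, f' i • y i) +
      ep F o * (f ⬝ᵥ Z *ᵥ f') = 0 := fun f f' => by
    have : ∑ i, ∑ j, f i * f' j * (Z j i + B (y i) (y j) + ep F o * Z i j) = 0 := by
      simp [c.1]
    rw [← this]
    simp only [dotProduct, Matrix.mulVec, map_sum, map_smul, LinearMap.sum_apply,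
      LinearMap.smul_apply, smul_eq_mul, Finset.sum_mul, Finset.mul_sum, mul_add,
      Finset.sum_add_distrib]
    congr 1
    · congr 1
      · rw [Finset.sum_comm]
        exact Finset.sum_congr rfl fun _ _ => Finset.sum_congr rfl fun _ _ => by ring
      · rw [Finset.sum_comm]
        exact Finset.sum_congr rfl fun _ _ => Finset.sum_congr rfl fun _ _ => by ring
    · exact Finset.sum_congr rfl fun _ _ => Finset.sum_congr rfl fun _ _ => by ring
  have e2 : ∀ (v : V) (f : Fin k → F), (fun i => B v (y i)) ⬝ᵥ f = B v (∑ i, f i • y i) :=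
    fun v f => by simp [dotProduct, mul_comm]
  have e3 := e1 x.2.2 x'.2.2
  have e4 := e2 x.2.1 x'.2.2
  have e5 := e2 x'.2.1 x.2.2
  rw [dotProduct_comm] at e5
  have e6 := h.sym (∑ i, x.2.2 i • y i) x'.2.1
  simp only [uuL, LinearMap.coe_mk, AddHom.coe_mk, hB_apply, add_dotProduct, sub_dotProduct,
    dotProduct_add, dotProduct_sub, map_add, LinearMap.add_apply]
  linear_combination e3 - e4 - ep F o * e5 + e6

theorem uuL_q (h : Pol o Q B) {y : Fin k → V} {Z : Matrix (Fin k) (Fin k) F} (c : UC o Q B y Z)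
    (x : HV k F V) : hQ k o Q (uuL B y Z x) = hQ k o Q x := by
  refine h.hv.q_span h.hv (uuL B y Z) (uuL_b h c)
    (s := {x | x.2.2 = 0 ∨ ∃ i, x = (0, 0, Pi.single i 1)}) ?_ ?_
  · rintro x (hx | ⟨i, rfl⟩)
    · simp [uuL, hQ, hx]
    · simpa [uuL, hQ, Pi.single_apply, h.zero] using c.2 i
  · have : x = (x.1, x.2.1, 0) + ∑ i, x.2.2 i • ((0, 0, Pi.single i 1) : HV k F V) := by
      ext j <;> simp [Prod.fst_sum, Prod.snd_sum, Pi.single_apply]
    rw [this]
    exact add_mem (Submodule.subset_span (Or.inl rfl)) (Submodule.sum_mem _ fun i _ =>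
      Submodule.smul_mem _ _ (Submodule.subset_span (Or.inr ⟨i, rfl⟩)))

variable [Finite F] [Finite V]

/-- an element of the unipotent radical -/
noncomputable def uu (h : Pol o Q B) (y : Fin k → V) (Z : Matrix (Fin k) (Fin k) F)
    (c : UC o Q B y Z) : GG k o Q B := h.hv.mkIso (uuL B y Z) (uuL_q h c) (uuL_b h c)

@[simp] theorem uu_apply (h : Pol o Q B) (y : Fin k → V) (Z : Matrix (Fin k) (Fin k) F)
    (c : UC o Q B y Z) (x : HV k F V) : (uu h y Z c).1 x =
      (x.1 - (fun i => B x.2.1 (y i)) + Z *ᵥ x.2.2, x.2.1 + ∑ i, x.2.2 i • y i, x.2.2) := rfl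

theorem uu_mem_PP (h : Pol o Q B) (y : Fin k → V) (Z : Matrix (Fin k) (Fin k) F)
    (c : UC o Q B y Z) : uu h y Z c ∈ PP k o Q B := mem_PP_of fun a => by simp

theorem pa_uu (h : Pol o Q B) (y : Fin k → V) (Z : Matrix (Fin k) (Fin k) F)
    (c : UC o Q B y Z) : pa k o Q B ⟨uu h y Z c, uu_mem_PP h y Z c⟩ = 1 :=
  pa_eq fun x => by ext i; simp

theorem pb_uu (h : Pol o Q B) (y : Fin k → V) (Z : Matrix (Fin k) (Fin k) F)
    (c : UC o Q B y Z) : pb k o Q B ⟨uu h y Z c, uu_mem_PP h y Z c⟩ = 1 :=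
  pb_eq fun x => by simp

theorem uu_single (h : Pol o Q B) (y : Fin k → V) (Z : Matrix (Fin k) (Fin k) F)
    (c : UC o Q B y Z) (i : Fin k) :
    (uu h y Z c).1 (0, 0, Pi.single i 1) = (fun j => Z j i, y i, Pi.single i 1) := by
  ext j <;> simp [Pi.single_apply]

theorem uu_inj (h : Pol o Q B) {y y' : Fin k → V} {Z Z' : Matrix (Fin k) (Fin k) F}
    {c : UC o Q B y Z} {c' : UC o Q B y' Z'} (e : uu h y Z c = uu h y' Z' c') :
    y = y' ∧ Z = Z' := by
  have : ∀ i, _ := fun i => (uu_single h y Z c i).symm.trans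
    ((congrArg (fun g : GG k o Q B => g.1 (0, 0, Pi.single i 1)) e).trans (uu_single h y' Z' c' i))
  exact ⟨funext fun i => congrArg (fun x => x.2.1) (this i),
    Matrix.ext fun j i => congrFun (congrArg Prod.fst (this i)) j⟩

omit [Finite F] [Finite V] in
/-- a totally singular family with third components `e_i` satisfies the conditions -/
theorem uc_of {x : Fin k → HV k F V} (h3 : ∀ i, (x i).2.2 = Pi.single i 1)
    (hq : ∀ i, hQ k o Q (x i) = 0) (hb : ∀ i j, hB k o B (x i) (x j) = 0) :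
    UC o Q B (fun i => (x i).2.1) (Matrix.of fun j i => (x i).1 j) :=
  ⟨fun i j => by simpa [h3] using hb i j, fun i => by simpa [hQ, h3] using hq i⟩

variable (k o Q B) in
/-- the unipotent radical -/
noncomputable def UU : Subgroup (GG k o Q B) :=
  ((pa k o Q B).prod (pb k o Q B)).ker.map (PP k o Q B).subtype

omit [Finite F] [Finite V] in
theorem UU_le : UU k o Q B ≤ PP k o Q B := Subgroup.map_subtype_le _

omit [Finite F] [Finite V] in
theorem mem_UU_iff {g : GG k o Q B} : g ∈ UU k o Q B ↔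
    ∃ hg : g ∈ PP k o Q B, pa k o Q B ⟨g, hg⟩ = 1 ∧ pb k o Q B ⟨g, hg⟩ = 1 :=
  ⟨fun ⟨p, hp, e⟩ => e ▸ ⟨p.2, Prod.ext_iff.1 hp⟩, fun ⟨hg, h⟩ => ⟨⟨g, hg⟩, Prod.ext_iff.2 h, rfl⟩⟩

theorem uu_mem (h : Pol o Q B) (y : Fin k → V) (Z : Matrix (Fin k) (Fin k) F)
    (c : UC o Q B y Z) : uu h y Z c ∈ UU k o Q B :=
  mem_UU_iff.2 ⟨uu_mem_PP h y Z c, pa_uu h y Z c, pb_uu h y Z c⟩

omit [Finite F] [Finite V] in
theorem ext_HV {f g : HV k F V →ₗ[F] HV k F V} (h1 : ∀ x : HV k F V, x.2.2 = 0 → f x = g x)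
    (h2 : ∀ i, f (0, 0, Pi.single i 1) = g (0, 0, Pi.single i 1)) (x : HV k F V) : f x = g x := by
  have : x = (x.1, x.2.1, 0) + ∑ i, x.2.2 i • ((0, 0, Pi.single i 1) : HV k F V) := by
    ext j <;> simp [Prod.fst_sum, Prod.snd_sum, Pi.single_apply]
  rw [this, map_add, map_add, h1 _ rfl, map_sum, map_sum]
  simp only [map_smul, h2]

theorem mem_UU (h : Pol o Q B) {g : GG k o Q B} :
    g ∈ UU k o Q B ↔ ∃ y Z c, g = uu h y Z c := by
  refine ⟨fun hg => ?_, fun ⟨y, Z, c, e⟩ => e ▸ uu_mem h y Z c⟩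
  obtain ⟨hg, ha, hb⟩ := mem_UU_iff.1 hg
  have h3 : ∀ x, (g.1 x).2.2 = x.2.2 := fun x => by
    simpa [ha] using PP.third ⟨g, hg⟩ x
  refine ⟨_, _, uc_of (x := fun i => g.1 (0, 0, Pi.single i 1)) (fun i => h3 _)
    (fun i => by rw [Iso.q g]; simp [hQ, h.zero]) (fun i j => by rw [Iso.b g]; simp),
    Iso.ext (ext_HV (f := g.1.toLinearMap) (g := (uu h _ _ _).1.toLinearMap) (fun x hx => ?_)
      fun i => ?_)⟩
  · have h2 : (g.1 x).2 = (x.2.1, 0) := by simpa [hb] using pb_apply ⟨g, hg⟩ hx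
    refine Prod.ext (funext fun i => ?_) (by simp [h2, hx])
    have := Iso.b g x (0, 0, Pi.single i 1)
    simp only [hB_apply, h3, h2] at this
    simp only [LinearEquiv.coe_coe, uu_apply, hx, Matrix.mulVec_zero, add_zero, Pi.sub_apply]
    simp at this
    linear_combination this
  · refine Eq.trans ?_ (uu_single h _ _ _ i).symm
    exact Prod.ext rfl (Prod.ext rfl (h3 _))

omit [Finite F] [Finite V] in
/-- `PP = UU ⋊ Levi` -/
theorem PP.decomp (p : PP k o Q B) :
    p.1 * (lv o (pa k o Q B p) (pb k o Q B p))⁻¹ ∈ UU k o Q B :=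
  ⟨p * (⟨_, lv_mem _ _⟩ : PP k o Q B)⁻¹, by simp [MonoidHom.mem_ker], rfl⟩

omit [Finite F] [Finite V] in
theorem UU_conj {p u : GG k o Q B} (hp : p ∈ PP k o Q B) (hu : u ∈ UU k o Q B) :
    p * u * p⁻¹ ∈ UU k o Q B := by
  obtain ⟨u, hu, rfl⟩ := hu
  exact ⟨(⟨p, hp⟩ : PP k o Q B) * u * (⟨p, hp⟩ : PP k o Q B)⁻¹,
    (MonoidHom.normal_ker _).conj_mem u hu _, rfl⟩

omit [Finite F] [Finite V] in
theorem lv_mem_UU {a : GL (Fin k) F} {h : Iso Q B} (hu : lv o a h ∈ UU k o Q B) :
    a = 1 ∧ h = 1 := by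
  obtain ⟨hg, ha, hb⟩ := mem_UU_iff.1 hu
  exact ⟨(pa_lv a h).symm.trans ha, (pb_lv a h).symm.trans hb⟩

omit [Finite F] [Finite V] in
theorem card_PP : Nat.card (PP k o Q B) =
    Nat.card (UU k o Q B) * (Nat.card (GL (Fin k) F) * Nat.card (Iso Q B)) := by
  have hs : Function.Surjective ((pa k o Q B).prod (pb k o Q B)) := fun p =>
    ⟨⟨lv o p.1 p.2, lv_mem _ _⟩, by simp⟩
  rw [← Nat.card_prod, UU, Subgroup.card_map_of_injective (Subgroup.subtype_injective _),
    ← Subgroup.card_mul_index ((pa k o Q B).prod (pb k o Q B)).ker, Subgroup.index_ker,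
    MonoidHom.range_eq_top.2 hs, Subgroup.card_top]

/-- if `g W₀` is opposite to `W₀`, then `g ∈ UU · sw · PP` -/
theorem exists_uu_sw (h : Pol o Q B) {g : GG k o Q B}
    (hg : ∀ a : Fin k → F, (g.1 (a, 0)).2.2 = 0 → a = 0) :
    ∃ u ∈ UU k o Q B, ∃ p ∈ PP k o Q B, g = u * sw k o Q B * p := by
  let f : (Fin k → F) →ₗ[F] (Fin k → F) :=
    LinearMap.snd F _ _ ∘ₗ LinearMap.snd F _ _ ∘ₗ g.1.toLinearMap ∘ₗ LinearMap.inl F _ _
  have hs : Function.Surjective f :=
    Finite.injective_iff_surjective.1 ((injective_iff_map_eq_zero f).2 hg)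
  choose a ha using fun i : Fin k => hs (Pi.single i 1)
  have c := uc_of (o := o) (Q := Q) (B := B) (x := fun i => g.1 (a i, 0)) ha
    (fun i => by rw [Iso.q g]; simp [hQ, h.zero]) (fun i j => by rw [Iso.b g]; simp)
  refine ⟨_, uu_mem h _ _ c, _, inv_mem (mem_PP_of (g := g⁻¹ * (uu h _ _ c * sw k o Q B))
    fun b => ?_), by group⟩
  have : (uu h _ _ c).1 (0, 0, b) = g.1 (∑ i, b i • a i, 0) := by
    have e1 : ((0, 0, b) : HV k F V) = ∑ i, b i • ((0, 0, Pi.single i 1) : HV k F V) := by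
      ext j <;> simp [Prod.fst_sum, Prod.snd_sum, Pi.single_apply]
    have e2 : ((∑ i, b i • a i, 0) : HV k F V) = ∑ i, b i • ((a i, 0) : HV k F V) := by
      ext j <;> simp [Prod.fst_sum, Prod.snd_sum]
    rw [e1, e2, map_sum, map_sum]
    refine Finset.sum_congr rfl fun i _ => ?_
    rw [map_smul, map_smul, uu_single]
    exact congrArg _ (Prod.ext rfl (Prod.ext rfl (ha i).symm))
  simp only [Iso.mul_apply, sw_apply, Prod.snd_zero, Prod.fst_zero, smul_zero, this,
    Iso.inv_apply]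

omit [Finite F] [Finite V] in
/-- the opposite unipotent radical meets `PP` trivially -/
theorem sw_conj_eq_one {u : GG k o Q B} (hu : u ∈ UU k o Q B)
    (hp : sw k o Q B * u * (sw k o Q B)⁻¹ ∈ PP k o Q B) (h : Pol o Q B) [Finite F] [Finite V] :
    u = 1 := by
  obtain ⟨y, Z, c, rfl⟩ := (mem_UU h).1 hu
  have : ∀ i, (uu h y Z c).1 (0, 0, Pi.single i 1) = (0, 0, Pi.single i 1) := fun i => by
    have h1 := (hp (ep F o • Pi.single i 1, 0)).2 rfl
    simp only [Iso.mul_apply, sw_inv_apply, Prod.snd_zero, Prod.fst_zero, smul_smul, ep_mul,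
      one_smul, sw_apply, Prod.mk_eq_zero] at h1
    exact Prod.ext h1.2 (Prod.ext h1.1 rfl)
  have hy : y = 0 := funext fun i =>
    congrArg (fun x => x.2.1) ((uu_single h y Z c i).symm.trans (this i))
  have hZ : Z = 0 := Matrix.ext fun j i =>
    congrFun (congrArg Prod.fst ((uu_single h y Z c i).symm.trans (this i))) j
  subst hy hZ
  exact Iso.ext fun x => by ext <;> simp

/-- the unipotent radical is parametrised by the pairs `(y, Z)` -/
noncomputable def uuEquiv (h : Pol o Q B) :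
    {p : (Fin k → V) × Matrix (Fin k) (Fin k) F // UC o Q B p.1 p.2} ≃ UU k o Q B :=
  Equiv.ofBijective (fun p => ⟨uu h p.1.1 p.1.2 p.2, uu_mem h _ _ _⟩)
    ⟨fun p p' e => Subtype.ext (Prod.ext_iff.2 (uu_inj h (c := p.2) (c' := p'.2)
      (congrArg Subtype.val e))), fun u => by
      obtain ⟨y, Z, c, e⟩ := (mem_UU h).1 u.2
      exact ⟨⟨(y, Z), c⟩, Subtype.ext e.symm⟩⟩

theorem uuEquiv_apply (h : Pol o Q B)
    (p : {p : (Fin k → V) × Matrix (Fin k) (Fin k) F // UC o Q B p.1 p.2}) :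
    (uuEquiv h p : GG k o Q B) = uu h p.1.1 p.1.2 p.2 := rfl

/-- the free entries of `Z` -/
abbrev Free (k : ℕ) (o : Bool) : Type :=
  {p : Fin k × Fin k // p.1 < p.2 ∨ (p.1 = p.2 ∧ o = false)}

theorem card_UC (h : Pol o Q B) (y : Fin k → V) :
    Nat.card {Z : Matrix (Fin k) (Fin k) F // UC o Q B y Z} =
      Nat.card F ^ Fintype.card (Free k o) := by
  rw [← Nat.card_eq_fintype_card, ← Nat.card_fun]
  refine Nat.card_congr (Equiv.ofBijective (fun Z p => Z.1 p.1.1 p.1.2) ⟨fun Z Z' e => ?_,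
    fun f => ?_⟩)
  · have h1 : ∀ i j, i < j → Z.1 i j = Z'.1 i j := fun i j hij =>
      congrFun e ⟨(i, j), Or.inl hij⟩
    refine Subtype.ext (Matrix.ext fun i j => ?_)
    rcases lt_trichotomy i j with hij | rfl | hij
    · exact h1 i j hij
    · cases o
      · exact congrFun e ⟨(i, i), Or.inr ⟨rfl, rfl⟩⟩
      · have := Z.2.2 i
        have := Z'.2.2 i
        simp only [dl, if_true, one_mul] at *
        grind
    · linear_combination Z.2.1 j i - Z'.2.1 j i - ep F o * h1 j i hij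
  · refine ⟨⟨Matrix.of fun i j => if hp : i < j ∨ (i = j ∧ o = false) then f ⟨(i, j), hp⟩ else
      if hl : j < i then -B (y j) (y i) - ep F o * f ⟨(j, i), Or.inl hl⟩ else -Q (y i),
      fun i j => ?_, fun i => ?_⟩, funext fun p => dif_pos p.2⟩
    · rcases lt_trichotomy i j with hij | rfl | hij
      · simp [hij, hij.not_gt, hij.ne']
        ring
      · cases o
        · simp [ep, h.self, h.sp rfl]
        · simp [ep, h.self]; ring
      · simp only [Matrix.of_apply, hij, hij.not_gt, hij.ne', true_or, false_and, or_self,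
          dif_pos, dif_neg, not_false_eq_true, h.sym (y i) (y j)]
        linear_combination (-f ⟨(j, i), Or.inl hij⟩) * ep_mul (F := F) o
    · cases o
      · simp [dl, h.sp rfl]
      · simp [dl]

theorem card_UU (h : Pol o Q B) :
    Nat.card (UU k o Q B) = Nat.card V ^ k * Nat.card F ^ Fintype.card (Free k o) := by
  rw [← Nat.card_congr (uuEquiv h), Nat.card_congr (Equiv.subtypeProdEquivSigmaSubtype
    fun (y : Fin k → V) (Z : Matrix (Fin k) (Fin k) F) => UC o Q B y Z)]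
  haveI := Fintype.ofFinite (Fin k → V)
  rw [Nat.card_sigma]
  simp only [card_UC h, Finset.sum_const, Finset.card_univ, smul_eq_mul]
  rw [← Nat.card_eq_fintype_card, Nat.card_fun, Nat.card_eq_fintype_card (α := Fin k),
    Fintype.card_fin]

theorem card_free_one (o : Bool) : Fintype.card (Free 1 o) = if o then 0 else 1 := by
  cases o <;> decide

theorem card_free_two (o : Bool) : Fintype.card (Free 2 o) = if o then 1 else 3 := by
  cases o <;> decide

end Cfsg.Agent.Dg
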