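import Cfsg.Agent.Dg.G2

/-! Witt's theorem for totally singular tuples and counting. -/

set_option autoImplicit false
set_option linter.unusedSectionVars false
set_option linter.style.haveILetI false

namespace Cfsg.Agent.Dg

open Cfsg Module Finset
open scoped Matrix

variable {F V V' : Type} [Field F] [Finite F] [AddCommGroup V] [Module F V] [Finite V]
  [AddCommGroup V'] [Module F V'] {k : ℕ} {o : Bool} {Q : V → F} {B : LinearMap.BilinForm F V}
  {Q' : V' → F} {B' : LinearMap.BilinForm F V'}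

namespace Pol

variable (h : Pol o Q B)
include h

theorem exists_perp {D : Submodule F V} {x : V} (hx : x ∉ D) :
    ∃ u, (∀ d ∈ D, B d u = 0) ∧ B x u ≠ 0 := by
  by_contra hc
  push Not at hc
  refine hx ?_
  rw [← B.orthogonal_orthogonal h.nondeg h.isRefl D]
  exact fun u hu => h.perp_comm.1 (hc u hu)

theorem exists_perp₂ {D : Submodule F V} {x y : V} (hx : x ∉ D) (hy : y ∉ D) :
    ∃ u, (∀ d ∈ D, B d u = 0) ∧ B x u ≠ 0 ∧ B y u ≠ 0 := by
  obtain ⟨u, h1, h2⟩ := h.exists_perp hx
  obtain ⟨w, h3, h4⟩ := h.exists_perp hy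
  by_cases e1 : B y u = 0
  · by_cases e2 : B x w = 0
    · exact ⟨u + w, fun d hd => by simp [h1 d hd, h3 d hd], by simpa [e2] using h2,
        by simpa [e1] using h4⟩
    · exact ⟨w, h3, e2, h4⟩
  · exact ⟨u, h1, h2, e1⟩

theorem sing_sub {w x : V} (hx : Q x = 0) (hw : B x w ≠ 0) : Q (w - (Q w / B w x) • x) = 0 := by
  have : B w x ≠ 0 := fun e => hw (h.perp_comm.1 e)
  rw [h.sub, h.smul, hx, map_smul, smul_eq_mul, div_mul_cancel₀ _ this, h.dl_mul]
  ring

/-- a singular vector perpendicular to `D` but not to `x` and `y` -/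
theorem exists_sing_perp₂ {D : Submodule F V} {x y : V} (hx : x ∉ D) (hy : y ∉ D) (qx : Q x = 0)
    (px : ∀ d ∈ D, B d x = 0) (hxy : B y x = 0) :
    ∃ z, Q z = 0 ∧ (∀ d ∈ D, B d z = 0) ∧ B x z ≠ 0 ∧ B y z ≠ 0 := by
  obtain ⟨w, h1, h2, h3⟩ := h.exists_perp₂ hx hy
  exact ⟨_, h.sing_sub qx h2, fun d hd => by simp [h1 d hd, px d hd],
    by simpa [h.self_of_sing qx] using h2, by simpa [hxy] using h3⟩

theorem qr_cond {x y : V} (e : Q x = Q y) (hb : B (x - y) x ≠ 0) :
    (B (x - y) x)⁻¹ * ((B (x - y) x)⁻¹ * Q (x - y) - dl F o) = 0 := by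
  have : Q (x - y) = dl F o * B (x - y) x := by
    rw [h.sub, map_sub, LinearMap.sub_apply, h.self, ← e]
    linear_combination -h.dl_sym x y - 2 * h.dl_mul x
  rw [this, mul_left_comm, inv_mul_cancel₀ hb]
  ring

/-- a quasi-reflection moving `x` to `y` -/
theorem exists_qr {x y : V} (e : Q x = Q y) (hb : B (x - y) x ≠ 0) :
    ∃ g : Iso Q B, g.1 x = y ∧ ∀ d, B d x = 0 → B d y = 0 → g.1 d = d :=
  ⟨h.qr (x - y) _ (h.qr_cond e hb), by rw [h.qr_apply, inv_mul_cancel₀ hb]; simp,
    fun d h1 h2 => by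
      rw [h.qr_apply, h.perp_comm.1 (show B d (x - y) = 0 by simp [h1, h2])]; simp⟩

theorem witt_step {D : Submodule F V} {x y : V} (hx : x ∉ D) (hy : y ∉ D) (qx : Q x = 0)
    (qy : Q y = 0) (px : ∀ d ∈ D, B d x = 0) (py : ∀ d ∈ D, B d y = 0) :
    ∃ g : Iso Q B, g.1 x = y ∧ ∀ d ∈ D, g.1 d = d := by
  have key : ∀ {x y : V}, Q x = 0 → Q y = 0 → (∀ d ∈ D, B d x = 0) → (∀ d ∈ D, B d y = 0) →
      B y x ≠ 0 → ∃ g : Iso Q B, g.1 x = y ∧ ∀ d ∈ D, g.1 d = d := by
    intro x y qx qy px py hb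
    obtain ⟨g, h1, h2⟩ := h.exists_qr (qx.trans qy.symm)
      (by simpa [h.self_of_sing qx] using hb)
    exact ⟨g, h1, fun d hd => h2 d (px d hd) (py d hd)⟩
  by_cases hb : B y x = 0
  · obtain ⟨z, qz, pz, h1, h2⟩ := h.exists_sing_perp₂ hx hy qx px hb
    obtain ⟨g, h3, h4⟩ := key qx qz px pz fun e => h1 (h.perp_comm.1 e)
    obtain ⟨g', h5, h6⟩ := key qz qy pz py h2
    exact ⟨g' * g, by rw [Iso.mul_apply, h3, h5],
      fun d hd => by rw [Iso.mul_apply, h4 d hd, h6 d hd]⟩
  · exact key qx qy px py hb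

end Pol

variable (Q B) in
/-- a linearly independent tuple spanning a totally singular subspace -/
structure TS (x : Fin k → V) : Prop where
  li : LinearIndependent F x
  q : ∀ i, Q (x i) = 0
  b : ∀ i j, B (x i) (x j) = 0

omit [Finite F] [Finite V] in
theorem TS.map {x : Fin k → V} (h : TS Q B x) (e : V ≃ₗ[F] V') (h1 : ∀ v, Q' (e v) = Q v)
    (h2 : ∀ u v, B' (e u) (e v) = B u v) : TS Q' B' fun i => e (x i) :=
  ⟨h.li.map' e.toLinearMap e.ker, fun i => (h1 _).trans (h.q i),
    fun i j => (h2 _ _).trans (h.b i j)⟩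

omit [Finite F] [Finite V] in
theorem ts_snoc (h : Pol o Q B) {x : Fin k → V} {v : V} : TS Q B (Fin.snoc x v : Fin (k + 1) → V) ↔
    TS Q B x ∧ Q v = 0 ∧ (∀ i, B (x i) v = 0) ∧ v ∉ Submodule.span F (Set.range x) := by
  constructor
  · rintro ⟨h1, h2, h3⟩
    rw [linearIndependent_finSnoc] at h1
    exact ⟨⟨h1.1, fun i => by simpa using h2 i.castSucc,
      fun i j => by simpa using h3 i.castSucc j.castSucc⟩, by simpa using h2 (Fin.last k),
      fun i => by simpa using h3 i.castSucc (Fin.last k), h1.2⟩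
  · rintro ⟨h1, h2, h3, h4⟩
    refine ⟨linearIndependent_finSnoc.2 ⟨h1.li, h4⟩, fun i => ?_, fun i j => ?_⟩
    · induction i using Fin.lastCases <;> simp [h2, h1.q]
    · induction i using Fin.lastCases <;> induction j using Fin.lastCases <;>
        simp [h.self_of_sing h2, h1.b, h3, h.perp_comm.1 (h3 _)]

/-- Witt's theorem for totally singular tuples -/
theorem witt (h : Pol o Q B) {x y : Fin k → V} (hx : TS Q B x) (hy : TS Q B y) :
    ∃ g : Iso Q B, ∀ i, g.1 (x i) = y i := by
  induction k with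
  | zero => exact ⟨1, fun i => i.elim0⟩
  | succ k ih =>
    rw [← Fin.snoc_init_self x] at hx
    rw [← Fin.snoc_init_self y] at hy
    obtain ⟨g, hg⟩ := ih ((ts_snoc h).1 hx).1 ((ts_snoc h).1 hy).1
    have hx' := hx.map g.1 (Iso.q g) (Iso.b g)
    rw [show (fun i => g.1 ((Fin.snoc (Fin.init x) (x (Fin.last k)) : Fin (k + 1) → V) i)) =
      Fin.snoc (Fin.init y) (g.1 (x (Fin.last k))) from funext fun i => by
        induction i using Fin.lastCases
        · simp
        · simp only [Fin.snoc_castSucc, hg]] at hx'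
    obtain ⟨-, a1, a2, a3⟩ := (ts_snoc h).1 hx'
    obtain ⟨-, b1, b2, b3⟩ := (ts_snoc h).1 hy
    have sp : ∀ {v : V}, (∀ i, B (Fin.init y i) v = 0) →
        ∀ d ∈ Submodule.span F (Set.range (Fin.init y)), B d v = 0 := fun {v} hv d hd =>
      (Submodule.span_le.2 (by rintro _ ⟨i, rfl⟩; exact hv i) :
        _ ≤ LinearMap.ker (B.flip v)) hd
    obtain ⟨g', h1, h2⟩ := h.witt_step a3 b3 a1 b1 (sp a2) (sp b2)
    refine ⟨g' * g, fun i => ?_⟩
    induction i using Fin.lastCases with
    | last => exact h1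
    | cast i => exact (congrArg g'.1 (hg i)).trans (h2 _ (Submodule.subset_span ⟨i, rfl⟩))

theorem witt_one (h : Pol o Q B) {x y : V} (hx : x ≠ 0) (hy : y ≠ 0) (qx : Q x = 0)
    (qy : Q y = 0) : ∃ g : Iso Q B, g.1 x = y :=
  (h.witt_step (D := ⊥) hx hy qx qy (by simp) (by simp)).imp fun _ h => h.1

variable (k F V) in
/-- the standard totally singular tuple -/
def std (i : Fin k) : HV k F V := (Pi.single i 1, 0)

omit [Finite F] [Finite V] in
theorem mem_span_std {x : HV k F V} :
    x ∈ Submodule.span F (Set.range (std F V k)) ↔ x.2 = 0 := by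
  refine ⟨fun hx => (Submodule.span_le.2 (by rintro _ ⟨i, rfl⟩; rfl) :
    _ ≤ LinearMap.ker (LinearMap.snd F _ _)) hx, fun hx => ?_⟩
  have : x = ∑ i, x.1 i • std F V k i := by
    refine Prod.ext ?_ ?_
    · ext j; simp [std, Prod.fst_sum, Pi.single_apply]
    · simp [std, Prod.snd_sum, hx]
  rw [this]
  exact Submodule.sum_mem _ fun i _ => Submodule.smul_mem _ _ (Submodule.subset_span ⟨i, rfl⟩)

omit [Finite F] [Finite V] in
theorem ts_std (h : Pol o Q B) : TS (hQ k o Q) (hB k o B) (std F V k) :=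
  ⟨LinearIndependent.of_comp (LinearMap.fst F _ _) (Pi.linearIndependent_single_one (Fin k) F),
    fun i => by simp [std, hQ, h.zero], fun i j => by simp [std]⟩

/-- a totally singular tuple can be moved to the standard position -/
theorem Ty.exists_std {d m : ℕ} (T : Ty o d (m + k) Q B) {x : Fin k → V} (hx : TS Q B x) :
    ∃ (V' : Type) (_ : AddCommGroup V') (_ : Module F V') (_ : Finite V') (Q' : V' → F)
      (B' : LinearMap.BilinForm F V'), Ty o d m Q' B' ∧ ∃ e : V ≃ₗ[F] HV k F V',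
        (∀ v, hQ k o Q' (e v) = Q v) ∧ (∀ u v, hB k o B' (e u) (e v) = B u v) ∧
          ∀ i, e (x i) = std F V' k i := by
  obtain ⟨V', _, _, _, Q', B', T', e, h1, h2⟩ := T.split
  obtain ⟨g, hg⟩ := witt T'.pol.hv (hx.map e h1 h2) (ts_std T'.pol)
  exact ⟨V', _, _, inferInstance, Q', B', T', e.trans g.1, fun v => (Iso.q g _).trans (h1 v),
    fun u v => (Iso.b g _ _).trans (h2 u v), hg⟩

open Classical in
theorem card_mul_eq (c : F) : Nat.card {p : F × F // p.1 * p.2 = c} =
    if c = 0 then 2 * Nat.card F - 1 else Nat.card F - 1 := by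
  haveI := Fintype.ofFinite F
  rw [Nat.card_congr (Equiv.subtypeProdEquivSigmaSubtype fun a b : F => a * b = c),
    Nat.card_sigma, ← add_sum_erase _ _ (mem_univ 0), sum_congr rfl (g := fun _ => 1)
      fun a ha => by
        have ha := ne_of_mem_erase ha
        rw [Nat.card_eq_one_iff_exists]
        exact ⟨⟨a⁻¹ * c, mul_inv_cancel_left₀ ha c⟩, fun b => Subtype.ext
          ((eq_inv_mul_iff_mul_eq₀ ha).2 b.2)⟩]
  have := Finite.one_lt_card (α := F)
  split_ifs with hc
  · simp [hc, card_erase_of_mem, ← Nat.card_eq_fintype_card]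
    omega
  · simp [Ne.symm hc, card_erase_of_mem, ← Nat.card_eq_fintype_card]

theorem card_sing_hv : Nat.card {x : HV 1 F V // hQ 1 true Q x = 0} =
    Nat.card F * Nat.card {v // Q v = 0} + (Nat.card F - 1) * Nat.card V := by
  classical
  haveI := Fintype.ofFinite V
  have e : {x : HV 1 F V // hQ 1 true Q x = 0} ≃ Σ v : V, {p : F × F // p.1 * p.2 = -Q v} :=
    { toFun x := ⟨x.1.2.1, (x.1.1 0, x.1.2.2 0), by
        have := x.2
        simp only [hQ, dl, if_true, one_mul, dotProduct, Fin.sum_univ_one] at this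
        exact eq_neg_of_add_eq_zero_left this⟩
      invFun p := ⟨(fun _ => p.2.1.1, p.1, fun _ => p.2.1.2), by
        simp [hQ, dl, dotProduct, p.2.2]⟩
      left_inv x := Subtype.ext (Prod.ext (funext fun i => by rw [Subsingleton.elim i 0])
        (Prod.ext rfl (funext fun i => by rw [Subsingleton.elim i 0])))
      right_inv _ := rfl }
  have := Finite.one_lt_card (α := F)
  rw [Nat.card_congr e, Nat.card_sigma, sum_congr rfl
    (g := fun v => (if Q v = 0 then Nat.card F else 0) + (Nat.card F - 1)) fun v _ => by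
      rw [card_mul_eq]
      simp only [neg_eq_zero]
      split_ifs <;> omega]
  rw [sum_add_distrib, ← sum_filter, sum_const, sum_const, card_univ, smul_eq_mul, smul_eq_mul,
    Nat.card_eq_fintype_card (α := V), Nat.card_eq_fintype_card (α := {v // Q v = 0}),
    Fintype.card_subtype, mul_comm, mul_comm (Fintype.card V)]

theorem NN_succ {q : ℕ} (hq : 1 ≤ q) (d n : ℕ) :
    NN q d (n + 1) + 1 = q * (NN q d n + 1) + (q - 1) * q ^ (2 * n + d) := by
  have h1 : ∀ i, 1 ≤ q ^ i := fun i => Nat.one_le_pow _ _ hq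
  rcases n with _ | n
  · simp only [NN, zero_add, pow_one, Nat.sub_self, pow_zero, zero_mul, mul_zero, mul_one]
    zify [hq]
    ring
  · simp only [NN, Nat.add_sub_cancel]
    zify [hq, h1]
    ring

theorem card_sing {d n : ℕ} (T : Ty o d n Q B) :
    Nat.card {v // Q v = 0} = NN (Nat.card F) (ee o d) n + 1 := by
  have hq : 1 ≤ Nat.card F := Nat.card_pos
  cases o
  · rw [Nat.card_congr (Equiv.subtypeUnivEquiv (T.pol.sp rfl)), T.card_eq, T.d_eq_zero]
    rcases n with _ | n
    · simp [NN]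
    · have h1 : 1 ≤ Nat.card F ^ (n + 1) := Nat.one_le_pow _ _ hq
      simp only [NN, ee, Nat.add_sub_cancel, Bool.false_eq_true, if_false]
      zify [h1]
      ring
  · induction n generalizing V with
    | zero =>
      rw [NN, pow_zero, Nat.sub_self, zero_mul, zero_add, Nat.card_eq_one_iff_exists]
      exact ⟨⟨0, T.pol.zero⟩, fun v => Subtype.ext (T.aniso _ v.2)⟩
    | succ n ih =>
      obtain ⟨V', _, _, _, Q', B', T', e⟩ := T.split
      rw [e.card_sing, card_sing_hv, ih T', T'.card_eq, NN_succ hq]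
      rfl

/-- the number of extensions of a totally singular tuple -/
theorem card_ext {d m : ℕ} (T : Ty o d (m + k) Q B) {x : Fin k → V} (hx : TS Q B x) :
    Nat.card {v // Q v = 0 ∧ (∀ i, B (x i) v = 0) ∧ v ∉ Submodule.span F (Set.range x)} =
      Nat.card F ^ k * NN (Nat.card F) (ee o d) m := by
  classical
  obtain ⟨V', _, _, _, Q', B', T', e, h1, h2, h3⟩ := T.exists_std hx
  have e1 : {v // Q v = 0 ∧ (∀ i, B (x i) v = 0) ∧ v ∉ Submodule.span F (Set.range x)} ≃
      {v : HV k F V' // v.2.2 = 0 ∧ Q' v.2.1 = 0 ∧ v.2.1 ≠ 0} :=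
    e.toEquiv.subtypeEquiv fun v => by
      have a1 : (∀ i, B (x i) v = 0) ↔ (e v).2.2 = 0 := by
        simp [← h2, h3, std, funext_iff]
      have a2 : v ∈ Submodule.span F (Set.range x) ↔ (e v).2 = 0 := by
        rw [← mem_span_std, show std F V' k = e ∘ x from funext fun i => (h3 i).symm,
          Set.range_comp, ← LinearEquiv.coe_coe, ← Submodule.map_span]
        simp
      rw [a1, a2, ← h1]
      by_cases a3 : (e v).2.2 = 0 <;> simp [hQ, a3, Prod.ext_iff]
  have e2 : {v : HV k F V' // v.2.2 = 0 ∧ Q' v.2.1 = 0 ∧ v.2.1 ≠ 0} ≃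
      (Fin k → F) × {w : {v // Q' v = 0} // w ≠ ⟨0, T'.pol.zero⟩} :=
    { toFun v := (v.1.1, ⟨⟨v.1.2.1, v.2.2.1⟩, fun e => v.2.2.2 (congrArg Subtype.val e)⟩)
      invFun p := ⟨(p.1, p.2.1.1, 0), rfl, p.2.1.2, fun e => p.2.2 (Subtype.ext e)⟩
      left_inv v := Subtype.ext (Prod.ext rfl (Prod.ext rfl v.2.1.symm))
      right_inv _ := rfl }
  haveI := Fintype.ofFinite {v // Q' v = 0}
  rw [Nat.card_congr (e1.trans e2), Nat.card_prod, Nat.card_fun, Nat.card_eq_fintype_card
    (α := Fin k), Fintype.card_fin, Nat.card_eq_fintype_card (α := {w // w ≠ _}),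
    Fintype.card_subtype_compl, Fintype.card_subtype_eq, ← Nat.card_eq_fintype_card, card_sing T',
    Nat.add_sub_cancel]

theorem card_TS {d n : ℕ} (T : Ty o d n Q B) (hk : k ≤ n) : Nat.card {x : Fin k → V // TS Q B x} =
    ∏ j ∈ range k, Nat.card F ^ j * NN (Nat.card F) (ee o d) (n - j) := by
  induction k with
  | zero =>
    rw [prod_range_zero, Nat.card_eq_one_iff_exists]
    exact ⟨⟨0, linearIndependent_empty_type, fun i => i.elim0, fun i => i.elim0⟩,
      fun x => Subtype.ext (Subsingleton.elim _ _)⟩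
  | succ k ih =>
    have e : {x : Fin (k + 1) → V // TS Q B x} ≃ Σ x : {x : Fin k → V // TS Q B x},
        {v // Q v = 0 ∧ (∀ i, B (x.1 i) v = 0) ∧ v ∉ Submodule.span F (Set.range x.1)} :=
      { toFun x := ⟨⟨Fin.init x.1,
            ((ts_snoc T.pol (v := x.1 (Fin.last k))).1 (by simpa using x.2)).1⟩,
          x.1 (Fin.last k), ((ts_snoc T.pol (x := Fin.init x.1)).1 (by simpa using x.2)).2⟩
        invFun p := ⟨Fin.snoc p.1.1 p.2.1, (ts_snoc T.pol).2 ⟨p.1.2, p.2.2⟩⟩
        left_inv x := Subtype.ext (Fin.snoc_init_self _)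
        right_inv p := by
          refine Sigma.ext (Subtype.ext (by simp)) ((Subtype.heq_iff_coe_eq ?_).2 ?_)
          · simp
          · simp }
    haveI := Fintype.ofFinite {x : Fin k → V // TS Q B x}
    obtain ⟨m, rfl⟩ : ∃ m, n = m + k := ⟨n - k, by omega⟩
    rw [Nat.card_congr e, Nat.card_sigma, sum_congr rfl fun x _ => card_ext T x.2, sum_const,
      card_univ, ← Nat.card_eq_fintype_card, ih (by omega), prod_range_succ, Nat.add_sub_cancel,
      smul_eq_mul]

theorem index_ker_pa (h : Pol o Q B) :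
    ((pa k o Q B).ker.map (PP k o Q B).subtype).index =
      Nat.card {x : Fin k → HV k F V // TS (hQ k o Q) (hB k o B) x} := by
  letI : MulAction (GG k o Q B) {x : Fin k → HV k F V // TS (hQ k o Q) (hB k o B) x} :=
    { smul g x := ⟨fun i => g.1 (x.1 i), x.2.map g.1 (Iso.q g) (Iso.b g)⟩
      one_smul _ := rfl
      mul_smul _ _ _ := rfl }
  haveI : MulAction.IsPretransitive (GG k o Q B)
      {x : Fin k → HV k F V // TS (hQ k o Q) (hB k o B) x} :=
    ⟨fun x y => (witt h.hv x.2 y.2).imp fun g hg => Subtype.ext (funext hg)⟩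
  rw [← MulAction.index_stabilizer_of_transitive (GG k o Q B) ⟨std F V k, ts_std h⟩]
  congr 1
  ext g
  have lin : (∀ i, g.1 (std F V k i) = std F V k i) → ∀ a : Fin k → F, g.1 (a, 0) = (a, 0) :=
    fun hg a => LinearMap.eqOn_span (f := g.1.toLinearMap) (g := LinearMap.id)
      (s := Set.range (std F V k)) (by rintro _ ⟨i, rfl⟩; exact hg i) (mem_span_std.2 rfl)
  constructor
  · rintro ⟨p, hp, rfl⟩
    refine Subtype.ext (funext fun i => (pa_apply p _).trans ?_)
    rw [MonoidHom.mem_ker.1 hp, Units.val_one, Matrix.one_mulVec]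
    rfl
  · intro hg
    have := lin (congrFun (congrArg Subtype.val hg))
    exact ⟨⟨g, mem_PP_of fun a => by rw [this]⟩, pa_eq fun a => by simp [this], rfl⟩

theorem card_GL (k : ℕ) : Nat.card (GL (Fin k) F) =
    (∏ j ∈ range k, Nat.card F ^ j) * ∏ i ∈ Ico 1 (k + 1), (Nat.card F ^ i - 1) := by
  haveI := Fintype.ofFinite F
  rw [Matrix.card_GL_field, Fin.prod_univ_eq_prod_range (fun i => Fintype.card F ^ k -
    Fintype.card F ^ i), prod_Ico_eq_prod_range, Nat.add_sub_cancel, ← prod_range_reflect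
    (fun i => Nat.card F ^ (1 + i) - 1), ← prod_mul_distrib, Nat.card_eq_fintype_card]
  refine prod_congr rfl fun j hj => ?_
  have := mem_range.1 hj
  rw [Nat.mul_sub, ← pow_add, mul_one, show j + (1 + (k - 1 - j)) = k by omega]

theorem index_PP {d m : ℕ} (T : Ty o d m Q B) :
    (PP k o Q B).index * ∏ i ∈ Ico 1 (k + 1), (Nat.card F ^ i - 1) =
      ∏ i ∈ Ioc m (m + k), NN (Nat.card F) (ee o d) i := by
  have h1 := index_ker_pa (k := k) T.pol
  have hs : Function.Surjective (pa k o Q B) := fun a => ⟨⟨lv o a 1, lv_mem _ _⟩, by simp⟩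
  rw [card_TS T.hv (by omega), ← Subgroup.relIndex_mul_index (Subgroup.map_subtype_le _),
    Subgroup.relIndex, Subgroup.subgroupOf, Subgroup.comap_map_eq_self_of_injective
      (Subgroup.subtype_injective _), Subgroup.index_ker, MonoidHom.range_eq_top.2 hs,
    Subgroup.card_top, card_GL, prod_mul_distrib, mul_assoc] at h1
  have h2 := Nat.eq_of_mul_eq_mul_left (prod_pos fun j _ => pow_pos Nat.card_pos j) h1
  rw [mul_comm, h2, ← Ico_add_one_add_one_eq_Ioc, prod_Ico_eq_prod_range, ← prod_range_reflect,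
    show m + k + 1 - (m + 1) = k by omega]
  refine prod_congr rfl fun j hj => ?_
  have := mem_range.1 hj
  congr 1
  omega

theorem prod_pos_q (k : ℕ) : 0 < ∏ i ∈ Ico 1 (k + 1), (Nat.card F ^ i - 1) :=
  prod_pos fun i hi => Nat.sub_pos_of_lt
    (Nat.one_lt_pow (by have := (mem_Ico.1 hi).1; omega) Finite.one_lt_card)

theorem card_GG_one {d m : ℕ} (T : Ty o d m Q B) : Nat.card (GG 1 o Q B) =
    NN (Nat.card F) (ee o d) (m + 1) * (Nat.card (UU 1 o Q B) * Nat.card (Iso Q B)) := by
  have h1 := index_PP (k := 1) T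
  rw [← Subgroup.index_mul_card (PP 1 o Q B), card_PP, card_GL, Nat.Ioc_succ_singleton,
    prod_singleton] at *
  rw [← h1]
  simp
  ring

theorem aniso_prime (h : Pol o Q B) (h0 : ∀ v, Q v = 0 → v = 0) (hd : finrank F V ≤ 2) {r : ℕ}
    (hr : r.Prime) (hdiv : r ∣ Nat.card (Iso Q B)) :
    r ∣ Nat.card F ∨ r = 2 ∨ (finrank F V = 2 ∧ r ∣ Nat.card F + 1) := by
  classical
  haveI := Fact.mk hr
  obtain ⟨g, hg⟩ := exists_prime_orderOf_dvd_card' r hdiv
  have hg1 : g ≠ 1 := fun e => hr.one_lt.ne' (by rw [← hg, e, orderOf_one])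
  have hgr : g ^ r = 1 := hg ▸ pow_orderOf_eq_one g
  by_contra hc
  push Not at hc
  obtain ⟨c1, c2, c3⟩ := hc
  have one : ∀ a : F, a * a = 1 → a ^ r = 1 → a = 1 := fun a h1 h2 => by
    obtain ⟨s, hs⟩ := hr.odd_of_ne_two c2
    rwa [hs, pow_succ, pow_mul, sq, h1, one_pow, one_mul] at h2
  have pw : ∀ (n : ℕ) (v : V), (g ^ (n + 1)).1 v = g.1 ((g ^ n).1 v) := fun n v => by
    rw [pow_succ', Iso.mul_apply]
  have fix : ∀ (v : V) (a : F), v ≠ 0 → g.1 v = a • v → g.1 v = v := by
    intro v a hv e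
    have h1 : ∀ n : ℕ, (g ^ n).1 v = a ^ n • v := fun n => by
      induction n with
      | zero => simp
      | succ n ih => rw [pw, ih, map_smul, e, smul_smul, pow_succ]
    have h2 : a ^ r = 1 := smul_left_injective F hv (by
      have := h1 r
      rw [hgr] at this
      simpa using this.symm)
    have h3 := Iso.q g v
    rw [e, h.smul] at h3
    rw [e, one a (mul_right_cancel₀ (fun e' => hv (h0 v e')) (h3.trans (one_mul _).symm)) h2,
      one_smul]
  by_cases h2 : finrank F V = 2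
  · have hp : IsPGroup r (Subgroup.zpowers g) := IsPGroup.of_card (n := 1) (by
      rw [Nat.card_zpowers, hg, pow_one])
    obtain ⟨p, hp⟩ := hp.nonempty_fixed_point_of_prime_not_dvd_card (Projectivization F V)
      (by rw [Projectivization.card_of_finrank_two F V h2]; exact c3 h2)
    have := hp ⟨g, Subgroup.mem_zpowers g⟩
    rw [← p.mk_rep] at this
    obtain ⟨a, ha⟩ := (Projectivization.mk_eq_mk_iff' F _ _ _ _).1
      ((Projectivization.smul_mk g.1 p.rep_nonzero).symm.trans this)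
    have hv := p.rep_nonzero
    have e1 : g.1 p.rep = p.rep := fix _ a hv ha.symm
    generalize p.rep = v at hv e1
    obtain ⟨u, hu⟩ := exists_linearIndependent_pair_of_one_lt_finrank (R := F) (by omega) hv
    have sp : ∀ w : V, ∃ a b : F, a • v + b • u = w := fun w => Submodule.mem_span_pair.1 (by
      have := hu.span_eq_top_of_card_eq_finrank' (by simp [h2])
      rw [Matrix.range_cons_cons_empty] at this
      simp [this])
    obtain ⟨b, a, e2⟩ := sp (g.1 u)
    have gram : B u u * B v v - B u v * B v u ≠ 0 := fun e => by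
      have h3 : B v v • u - B u v • v = 0 := h.nd _ fun w => by
        obtain ⟨s, t, rfl⟩ := sp w
        simp only [map_sub, map_smul, map_add, LinearMap.sub_apply, LinearMap.smul_apply,
          smul_eq_mul]
        linear_combination t * e
      have h4 := (LinearIndependent.pair_iff.1 hu) (-B u v) (B v v) (by
        rw [← h3, neg_smul]; abel)
      exact hv (h.nd' _ fun w => by
        obtain ⟨s, t, rfl⟩ := sp w
        simp [h4.2, neg_eq_zero.1 h4.1])
    have a2 : a * a = 1 := by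
      have b1 := Iso.b g u u
      have b2 := Iso.b g u v
      have b3 := Iso.b g v u
      rw [← e2, e1] at *
      simp only [map_add, map_smul, LinearMap.add_apply, LinearMap.smul_apply, smul_eq_mul]
        at b1 b2 b3
      refine mul_right_cancel₀ gram ?_
      linear_combination B v v * b1 - (b * B v v + a * B v u) * b2 - B u v * b3
    have h5 : ∀ n : ℕ, ∃ c : F, (g ^ n).1 u = c • v + a ^ n • u ∧ (a = 1 → c = n * b) := fun n => by
      induction n with
      | zero => exact ⟨0, by simp, by simp⟩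
      | succ n ih =>
        obtain ⟨c, h6, h7⟩ := ih
        refine ⟨c + a ^ n * b, ?_, fun e => by rw [h7 e, e]; push_cast; ring⟩
        rw [pw, h6, map_add, map_smul, map_smul, e1, ← e2, pow_succ]
        module
    obtain ⟨c, h6, h7⟩ := h5 r
    rw [hgr] at h6
    have h8 := (LinearIndependent.pair_iff.1 hu) c (a ^ r - 1) (by
      rw [sub_smul, one_smul, ← add_sub_assoc, ← h6]; simp)
    have a1 := one a a2 (sub_eq_zero.1 h8.2)
    have h9 : (r : F) ≠ 0 := fun e => c1 (by
      haveI := Fintype.ofFinite F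
      obtain ⟨n, hn, h10⟩ := FiniteField.card F (ringChar F)
      rw [Nat.card_eq_fintype_card, h10,
        ← (Nat.prime_dvd_prime_iff_eq hn hr).1 ((ringChar.spec F r).1 e)]
      exact dvd_pow_self _ n.ne_zero)
    have b0 : b = 0 := (mul_eq_zero.1 ((h7 a1).symm.trans h8.1)).resolve_left h9
    refine hg1 (Iso.ext fun w => ?_)
    obtain ⟨s, t, rfl⟩ := sp w
    rw [map_add, map_smul, map_smul, e1, ← e2, a1, b0]
    simp
  · refine hg1 (Iso.ext fun w => ?_)
    by_cases hw : w = 0
    · simp [hw]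
    · obtain ⟨a, ha⟩ := (finrank_eq_one_iff_of_nonzero' (K := F) w hw).1 (by
        have := (finrank_pos_iff_exists_ne_zero (R := F)).2 (⟨w, hw⟩ : ∃ x : V, x ≠ 0)
        omega) (g.1 w)
      exact fix w a hw ha.symm

theorem prime_card {d n : ℕ} (T : Ty o d n Q B) (hd : d ≤ 2) {r : ℕ} (hr : r.Prime)
    (hdiv : r ∣ Nat.card (Iso Q B)) : r ∣ Nat.card F ∨ r = 2 ∨
      (∃ i ∈ Icc 1 n, r ∣ NN (Nat.card F) (ee o d) i) ∨ (d = 2 ∧ r ∣ Nat.card F + 1) := by
  induction n generalizing V with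
  | zero =>
    have e : finrank F V = d := by simpa using T.finrank_eq
    rcases aniso_prime T.pol T.aniso (e ▸ hd) hr hdiv with h | h | h
    exacts [.inl h, .inr (.inl h), .inr (.inr (.inr (e ▸ h)))]
  | succ n ih =>
    obtain ⟨V', _, _, _, Q', B', T', e⟩ := T.split
    rw [e.card_iso, card_GG_one T', card_UU T'.pol, T'.card_eq, ← pow_mul, ← pow_add] at hdiv
    rcases (Nat.Prime.dvd_mul hr).1 hdiv with h | h
    · exact .inr (.inr (.inl ⟨n + 1, by simp, h⟩))
    rcases (Nat.Prime.dvd_mul hr).1 h with h | h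
    · exact .inl (hr.dvd_of_dvd_pow h)
    rcases ih T' h with h | h | ⟨i, hi, h⟩ | h
    exacts [.inl h, .inr (.inl h), .inr (.inr (.inl ⟨i, by simp at hi ⊢; omega, h⟩)),
      .inr (.inr (.inr h))]

end Cfsg.Agent.Dg
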