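import Cfsg.Agent.Dg.I
import Cfsg.Agent.H4.IndRep
import Cfsg.Agent.H3.Orth

/-! The parameter of a two dimensional Hecke algebra (slice HK of `S4984`). -/

set_option autoImplicit false

namespace Cfsg.Agent.Dg

open Cfsg Cfsg.Agent.H3 Cfsg.Agent.H4 Module
open scoped ComplexConjugate

section Orth
variable {P : Type*} [Group P] [Fintype P]

theorem hk_go_irr {ξ χ : P → ℂ} (hξ : IsIrrCharacter P ξ) (hχ : IsIrrCharacter P χ) (y : P) :
    (∑ p, ξ p⁻¹ * χ (p * y)) * ξ 1 = classInner χ ξ * Nat.card P * ξ y := by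
  have h1 := hχ.apply_one_ne_zero
  have hs : ∑ p, ξ p⁻¹ * χ p = classInner χ ξ * Nat.card P := by
    rw [classInner, mul_right_comm, inv_mul_cancel₀ natCard_ne_zero, one_mul]
    exact Finset.sum_congr rfl fun p _ => by rw [hξ.apply_inv, mul_comm]
  obtain ⟨n, ρ, hρ, rfl⟩ := id hχ
  have h := congrArg (fun T => LinearMap.trace ℂ _ (T * ρ y))
    (sum_smul_rho_eq_smul_id ρ hξ.isClassFunction.comp_inv)
  simp only [Finset.sum_mul, smul_mul_assoc, map_sum, map_smul, smul_eq_mul, ← map_mul, hs] at h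
  have h2 : ∑ p, ξ p⁻¹ * ρ.character (p * y) =
    classInner ρ.character ξ * Nat.card P / ρ.character 1 * ρ.character y := h
  rw [h2]
  by_cases h0 : classInner ρ.character ξ = 0
  · simp [h0]
  · rw [← hχ.eq_of_classInner_ne_zero hξ h0]; field_simp

/-- generalized orthogonality -/
theorem hk_go {ξ φ : P → ℂ} (hξ : IsIrrCharacter P ξ) (hφ : IsCharacter P φ) (y : P) :
    (∑ p, ξ p⁻¹ * φ (p * y)) * ξ 1 = classInner φ ξ * Nat.card P * ξ y := by
  refine hφ.induction_on (P := fun φ => (∑ p, ξ p⁻¹ * φ (p * y)) * ξ 1 = classInner φ ξ * Nat.card P * ξ y)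
    (by simp [classInner_zero_left]) fun χ ψ hχ _ ih => ?_
  rw [classInner_add_left, add_mul, add_mul, ← ih, ← hk_go_irr hξ hχ, ← add_mul, ← Finset.sum_add_distrib]
  simp only [Pi.add_apply, mul_add]

omit [Fintype P] in
/-- Schur's lemma for a constituent of multiplicity at most one -/
theorem hk_schur [Finite P] {V : Type*} [AddCommGroup V] [Module ℂ V] [FiniteDimensional ℂ V]
    (ρ : Representation ℂ P V) {ξ : P → ℂ} (hξ : IsIrrCharacter P ξ) {E A : Module.End ℂ V} (hE : E * E = E)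
    (hc : ∀ p, ρ p * E = E * ρ p) (hA : ∀ p, ρ p * A = A * ρ p) (h1 : E * A = A) (h2 : A * E = A) {m : ℕ}
    (hm : m ≤ 1) (ht : ∀ p, LinearMap.trace ℂ V (ρ p * E) = m * ξ p) : ∃ c : ℂ, A = c • E := by
  have hE' : ∀ v ∈ LinearMap.range E, E v = v := by
    rintro _ ⟨v, rfl⟩; exact LinearMap.congr_fun hE v
  let W : Subrepresentation ρ := ⟨LinearMap.range E, by
    rintro g _ ⟨v, rfl⟩; exact ⟨ρ g v, (LinearMap.congr_fun (hc g) v).symm⟩⟩
  have hW : ∀ p, W.toRepresentation.character p = m * ξ p := fun p => by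
    rw [← ht, ← LinearMap.trace_restrict_eq_of_forall_mem (LinearMap.range E) (ρ p * E)
      fun v => ⟨ρ p v, (LinearMap.congr_fun (hc p) v).symm⟩]
    refine congrArg _ (LinearMap.ext fun v => Subtype.ext ?_)
    exact congrArg (ρ p) (hE' v.1 v.2).symm
  have hAW : ∀ v, A v ∈ LinearMap.range E := fun v => ⟨A v, LinearMap.congr_fun h1 v⟩
  obtain rfl | rfl : m = 0 ∨ m = 1 := by omega
  · have h0 := hW 1
    rw [Representation.char_one, Nat.cast_zero, zero_mul, Nat.cast_eq_zero, Submodule.finrank_eq_zero] at h0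
    have : E = 0 := LinearMap.range_eq_bot.1 h0
    exact ⟨0, by rw [← h1, this, zero_mul, smul_zero]⟩
  · have := isIrreducible_of_isIrrCharacter W.toRepresentation
      (by rw [show W.toRepresentation.character = ξ from funext fun p => by rw [hW]; simp]; exact hξ)
    obtain ⟨c, hc'⟩ := exists_eq_smul_id_of_comm W.toRepresentation
      (A.restrict (p := LinearMap.range E) (q := LinearMap.range E) fun v _ => hAW v)
      fun g v => Subtype.ext (LinearMap.congr_fun (hA g) v.1).symm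
    refine ⟨c, LinearMap.ext fun v => ?_⟩
    have := congrArg Subtype.val (LinearMap.congr_fun hc' ⟨E v, v, rfl⟩)
    exact (LinearMap.congr_fun h2 v).symm.trans this

end Orth

/-- two weighted points with prescribed moments -/
theorem hk_two {ι : Type*} [Fintype ι] {n : ι → ℕ} (hn : ∑ i, n i ^ 2 ≤ 2) (d ν : ι → ℂ) {D u μ₁ μ₂ : ℂ}
    (hD : D ≠ 0) (hu : u ≠ 0) (hμ : μ₁ ≠ μ₂) (hp : μ₁ * μ₂ = -u) (h0 : ∑ i, n i * d i = D)
    (h1 : ∑ i, n i * d i * ν i = 0) (h2 : ∑ i, n i * d i * ν i ^ 2 = u * D)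
    (h3 : ∑ i, n i * d i * ν i ^ 3 = u * D * (μ₁ + μ₂)) : ∃ i, n i ≠ 0 ∧ d i * (μ₁ - μ₂) = D * μ₁ := by
  classical
  set s := Finset.univ.filter fun i => n i ≠ 0 with hs
  have key : ∀ g : ι → ℂ, ∑ i, n i * d i * g i = ∑ i ∈ s, d i * g i := fun g => by
    rw [hs, Finset.sum_filter]
    refine Finset.sum_congr rfl fun i _ => ?_
    have : n i ^ 2 ≤ 2 := (Finset.single_le_sum (f := fun i => n i ^ 2) (fun _ _ => Nat.zero_le _)
      (Finset.mem_univ i)).trans hn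
    obtain h | h : n i = 0 ∨ n i = 1 := by
      by_contra h
      have : 2 ≤ n i := by omega
      nlinarith
    all_goals simp [h]
  have hc : s.card ≤ 2 := by
    refine le_trans ?_ hn
    rw [Finset.card_eq_sum_ones, hs, Finset.sum_filter]
    refine Finset.sum_le_sum fun i _ => ?_
    split_ifs with h
    · exact Nat.one_le_pow _ _ (Nat.pos_of_ne_zero h)
    · exact Nat.zero_le _
  have h0' := key 1
  simp only [Pi.one_apply, mul_one, h0] at h0'
  rw [key] at h1 h2 h3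
  have huD := mul_ne_zero hu hD
  obtain h | h | h : s.card = 0 ∨ s.card = 1 ∨ s.card = 2 := by omega
  · rw [Finset.card_eq_zero.1 h] at h0'
    exact absurd (h0'.trans Finset.sum_empty) hD
  · obtain ⟨i, hi⟩ := Finset.card_eq_one.1 h
    rw [hi, Finset.sum_singleton] at h1 h2
    exact absurd (by linear_combination ν i * h1 - h2) huD
  · obtain ⟨i, j, hij, hi⟩ := Finset.card_eq_two.1 h
    have hm : ∀ k, k = i ∨ k = j → n k ≠ 0 := fun k hk => by
      have : k ∈ s := by rw [hi]; simpa using hk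
      exact (Finset.mem_filter.1 this).2
    rw [hi, Finset.sum_pair hij] at h0' h1 h2 h3
    have hne : ν i - ν j ≠ 0 := fun h => by
      have h5 : D * ν i = 0 := by linear_combination ν i * h0' + h1 + d j * h
      have h6 : ν i = 0 := (mul_eq_zero.1 h5).resolve_left hD
      exact huD (by linear_combination -h2 + (d i + d j) * ν i * h6 - d j * (ν i + ν j) * h)
    have hdi : d i ≠ 0 := fun h => huD (by
      linear_combination -h2 + ν j * h1 + (ν i ^ 2 - ν i * ν j) * h)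
    have hdj : d j ≠ 0 := fun h => huD (by
      linear_combination -h2 + ν i * h1 + (ν j ^ 2 - ν i * ν j) * h)
    have e1 : d i * ((ν i - μ₁) * (ν i - μ₂)) + d j * ((ν j - μ₁) * (ν j - μ₂)) = 0 := by
      linear_combination h2 - (μ₁ + μ₂) * h1 - μ₁ * μ₂ * h0' + D * hp
    have e2 : d i * ν i * ((ν i - μ₁) * (ν i - μ₂)) + d j * ν j * ((ν j - μ₁) * (ν j - μ₂)) = 0 := by
      linear_combination h3 - (μ₁ + μ₂) * h2 + μ₁ * μ₂ * h1
    have gi : (ν i - μ₁) * (ν i - μ₂) = 0 := mul_left_cancel₀ (mul_ne_zero hne hdi) (by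
      linear_combination e2 - ν j * e1)
    have gj : (ν j - μ₁) * (ν j - μ₂) = 0 := mul_left_cancel₀ (mul_ne_zero hne hdj) (by
      linear_combination ν i * e1 - e2)
    rcases mul_eq_zero.1 gi with a | a <;> rcases mul_eq_zero.1 gj with b | b
    · exact absurd (by linear_combination a - b) hne
    · exact ⟨j, hm j (Or.inr rfl), by linear_combination -μ₁ * h0' - h1 + d i * a + d j * b⟩
    · exact ⟨i, hm i (Or.inl rfl), by linear_combination -μ₁ * h0' - h1 + d i * a + d j * b⟩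
    · exact absurd (by linear_combination a - b) hne

section Alg
variable {G R : Type*} [Group G] [Ring R] [Algebra ℂ R] (φ : G →* R) (P : Subgroup G) [Fintype P] (ξ : P → ℂ)

/-- the central idempotent of `ξ` -/
noncomputable def eI : R := ∑ p : P, (ξ 1 / Nat.card P * ξ p⁻¹) • φ p

variable {φ P ξ}

theorem eI_mul (hξ : IsClassFunction P ξ) (x : P) :
    eI φ P ξ * φ x = ∑ r : P, (ξ 1 / Nat.card P * ξ (r⁻¹ * x)) • φ r := by
  rw [eI, Finset.sum_mul]
  refine Fintype.sum_equiv (Equiv.mulRight x) _ _ fun p => ?_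
  rw [smul_mul_assoc, ← map_mul, Equiv.coe_mulRight, hξ.apply_mul_comm, mul_inv_rev, mul_inv_cancel_left,
    Subgroup.coe_mul]

theorem mul_eI (x : P) :
    φ x * eI φ P ξ = ∑ r : P, (ξ 1 / Nat.card P * ξ (r⁻¹ * x)) • φ r := by
  rw [eI, Finset.mul_sum]
  refine Fintype.sum_equiv (Equiv.mulLeft x) _ _ fun p => ?_
  rw [mul_smul_comm, ← map_mul, Equiv.coe_mulLeft, mul_inv_rev, inv_mul_cancel_right, Subgroup.coe_mul]

theorem eI_comm (hξ : IsClassFunction P ξ) {x : G} (hx : x ∈ P) : φ x * eI φ P ξ = eI φ P ξ * φ x :=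
  (mul_eI ⟨x, hx⟩).trans (eI_mul hξ ⟨x, hx⟩).symm

theorem eI_congr {x y : P} (h : ∀ p, ξ (p * x) = ξ (p * y)) : φ x * eI φ P ξ = φ y * eI φ P ξ := by
  simp only [mul_eI, h]

theorem eI_idem (hξ : IsIrrCharacter P ξ) : eI φ P ξ * eI φ P ξ = eI φ P ξ := by
  nth_rw 1 [eI]
  simp only [Finset.sum_mul, smul_mul_assoc, mul_eI, Finset.smul_sum, smul_smul]
  rw [Finset.sum_comm, eI]
  refine Finset.sum_congr rfl fun r _ => ?_
  rw [← Finset.sum_smul]
  congr 1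
  have h := hk_go hξ hξ.isCharacter r⁻¹
  rw [hξ.classInner_self, one_mul] at h
  have h1 : (Nat.card P : ℂ) ≠ 0 := natCard_ne_zero
  have : ∀ x : P, ξ 1 / Nat.card P * ξ x⁻¹ * (ξ 1 / Nat.card P * ξ (r⁻¹ * x)) =
      (ξ 1 / Nat.card P) ^ 2 * (ξ x⁻¹ * ξ (x * r⁻¹)) := fun x => by
    rw [hξ.isClassFunction.apply_mul_comm r⁻¹]; ring
  simp only [this]
  rw [← Finset.mul_sum]
  field_simp
  linear_combination ξ 1 * h

/-- the data of the Hecke algebra computation -/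
structure HkD (P U L : Subgroup G) (ξ : P → ℂ) (w : G) (f : U → ℂ) : Prop where
  irr : IsIrrCharacter P ξ
  hU : U ≤ P
  hL : L ≤ P
  dec : ∀ p ∈ P, ∃ u ∈ U, ∃ l ∈ L, p = u * l
  xiU : ∀ (p : P) (u : U), ξ (p * ⟨u, hU u.2⟩) = ξ p
  hw : ∀ l : L, ∃ h : w⁻¹ * l * w ∈ P, ∀ p, ξ (p * ⟨_, h⟩) = ξ (p * ⟨l, hL l.2⟩)
  hw2 : ∃ h : w * w ∈ P, ∀ p, ξ (p * ⟨_, h⟩) = ξ p
  nmem : w ∉ P
  opp : ∀ u ∈ U, w * u * w⁻¹ ∈ P → u = 1
  big : ∀ u : U, (∃ u₁ ∈ U, ∃ l : P, ∃ u₃ ∈ U, w * u * w = u₁ * l * w * u₃ ∧ f u = ξ l) ∨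
    (f u = 0 ∧ ∀ p ∈ P, ∀ p' ∈ P, w * u * w ≠ p * w * p')

variable {U L : Subgroup G} {w : G} {f : U → ℂ} (H : HkD P U L ξ w f)
include H

theorem HkD.u_mul {u : G} (hu : u ∈ U) : φ u * eI φ P ξ = eI φ P ξ :=
  (eI_congr (x := ⟨u, H.hU hu⟩) (y := 1) fun p => by rw [mul_one]; exact H.xiU p ⟨u, hu⟩).trans (by simp)

theorem HkD.mul_u {u : G} (hu : u ∈ U) : eI φ P ξ * φ u = eI φ P ξ :=
  (eI_comm H.irr.isClassFunction (H.hU hu)).symm.trans (H.u_mul hu)

theorem HkD.l_w {l : G} (hl : l ∈ L) : φ l * φ w * eI φ P ξ = φ w * φ l * eI φ P ξ := by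
  obtain ⟨h, h'⟩ := H.hw ⟨l, hl⟩
  rw [mul_assoc (φ w), ← eI_congr (φ := φ) h', ← mul_assoc, ← map_mul, ← map_mul]
  simp [mul_assoc]

theorem HkD.comm {p : G} (hp : p ∈ P) :
    φ p * (eI φ P ξ * φ w * eI φ P ξ) = eI φ P ξ * φ w * eI φ P ξ * φ p := by
  obtain ⟨u, hu, l, hl, rfl⟩ := H.dec p hp
  have hc := eI_comm (φ := φ) H.irr.isClassFunction (H.hL hl)
  calc φ (u * l) * (eI φ P ξ * φ w * eI φ P ξ)
      = φ u * (φ l * eI φ P ξ) * φ w * eI φ P ξ := by simp only [map_mul, mul_assoc]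
    _ = φ u * eI φ P ξ * (φ l * φ w * eI φ P ξ) := by simp only [hc, mul_assoc]
    _ = eI φ P ξ * φ w * (φ l * eI φ P ξ) := by rw [H.u_mul hu, H.l_w hl]; simp only [mul_assoc]
    _ = eI φ P ξ * φ w * (eI φ P ξ * φ u * φ l) := by rw [hc, H.mul_u hu]
    _ = _ := by simp only [map_mul, mul_assoc]

variable [Fintype U]

theorem HkD.avg : (Nat.card U : ℂ) • (eI φ P ξ * φ w * eI φ P ξ) = (∑ u : U, φ u) * φ w * eI φ P ξ := by
  set S := ∑ u : U, φ u with hS
  have h1 : S * eI φ P ξ = (Nat.card U : ℂ) • eI φ P ξ := by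
    rw [hS, Finset.sum_mul, Finset.sum_congr rfl fun u _ => H.u_mul u.2, Finset.sum_const, Finset.card_univ,
      Nat.card_eq_fintype_card, Nat.cast_smul_eq_nsmul]
  have h2 : ∀ u ∈ U, S * φ u = S := fun u hu => by
    rw [hS, Finset.sum_mul]
    exact Fintype.sum_equiv (Equiv.mulRight ⟨u, hu⟩) _ _ fun v => (map_mul φ _ _).symm
  have h3 : ∀ p : P, S * φ p * φ w * eI φ P ξ = S * φ w * φ p * eI φ P ξ := fun p => by
    obtain ⟨u, hu, l, hl, e⟩ := H.dec p p.2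
    have hc := eI_comm (φ := φ) H.irr.isClassFunction (H.hL hl)
    calc _ = S * φ u * (φ l * φ w * eI φ P ξ) := by simp only [e, map_mul, mul_assoc]
      _ = S * φ w * (φ l * eI φ P ξ) := by rw [h2 u hu, H.l_w hl]; simp only [mul_assoc]
      _ = S * φ w * (φ u * eI φ P ξ * φ l) := by rw [hc, H.u_mul hu]
      _ = _ := by simp only [e, map_mul, mul_assoc, hc]
  calc _ = S * eI φ P ξ * φ w * eI φ P ξ := by simp only [h1, smul_mul_assoc]
    _ = S * φ w * eI φ P ξ * eI φ P ξ := by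
      nth_rw 1 3 [eI]
      simp only [Finset.mul_sum, Finset.sum_mul, mul_smul_comm, smul_mul_assoc, h3]
    _ = _ := by rw [mul_assoc _ (eI φ P ξ), eI_idem H.irr]

theorem HkD.sq : (Nat.card U : ℂ) • (eI φ P ξ * φ w * eI φ P ξ) ^ 2 =
    ∑ u : U, eI φ P ξ * φ (w * u * w) * eI φ P ξ := by
  calc _ = eI φ P ξ * φ w * ((Nat.card U : ℂ) • (eI φ P ξ * eI φ P ξ * φ w * eI φ P ξ)) := by
        simp only [pow_two, mul_smul_comm, mul_assoc]
    _ = _ := by
      rw [eI_idem H.irr, H.avg]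
      simp only [Finset.sum_mul, Finset.mul_sum, map_mul, mul_assoc]

variable {Θ : R →ₗ[ℂ] ℂ} (hΘ : ∀ x y, Θ (x * y) = Θ (y * x)) {N : ℂ} (h1 : Θ (φ 1) = N)
  (h0 : ∀ g ≠ 1, Θ (φ g) = 0)
include h0

omit H [Fintype U] in
theorem th_out {g : G} (hg : g ∉ P) : Θ (eI φ P ξ * φ g) = 0 := by
  simp only [eI, Finset.sum_mul, smul_mul_assoc, map_sum, map_smul, ← map_mul]
  refine Finset.sum_eq_zero fun p _ => ?_
  rw [h0, smul_zero]
  exact fun e => hg (by rw [eq_inv_of_mul_eq_one_right e]; exact inv_mem p.2)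

include h1

omit H [Fintype U] in
theorem th_in (g : P) : Θ (eI φ P ξ * φ g) = ξ 1 / Nat.card P * ξ g * N := by
  simp only [eI, Finset.sum_mul, smul_mul_assoc, map_sum, map_smul, ← map_mul]
  rw [Finset.sum_eq_single g⁻¹ _ (by simp)]
  · simp [← h1]
  · intro p _ hp
    rw [h0, smul_zero]
    exact fun e => hp (Subtype.ext (eq_inv_of_mul_eq_one_left e))

include hΘ

omit [Fintype U] h0 h1 in
theorem HkD.th_cyc (x : R) : Θ (eI φ P ξ * x * eI φ P ξ) = Θ (eI φ P ξ * x) := by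
  rw [hΘ, ← mul_assoc, eI_idem H.irr]

theorem HkD.mom2 (l : P) : (Nat.card U : ℂ) * Θ (φ l * (eI φ P ξ * φ w * eI φ P ξ) ^ 2) =
    ξ 1 / Nat.card P * ξ l * N := by
  obtain ⟨h, h'⟩ := H.hw2
  rw [← smul_eq_mul, ← map_smul, ← mul_smul_comm, H.sq, Finset.mul_sum, map_sum]
  have : ∀ u : U, Θ (φ l * (eI φ P ξ * φ (w * u * w) * eI φ P ξ)) = Θ (eI φ P ξ * φ (l * (w * u * w))) :=
    fun u => by
    rw [← mul_assoc, ← mul_assoc, eI_comm H.irr.isClassFunction l.2, mul_assoc (eI φ P ξ), H.th_cyc hΘ,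
      ← map_mul]
  simp only [this]
  rw [Finset.sum_eq_single 1 _ (by simp)]
  · rw [← h' l, ← th_in h1 h0]; simp
  · intro u _ hu
    refine th_out h0 fun hm => hu (Subtype.ext (H.opp _ u.2 ?_))
    simpa [mul_assoc] using mul_mem (mul_mem (inv_mem l.2) hm) (inv_mem h)

theorem HkD.mom3 : (Nat.card U : ℂ) ^ 2 * Θ ((eI φ P ξ * φ w * eI φ P ξ) ^ 3) =
    ξ 1 / Nat.card P * (∑ u, f u) * N := by
  obtain ⟨h, h'⟩ := H.hw2
  rw [pow_two, mul_assoc, pow_succ _ 2, ← smul_eq_mul _ (Θ _), ← map_smul, ← smul_mul_assoc, H.sq,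
    Finset.sum_mul, map_sum, Finset.mul_sum, Finset.mul_sum, Finset.sum_mul]
  refine Finset.sum_congr rfl fun u _ => ?_
  obtain ⟨u₁, h₁, l, u₃, h₃, e, e'⟩ | ⟨e, e'⟩ := H.big u
  · rw [e', ← H.mom2 hΘ h1 h0, e]
    congr 2
    calc _ = eI φ P ξ * φ u₁ * φ l * φ w * (φ u₃ * eI φ P ξ) * (eI φ P ξ * φ w * eI φ P ξ) := by
          simp only [map_mul, mul_assoc]
      _ = _ := by
        rw [H.mul_u h₁, H.u_mul h₃, ← eI_comm H.irr.isClassFunction l.2]
        simp only [pow_two, mul_assoc]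
  · rw [e, mul_zero, zero_mul]
    refine mul_eq_zero_of_right _ ?_
    have : eI φ P ξ * φ (w * u * w) * eI φ P ξ * (eI φ P ξ * φ w * eI φ P ξ) =
        eI φ P ξ * (φ (w * u * w) * (eI φ P ξ * eI φ P ξ) * φ w) * eI φ P ξ := by simp only [mul_assoc]
    rw [this, H.th_cyc hΘ, eI_idem H.irr]
    nth_rw 2 [eI]
    simp only [Finset.mul_sum, Finset.sum_mul, mul_smul_comm, smul_mul_assoc, map_sum, map_smul, ← map_mul]
    refine Finset.sum_eq_zero fun p _ => ?_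
    rw [th_out h0, smul_zero]
    intro hm
    exact e' _ (mul_mem hm (inv_mem h)) _ (inv_mem p.2) (by group)

end Alg

/-- the degree of a constituent of the induced character -/
theorem hk {G : Type*} [Group G] [Finite G] {P U L : Subgroup G} {ξ : P → ℂ} {w : G} {f : U → ℂ}
    (H : HkD P U L ξ w f) (hn : (ip (ind P ξ) (ind P ξ)).re ≤ 2) {μ₁ μ₂ : ℂ} (hμ : μ₁ ≠ μ₂)
    (hp : μ₁ * μ₂ = -(Nat.card U : ℂ)) (hs : (μ₁ + μ₂) * ξ 1 = ∑ᶠ u, f u) :
    ∃ χ, IsIrrCharacter G χ ∧ ip (ind P ξ) χ ≠ 0 ∧ χ 1 * (μ₁ - μ₂) = ind P ξ 1 * μ₁ := by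
  classical
  have := Fintype.ofFinite G
  have := Fintype.ofFinite P
  have := Fintype.ofFinite U
  rw [finsum_eq_sum_of_fintype] at hs
  simp only [ip_eq, ind_eq] at hn ⊢
  have hΨ := isCharacter_indFun P H.irr.isCharacter
  obtain ⟨n, hn1, -⟩ := hΨ.exists_eq_sum_nat
  rw [hΨ.isGeneralizedCharacter.classInner_self_eq_sum_sq (fun χ => n χ) fun χ => by simpa using hn1 χ,
    Complex.intCast_re] at hn
  have hn2 : ∑ χ, n χ ^ 2 ≤ 2 := by exact_mod_cast hn
  have hle : ∀ χ, n χ ≤ 1 := fun χ => by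
    have : n χ ^ 2 ≤ 2 := (Finset.single_le_sum (f := fun i => n i ^ 2) (fun _ _ => Nat.zero_le _)
      (Finset.mem_univ χ)).trans hn2
    nlinarith
  have hx1 := H.irr.apply_one_ne_zero
  have hP : (Nat.card P : ℂ) ≠ 0 := natCard_ne_zero
  have hU : (Nat.card U : ℂ) ≠ 0 := natCard_ne_zero
  choose m ρ _ hρ using fun χ : IrrCharacter G => χ.2
  have ht : ∀ χ (p : P), LinearMap.trace ℂ _ (ρ χ p * eI (ρ χ) P ξ) = n χ * ξ p := fun χ p => by
    have h := hk_go H.irr (χ.2.isCharacter.restrict P) p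
    rw [← (H.irr.isCharacter).classInner_comm (χ.2.isCharacter.restrict P),
      ← frobenius_recip P ξ χ.2.isClassFunction, hn1] at h
    rw [eI_comm H.irr.isClassFunction p.2]
    simp only [eI, Finset.sum_mul, smul_mul_assoc, map_sum, map_smul, ← map_mul, smul_eq_mul, mul_assoc]
    rw [← Finset.mul_sum]
    simp only [← hρ χ, Subgroup.coe_mul, Representation.character] at h
    field_simp
    linear_combination h
  have hl : ∀ χ, ∃ c : ℂ, eI (ρ χ) P ξ * ρ χ w * eI (ρ χ) P ξ = c • eI (ρ χ) P ξ := fun χ =>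
    hk_schur ((ρ χ).comp P.subtype) H.irr (eI_idem H.irr) (fun p => eI_comm H.irr.isClassFunction p.2)
      (fun p => H.comm p.2) (by rw [← mul_assoc, ← mul_assoc, eI_idem H.irr])
      (by rw [mul_assoc _ (eI _ P ξ), eI_idem H.irr]) (hle χ) (ht χ)
  choose c hc using hl
  let φ : G →* (∀ χ, Module.End ℂ (Fin (m χ) → ℂ)) := Pi.monoidHom fun χ => ρ χ
  let Θ : (∀ χ, Module.End ℂ (Fin (m χ) → ℂ)) →ₗ[ℂ] ℂ :=
    ∑ χ : IrrCharacter G, (χ : G → ℂ) 1 • LinearMap.trace ℂ _ ∘ₗ LinearMap.proj χ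
  have hΘ : ∀ x, Θ x = ∑ χ : IrrCharacter G, (χ : G → ℂ) 1 * LinearMap.trace ℂ _ (x χ) := fun x => by
    simp [Θ]
  have hΘc : ∀ x y, Θ (x * y) = Θ (y * x) := fun x y => by
    simp only [hΘ, Pi.mul_apply, LinearMap.trace_mul_comm ℂ (x _)]
  have hΘg : ∀ g, Θ (φ g) = if g = 1 then (Nat.card G : ℂ) else 0 := fun g => by
    rw [← sum_irr_apply_one_mul, hΘ]
    exact Finset.sum_congr rfl fun χ _ => congrArg _ (congrFun (hρ χ) g)
  have h1 : Θ (φ 1) = Nat.card G := by rw [hΘg, if_pos rfl]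
  have h0 : ∀ g ≠ 1, Θ (φ g) = 0 := fun g hg => by rw [hΘg, if_neg hg]
  have he : ∀ χ, eI φ P ξ χ = eI (ρ χ) P ξ := fun χ => by
    simp only [eI, Finset.sum_apply]; rfl
  have hid : ∀ χ (j : ℕ), eI (ρ χ) P ξ ^ (j + 1) = eI (ρ χ) P ξ := fun χ j =>
    IsIdempotentElem.pow_succ_eq j (eI_idem H.irr)
  have ht1 : ∀ χ, LinearMap.trace ℂ _ (eI (ρ χ) P ξ) = n χ * ξ 1 := fun χ => by simpa using ht χ 1
  have hm : ∀ j : ℕ, Θ ((eI φ P ξ * φ w * eI φ P ξ) ^ (j + 1)) * Nat.card U ^ (j + 1) =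
      ξ 1 * ∑ χ : IrrCharacter G, n χ * (χ : G → ℂ) 1 * (Nat.card U * c χ) ^ (j + 1) := fun j => by
    rw [hΘ, Finset.sum_mul, Finset.mul_sum]
    refine Finset.sum_congr rfl fun χ _ => ?_
    have : ((eI φ P ξ * φ w * eI φ P ξ) ^ (j + 1)) χ = c χ ^ (j + 1) • eI (ρ χ) P ξ := by
      rw [Pi.pow_apply, Pi.mul_apply, Pi.mul_apply, he, show φ w χ = ρ χ w from rfl, hc, smul_pow, hid]
    rw [this, map_smul, ht1, smul_eq_mul]; ring
  have hD : indFun P ξ 1 = ξ 1 / Nat.card P * Nat.card G := by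
    rw [indFun_one, ← P.card_mul_index]; push_cast; field_simp
  have m0 := th_in (ξ := ξ) h1 h0 1
  have m1 := hm 0
  have m2 := hm 1
  have m3 := hm 2
  have a2 := H.mom2 hΘc h1 h0 1
  have a3 := H.mom3 hΘc h1 h0
  rw [zero_add, pow_one, H.th_cyc hΘc, th_out h0 H.nmem] at m1
  simp only [OneMemClass.coe_one, map_one, one_mul, mul_one] at a2 m0
  simp only [hΘ, he, ht1] at m0
  obtain ⟨χ, h, h'⟩ := hk_two hn2 (fun χ => (χ : G → ℂ) 1) (fun χ => Nat.card U * c χ)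
    (D := indFun P ξ 1) (by rw [hD]; exact mul_ne_zero (div_ne_zero hx1 hP) natCard_ne_zero) hU hμ hp
    (mul_left_cancel₀ hx1 (by
      rw [hD, Finset.mul_sum, ← mul_assoc, mul_comm (ξ 1) (_ / _), ← m0]
      exact Finset.sum_congr rfl fun _ _ => by ring))
    (mul_left_cancel₀ hx1 (by simpa using m1.symm))
    (mul_left_cancel₀ hx1 (by rw [← m2, hD]; linear_combination (Nat.card U : ℂ) * a2))
    (mul_left_cancel₀ hx1 (by
      rw [← m3, hD]; rw [← hs] at a3; linear_combination (Nat.card U : ℂ) * a3))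
  exact ⟨χ, χ.2, by rw [hn1]; exact_mod_cast h, h'⟩

end Cfsg.Agent.Dg
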