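import Cfsg.Agent.H4.Clifford

/-! Interface for `S4984` (see notes/dg.md). -/

set_option autoImplicit false

namespace Cfsg.Agent.Dg

open Cfsg Cfsg.Agent.H3 Cfsg.Agent.H4 Module
open scoped Matrix

section Grp
variable {G : Type*} [Group G] [Finite G]

/-- inner product without a `Fintype` instance -/
noncomputable def ip (φ ψ : G → ℂ) : ℂ := @classInner G _ (Fintype.ofFinite G) φ ψ

/-- induction without a `Fintype` instance -/
noncomputable def ind (H : Subgroup G) (θ : H → ℂ) : G → ℂ := @indFun G _ (Fintype.ofFinite G) H θ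

theorem ip_eq [i : Fintype G] (φ ψ : G → ℂ) : ip φ ψ = classInner φ ψ := classInner_congr_fintype _ i φ ψ

theorem ind_eq [i : Fintype G] (H : Subgroup G) (θ : H → ℂ) : ind H θ = indFun H θ := by
  rw [ind, Subsingleton.elim (Fintype.ofFinite G) i]

end Grp

/-- number of nonzero singular vectors in Witt index `i`, type `e` -/
def NN (q e i : ℕ) : ℕ := (q ^ i - 1) * (q ^ (i - 1 + e) + 1)

/-- the degrees of the two constituents of the action on singular points -/
def ff (q e n : ℕ) : ℕ := q ^ (1 + e) * (q ^ n - 1) * (q ^ (n + e - 2) + 1) / ((q - 1) * (q + q ^ e))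

def gg (q e n : ℕ) : ℕ := q ^ 2 * (q ^ (n - 1) - 1) * (q ^ (n - 1 + e) + 1) / ((q - 1) * (q + q ^ e))

/-- the type parameter: `0, 1, 2` for `O⁺, O_odd, O⁻` and `1` for `Sp` -/
def ee (o : Bool) (d : ℕ) : ℕ := if o then d else 1

variable {F V V' : Type} [Field F] [AddCommGroup V] [Module F V] [AddCommGroup V'] [Module F V'] {k : ℕ}

variable (F) in
def dl (o : Bool) : F := if o then 1 else 0

variable (F) in
def ep (o : Bool) : F := if o then 1 else -1

theorem ep_mul (o : Bool) : ep F o * ep F o = 1 := by cases o <;> simp [ep]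

theorem ep_ne (o : Bool) : ep F o ≠ 0 := by cases o <;> simp [ep]

/-- a nondegenerate orthogonal (`o = true`) or symplectic (`o = false`) space -/
structure Pol (o : Bool) (Q : V → F) (B : LinearMap.BilinForm F V) : Prop where
  add : ∀ u v, Q (u + v) = Q u + Q v + dl F o * B u v
  smul : ∀ c v, Q (c • v) = c * c * Q v
  sym : ∀ u v, B u v = ep F o * B v u
  self : ∀ v, B v v = 2 * Q v
  sp : o = false → ∀ v, Q v = 0
  nd : ∀ v, (∀ u, B v u = 0) → v = 0

/-- the isometry group -/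
def Iso (Q : V → F) (B : LinearMap.BilinForm F V) : Subgroup (V ≃ₗ[F] V) where
  carrier := {g | (∀ v, Q (g v) = Q v) ∧ ∀ u v, B (g u) (g v) = B u v}
  one_mem' := ⟨fun _ => rfl, fun _ _ => rfl⟩
  mul_mem' := fun {g h} hg hh => ⟨fun v => (hg.1 _).trans (hh.1 v), fun u v => (hg.2 _ _).trans (hh.2 u v)⟩
  inv_mem' := fun {g} hg => ⟨fun v => (hg.1 _).symm.trans (congrArg Q (g.apply_symm_apply v)),
    fun u v => (hg.2 _ _).symm.trans (by simp)⟩

instance finite_iso [Finite V] (Q : V → F) (B : LinearMap.BilinForm F V) : Finite (Iso Q B) :=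
  Finite.of_injective (fun g : Iso Q B => (g.1 : V → V)) fun _ _ e => Subtype.ext (DFunLike.coe_injective e)

/-- the simple group in the orthogonal case -/
abbrev PO (Q : V → F) (B : LinearMap.BilinForm F V) : Type :=
  commutator (Iso Q B) ⧸ Subgroup.center (commutator (Iso Q B))

/-- `-1` lies in the kernel -/
def Cen {Q : V → F} {B : LinearMap.BilinForm F V} (χ : Iso Q B → ℂ) : Prop :=
  ∀ z : Iso Q B, (∀ v, z.1 v = -v) → χ z = χ 1

/-- `-1` is not in the commutator subgroup -/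
def NoNeg (Q : V → F) (B : LinearMap.BilinForm F V) : Prop :=
  ∀ z ∈ commutator (Iso Q B), ¬ ∀ v, z.1 v = -v

/-- isometric spaces -/
def Isom (Q : V → F) (B : LinearMap.BilinForm F V) (Q' : V' → F) (B' : LinearMap.BilinForm F V') : Prop :=
  ∃ e : V ≃ₗ[F] V', (∀ v, Q' (e v) = Q v) ∧ ∀ u v, B' (e u) (e v) = B u v

/-- `V` with `k` hyperbolic planes added -/
abbrev HV (k : ℕ) (F V : Type) : Type := (Fin k → F) × V × (Fin k → F)

def hQ (k : ℕ) (o : Bool) (Q : V → F) (x : HV k F V) : F := dl F o * (x.1 ⬝ᵥ x.2.2) + Q x.2.1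

def hB (k : ℕ) (o : Bool) (B : LinearMap.BilinForm F V) : LinearMap.BilinForm F (HV k F V) :=
  LinearMap.mk₂ F (fun x y => x.1 ⬝ᵥ y.2.2 + B x.2.1 y.2.1 + ep F o * (x.2.2 ⬝ᵥ y.1))
    (fun _ _ _ => by simp; ring) (fun _ _ _ => by simp; ring) (fun _ _ _ => by simp; ring)
    (fun _ _ _ => by simp; ring)

@[simp] theorem hB_apply (o : Bool) (B : LinearMap.BilinForm F V) (x y : HV k F V) :
    hB k o B x y = x.1 ⬝ᵥ y.2.2 + B x.2.1 y.2.1 + ep F o * (x.2.2 ⬝ᵥ y.1) := rfl

/-- Witt index `n`, anisotropic kernel of dimension `d` -/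
def Ty (o : Bool) (d n : ℕ) (Q : V → F) (B : LinearMap.BilinForm F V) : Prop :=
  ∃ (V₀ : Type) (_ : AddCommGroup V₀) (_ : Module F V₀) (_ : Module.Finite F V₀) (Q₀ : V₀ → F)
    (B₀ : LinearMap.BilinForm F V₀), Pol o Q₀ B₀ ∧ finrank F V₀ = d ∧ (∀ v, Q₀ v = 0 → v = 0) ∧
      Isom Q B (hQ n o Q₀) (hB n o B₀)

/-- there is no totally singular subspace of dimension `k` -/
def NoMid (k : ℕ) (Q : V → F) (B : LinearMap.BilinForm F V) : Prop :=
  ∀ S : Submodule F V, (∀ v ∈ S, Q v = 0) → (∀ u ∈ S, ∀ v ∈ S, B u v = 0) → finrank F S < k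

/-- singular points, and the zero subspace -/
def Sb (Q : V → F) : Type := {x : Submodule F V // finrank F x ≤ 1 ∧ ∀ v ∈ x, Q v = 0}

instance sbAction (Q : V → F) (B : LinearMap.BilinForm F V) : MulAction (Iso Q B) (Sb Q) where
  smul g x := ⟨x.1.map g.1.toLinearMap, (LinearEquiv.finrank_map_eq g.1 x.1).trans_le x.2.1, by
    rintro _ ⟨v, hv, rfl⟩; exact (g.2.1 v).trans (x.2.2 v hv)⟩
  one_smul x := Subtype.ext (Submodule.map_id x.1)
  mul_smul g h x := Subtype.ext (Submodule.map_comp h.1.toLinearMap g.1.toLinearMap x.1)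

theorem sb_smul {Q : V → F} {B : LinearMap.BilinForm F V} (g : Iso Q B) (x : Sb Q) :
    (g • x).1 = x.1.map g.1.toLinearMap := rfl

/-- `τ` is contained in `1 +` the permutation character on the singular points -/
def Un {Q : V → F} {B : LinearMap.BilinForm F V} (τ : Iso Q B → ℂ) : Prop :=
  IsCharacter _ fun g : Iso Q B => (Nat.card (MulAction.fixedBy (Sb Q) g) : ℂ) - τ g

section Par
variable (k : ℕ) (o : Bool) (Q : V → F) (B : LinearMap.BilinForm F V)

/-- the isometry group of the extended space -/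
abbrev GG : Type := Iso (hQ k o Q) (hB k o B)

/-- the stabiliser of the first summand -/
def PP : Subgroup (GG k o Q B) where
  carrier := {g | ∀ x, (g.1 x).2 = 0 ↔ x.2 = 0}
  one_mem' := fun _ => Iff.rfl
  mul_mem' := fun {g h} hg hh x => (hg _).trans (hh x)
  inv_mem' := fun {g} hg x => (hg _).symm.trans (by simp)

variable {k o Q B}

theorem PP.fst (g : PP k o Q B) (a : Fin k → F) : g.1.1 (a, 0) = ((g.1.1 (a, 0)).1, 0) :=
  Prod.ext rfl ((g.2 _).2 rfl)

theorem PP.perp (g : PP k o Q B) {x : HV k F V} (hx : x.2.2 = 0) : (g.1.1 x).2.2 = 0 := funext fun i => by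
  have h1 := g.1.2.2 (g.1.1.symm (Pi.single i 1, 0)) x
  have h2 : (g.1.1.symm (Pi.single i 1, 0)).2 = 0 := (g.2 _).1 (by simp)
  simpa [hx, h2] using h1

variable (k o Q B)

/-- the action on the first summand -/
noncomputable def pa : PP k o Q B →* GL (Fin k) F := MonoidHom.toHomUnits
  { toFun g := LinearMap.toMatrix' (LinearMap.fst F _ _ ∘ₗ g.1.1.toLinearMap ∘ₗ LinearMap.inl F _ _)
    map_one' := by ext i j; simp [Matrix.one_apply, Pi.single_apply]
    map_mul' g h := by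
      rw [← LinearMap.toMatrix'_mul]
      refine congrArg _ (LinearMap.ext fun a => ?_)
      exact congrArg (fun x => (g.1.1 x).1) (PP.fst h a) }

/-- the action on the middle section, as a linear map -/
def pbL (g : PP k o Q B) : V →ₗ[F] V :=
  LinearMap.fst F _ _ ∘ₗ LinearMap.snd F _ _ ∘ₗ g.1.1.toLinearMap ∘ₗ LinearMap.inr F _ _ ∘ₗ LinearMap.inl F _ _

variable {k o Q B}

theorem pa_apply (g : PP k o Q B) (a : Fin k → F) :
    g.1.1 (a, 0) = ((pa k o Q B g : Matrix (Fin k) (Fin k) F) *ᵥ a, 0) :=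
  (PP.fst g a).trans (Prod.ext (LinearMap.toMatrix'_mulVec
    (LinearMap.fst F _ _ ∘ₗ g.1.1.toLinearMap ∘ₗ LinearMap.inl F _ _) a).symm rfl)

theorem pbL_eq (g : PP k o Q B) {x : HV k F V} (hx : x.2.2 = 0) : (g.1.1 x).2.1 = pbL k o Q B g x.2.1 := by
  have : x = (x.1, 0) + (0, x.2.1, 0) := by ext <;> simp [hx]
  rw [this, map_add, PP.fst g]
  simp [pbL]

theorem pbL_mul (g h : PP k o Q B) (v : V) :
    pbL k o Q B (g * h) v = pbL k o Q B g (pbL k o Q B h v) :=
  pbL_eq g (x := h.1.1 (0, v, 0)) (PP.perp h rfl)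

variable (k o Q B)

/-- the action on the middle section -/
def pb : PP k o Q B →* Iso Q B where
  toFun g := ⟨{ pbL k o Q B g with
      invFun := pbL k o Q B g⁻¹
      left_inv v := (pbL_mul g⁻¹ g v).symm.trans (by rw [inv_mul_cancel]; rfl)
      right_inv v := (pbL_mul g g⁻¹ v).symm.trans (by rw [mul_inv_cancel]; rfl) },
    fun v => by simpa [hQ, PP.perp g (x := (0, v, 0)) rfl] using! g.1.2.1 (0, v, 0),
    fun u v => by
      simpa [PP.perp g (x := (0, v, 0)) rfl, PP.perp g (x := (0, u, 0)) rfl] using! g.1.2.2 (0, u, 0) (0, v, 0)⟩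
  map_one' := rfl
  map_mul' g h := Subtype.ext (LinearEquiv.ext (pbL_mul g h))

variable {k o Q B}

theorem pb_apply (g : PP k o Q B) {x : HV k F V} (hx : x.2.2 = 0) :
    (g.1.1 x).2 = ((pb k o Q B g).1 x.2.1, 0) := Prod.ext (pbL_eq g hx) (PP.perp g hx)

variable (o)

/-- the inflated character of the parabolic subgroup -/
noncomputable def xi (σ : GL (Fin k) F → ℂ) (τ : Iso Q B → ℂ) (g : PP k o Q B) : ℂ :=
  σ (pa k o Q B g) * τ (pb k o Q B g)

/-- Harish-Chandra induction -/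
noncomputable def Psi [Finite F] [Finite V] (σ : GL (Fin k) F → ℂ) (τ : Iso Q B → ℂ) : GG k o Q B → ℂ :=
  ind (PP k o Q B) (xi o σ τ)

end Par

/-- inverse transpose -/
def du : GL (Fin k) F →* GL (Fin k) F where
  toFun g := ⟨(↑g⁻¹ : Matrix (Fin k) (Fin k) F)ᵀ, (g : Matrix (Fin k) (Fin k) F)ᵀ,
    by rw [← Matrix.transpose_mul, Units.mul_inv, Matrix.transpose_one],
    by rw [← Matrix.transpose_mul, Units.inv_mul, Matrix.transpose_one]⟩
  map_one' := Units.ext (by simp)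
  map_mul' g h := Units.ext (by simp only [mul_inv_rev, Units.val_mul, Matrix.transpose_mul])

theorem coe_du (g : GL (Fin k) F) :
    (du g : Matrix (Fin k) (Fin k) F) = (↑g⁻¹ : Matrix (Fin k) (Fin k) F)ᵀ := rfl

/-- the unipotent radical of the stabiliser of `X` -/
def rad (X : Submodule F (Fin k → F)) : Subgroup (GL (Fin k) F) where
  carrier := {r | (∀ v, (r : Matrix (Fin k) (Fin k) F) *ᵥ v - v ∈ X) ∧
    ∀ x ∈ X, (r : Matrix (Fin k) (Fin k) F) *ᵥ x = x}
  one_mem' := by simp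
  mul_mem' := fun {r s} hr hs => ⟨fun v => by
    have := add_mem (hr.1 ((s : Matrix (Fin k) (Fin k) F) *ᵥ v)) (hs.1 v)
    simpa using this, fun x hx => by rw [Units.val_mul, ← Matrix.mulVec_mulVec, hs.2 x hx, hr.2 x hx]⟩
  inv_mem' := fun {r} hr => ⟨fun v => by
    have := neg_mem (hr.1 ((↑r⁻¹ : Matrix (Fin k) (Fin k) F) *ᵥ v))
    rwa [Matrix.mulVec_mulVec, Units.mul_inv, Matrix.one_mulVec, neg_sub] at this, fun x hx => by
    nth_rw 1 [← hr.2 x hx]
    rw [Matrix.mulVec_mulVec, Units.inv_mul, Matrix.one_mulVec]⟩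

/-- a cuspidal character of `GL k F` -/
structure Cusp (σ : GL (Fin k) F → ℂ) : Prop where
  irr : IsIrrCharacter _ σ
  deg : σ 1 = (∏ i ∈ Finset.Ico 1 k, (Nat.card F ^ i - 1) : ℕ)
  cus : ∀ X : Submodule F (Fin k → F), X ≠ ⊥ → X ≠ ⊤ → ∀ g, ∑ᶠ r : rad X, σ (g * r) = 0
  ne : σ ≠ 1

/-- not self-dual -/
def NR [Finite F] (σ : GL (Fin k) F → ℂ) : Prop := ip σ (fun g => σ (du g)) = 0

/-- an irreducible character of degree `D`, trivial on `-1` if `z` holds -/
def CD (z : Prop) (Q : V → F) (B : LinearMap.BilinForm F V) (D : ℕ) : Prop :=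
  ∃ χ : Iso Q B → ℂ, IsIrrCharacter _ χ ∧ χ 1 = D ∧ (z → Cen χ)

end Cfsg.Agent.Dg
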