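import Cfsg.Agent.Dg.I
import Cfsg.Agent.H3.Orth

/-! Mackey's formula for the norm of an induced character, term by term. -/

set_option autoImplicit false

namespace Cfsg.Agent.Dg

open Cfsg Cfsg.Agent.H3 Cfsg.Agent.H4
open scoped ComplexConjugate

variable {G : Type*} [Group G]

/-- `P ∩ x P x⁻¹` -/
def cap (P : Subgroup G) (x : G) : Subgroup G := P ⊓ P.comap (MulAut.conj x⁻¹).toMonoidHom

theorem mem_cap {P : Subgroup G} {x g : G} : g ∈ cap P x ↔ g ∈ P ∧ x⁻¹ * g * x ∈ P := by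
  simp [cap]

/-- the inclusion -/
def cap1 (P : Subgroup G) (x : G) : cap P x →* P := Subgroup.inclusion inf_le_left

/-- the conjugated inclusion -/
def cap2 (P : Subgroup G) (x : G) : cap P x →* P where
  toFun g := ⟨x⁻¹ * g * x, (mem_cap.1 g.2).2⟩
  map_one' := Subtype.ext (by simp)
  map_mul' g h := Subtype.ext (by simp [mul_assoc])

/-- a term of Mackey's formula -/
noncomputable def MM (P : Subgroup G) (θ θ' : P → ℂ) (x : G) : ℂ :=
  ∑ᶠ g : G, extendByZero P θ g * conj (extendByZero P θ' (x⁻¹ * g * x))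

variable [Finite G] {P : Subgroup G}

theorem MM_eq (θ θ' : P → ℂ) (x : G) :
    MM P θ θ' x = Nat.card (cap P x) * ip (fun g => θ (cap1 P x g)) (fun g => θ' (cap2 P x g)) := by
  haveI := Fintype.ofFinite G
  haveI := Fintype.ofFinite (cap P x)
  rw [ip_eq, classInner, ← mul_assoc, mul_inv_cancel₀ (natCard_ne_zero_C _), one_mul, MM,
    finsum_eq_sum_of_fintype, ← sum_ebz]
  refine Finset.sum_congr rfl fun g _ => ?_
  by_cases h : g ∈ cap P x
  · rw [ebz_of_mem _ _ h, ebz_of_mem _ _ (mem_cap.1 h).1, ebz_of_mem _ _ (mem_cap.1 h).2]; rfl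
  · rw [ebz_of_not_mem _ _ h]
    by_cases h1 : g ∈ P
    · rw [ebz_of_not_mem (g := x⁻¹ * g * x) _ _ fun h2 => h (mem_cap.2 ⟨h1, h2⟩), map_zero, mul_zero]
    · rw [ebz_of_not_mem _ _ h1, zero_mul]

theorem MM_dc {θ θ' : P → ℂ} (hθ : IsClassFunction P θ) (hθ' : IsClassFunction P θ') (x : G) {p p' : G}
    (hp : p ∈ P) (hp' : p' ∈ P) : MM P θ θ' (p * x * p') = MM P θ θ' x := by
  rw [MM, MM, ← finsum_comp_equiv (MulAut.conj p).toEquiv]
  refine finsum_congr fun g => ?_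
  change extendByZero P θ (p * g * p⁻¹) * conj (extendByZero P θ' (_ * (p * g * p⁻¹) * _)) = _
  rw [ebz_conj_mem P hθ hp, show (p * x * p')⁻¹ * (p * g * p⁻¹) * (p * x * p') =
    p'⁻¹ * (x⁻¹ * g * x) * p'⁻¹⁻¹ by group, ebz_conj_mem P hθ' (inv_mem hp')]

theorem MM_one (θ θ' : P → ℂ) : MM P θ θ' 1 = Nat.card P * ip θ θ' := by
  haveI := Fintype.ofFinite G
  haveI := Fintype.ofFinite P
  rw [ip_eq, classInner, ← mul_assoc, mul_inv_cancel₀ (natCard_ne_zero_C _), one_mul, MM,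
    finsum_eq_sum_of_fintype, sum_ebz_mul]
  simp

theorem sum_MM [Fintype G] (θ θ' : P → ℂ) :
    ∑ x, MM P θ θ' x = Nat.card P * Nat.card P * ip (ind P θ) (ind P θ') := by
  haveI := Fintype.ofFinite P
  rw [ip_eq, ind_eq, ind_eq, frobenius_recip _ _ (isClassFunction_indFun P θ'), classInner, mul_assoc,
    ← mul_assoc (Nat.card P : ℂ) _⁻¹, mul_inv_cancel₀ (natCard_ne_zero_C _), one_mul]
  simp only [MM, finsum_eq_sum_of_fintype, sum_ebz_mul, indFun_apply, map_mul, map_sum, map_inv₀, map_natCast]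
  rw [Finset.sum_comm, Finset.mul_sum]
  refine Finset.sum_congr rfl fun p _ => ?_
  rw [← Finset.mul_sum, mul_left_comm (Nat.card P : ℂ), ← mul_assoc (Nat.card P : ℂ),
    mul_inv_cancel₀ (natCard_ne_zero_C _), one_mul]

open Classical in
theorem sum_dc [Fintype G] (s : G) {f : G → ℂ} (hf : ∀ p ∈ P, ∀ p' ∈ P, f (p * s * p') = f s) :
    Nat.card (cap P s) * ∑ x with ∃ p ∈ P, ∃ p' ∈ P, x = p * s * p', f x = Nat.card P * Nat.card P * f s := by
  have h1 : ∑ y : P × P, f (y.1 * s * y.2) = Nat.card P * Nat.card P * f s := by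
    simp [hf _ (SetLike.coe_mem _) _ (SetLike.coe_mem _)]
  rw [← h1, ← Finset.sum_fiberwise_of_maps_to (t := {x | ∃ p ∈ P, ∃ p' ∈ P, x = p * s * p'})
    (g := fun y : P × P => y.1 * s * y.2) (fun y _ => by simpa using ⟨_, y.1.2, _, y.2.2, rfl⟩), Finset.mul_sum]
  refine Finset.sum_congr rfl fun x hx => ?_
  obtain ⟨p, hp, p', hp', rfl⟩ := (Finset.mem_filter.1 hx).2
  rw [Finset.sum_congr rfl fun y hy => by rw [(Finset.mem_filter.1 hy).2], Finset.sum_const, nsmul_eq_mul,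
    ← Nat.card_eq_finsetCard]
  congr 2
  refine Nat.card_congr
    { toFun l := ⟨(⟨p * l, mul_mem hp (mem_cap.1 l.2).1⟩, ⟨(s⁻¹ * l * s)⁻¹ * p',
        mul_mem (inv_mem (mem_cap.1 l.2).2) hp'⟩), by simp [mul_assoc]⟩
      invFun y := ⟨p⁻¹ * y.1.1, mem_cap.2 ⟨mul_mem (inv_mem hp) y.1.1.2, by
        have h : (y.1.1 : G) * s * y.1.2 = p * s * p' := (Finset.mem_filter.1 y.2).2
        rw [show s⁻¹ * (p⁻¹ * y.1.1) * s = s⁻¹ * p⁻¹ * (y.1.1 * s * y.1.2) * (y.1.2 : G)⁻¹ by group, h]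
        simpa [mul_assoc] using mul_mem hp' (inv_mem y.1.2.2)⟩⟩
      left_inv l := by simp
      right_inv y := by
        have h : (y.1.1 : G) * s * y.1.2 = p * s * p' := (Finset.mem_filter.1 y.2).2
        refine Subtype.ext (Prod.ext (by simp) (Subtype.ext ?_))
        change (s⁻¹ * (p⁻¹ * y.1.1) * s)⁻¹ * p' = y.1.2
        calc _ = s⁻¹ * (y.1.1 : G)⁻¹ * (p * s * p') := by group
          _ = s⁻¹ * (y.1.1 : G)⁻¹ * (y.1.1 * s * y.1.2) := congrArg _ h.symm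
          _ = _ := by group }

theorem mackey2 {θ : P → ℂ} (hθ : IsClassFunction P θ) {s : G} (hs : s ∉ P)
    (h : ∀ x, x ∉ P → (¬ ∃ p ∈ P, ∃ p' ∈ P, x = p * s * p') → MM P θ θ x = 0) :
    ip (ind P θ) (ind P θ) = ip θ θ + ip (fun g => θ (cap1 P s g)) (fun g => θ (cap2 P s g)) := by
  classical
  haveI := Fintype.ofFinite G
  have c := natCard_ne_zero_C P
  have h1 := sum_dc (P := P) s fun p hp p' hp' => MM_dc hθ hθ s hp hp'
  rw [MM_eq, mul_left_comm, mul_right_inj' (natCard_ne_zero_C _)] at h1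
  have h2 : ∑ x with x ∈ P, MM P θ θ x = Nat.card P * Nat.card P * ip θ θ := by
    rw [Finset.sum_congr rfl fun x hx => (by simpa using MM_dc hθ hθ 1 (Finset.mem_filter.1 hx).2 (one_mem _) :
      MM P θ θ x = MM P θ θ 1), Finset.sum_const, nsmul_eq_mul, MM_one, mul_assoc, ← Nat.card_eq_finsetCard]
    congr 2
    exact Nat.card_congr (Equiv.subtypeEquivRight fun x => by simp)
  refine mul_left_cancel₀ (mul_ne_zero c c) ?_
  rw [← sum_MM, mul_add, ← h1, ← h2, Finset.sum_filter, Finset.sum_filter, ← Finset.sum_add_distrib]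
  refine Finset.sum_congr rfl fun x _ => ?_
  by_cases hx : x ∈ P
  · rw [if_pos hx, if_neg, add_zero]
    rintro ⟨p, hp, p', hp', rfl⟩
    exact hs ((P.mul_mem_cancel_left hp).1 ((P.mul_mem_cancel_right hp').1 hx))
  · rw [if_neg hx, zero_add]
    split_ifs with h'
    · rfl
    · exact h x hx h'

theorem MM_zero_of_add {θ θ₁ θ₂ : P → ℂ} (h : IsCharacter P θ) (h₁ : IsCharacter P θ₁) (h₂ : IsCharacter P θ₂)
    {x : G} (e : MM P θ (θ₁ + θ₂) x = 0) : MM P θ θ₁ x = 0 := by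
  haveI := Fintype.ofFinite (cap P x)
  rw [MM_eq, mul_eq_zero, or_iff_right (natCard_ne_zero_C _), ip_eq] at e ⊢
  obtain ⟨a, ha⟩ := (h.comp (cap1 P x)).exists_nat_classInner (h₁.comp (cap2 P x))
  obtain ⟨b, hb⟩ := (h.comp (cap1 P x)).exists_nat_classInner (h₂.comp (cap2 P x))
  have := classInner_add_right (fun g => θ (cap1 P x g)) (fun g => θ₁ (cap2 P x g)) fun g => θ₂ (cap2 P x g)
  rw [ha, hb] at this
  have e' : ((a + b : ℕ) : ℂ) = 0 := by rw [Nat.cast_add, ← this]; exact e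
  rw [ha, show a = 0 by have := Nat.cast_eq_zero.1 e'; omega, Nat.cast_zero]

theorem MM_sum {ι : Type*} (θ : P → ℂ) (s : Finset ι) (f : ι → P → ℂ) (x : G) :
    MM P θ (∑ i ∈ s, f i) x = ∑ i ∈ s, MM P θ (f i) x := by
  haveI := Fintype.ofFinite (cap P x)
  simp only [MM_eq, ip_eq, ← Finset.mul_sum, ← classInner_sum_right]
  congr 2
  ext g
  simp

/-- the elements that do not change the second factor -/
def fixr (P : Subgroup G) (θ' : P → ℂ) (x : G) : Submonoid G where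
  carrier := {κ | ∃ h : x⁻¹ * κ * x ∈ P, ∀ p, θ' (p * ⟨_, h⟩) = θ' p}
  one_mem' := ⟨by simp, fun p => congrArg θ' (Subtype.ext (by simp))⟩
  mul_mem' := by
    rintro a b ⟨ha, ha'⟩ ⟨hb, hb'⟩
    have e : x⁻¹ * (a * b) * x = x⁻¹ * a * x * (x⁻¹ * b * x) := by group
    refine ⟨e ▸ mul_mem ha hb, fun p => ?_⟩
    refine Eq.trans ?_ ((hb' (p * ⟨_, ha⟩)).trans (ha' p))
    exact congrArg θ' (Subtype.ext (by simp [mul_assoc]))

theorem MM_kill {A : Type*} [Group A] [Finite A] (α : P →* A) {σ : A → ℂ} {τ θ' : P → ℂ} {x : G}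
    (R : Subgroup A) (hR : ∀ g, ∑ᶠ r : R, σ (g * r) = 0)
    (h : ∀ r ∈ R, ∃ κ : P, α κ = r ∧ (∀ p, τ (p * κ) = τ p) ∧ (κ : G) ∈ fixr P θ' x) :
    MM P (fun p => σ (α p) * τ p) θ' x = 0 := by
  haveI := Fintype.ofFinite G
  haveI := Fintype.ofFinite P
  haveI := Fintype.ofFinite R
  have e : ∀ r : R, MM P (fun p => σ (α p) * τ p) θ' x =
      ∑ p : P, σ (α p * r) * (τ p * conj (extendByZero P θ' (x⁻¹ * p * x))) := fun r => by
    obtain ⟨κ, h1, h2, h3, h4⟩ := h r r.2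
    rw [MM, finsum_eq_sum_of_fintype, sum_ebz_mul, ← Equiv.sum_comp (Equiv.mulRight κ)]
    refine Finset.sum_congr rfl fun p _ => ?_
    rw [Equiv.coe_mulRight, map_mul, h1, h2, mul_assoc, Subgroup.coe_mul,
      show x⁻¹ * (p * κ) * x = x⁻¹ * p * x * (x⁻¹ * κ * x) by group]
    congr 3
    by_cases hp : x⁻¹ * p * x ∈ P
    · rw [ebz_of_mem _ _ hp, ebz_of_mem _ _ (mul_mem hp h3), ← h4 ⟨_, hp⟩]; rfl
    · rw [ebz_of_not_mem _ _ hp, ebz_of_not_mem _ _ fun h' => hp ((P.mul_mem_cancel_right h3).1 h')]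
  refine mul_left_cancel₀ (natCard_ne_zero_C R) ?_
  rw [mul_zero, Nat.card_eq_fintype_card, ← nsmul_eq_mul, ← Finset.card_univ, ← Finset.sum_const,
    Finset.sum_congr rfl fun r _ => e r, Finset.sum_comm]
  refine Finset.sum_eq_zero fun p _ => ?_
  rw [← Finset.sum_mul, ← finsum_eq_sum_of_fintype, hR, zero_mul]

end Cfsg.Agent.Dg
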