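import Cfsg.Agent.Dg.M1
import Cfsg.Agent.Dg.G1

/-! The vanishing terms of Mackey's formula for Harish-Chandra induction: linear algebra. -/

set_option autoImplicit false

namespace Cfsg.Agent.Dg

open Cfsg Cfsg.Agent.H3 Cfsg.Agent.H4 Module
open scoped Matrix

variable {F V : Type} [Field F] [AddCommGroup V] [Module F V] {k : ℕ} {o : Bool} {Q : V → F}
  {B : LinearMap.BilinForm F V}

theorem ext_fun (W S : Submodule F V) (φ : Dual F V) (h : ∀ v ∈ W, v ∈ S → φ v = 0) :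
    ∃ ψ : Dual F V, (∀ v ∈ W, ψ v = φ v) ∧ ∀ v ∈ S, ψ v = 0 := by
  have : φ ∈ (W ⊓ S).dualAnnihilator := (Submodule.mem_dualAnnihilator _).2 fun v hv => h v hv.1 hv.2
  rw [Subspace.dualAnnihilator_inf_eq] at this
  obtain ⟨a, ha, b, hb, rfl⟩ := Submodule.mem_sup.1 this
  exact ⟨b, fun v hv => by simp [(Submodule.mem_dualAnnihilator _).1 ha v hv],
    (Submodule.mem_dualAnnihilator _).1 hb⟩

theorem Pol.exA [Finite V] (h : Pol o Q B) (W S : Submodule F V) (φ : Dual F V)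
    (hφ : ∀ v ∈ W, v ∈ S → φ v = 0) : ∃ y, (∀ v ∈ W, B y v = φ v) ∧ ∀ v ∈ S, B y v = 0 := by
  obtain ⟨ψ, h1, h2⟩ := ext_fun W S φ hφ
  obtain ⟨y, rfl⟩ := (LinearMap.injective_iff_surjective_of_finrank_eq_finrank (f := B)
    (Subspace.dual_finrank_eq (K := F) (V := V)).symm).1 ((injective_iff_map_eq_zero B).2
      fun v hv => h.nd v fun u => by rw [hv, LinearMap.zero_apply]) ψ
  exact ⟨y, h1, h2⟩

variable (B) in
/-- the orthogonal complement -/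
def prp (S : Submodule F V) : Submodule F V := (S.map B).dualCoannihilator

theorem mem_prp {S : Submodule F V} {v : V} : v ∈ prp B S ↔ ∀ s ∈ S, B s v = 0 := by
  simp [prp, Submodule.mem_dualCoannihilator]

theorem exB [Finite V] (W S : Submodule F V) (φ : Dual F V) (hφ : ∀ v ∈ W, v ∈ prp B S → φ v = 0) :
    ∃ y ∈ S, ∀ v ∈ W, B y v = φ v := by
  obtain ⟨ψ, h1, h2⟩ := ext_fun W _ φ hφ
  have : ψ ∈ (prp B S).dualAnnihilator := (Submodule.mem_dualAnnihilator _).2 h2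
  rw [prp, Subspace.dualCoannihilator_dualAnnihilator_eq] at this
  obtain ⟨y, hy, rfl⟩ := this
  exact ⟨y, hy, h1⟩

/-- the diagonal map on a hyperbolic plane -/
noncomputable def Pol.dg [Finite V] (h : Pol o Q B) (w y : V) (hw : Q w = 0) (hy : Q y = 0) (e : B w y = 1)
    (t s : F) (hts : t * s = 1) : Iso Q B :=
  h.mkIso (LinearMap.id + ((t - 1) * ep F o) • (B y).smulRight w + (s - 1) • (B w).smulRight y)
    (fun v => by
      simp only [LinearMap.add_apply, LinearMap.id_apply, LinearMap.smul_apply, LinearMap.smulRight_apply,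
        smul_smul, h.add, h.smul, map_smul, map_add, smul_eq_mul, hw, hy, e, h.sym v y, h.sym v w]
      linear_combination (dl F o * ep F o * B y v * B w v) * hts +
        (dl F o * (t - 1) * B y v * B w v) * ep_mul (F := F) o -
        ((t - 1) * B y v * B w v) * dl_mul_ep (F := F) o)
    (fun u v => by
      simp only [LinearMap.add_apply, LinearMap.id_apply, LinearMap.smul_apply, LinearMap.smulRight_apply,
        smul_smul, map_smul, map_add, smul_eq_mul, hw, hy, e, h.sym u y, h.sym u w, h.sym y w, h.self]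
      linear_combination (ep F o * B y u * B w v + B w u * B y v) * hts +
        ((t - 1) * B w u * B y v + (s - 1) * (t - 1) * B w u * B y v) * ep_mul (F := F) o +
        ((s - 1) * B w u * B y v * (ep F o - ep F o)) * one_add_ep (F := F) o)

theorem Pol.dg_apply [Finite V] (h : Pol o Q B) (w y : V) (hw : Q w = 0) (hy : Q y = 0) (e : B w y = 1)
    (t s : F) (hts : t * s = 1) (v : V) :
    (h.dg w y hw hy e t s hts).1 v = v + ((t - 1) * ep F o * B y v) • w + ((s - 1) * B w v) • y := by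
  simp [Pol.dg, smul_smul]

theorem gl_ext {r s : GL (Fin k) F}
    (h : ∀ v, (r : Matrix (Fin k) (Fin k) F) *ᵥ v = (s : Matrix (Fin k) (Fin k) F) *ᵥ v) : r = s :=
  Units.ext (Matrix.toLin'.injective (LinearMap.ext h))

theorem rad_ind (Y : Submodule F (Fin k → F)) (N : Submonoid (GL (Fin k) F))
    (h : ∀ d ∈ Y, ∀ φ : Dual F (Fin k → F), (∀ y ∈ Y, φ y = 0) →
      ∃ r ∈ N, ∀ v, (r : Matrix (Fin k) (Fin k) F) *ᵥ v = v + φ v • d) : ∀ r ∈ rad Y, r ∈ N := by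
  classical
  intro r hr
  let b := Module.finBasis F Y
  let n : (Fin k → F) →ₗ[F] Y := (Matrix.toLin' (r : Matrix (Fin k) (Fin k) F) - LinearMap.id).codRestrict Y hr.1
  have hn : ∀ y ∈ Y, n y = 0 := fun y hy => Subtype.ext (sub_eq_zero.2 (hr.2 y hy))
  have key : ∀ s : Finset (Fin (finrank F Y)), ∃ r ∈ N, ∀ v, (r : Matrix (Fin k) (Fin k) F) *ᵥ v =
      v + (∑ j ∈ s, b.repr (n v) j • b j : Y) := by
    intro s
    induction s using Finset.induction_on with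
    | empty => exact ⟨1, one_mem _, by simp⟩
    | insert j s hj ih =>
      obtain ⟨r₁, h1, h2⟩ := ih
      obtain ⟨r₂, h3, h4⟩ := h (b j) (b j).2 (b.coord j ∘ₗ n) fun y hy => by simp [hn y hy]
      refine ⟨r₂ * r₁, mul_mem h3 h1, fun v => ?_⟩
      rw [Units.val_mul, ← Matrix.mulVec_mulVec, h2, h4, LinearMap.comp_apply, map_add n,
        hn _ (SetLike.coe_mem _), add_zero, Finset.sum_insert hj, Submodule.coe_add, add_assoc]
      exact congrArg _ (add_comm _ _)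
  obtain ⟨s, hs, e⟩ := key Finset.univ
  rwa [gl_ext (r := r) (s := s) fun v => by rw [e, b.sum_repr]; exact (add_sub_cancel _ _).symm]

variable (k) in
/-- the flags over the first summand -/
def XX (t : Submodule F V) : Submodule F (HV k F V) where
  carrier := {v | v.2.2 = 0 ∧ v.2.1 ∈ t}
  zero_mem' := ⟨rfl, t.zero_mem⟩
  add_mem' := fun ha hb => ⟨by simp [ha.1, hb.1], t.add_mem ha.2 hb.2⟩
  smul_mem' := fun c _ ha => ⟨by simp [ha.1], t.smul_mem c ha.2⟩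

theorem mem_XX {t : Submodule F V} {v : HV k F V} : v ∈ XX k t ↔ v.2.2 = 0 ∧ v.2.1 ∈ t := Iff.rfl

theorem mem_X0 {v : HV k F V} : v ∈ XX k (⊥ : Submodule F V) ↔ v.2 = 0 := by
  simp [mem_XX, Prod.ext_iff, and_comm]

theorem hQ_fst (h : Pol o Q B) (a : Fin k → F) : hQ k o Q (a, 0) = 0 := by simp [hQ, h.zero]

theorem hB_fst (a : Fin k → F) {v : HV k F V} (hv : v.2.2 = 0) : hB k o B (a, 0) v = 0 := by simp [hv]

theorem perp_fst {v : HV k F V} (h : ∀ a, hB k o B (a, 0) v = 0) : v.2.2 = 0 :=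
  funext fun i => by simpa using h (Pi.single i 1)

variable [Finite F]

theorem memPP {g : GG k o Q B} (h : ∀ a, (g.1 (a, 0)).2 = 0) : g ∈ PP k o Q B := fun v => by
  refine ⟨fun hv => ?_, fun hv => by rw [show v = (v.1, 0) from Prod.ext rfl hv]; exact h _⟩
  obtain ⟨a, ha⟩ := Finite.injective_iff_surjective.1 (show Function.Injective fun a => (g.1 (a, 0)).1 from
    fun a b e => congrArg Prod.fst (g.1.injective (Prod.ext e ((h a).trans (h b).symm)))) (g.1 v).1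
  rw [g.1.injective (Prod.ext ha.symm (hv.trans (h a).symm))]

omit [Finite F] in
theorem pb_eq_one {g : PP k o Q B} (h : ∀ v : HV k F V, v.2.2 = 0 → (g.1.1 v - v).2 = 0) : pb k o Q B g = 1 :=
  Iso.ext fun v => by
    have := h (0, v, 0) rfl
    rw [Prod.snd_sub, pb_apply g rfl, sub_eq_zero] at this
    exact congrArg Prod.fst this

/-- the image of a flag -/
def XI (x : GG k o Q B) (t : Submodule F V) : Submodule F (HV k F V) := (XX k t).map x.1.toLinearMap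

omit [Finite F] in
theorem mem_XI {x : GG k o Q B} {t : Submodule F V} {v : HV k F V} : v ∈ XI x t ↔ (x⁻¹).1 v ∈ XX k t :=
  Submodule.mem_map_equiv _

omit [Finite F] in
theorem XI_mono (x : GG k o Q B) (t : Submodule F V) : XI x ⊥ ≤ XI x t := fun _ hv =>
  mem_XI.2 ⟨(mem_XI.1 hv).1, bot_le (a := t) (mem_XI.1 hv).2⟩

omit [Finite F] in
theorem XI_sing (x : GG k o Q B) {t : Submodule F V} (hQ' : ∀ v ∈ t, Q v = 0)
    (hB' : ∀ u ∈ t, ∀ v ∈ t, B u v = 0) :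
    (∀ v ∈ XI x t, hQ k o Q v = 0) ∧ ∀ u ∈ XI x t, ∀ v ∈ XI x t, hB k o B u v = 0 := by
  constructor
  · rintro _ ⟨v, hv, rfl⟩
    exact (x.2.1 v).trans (by simp [hQ, hv.1, hQ' _ hv.2])
  · rintro _ ⟨u, hu, rfl⟩ _ ⟨v, hv, rfl⟩
    exact (x.2.2 u v).trans (by simp [hu.1, hv.1, hB' _ hu.2 _ hv.2])

theorem fixr_of {x κ : GG k o Q B} {σ : GL (Fin k) F → ℂ} {τ : Iso Q B → ℂ} (h1 : ∀ s ∈ XI x ⊥, κ.1 s = s)
    (h2 : ∀ h : x⁻¹ * κ * x ∈ PP k o Q B, ∀ g, τ (g * pb k o Q B ⟨_, h⟩) = τ g) :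
    κ ∈ fixr (PP k o Q B) (xi o σ τ) x := by
  have e : ∀ a, (x⁻¹ * κ * x).1 (a, 0) = (a, 0) := fun a => by
    rw [Iso.mul_apply, Iso.mul_apply, h1 (x.1 (a, 0)) ⟨(a, 0), mem_X0.2 rfl, rfl⟩, Iso.inv_apply]
  have hP : x⁻¹ * κ * x ∈ PP k o Q B := memPP fun a => by rw [e]
  refine ⟨hP, fun p => ?_⟩
  have : pa k o Q B ⟨_, hP⟩ = 1 := gl_ext fun a => by
    simpa using congrArg Prod.fst ((pa_apply ⟨_, hP⟩ a).symm.trans (e a))
  rw [xi, xi, map_mul, map_mul, this, mul_one, h2]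

theorem fix1 {x κ : GG k o Q B} {σ : GL (Fin k) F → ℂ} {τ : Iso Q B → ℂ} (h1 : ∀ s ∈ XI x ⊥, κ.1 s = s)
    (h2 : ∀ v ∈ prp (hB k o B) (XI x ⊥), κ.1 v - v ∈ XI x ⊥) : κ ∈ fixr (PP k o Q B) (xi o σ τ) x :=
  fixr_of h1 fun h g => by
    rw [pb_eq_one fun v hv => ?_, mul_one]
    have := mem_XI.1 (h2 (x.1 v) (mem_prp.2 (by
      rintro _ ⟨s, hs, rfl⟩
      exact (x.2.2 s v).trans (by simp [mem_X0.1 hs, hv]))))
    rw [map_sub, Iso.inv_apply] at this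
    exact mem_X0.1 this

open Classical in
/-- the indicator function of the stabiliser of a point -/
noncomputable def stb (t : Sb Q) (g : Iso Q B) : ℂ := if g • t = t then 1 else 0

theorem fix2 [Finite V] {x κ : GG k o Q B} {σ : GL (Fin k) F → ℂ} {t : Sb Q} (h1 : ∀ s ∈ XI x ⊥, κ.1 s = s)
    (h2 : ∀ v ∈ XI x t.1, κ.1 v ∈ XI x t.1) : κ ∈ fixr (PP k o Q B) (xi o σ (stb t)) x :=
  fixr_of h1 fun h g => by
    have : pb k o Q B ⟨_, h⟩ • t = t := Subtype.ext (Submodule.eq_of_le_of_finrank_eq (by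
      rintro _ ⟨v, hv, rfl⟩
      have := (mem_XI.1 (h2 _ ⟨(0, v, 0), ⟨rfl, hv⟩, rfl⟩)).2
      have e := congrArg Prod.fst (pb_apply ⟨_, h⟩ (x := (0, v, 0)) rfl)
      exact (show (pb k o Q B ⟨_, h⟩).1 v = _ from e.symm) ▸ this) (LinearEquiv.finrank_map_eq _ _))
    rw [stb, stb, mul_smul, this]

variable [Finite V] {σ : GL (Fin k) F → ℂ} {τ : Iso Q B → ℂ} {θ : PP k o Q B → ℂ} {x : GG k o Q B}

theorem kill_gen (R : Subgroup (GL (Fin k) F)) (hR : ∀ g, ∑ᶠ r : R, σ (g * r) = 0)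
    (h : ∀ N : Submonoid (GL (Fin k) F), (∀ κ : PP k o Q B, pb k o Q B κ = 1 → κ.1 ∈ fixr _ θ x →
      pa k o Q B κ ∈ N) → ∀ r ∈ R, r ∈ N) : MM _ (xi o σ τ) θ x = 0 :=
  MM_kill (pa k o Q B) (τ := fun p => τ (pb k o Q B p)) R hR fun r hr => by
    obtain ⟨κ, ⟨h1, h2⟩, rfl⟩ := h ((MonoidHom.mker (pb k o Q B) ⊓
      (fixr _ θ x).comap (PP k o Q B).subtype).map (pa k o Q B)) (fun κ h1 h2 => ⟨κ, ⟨h1, h2⟩, rfl⟩) r hr
    exact ⟨κ, rfl, fun p => by rw [map_mul, show pb k o Q B κ = 1 from h1, mul_one], h2⟩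

theorem kill_ei (h : Pol o Q B) (hσ : Cusp σ) {Y : Submodule F (Fin k → F)} (h0 : Y ≠ ⊥) (h1 : Y ≠ ⊤)
    (H : ∀ d ∈ Y, ∀ φ : Dual F (Fin k → F), (∀ y ∈ Y, φ y = 0) → ∃ y, (∀ a, hB k o B y (a, 0) = φ a) ∧
      ∀ κ : GG k o Q B, (∀ v, κ.1 v = v + hB k o B (d, 0) v • y -
        (ep F o * (hB k o B y v + hQ k o Q y * hB k o B (d, 0) v)) • (d, 0)) → κ ∈ fixr _ θ x) :
    MM _ (xi o σ τ) θ x = 0 :=
  kill_gen (rad Y) (hσ.cus Y h0 h1) fun N hN => rad_ind Y N fun d hd φ hφ => by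
    obtain ⟨y, y1, y2⟩ := H d hd (-ep F o • φ) fun y hy => by simp [hφ y hy]
    have hy : hB k o B (d, 0) y = 0 := h.hv.perp_comm.1 (by simp only [y1, LinearMap.smul_apply, hφ d hd, smul_zero])
    have e := h.hv.ei_apply (d, 0) y (hQ_fst h d) hy
    set κ := h.hv.ei (d, 0) y (hQ_fst h d) hy
    have e1 : ∀ a, κ.1 (a, 0) = (a + φ a • d, 0) := fun a => by
      rw [e, hB_fst d rfl, y1, zero_smul, add_zero, mul_zero, add_zero, LinearMap.smul_apply, smul_eq_mul,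
        ← mul_assoc, mul_neg, ep_mul]
      simp
    have hP : κ ∈ PP k o Q B := memPP fun a => by rw [e1]
    refine ⟨_, hN ⟨κ, hP⟩ (pb_eq_one fun v hv => ?_) (y2 κ e), fun a =>
      congrArg Prod.fst ((pa_apply ⟨_, hP⟩ a).symm.trans (e1 a))⟩
    change (κ.1 v - v).2 = 0
    rw [e, hB_fst d hv]
    simp

theorem killA (h : Pol o Q B) (hσ : Cusp σ) {Y : Submodule F (Fin k → F)} (h0 : Y ≠ ⊥) (h1 : Y ≠ ⊤)
    (S : Submodule F (HV k F V)) (hY1 : ∀ d ∈ Y, (d, 0) ∈ prp (hB k o B) S) (hY2 : ∀ a, (a, 0) ∈ S → a ∈ Y)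
    (H : ∀ d ∈ Y, ∀ κ : GG k o Q B, (∀ s ∈ S, κ.1 s = s) →
      (∀ v, hB k o B (d, 0) v = 0 → ∃ c : F, κ.1 v - v = c • (d, 0)) → κ ∈ fixr _ θ x) :
    MM _ (xi o σ τ) θ x = 0 :=
  kill_ei h hσ h0 h1 fun d hd φ hφ => by
    obtain ⟨y, y1, y2⟩ := h.hv.exA (XX k ⊥) S (φ ∘ₗ LinearMap.fst F _ _) fun v hv hs =>
      hφ _ (hY2 _ (by rwa [show v = (v.1, 0) from Prod.ext rfl (mem_X0.1 hv)] at hs))
    refine ⟨y, fun a => y1 _ (mem_X0.2 rfl), fun κ e => H d hd κ (fun s hs => ?_) fun v hv => ?_⟩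
    · rw [e, y2 s hs, h.hv.perp_comm.1 (mem_prp.1 (hY1 d hd) s hs)]
      simp
    · exact ⟨_, by rw [e, hv, zero_smul, add_zero, sub_sub_cancel_left, ← neg_smul]⟩

theorem killB (h : Pol o Q B) (hσ : Cusp σ) (S : Submodule F (HV k F V)) (hS : ∀ v ∈ S, hQ k o Q v = 0)
    (hS' : ∀ u ∈ S, ∀ v ∈ S, hB k o B u v = 0) (h0 : (prp (hB k o B) S).comap (LinearMap.inl F _ _) ≠ ⊥)
    (h1 : (prp (hB k o B) S).comap (LinearMap.inl F _ _) ≠ ⊤)
    (H : ∀ κ : GG k o Q B, (∀ s ∈ S, κ.1 s = s) → (∀ v ∈ prp (hB k o B) S, κ.1 v - v ∈ S) → κ ∈ fixr _ θ x) :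
    MM _ (xi o σ τ) θ x = 0 :=
  kill_ei h hσ h0 h1 fun d hd φ hφ => by
    obtain ⟨y, y0, y1⟩ := exB (B := hB k o B) (XX k ⊥) S (φ ∘ₗ LinearMap.fst F _ _) fun v hv hs =>
      hφ _ (by rwa [show v = (v.1, 0) from Prod.ext rfl (mem_X0.1 hv)] at hs)
    refine ⟨y, fun a => y1 _ (mem_X0.2 rfl), fun κ e => H κ (fun s hs => ?_) fun v hv => ?_⟩
    · rw [e, hS' y y0 s hs, h.hv.perp_comm.1 ((mem_prp (v := (d, 0))).1 hd s hs)]
      simp
    · rw [e, mem_prp.1 hv y y0, hS y y0, zero_mul, add_zero, mul_zero, zero_smul, sub_zero, add_sub_cancel_left]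
      exact S.smul_mem _ y0

end Cfsg.Agent.Dg
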