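import Cfsg.Agent.Dg.M2
import Cfsg.Agent.Dg.G2

/-! The norm of a Harish-Chandra induced character. -/

set_option autoImplicit false

namespace Cfsg.Agent.Dg

open Cfsg Cfsg.Agent.H3 Cfsg.Agent.H4 Module
open scoped Matrix

variable {F V : Type} [Field F] [AddCommGroup V] [Module F V] {k : ℕ} {o : Bool} {Q : V → F}
  {B : LinearMap.BilinForm F V} {σ : GL (Fin k) F → ℂ} {τ : Iso Q B → ℂ} {x : GG k o Q B}

theorem Cusp.one_le (hσ : Cusp σ) : 1 ≤ k := by
  by_contra hk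
  obtain rfl : k = 0 := by omega
  refine hσ.ne (funext fun g => ?_)
  rw [show g = 1 from Units.ext (Subsingleton.elim _ _), hσ.deg]
  simp

theorem xi_char (hσ : IsCharacter _ σ) (hτ : IsCharacter _ τ) : IsCharacter _ (xi o σ τ) :=
  (hσ.comp (pa k o Q B)).mul (hτ.comp (pb k o Q B))

variable [Finite F] [Finite V]

theorem xi_irr (hσ : IsIrrCharacter _ σ) (hτ : IsIrrCharacter _ τ) : IsIrrCharacter _ (xi o σ τ) :=
  (hσ.prod hτ).comp_of_surjective ((pa k o Q B).prod (pb k o Q B)) fun y =>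
    ⟨⟨lv o y.1 y.2, lv_mem _ _⟩, Prod.ext (pa_lv _ _) (pb_lv _ _)⟩

theorem Psi_char (hσ : IsCharacter _ σ) (hτ : IsCharacter _ τ) : IsCharacter _ (Psi o σ τ) :=
  @isCharacter_indFun _ _ (Fintype.ofFinite _) _ _ (xi_char hσ hτ)

theorem Psi_one' : Psi o σ τ 1 = (PP k o Q B).index * (σ 1 * τ 1) := by
  rw [Psi, ind, @indFun_one _ _ (Fintype.ofFinite _), xi, map_one, map_one]

theorem Psi_cen (h : Pol o Q B) (hσ : σ (-1) = σ 1) (hτ : Cen τ) : Cen (Psi o σ τ) := fun z hz => by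
  haveI := Fintype.ofFinite (GG k o Q B)
  have hP : z ∈ PP k o Q B := memPP fun a => by rw [hz]; simp
  have e : xi o σ τ ⟨z, hP⟩ = xi o σ τ 1 := by
    rw [xi, xi, map_one, map_one, pa_eq (g := ⟨z, hP⟩) (a := -1) fun a => by simp [hz, Matrix.neg_mulVec], hσ,
      hτ _ fun v => by
        have := congrArg Prod.fst (pb_apply ⟨z, hP⟩ (x := (0, v, 0)) rfl)
        rw [hz] at this
        exact this.symm]
  rw [Psi, ind_eq, indFun_apply, indFun_apply]
  refine congrArg _ (Finset.sum_congr rfl fun y _ => ?_)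
  rw [show y⁻¹ * z * y = z from Iso.ext fun v => by
    rw [Iso.mul_apply, Iso.mul_apply, hz, map_neg, Iso.inv_apply, hz], mul_one, inv_mul_cancel,
    ebz_of_mem _ _ hP, e, ebz_of_mem _ _ (one_mem _)]
  rfl

theorem kill_one (h : Pol o Q B) {σ : GL (Fin 1) F → ℂ} (hσ : Cusp σ) {x : GG 1 o Q B}
    (hE : ∀ a, (a, 0) ∈ prp (hB 1 o B) (XI x ⊥)) (t : Sb Q) {y : HV 1 F V} (hy : hQ 1 o Q y = 0)
    (e : hB 1 o B (fun _ => 1, 0) y = 1) (hy' : ∀ s ∈ XI x ⊥, hB 1 o B y s = 0)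
    (hS : ∀ s ∈ XI x t.1, ∀ a b : F, s + (a * hB 1 o B y s) • ((fun _ => 1, 0) : HV 1 F V) +
      (b * hB 1 o B (fun _ => 1, 0) s) • y ∈ XI x t.1) : MM _ (xi o σ τ) (xi o σ (stb t)) x = 0 := by
  refine kill_gen ⊤ (fun g => ?_) fun N hN r _ => ?_
  · haveI := Fintype.ofFinite (GL (Fin 1) F)
    have := hσ.irr.classInner_of_ne isIrrCharacter_one hσ.ne
    rw [classInner, mul_eq_zero, or_iff_right (inv_ne_zero (natCard_ne_zero_C _))] at this
    rw [← this, ← finsum_eq_sum_of_fintype,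
      ← finsum_comp_equiv (Subgroup.topEquiv.toEquiv.trans (Equiv.mulLeft g))]
    simp
  · have e0 : ∀ (r : GL (Fin 1) F) (a : Fin 1 → F), (r : Matrix (Fin 1) (Fin 1) F) *ᵥ a = r 0 0 • a :=
      fun r a => funext fun i => by simp [Matrix.mulVec, dotProduct, Subsingleton.elim i 0]
    have hts : r 0 0 * r⁻¹ 0 0 = 1 := by
      simpa [Matrix.mul_apply] using congrFun (congrFun r.mul_inv 0) 0
    have e1 := h.hv.dg_apply _ y (hQ_fst h _) hy e _ _ hts
    set κ := h.hv.dg _ y (hQ_fst h _) hy e _ _ hts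
    have e2 : ∀ a, κ.1 (a, 0) = (r 0 0 • a, 0) := fun a => by
      have ea : ((a, 0) : HV 1 F V) = a 0 • (fun _ => 1, 0) :=
        Prod.ext (funext fun i => by simp [Subsingleton.elim i 0]) (by simp)
      rw [e1, hB_fst _ rfl, mul_zero, zero_smul, add_zero, show hB 1 o B y (a, 0) = a 0 * ep F o by
        rw [ea, map_smul, h.hv.sym, e, mul_one, smul_eq_mul]]
      refine Prod.ext (funext fun i => ?_) (by simp)
      simp only [Subsingleton.elim i 0, Prod.fst_add, Prod.smul_fst, Pi.add_apply, Pi.smul_apply, smul_eq_mul]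
      linear_combination (r 0 0 - 1) * a 0 * ep_mul (F := F) o
    have hP : κ ∈ PP 1 o Q B := memPP fun a => by rw [e2]
    rw [← pa_eq (g := ⟨κ, hP⟩) (a := r) fun a => by rw [e0]; exact congrArg Prod.fst (e2 a)]
    refine hN _ (pb_eq_one fun v hv => ?_) (fix2 (fun s hs => ?_) fun s hs => ?_)
    · change (κ.1 v - v).2 = 0
      rw [e1, hB_fst _ hv]
      simp
    · change κ.1 s = s
      rw [e1, hy' s hs, h.hv.perp_comm.1 (mem_prp.1 (hE _) s hs)]
      simp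
    · change κ.1 s ∈ _
      rw [e1]
      exact hS s hs _ _

theorem kill_mid (h : Pol o Q B) (hσ : Cusp σ) (hE : ∀ a, (a, 0) ∈ prp (hB k o B) (XI x ⊥))
    (hD : ∀ a, (a, 0) ∈ XI x ⊥ → a = 0) (t : Sb Q) : MM _ (xi o σ τ) (xi o σ (stb t)) x = 0 := by
  obtain ⟨⟨u, hu⟩, hu'⟩ := finrank_le_one_iff.1 t.2.1
  have sing := XI_sing x t.2.2 fun a ha b hb => by
    obtain ⟨c, hc⟩ := hu' ⟨a, ha⟩
    obtain ⟨d, hd⟩ := hu' ⟨b, hb⟩
    rw [← show c • u = a from congrArg Subtype.val hc, ← show d • u = b from congrArg Subtype.val hd]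
    simp [h.self_of_sing (t.2.2 u hu)]
  have hu0 : x.1 (0, u, 0) ∈ XI x t.1 := ⟨(0, u, 0), ⟨rfl, hu⟩, rfl⟩
  set u' := x.1 (0, u, 0) with hu1
  have dec : ∀ s ∈ XI x t.1, ∃ w ∈ XI x ⊥, ∃ c : F, s = w + c • u' := by
    rintro _ ⟨s, hs, rfl⟩
    obtain ⟨c, hc⟩ := hu' ⟨_, hs.2⟩
    refine ⟨x.1 (s.1, 0), ⟨(s.1, 0), mem_X0.2 rfl, rfl⟩, c, ?_⟩
    rw [hu1, ← map_smul, ← map_add]
    exact congrArg x.1 (Prod.ext (by simp) (Prod.ext (by simpa using (congrArg Subtype.val hc).symm)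
      (by simpa using hs.1)))
  have hp : ∀ a, hB k o B u' (a, 0) = 0 → (a, 0) ∈ prp (hB k o B) (XI x t.1) := fun a ha =>
    mem_prp.2 fun s hs => by
      obtain ⟨w, hw, c, rfl⟩ := dec s hs
      rw [map_add, map_smul, LinearMap.add_apply, LinearMap.smul_apply, ha, mem_prp.1 (hE a) w hw, smul_zero,
        add_zero]
  have fin : ∀ κ : GG k o Q B, (∀ s ∈ XI x t.1, κ.1 s = s) → κ ∈ fixr _ (xi o σ (stb t)) x := fun κ hκ =>
    fix2 (fun s hs => hκ s (XI_mono x _ hs)) fun s hs => by rwa [hκ s hs]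
  rcases hσ.one_le.eq_or_lt with rfl | hk
  · by_cases h1 : hB 1 o B (fun _ => 1, 0) u' = 0
    · have hw := hp _ (h.hv.perp_comm.1 h1)
      obtain ⟨S, S1, S2, S3⟩ : ∃ S, XI x ⊥ ≤ S ∧ S ≤ XI x t.1 ∧ ((fun _ => 1, 0) ∉ S ∧
          ((fun _ => 1, 0) ∈ XI x t.1 ∨ S = XI x t.1)) := by
        by_cases h2 : (fun _ => 1, 0) ∈ XI x t.1
        · exact ⟨_, le_rfl, XI_mono x _, fun h3 => one_ne_zero (congrFun (hD _ h3) 0), Or.inl h2⟩
        · exact ⟨_, XI_mono x _, le_rfl, h2, Or.inr rfl⟩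
      obtain ⟨y, y1, y2⟩ := h.hv.exA (XX 1 ⊥) S ((ep F o • LinearMap.proj 0) ∘ₗ LinearMap.fst F _ _)
        fun v hv hs => by
          by_contra h3
          have h4 : v.1 0 ≠ 0 := fun h4 => h3 (by simp [h4])
          refine S3.1 ?_
          convert S.smul_mem (v.1 0)⁻¹ hs using 1
          exact Prod.ext (funext fun i => by simp [Subsingleton.elim i 0, h4]) (by simp [mem_X0.1 hv])
      have y3 : hB 1 o B (fun _ => 1, 0) y = 1 := by
        rw [h.hv.sym, y1 _ (mem_X0.2 rfl)]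
        simpa using ep_mul (F := F) o
      have y4 : ∀ s ∈ S, hB 1 o B (y - hQ 1 o Q y • (fun _ => 1, 0)) s = 0 := fun s hs => by
        rw [map_sub, map_smul, LinearMap.sub_apply, LinearMap.smul_apply, y2 s hs,
          h.hv.perp_comm.1 (mem_prp.1 hw s (S2 hs)), smul_zero, sub_zero]
      refine kill_one h hσ hE t (y := y - hQ 1 o Q y • (fun _ => 1, 0)) ?_ ?_ (fun s hs => y4 s (S1 hs))
        fun s hs a b => ?_
      · rw [h.hv.sub, h.hv.smul, hQ_fst h, map_smul, smul_eq_mul, mul_left_comm, h.hv.dl_sym, y3]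
        linear_combination -h.hv.dl_mul y
      · rw [map_sub, map_smul, y3, hB_fst _ rfl, smul_zero, sub_zero]
      · rw [h.hv.perp_comm.1 (mem_prp.1 hw s hs), mul_zero, zero_smul, add_zero]
        rcases S3.2 with h3 | rfl
        · exact add_mem hs (Submodule.smul_mem _ _ h3)
        · rwa [y4 s hs, mul_zero, zero_smul, add_zero]
    · have hy := Submodule.smul_mem _ (hB 1 o B (fun _ => 1, 0) u')⁻¹ hu0
      refine kill_one h hσ hE t (sing.1 _ hy) (by rw [map_smul, smul_eq_mul, inv_mul_cancel₀ h1])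
        (fun s hs => sing.2 _ hy s (XI_mono x _ hs)) fun s hs a b => ?_
      rw [sing.2 _ hy s hs, mul_zero, zero_smul, add_zero]
      exact add_mem hs (Submodule.smul_mem _ _ hy)
  by_cases h1 : (prp (hB k o B) (XI x t.1)).comap (LinearMap.inl F _ _) = ⊤
  · have hY : ∀ d, (d, 0) ∈ prp (hB k o B) (XI x t.1) := fun d => h1.ge Submodule.mem_top
    by_cases h2 : (XI x t.1).comap (LinearMap.inl F _ _) = ⊥
    · have h3 : (fun _ => 1 : Fin k → F) ≠ 0 := fun h3 => one_ne_zero (congrFun h3 ⟨0, by omega⟩)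
      refine killA h hσ (Y := Submodule.span F {fun _ => 1}) (by simpa using h3) (fun h4 => ?_) _
        (fun d _ => hY d) (fun a ha => ?_) fun d _ κ hκ _ => fin κ hκ
      · have := finrank_span_singleton (K := F) h3
        rw [h4, finrank_top, finrank_fin_fun] at this
        omega
      · rw [show a = 0 from h2.le ha]; exact zero_mem _
    · refine killA h hσ h2 (fun h4 => ?_) _ (fun d _ => hY d) (fun a ha => ha) fun d _ κ hκ _ => fin κ hκ
      have h5 : ∀ a, (x⁻¹).1 (a, 0) ∈ XX k t.1 := fun a => mem_XI.1 (h4.ge Submodule.mem_top :)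
      have := LinearMap.finrank_le_finrank_of_injective (f := (LinearMap.fst F _ _ ∘ₗ LinearMap.snd F _ _ ∘ₗ
        (x⁻¹).1.toLinearMap ∘ₗ LinearMap.inl F _ _).codRestrict t.1 fun a => (h5 a).2)
        ((injective_iff_map_eq_zero _).2 fun a ha => hD a (mem_XI.2 ⟨(h5 a).1, congrArg Subtype.val ha⟩))
      rw [finrank_fin_fun] at this
      have := t.2.1
      omega
  · refine killB h hσ _ sing.1 sing.2 (fun h2 => ?_) h1 fun κ hκ _ => fin κ hκ
    refine LinearMap.ker_ne_bot_of_finrank_lt (f := hB k o B u' ∘ₗ LinearMap.inl F _ _) (by simpa using hk)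
      (eq_bot_iff.2 fun a ha => h2.le (hp a ha))

theorem kill_main (h : Pol o Q B) (hσ : Cusp σ) (hτ : IsCharacter _ τ) (mid : NoMid k Q B ∨ Un τ)
    (hx : x ∉ PP k o Q B) (h0 : (prp (hB k o B) (XI x ⊥)).comap (LinearMap.inl F _ _) ≠ ⊥) :
    MM _ (xi o σ τ) (xi o σ τ) x = 0 := by
  have sing := XI_sing x (t := ⊥) (fun v hv => by rw [show v = 0 from hv, h.zero])
    fun u hu v _ => by rw [show u = 0 from hu, map_zero, LinearMap.zero_apply]
  by_cases h1 : (prp (hB k o B) (XI x ⊥)).comap (LinearMap.inl F _ _) = ⊤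
  swap
  · exact killB h hσ _ sing.1 sing.2 h0 h1 fun κ => fix1
  have hE : ∀ d, (d, 0) ∈ prp (hB k o B) (XI x ⊥) := fun d => h1.ge Submodule.mem_top
  by_cases h2 : (XI x ⊥).comap (LinearMap.inl F _ _) = ⊥
  swap
  · refine killA h hσ h2 (fun h4 => hx ?_) _ (fun d _ => hE d) (fun a ha => ha) fun d hd κ hκ hκ' =>
      fix1 hκ fun v hv => ?_
    · exact inv_mem_iff.1 (memPP fun a => mem_X0.1 (mem_XI.1 (h4.ge Submodule.mem_top :)))
    · obtain ⟨c, hc⟩ := hκ' v (mem_prp.1 hv _ hd)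
      rw [hc]
      exact Submodule.smul_mem _ _ hd
  have hD : ∀ a, (a, 0) ∈ XI x ⊥ → a = 0 := fun a ha => h2.le ha
  rcases mid with mid | mid
  · have h3 : ∀ a, x.1 (a, 0) ∈ XI x ⊥ := fun a => ⟨(a, 0), mem_X0.2 rfl, rfl⟩
    have h4 : ∀ a, (x.1 (a, 0)).2.2 = 0 := fun a =>
      perp_fst fun b => h.hv.perp_comm.1 (mem_prp.1 (hE b) _ (h3 a))
    have := mid (LinearMap.range (LinearMap.fst F _ _ ∘ₗ LinearMap.snd F _ _ ∘ₗ x.1.toLinearMap ∘ₗ
      LinearMap.inl F _ _)) (by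
        rintro _ ⟨a, rfl⟩
        simpa [hQ, h4] using sing.1 _ (h3 a)) (by
        rintro _ ⟨a, rfl⟩ _ ⟨b, rfl⟩
        simpa [h4] using sing.2 _ (h3 a) _ (h3 b))
    rw [LinearMap.finrank_range_of_inj ((injective_iff_map_eq_zero _).2 fun a ha => ?_), finrank_fin_fun] at this
    · omega
    · have e : x.1 (a, 0) = ((x.1 (a, 0)).1, 0) := Prod.ext rfl (Prod.ext ha (h4 a))
      rw [hD (x.1 (a, 0)).1 (by rw [← e]; exact h3 a)] at e
      exact congrArg Prod.fst (x.1.map_eq_zero_iff.1 e)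
  · classical
    haveI : Finite (Submodule F V) := Finite.of_injective _ SetLike.coe_injective
    haveI : Fintype (Sb Q) := @Fintype.ofFinite _ (Subtype.finite)
    refine MM_zero_of_add (xi_char hσ.irr.isCharacter hτ) (xi_char hσ.irr.isCharacter hτ)
      (xi_char hσ.irr.isCharacter mid) ?_
    rw [show xi o σ τ + xi o σ (fun g : Iso Q B => (Nat.card (MulAction.fixedBy (Sb Q) g) : ℂ) - τ g) =
      ∑ t : Sb Q, xi o σ (stb t) from funext fun p => ?_, MM_sum]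
    · exact Finset.sum_eq_zero fun t _ => kill_mid h hσ hE hD t
    · simp only [xi, stb, Pi.add_apply, Finset.sum_apply, ← Finset.mul_sum, ← mul_add, add_sub_cancel,
        Finset.sum_boole, ← Nat.card_eq_finsetCard]
      congr 2
      exact Nat.card_congr (Equiv.subtypeEquivRight fun t => by simp)

theorem sw_conj_lv (a : GL (Fin k) F) (g : Iso Q B) :
    (sw k o Q B)⁻¹ * lv o a g * sw k o Q B = lv o (du a) g := by
  rw [mul_assoc, inv_mul_eq_iff_eq_mul, sw_lv, du_du]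

theorem ip_Psi (h : Pol o Q B) (hσ : Cusp σ) (hτ : IsIrrCharacter _ τ) (mid : NoMid k Q B ∨ Un τ) :
    ip (Psi o σ τ) (Psi o σ τ) = 1 + ip σ (fun g => σ (du g)) := by
  haveI := Fintype.ofFinite (PP k o Q B)
  haveI := Fintype.ofFinite (cap (PP k o Q B) (sw k o Q B))
  haveI := Fintype.ofFinite (GL (Fin k) F)
  haveI := Fintype.ofFinite (Iso Q B)
  have hξ := xi_irr (o := o) hσ.irr hτ
  have hs : sw k o Q B * sw k o Q B ∈ PP k o Q B := sw_sw (k := k) (o := o) (Q := Q) (B := B) ▸ lv_mem _ _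
  rw [Psi, mackey2 hξ.isClassFunction (sw_notMem hσ.one_le) fun x hx hx' => kill_main h hσ hτ.isCharacter mid hx
    fun h0 => hx' ?_, ip_eq, hξ.classInner_self, ip_eq, ip_eq,
    ← classInner_comp_of_surjective ((lvHom o).codRestrict (cap (PP k o Q B) (sw k o Q B)) fun y =>
      mem_cap.2 ⟨lv_mem y.1 y.2, (sw_conj_lv y.1 y.2).symm ▸ lv_mem _ _⟩) ?_,
    ← mul_one (classInner σ _), ← hτ.classInner_self, ← classInner_prod]
  · congr 2 <;> ext y
    · exact congrArg₂ (σ · * τ ·) (pa_lv _ _) (pb_lv _ _)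
    · have e : cap2 _ _ (((lvHom o).codRestrict (cap (PP k o Q B) (sw k o Q B)) fun y =>
          mem_cap.2 ⟨lv_mem y.1 y.2, (sw_conj_lv y.1 y.2).symm ▸ lv_mem _ _⟩) y) = ⟨_, lv_mem (du y.1) y.2⟩ :=
        Subtype.ext (sw_conj_lv y.1 y.2)
      rw [e, xi, pa_lv, pb_lv]
  · rintro ⟨g, hg⟩
    obtain ⟨g1, g2⟩ := mem_cap.1 hg
    refine ⟨(pa k o Q B ⟨g, g1⟩, pb k o Q B ⟨g, g1⟩), Subtype.ext (mul_inv_eq_one.1 (sw_conj_eq_one
      (PP.decomp ⟨g, g1⟩) ?_ h)).symm⟩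
    have := mul_mem (mul_mem hs (mul_mem g2 (inv_mem ((sw_conj_lv (pa k o Q B ⟨g, g1⟩)
      (pb k o Q B ⟨g, g1⟩)).symm ▸ lv_mem _ _ : (sw k o Q B)⁻¹ * lv o _ _ * sw k o Q B ∈ PP k o Q B))))
      (inv_mem hs)
    convert this using 1
    group
  · obtain ⟨u, hu, p, hp, e⟩ := exists_uu_sw h (g := x⁻¹) fun a ha => h0.le (mem_prp.2 (by
      rintro _ ⟨s, hs, rfl⟩
      rw [← Iso.apply_inv x (LinearMap.inl F _ _ a)]
      exact (x.2.2 _ _).trans (by
        rw [show s = (s.1, 0) from Prod.ext rfl (mem_X0.1 hs)]; exact hB_fst _ ha)))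
    exact ⟨p⁻¹, inv_mem hp, _, mul_mem (inv_mem hs) (inv_mem (UU_le hu)), by
      rw [← inv_inv x, e]; group⟩

end Cfsg.Agent.Dg
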