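import Cfsg.Agent.Dg.M3
import Cfsg.Agent.Dg.G3

/-! Degrees of irreducible Harish-Chandra induced characters. -/

set_option autoImplicit false

namespace Cfsg.Agent.Dg

open Cfsg Cfsg.Agent.H3 Cfsg.Agent.H4 Module Finset

variable {F V : Type} [Field F] [Finite F] [AddCommGroup V] [Module F V] [Finite V] {k d m : ℕ} {o : Bool}
  {Q : V → F} {B : LinearMap.BilinForm F V}

theorem Psi_one {σ : GL (Fin k) F → ℂ} {τ : Iso Q B → ℂ} (T : Ty o d m Q B) (hσ : Cusp σ) :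
    Psi o σ τ 1 * ((Nat.card F ^ k - 1 : ℕ) : ℂ) =
      (∏ i ∈ Ioc m (m + k), NN (Nat.card F) (ee o d) i : ℕ) * τ 1 := by
  rw [Psi_one', ← index_PP T, hσ.deg, prod_Ico_succ_top hσ.one_le]
  push_cast
  ring

theorem Psi_irr {σ : GL (Fin k) F → ℂ} {τ : Iso Q B → ℂ} (h : Pol o Q B) (hσ : Cusp σ) (hn : NR σ)
    (hτ : IsIrrCharacter _ τ) (mid : NoMid k Q B ∨ Un τ) : IsIrrCharacter _ (Psi o σ τ) := by
  haveI := Fintype.ofFinite (GG k o Q B)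
  refine (Psi_char hσ.irr.isCharacter hτ.isCharacter).isIrrCharacter ?_
  rw [← ip_eq, ip_Psi h hσ hτ mid, hn, add_zero]

theorem q_pow_sub_one_pos (hk : 1 ≤ k) : 0 < Nat.card F ^ k - 1 :=
  Nat.sub_pos_of_lt (Nat.one_lt_pow (by omega) Finite.one_lt_card)

/-- Harish-Chandra induction of `σ ⊗ τ` with `σ` cuspidal and not self-dual -/
theorem hc {z : Prop} {t D : ℕ} (T : Ty o d (m + k) Q B)
    (hσ : ∃ σ : GL (Fin k) F → ℂ, Cusp σ ∧ NR σ ∧ (z → σ (-1) = σ 1))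
    (hτ : ∀ (V' : Type) [AddCommGroup V'] [Module F V'] [Finite V'] (Q' : V' → F)
      (B' : LinearMap.BilinForm F V'), Ty o d m Q' B' →
        ∃ τ : Iso Q' B' → ℂ, IsIrrCharacter _ τ ∧ τ 1 = t ∧ (z → Cen τ) ∧ (m < k ∨ Un τ))
    (hD : D * (Nat.card F ^ k - 1) = (∏ i ∈ Ioc m (m + k), NN (Nat.card F) (ee o d) i) * t) : CD z Q B D := by
  obtain ⟨V', _, _, _, Q', B', T', e⟩ := T.split
  obtain ⟨σ, s1, s2, s3⟩ := hσ
  obtain ⟨τ, t1, t2, t3, t4⟩ := hτ V' Q' B' T'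
  refine e.cd ⟨Psi o σ τ, Psi_irr T'.pol s1 s2 t1 (t4.imp_left T'.nomid), ?_, fun hz => Psi_cen T'.pol (s3 hz) (t3 hz)⟩
  refine mul_right_cancel₀ (Nat.cast_ne_zero.2 (q_pow_sub_one_pos (F := F) s1.one_le).ne') ?_
  rw [Psi_one T' s1, t2, ← Nat.cast_mul, ← hD, Nat.cast_mul]

end Cfsg.Agent.Dg
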