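import Cfsg.Agent.Dg.I

/-! Green's primitive class functions: definition, uniqueness, transport. -/

set_option autoImplicit false

namespace Cfsg.Agent.Dg

open Polynomial Module

variable {F V V' : Type} [Field F] [AddCommGroup V] [Module F V] [AddCommGroup V'] [Module F V']

open Module.Basis in
theorem charpoly_split [Module.Finite F V] (W : Submodule F V) (e : End F V) (he : W ≤ W.comap e) :
    e.charpoly = (e.restrict he).charpoly * (W.mapQ W e he).charpoly := by
  let m := Module.Free.ChooseBasisIndex F W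
  let bW : Basis m F W := Module.Free.chooseBasis F W
  let n := Module.Free.ChooseBasisIndex F (V ⧸ W)
  let bQ : Basis n F (V ⧸ W) := Module.Free.chooseBasis F (V ⧸ W)
  let b := sumQuot bW bQ
  let A : Matrix m m F := LinearMap.toMatrix bW bW (e.restrict he)
  let B : Matrix m n F := Matrix.of fun i l ↦
    ((sumQuot bW bQ).repr (e ((sumQuot bW bQ) (Sum.inr l)))) (Sum.inl i)
  let D : Matrix n n F := LinearMap.toMatrix bQ bQ (W.mapQ W e he)
  suffices LinearMap.toMatrix b b e = Matrix.fromBlocks A B 0 D by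
    rw [← LinearMap.charpoly_toMatrix _ b, this, ← LinearMap.charpoly_toMatrix _ bW,
      ← LinearMap.charpoly_toMatrix _ bQ, Matrix.charpoly_fromBlocks_zero₂₁]
  ext u v
  cases u with
  | inl i =>
    cases v with
    | inl k =>
      simp only [b, sumQuot_inl, Matrix.fromBlocks_apply₁₁, A, LinearMap.toMatrix_apply]
      apply sumQuot_repr_inl_of_mem
    | inr l => simp [b, LinearMap.toMatrix_apply, Matrix.fromBlocks_apply₁₂, B]
  | inr j =>
    cases v with
    | inl k =>
      suffices W.mkQ (e (bW k)) = 0 by simp [LinearMap.toMatrix_apply, b, this]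
      rw [← LinearMap.mem_ker, Submodule.ker_mkQ]
      exact he (Submodule.coe_mem (bW k))
    | inr l =>
      simp only [LinearMap.toMatrix_apply, sumQuot_repr_inr,
        Matrix.fromBlocks_apply₂₂, b, D]
      rw [← sumQuot_inr bW bQ l, W.mapQ_apply]
      simp

variable [Finite V] [Finite V']

open Classical in
/-- the characteristic polynomial on an invariant subspace -/
noncomputable def ch (f : End F V) (U : Submodule F V) : F[X] :=
  if h : U ≤ U.comap f then (f.restrict h).charpoly else 1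

theorem ch_eq {f : End F V} {U : Submodule F V} (h : U ≤ U.comap f) : ch f U = (f.restrict h).charpoly :=
  dif_pos h

theorem ch_monic (f : End F V) (U : Submodule F V) : (ch f U).Monic := by
  unfold ch; split_ifs
  exacts [LinearMap.charpoly_monic _, monic_one]

theorem charpoly_congr (e : V ≃ₗ[F] V') {f : End F V} {f' : End F V'} (h : ∀ v, f' (e v) = e (f v)) :
    f'.charpoly = f.charpoly := by
  rw [← e.charpoly_conj f]
  congr 1
  ext v
  obtain ⟨v, rfl⟩ := e.surjective v
  simp [h]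

theorem ch_top (f : End F V) : ch f ⊤ = f.charpoly := by
  rw [ch_eq (f := f) (U := ⊤) fun _ _ => trivial]
  exact (charpoly_congr Submodule.topEquiv fun _ => rfl).symm

theorem ch_bot (f : End F V) : ch f ⊥ = 1 := by
  have h : (⊥ : Submodule F V) ≤ Submodule.comap f ⊥ := bot_le
  have := (f.restrict h).charpoly_natDegree
  rw [finrank_bot] at this
  rw [ch_eq h]
  exact (LinearMap.charpoly_monic _).natDegree_eq_zero.1 this

theorem inv_map {f : End F V} {f' : End F V'} {e : V →ₗ[F] V'} {U : Submodule F V} (hU : U ≤ U.comap f)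
    (h : ∀ u ∈ U, f' (e u) = e (f u)) : U.map e ≤ (U.map e).comap f' := by
  rintro _ ⟨u, hu, rfl⟩
  exact ⟨f u, hU hu, (h u hu).symm⟩

theorem ch_map {f : End F V} {f' : End F V'} {e : V →ₗ[F] V'} {U : Submodule F V} (hU : U ≤ U.comap f)
    (hi : ∀ u ∈ U, e u = 0 → u = 0) (h : ∀ u ∈ U, f' (e u) = e (f u)) : ch f' (U.map e) = ch f U := by
  rw [ch_eq hU, ch_eq (inv_map hU h)]
  refine charpoly_congr (LinearEquiv.ofBijective (e.submoduleMap U) ⟨?_, e.submoduleMap_surjective U⟩)
    fun v => Subtype.ext (h v v.2)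
  exact (injective_iff_map_eq_zero _).2 fun v hv => Subtype.ext (hi v v.2 (congrArg Subtype.val hv))

open Classical in
/-- the invariant subspaces of `U` -/
noncomputable def iv (f : End F V) (U : Submodule F V) : Finset (Submodule F V) :=
  (Set.toFinite {W | W ≤ U ∧ W ≤ W.comap f}).toFinset

@[simp] theorem mem_iv {f : End F V} {U W : Submodule F V} : W ∈ iv f U ↔ W ≤ U ∧ W ≤ W.comap f := by
  simp [iv]

open Classical in
/-- the primitive part of `b` -/
noncomputable def gr (b : F[X] → ℂ) (f : End F V) : Submodule F V → ℂ :=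
  WellFounded.fix wellFounded_lt fun U rec =>
    b (ch f U) - ∑ W ∈ ((iv f U).erase U).attach, rec W.1
      (lt_of_le_of_ne (mem_iv.1 (Finset.mem_of_mem_erase W.2)).1 (Finset.ne_of_mem_erase W.2))

variable (b : F[X] → ℂ)

open Classical in
theorem gr_eq (f : End F V) (U : Submodule F V) :
    gr b f U = b (ch f U) - ∑ W ∈ (iv f U).erase U, gr b f W := by
  rw [gr, WellFounded.fix_eq, ← Finset.sum_attach ((iv f U).erase U)]

theorem gr_sum {f : End F V} {U : Submodule F V} (hU : U ≤ U.comap f) :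
    ∑ W ∈ iv f U, gr b f W = b (ch f U) := by
  classical
  rw [← Finset.add_sum_erase _ _ (mem_iv.2 ⟨le_rfl, hU⟩), gr_eq, sub_add_cancel]

theorem gr_uniq {f : End F V} {U₀ : Submodule F V} (P : Submodule F V → ℂ)
    (h : ∀ U ∈ iv f U₀, ∑ W ∈ iv f U, P W = b (ch f U)) (U : Submodule F V) :
    U ∈ iv f U₀ → gr b f U = P U := by
  classical
  refine WellFoundedLT.induction (motive := fun U => U ∈ iv f U₀ → gr b f U = P U) U fun U ih hU => ?_
  rw [gr_eq, ← h U hU, ← Finset.add_sum_erase _ _ (mem_iv.2 ⟨le_rfl, (mem_iv.1 hU).2⟩),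
    Finset.sum_congr rfl fun W hW => ih W ?_ ?_, add_sub_cancel_right]
  · exact lt_of_le_of_ne (mem_iv.1 (Finset.mem_of_mem_erase hW)).1 (Finset.ne_of_mem_erase hW)
  · have := mem_iv.1 (Finset.mem_of_mem_erase hW)
    exact mem_iv.2 ⟨this.1.trans (mem_iv.1 hU).1, this.2⟩

theorem gr_map {f : End F V} {f' : End F V'} {e : V →ₗ[F] V'} {U : Submodule F V} (hU : U ≤ U.comap f)
    (hi : ∀ u ∈ U, e u = 0 → u = 0) (h : ∀ u ∈ U, f' (e u) = e (f u)) :
    gr b f' (U.map e) = gr b f U := by
  refine (gr_uniq b (U₀ := U) (fun W => gr b f' (W.map e)) (fun W hW => ?_) U (mem_iv.2 ⟨le_rfl, hU⟩)).symm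
  obtain ⟨hW, hW'⟩ := mem_iv.1 hW
  rw [← ch_map hW' (fun u hu => hi u (hW hu)) fun u hu => h u (hW hu),
    ← gr_sum b (inv_map hW' fun u hu => h u (hW hu))]
  refine Finset.sum_bij' (fun Y _ => Y.map e) (fun Y _ => Y.comap e ⊓ W) (fun Y hY => ?_) (fun Y hY => ?_)
    (fun Y hY => ?_) (fun Y hY => ?_) fun _ _ => rfl
  · obtain ⟨h1, h2⟩ := mem_iv.1 hY
    exact mem_iv.2 ⟨Submodule.map_mono h1, inv_map h2 fun u hu => h u (hW (h1 hu))⟩
  · obtain ⟨h1, h2⟩ := mem_iv.1 hY
    refine mem_iv.2 ⟨inf_le_right, fun u hu => ⟨?_, hW' hu.2⟩⟩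
    have := h2 hu.1
    rwa [Submodule.mem_comap, h u (hW hu.2)] at this
  · obtain ⟨h1, h2⟩ := mem_iv.1 hY
    refine le_antisymm ?_ (le_inf (Submodule.le_comap_map _ _) h1)
    rintro u ⟨⟨y, hy, hyu⟩, hu⟩
    have := hi (u - y) (hW (sub_mem hu (h1 hy))) (by rw [map_sub, hyu, sub_self])
    rwa [sub_eq_zero.1 this]
  · obtain ⟨h1, h2⟩ := mem_iv.1 hY
    refine le_antisymm ((Submodule.map_mono inf_le_left).trans (Submodule.map_comap_le _ _)) fun y hy => ?_
    obtain ⟨u, hu, rfl⟩ := h1 hy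
    exact ⟨u, ⟨hy, hu⟩, rfl⟩

theorem gr_congr {f f' : End F V} {U : Submodule F V} (hU : U ≤ U.comap f) (h : ∀ u ∈ U, f' u = f u) :
    gr b f' U = gr b f U := by
  simpa using gr_map b (e := LinearMap.id) hU (fun _ _ h => h) h

theorem gr_restrict {f : End F V} {U : Submodule F V} (hU : U ≤ U.comap f) :
    gr b f U = gr b (f.restrict hU : End F U) ⊤ := by
  simpa using gr_map b (f := (f.restrict hU : End F U)) (f' := f) (e := U.subtype) (U := ⊤) (fun _ _ => trivial)
    (fun u _ h => Subtype.ext h) fun _ _ => rfl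

theorem gr_conj (e : V ≃ₗ[F] V') {f : End F V} {f' : End F V'} (h : ∀ v, f' (e v) = e (f v)) :
    gr b f' ⊤ = gr b f ⊤ := by
  simpa using gr_map b (f := f) (f' := f') (e := e.toLinearMap) (U := ⊤) (fun _ _ => trivial)
    (fun u _ h => e.map_eq_zero_iff.1 h) fun u _ => h u

theorem gr_bot (hb : b 1 = 0) (f : End F V) : gr b f ⊥ = 0 := by
  have h := gr_sum b (f := f) (U := ⊥) bot_le
  have : iv f ⊥ = {⊥} := by ext W; simp +contextual
  rwa [this, Finset.sum_singleton, ch_bot, hb] at h

end Cfsg.Agent.Dg
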