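import Cfsg.Agent.Dg.P1

/-! Primitivity of `gr`, and its value on scalars. -/

set_option autoImplicit false

namespace Cfsg.Agent.Dg

open Polynomial Module

variable {F V : Type} [Field F] [AddCommGroup V] [Module F V]

theorem exists_factor {A B C : Type} [AddCommGroup A] [Module F A] [AddCommGroup B] [Module F B]
    [AddCommGroup C] [Module F C] (π : A →ₗ[F] B) (δ : A →ₗ[F] C) (h : ∀ a, π a = 0 → δ a = 0) :
    ∃ δ' : B →ₗ[F] C, ∀ a, δ' (π a) = δ a := by
  obtain ⟨g, hg⟩ := LinearMap.exists_extend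
    ((LinearMap.ker π).liftQ δ (fun a ha => h a ha) ∘ₗ π.quotKerEquivRange.symm.toLinearMap)
  refine ⟨g, fun a => ?_⟩
  have := LinearMap.congr_fun hg (π.quotKerEquivRange (Submodule.Quotient.mk a))
  simpa using! this

/-- endomorphisms with image in `Y` killing `W` -/
def RW (Y W : Submodule F V) : Submodule F (End F V) where
  carrier := {ψ | (∀ v, ψ v ∈ Y) ∧ ∀ w ∈ W, ψ w = 0}
  zero_mem' := ⟨fun _ => zero_mem _, fun _ _ => rfl⟩
  add_mem' := fun {a b} ha hb => ⟨fun v => add_mem (ha.1 v) (hb.1 v), fun w hw => by simp [ha.2 w hw, hb.2 w hw]⟩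
  smul_mem' := fun c a ha => ⟨fun v => Y.smul_mem c (ha.1 v), fun w hw => by simp [ha.2 w hw]⟩

theorem ext_map (U X Y : Submodule F V) (δ : U →ₗ[F] V) (h1 : ∀ u, δ u ∈ Y) (h2 : ∀ u : U, u.1 ∈ X → δ u = 0) :
    ∃ ψ ∈ RW Y X, ∀ u : U, ψ u = δ u := by
  obtain ⟨δ', h⟩ := exists_factor (X.mkQ ∘ₗ U.subtype) (δ.codRestrict Y h1) fun u hu =>
    Subtype.ext (h2 u ((Submodule.Quotient.mk_eq_zero X).1 hu))
  refine ⟨Y.subtype ∘ₗ δ' ∘ₗ X.mkQ, ⟨fun v => (δ' _).2, fun w hw => ?_⟩, fun u => congrArg Subtype.val (h u)⟩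
  simp [(Submodule.Quotient.mk_eq_zero X).2 hw]

theorem kill {A ι : Type} [AddCommGroup A] [Fintype A] [Fintype ι] [Nonempty ι] (G : A → ℂ) (s : ι → A)
    (h : ∀ a, ∑ i, G (a + s i) = 0) : ∑ a, G a = 0 := by
  have : ∑ i : ι, ∑ a, G (a + s i) = 0 := by rw [Finset.sum_comm]; simp [h]
  have e : ∀ i, ∑ a, G (a + s i) = ∑ a, G a := fun i => Equiv.sum_comp (Equiv.addRight (s i)) G
  simpa [e] using this

variable [Finite V]

instance finite_end : Finite (End F V) := Finite.of_injective _ DFunLike.coe_injective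

instance finite_quot (X : Submodule F V) : Finite (V ⧸ X) := Finite.of_surjective _ X.mkQ_surjective

noncomputable instance fintype_end : Fintype (End F V) := Fintype.ofFinite _

noncomputable instance fintype_RW (Y W : Submodule F V) : Fintype (RW Y W) := Fintype.ofFinite _

noncomputable instance fintype_sub : Fintype (Submodule F V) := Fintype.ofFinite _

theorem card_RW (Y W : Submodule F V) :
    Nat.card (RW Y W) = Nat.card F ^ ((finrank F V - finrank F W) * finrank F Y) := by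
  have e : ((V ⧸ W) →ₗ[F] Y) ≃ RW Y W := Equiv.ofBijective
    (fun δ => ⟨Y.subtype ∘ₗ δ ∘ₗ W.mkQ, fun v => (δ _).2, fun w hw => by
      simp [(Submodule.Quotient.mk_eq_zero W).2 hw]⟩)
    ⟨fun δ δ' h => Submodule.linearMap_qext _ (LinearMap.ext fun v => Subtype.ext
      (LinearMap.congr_fun (congrArg Subtype.val h) v)), fun ψ =>
      ⟨W.liftQ (ψ.1.codRestrict Y ψ.2.1) fun w hw => Subtype.ext (ψ.2.2 w hw), rfl⟩⟩
  rw [← Nat.card_congr e, Module.natCard_eq_pow_finrank (K := F), finrank_linearMap,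
    ← W.finrank_quotient_add_finrank, Nat.add_sub_cancel]

open Classical in
/-- the maps of a coset carrying `U₁` into a complement `U₂` -/
theorem card_coset {X U₁ U₂ : Submodule F V} (h : End F V) (h1 : Disjoint U₁ X) (h2 : Disjoint U₂ X)
    (hh : ∀ u ∈ U₁, h u ∈ U₂ ⊔ X) :
    (Finset.univ.filter fun ψ : RW X X => U₁ ≤ U₂.comap (h + ψ.1)).card = Nat.card (RW X (U₁ ⊔ X)) := by
  obtain ⟨p, hp, hp'⟩ := ext_map X U₂ X X.subtype (fun x => x.2) fun x hx =>
    (Submodule.disjoint_def.1 h2) _ hx x.2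
  obtain ⟨ψ₀, hψ, hψ'⟩ := ext_map U₁ X X (-(p ∘ₗ h ∘ₗ U₁.subtype)) (fun u => neg_mem (hp.1 _)) fun u hu => by
    rw [show u = 0 from Subtype.ext ((Submodule.disjoint_def.1 h1) _ u.2 hu), map_zero]
  have k : ∀ u ∈ U₁, h u + ψ₀ u ∈ U₂ := fun u hu => by
    obtain ⟨y, hy, x, hx, e⟩ := Submodule.mem_sup.1 (hh u hu)
    have : ψ₀ u = -x := by
      rw [hψ' ⟨u, hu⟩]
      change -(p (h u)) = _
      rw [← e, map_add, hp.2 y hy, zero_add, hp' ⟨x, hx⟩]; rfl
    rwa [this, ← e, add_neg_cancel_right]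
  rw [← Fintype.card_subtype, ← Nat.card_eq_fintype_card]
  refine (Nat.card_congr (Equiv.ofBijective (fun ψ : RW X (U₁ ⊔ X) => (⟨⟨ψ₀ + ψ.1, add_mem hψ ⟨ψ.2.1, fun w hw =>
    ψ.2.2 w (Submodule.mem_sup_right hw)⟩⟩, fun u hu => ?_⟩ : {ψ : RW X X // U₁ ≤ U₂.comap (h + ψ.1)}))
    ⟨fun a b e => Subtype.ext (add_left_cancel (congrArg (·.1.1) e)), fun ψ =>
      ⟨⟨ψ.1.1 - ψ₀, fun v => sub_mem (ψ.1.2.1 v) (hψ.1 v), fun w hw => ?_⟩,
        Subtype.ext (Subtype.ext (add_sub_cancel _ _))⟩⟩)).symm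
  · simpa [ψ.2.2 u (Submodule.mem_sup_left hu)] using k u hu
  · obtain ⟨u, hu, x, hx, rfl⟩ := Submodule.mem_sup.1 hw
    have : (ψ.1.1 - ψ₀) u = 0 := (Submodule.disjoint_def.1 h2) _
      (by simpa using U₂.sub_mem (ψ.2 hu) (k u hu)) (sub_mem (ψ.1.2.1 u) (hψ.1 u))
    rw [map_add, this, LinearMap.sub_apply, ψ.1.2.2 x hx, hψ.2 x hx, sub_zero, add_zero]

open Classical in
/-- the complements of `X` in `W` -/
theorem card_compl {X W : Submodule F V} (hW : X ≤ W) :
    (Finset.univ.filter fun U : Submodule F V => Disjoint U X ∧ U ⊔ X = W).card * Nat.card (RW X W) =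
      Nat.card (RW X X) := by
  obtain ⟨U₀, h0, h1⟩ : ∃ U₀ : Submodule F V, Disjoint U₀ X ∧ U₀ ⊔ X = W := by
    obtain ⟨C, hC⟩ := X.exists_isCompl
    exact ⟨C ⊓ W, hC.disjoint.symm.mono_left inf_le_left, by
      rw [sup_comm, ← sup_inf_assoc_of_le _ hW, hC.sup_eq_top, top_inf_eq]⟩
  have key : ∀ l : RW X X, (Finset.univ.filter fun U : Submodule F V => Disjoint U X ∧ U ⊔ X = W).filter
      (fun U => U₀ ≤ U.comap (1 + l.1)) = {U₀.map (1 + l.1)} := fun l => by
    have d : Disjoint (U₀.map (1 + l.1)) X := Submodule.disjoint_def.2 (by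
      rintro _ ⟨u, hu, rfl⟩ hx
      have : u = 0 := (Submodule.disjoint_def.1 h0) u hu (by simpa using sub_mem hx (l.2.1 u))
      rw [this, map_zero])
    have s : U₀.map (1 + l.1) ⊔ X = W := by
      rw [← h1]
      refine le_antisymm (sup_le ?_ le_sup_right) (sup_le (fun u hu => ?_) le_sup_right)
      · rintro _ ⟨u, hu, rfl⟩
        exact Submodule.add_mem_sup hu (l.2.1 u)
      · have := Submodule.add_mem_sup (Submodule.mem_map_of_mem (f := 1 + l.1) hu) (neg_mem (l.2.1 u))
        rwa [LinearMap.add_apply, add_neg_cancel_right] at this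
    ext U
    simp only [Finset.mem_filter, Finset.mem_univ, true_and, Finset.mem_singleton]
    refine ⟨fun ⟨⟨a, b⟩, c⟩ => ?_, fun e => e ▸ ⟨⟨d, s⟩, Submodule.le_comap_map _ _⟩⟩
    have c' : U₀.map (1 + l.1) ≤ U := Submodule.map_le_iff_le_comap.2 c
    rw [← inf_eq_right.2 (le_sup_left : U ≤ U ⊔ X), b, ← s, sup_inf_assoc_of_le _ c', a.symm.eq_bot, sup_bot_eq]
  rw [Nat.card_eq_fintype_card (α := RW X X), ← smul_eq_mul, ← Finset.sum_const, Finset.sum_congr rfl
    (g := fun U => (Finset.univ.filter fun l : RW X X => U₀ ≤ U.comap (1 + l.1)).card) fun U hU => ?_]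
  · simp only [Finset.card_filter]
    rw [Finset.sum_comm]
    simp only [← Finset.card_filter, key, Finset.card_singleton]
    simp
  · obtain ⟨a, b⟩ := (Finset.mem_filter.1 hU).2
    rw [card_coset 1 h0 a fun u hu => by rw [b, ← h1]; exact Submodule.mem_sup_left hu, h1]

open Classical in
theorem sum_disj (X : Submodule F V) {G : Submodule F V → ℂ} (H : Submodule F (V ⧸ X) → ℂ)
    (h : ∀ U, Disjoint U X → G U = H (U.map X.mkQ)) :
    ∑ U : Submodule F V, (if Disjoint U X then G U else 0) = ∑ Y : Submodule F (V ⧸ X),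
      (Finset.univ.filter fun U : Submodule F V => Disjoint U X ∧ U ⊔ X = Y.comap X.mkQ).card * H Y := by
  rw [← Finset.sum_fiberwise Finset.univ fun U : Submodule F V => U.map X.mkQ]
  refine Finset.sum_congr rfl fun Y _ => ?_
  rw [← Finset.sum_filter, Finset.filter_filter, ← nsmul_eq_mul, ← Finset.sum_const]
  refine Finset.sum_congr (Finset.filter_congr fun U _ => ?_) fun U hU => ?_
  · rw [and_comm, sup_comm, ← X.comap_map_mkQ,
      (Submodule.comap_injective_of_surjective X.mkQ_surjective).eq_iff]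
  · have := (Finset.mem_filter.1 hU).2.2
    rw [sup_comm, ← X.comap_map_mkQ,
      (Submodule.comap_injective_of_surjective X.mkQ_surjective).eq_iff] at this
    rw [h U (Finset.mem_filter.1 hU).2.1, this]

theorem inv_add {X : Submodule F V} {f : End F V} (h : X ≤ X.comap f) (ψ : RW X X) :
    X ≤ X.comap (f + ψ.1) := fun x hx => X.add_mem (h hx) (ψ.2.1 x)

theorem charpoly_add {X : Submodule F V} {f : End F V} (h : X ≤ X.comap f) (ψ : RW X X) :
    (f + ψ.1).charpoly = f.charpoly := by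
  rw [charpoly_split X _ (inv_add h ψ), charpoly_split X f h]
  congr 2
  · ext x; simp [ψ.2.2 x x.2]
  · ext v; simpa [Submodule.Quotient.eq] using ψ.2.1 v

/-- additivity on monic polynomials -/
def Ad (b : F[X] → ℂ) : Prop := ∀ c d : F[X], c.Monic → d.Monic → b (c * d) = b c + b d

theorem Ad.one {b : F[X] → ℂ} (hb : Ad b) : b 1 = 0 := by simpa using hb 1 1 monic_one monic_one

theorem sum_iv (f : End F V) (U : Submodule F V) (P : Submodule F V → ℂ)
    [∀ W : Submodule F V, Decidable (W ≤ U ∧ W ≤ W.comap f)] :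
    ∑ W ∈ iv f U, P W = ∑ W, if W ≤ U ∧ W ≤ W.comap f then P W else 0 := by
  rw [← Finset.sum_filter]
  exact Finset.sum_congr (by ext; simp) fun _ _ => rfl

theorem gr_prim_aux {b : F[X] → ℂ} (hb : Ad b) (n : ℕ) : ∀ (V : Type) [AddCommGroup V] [Module F V] [Finite V],
    finrank F V = n → ∀ (X : Submodule F V) (f : End F V), X ≠ ⊥ → X ≠ ⊤ → X ≤ X.comap f →
      ∑ ψ : RW X X, gr b (f + ψ.1) ⊤ = 0 := by
  classical
  induction n using Nat.strong_induction_on with | _ n ih => ?_
  intro V _ _ _ hn X f h0 h1 hX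
  let G : Submodule F V → ℂ := fun U => ∑ ψ : RW X X, if U ≤ U.comap (f + ψ.1) then gr b (f + ψ.1) U else 0
  let f' := X.mapQ X f hX
  have tot : ∑ U, G U = Nat.card (RW X X) * (b (ch f X) + b (ch f' ⊤)) := by
    rw [Finset.sum_comm, Finset.sum_congr rfl (g := fun _ => b (ch f X) + b (ch f' ⊤)) fun ψ _ => ?_]
    · simp [mul_add]
    · have := gr_sum b (f := f + ψ.1) (U := ⊤) fun _ _ => trivial
      rw [sum_iv, ch_top, charpoly_add hX, charpoly_split X f hX,
        hb _ _ (LinearMap.charpoly_monic _) (LinearMap.charpoly_monic _), ← ch_eq hX, ← ch_top] at this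
      simpa using this
  have a1 : ∑ U, (if U ≤ X then G U else 0) = Nat.card (RW X X) * b (ch f X) := by
    rw [← gr_sum b hX, sum_iv, Finset.mul_sum]
    refine Finset.sum_congr rfl fun U _ => ?_
    by_cases hU : U ≤ X
    · have e : ∀ ψ : RW X X, ∀ u ∈ U, (f + ψ.1) u = f u := fun ψ u hu => by simp [ψ.2.2 u (hU hu)]
      have e' : ∀ ψ : RW X X, U ≤ U.comap (f + ψ.1) ↔ U ≤ U.comap f := fun ψ =>
        forall₂_congr fun u hu => by rw [Submodule.mem_comap, e ψ u hu, Submodule.mem_comap]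
      by_cases hf : U ≤ U.comap f
      · simp [G, hU, hf, e', fun ψ => gr_congr b hf (e ψ)]
      · simp [G, hU, hf, e']
    · simp [hU]
  have a2 : ∑ U, (if Disjoint U X then G U else 0) = Nat.card (RW X X) * b (ch f' ⊤) := by
    rw [← gr_sum b (f := f') (U := ⊤) fun _ _ => trivial, sum_iv, Finset.mul_sum,
      sum_disj X (fun Y => Nat.card (RW X (Y.comap X.mkQ)) *
        if Y ≤ ⊤ ∧ Y ≤ Y.comap f' then gr b f' Y else 0) fun U hU => ?_]
    · refine Finset.sum_congr rfl fun Y _ => ?_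
      rw [← mul_assoc, ← Nat.cast_mul, card_compl (X.le_comap_mkQ Y)]
    · have e : ∀ ψ : RW X X, ∀ u ∈ U, f' (X.mkQ u) = X.mkQ ((f + ψ.1) u) := fun ψ u _ => by
        simpa [f', Submodule.Quotient.eq] using ψ.2.1 u
      have hi : ∀ u ∈ U, X.mkQ u = 0 → u = 0 := fun u hu h =>
        (Submodule.disjoint_def.1 hU) u hu ((Submodule.Quotient.mk_eq_zero X).1 h)
      by_cases hf : U.map X.mkQ ≤ (U.map X.mkQ).comap f'
      · have := card_coset f hU hU fun u hu => by
          rw [sup_comm, ← X.comap_map_mkQ]; exact hf (Submodule.mem_map_of_mem hu)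
        simp only [G, hf, le_top, and_self, if_true]
        rw [X.comap_map_mkQ, sup_comm, ← this, ← Finset.sum_filter, ← nsmul_eq_mul, ← Finset.sum_const]
        exact Finset.sum_congr rfl fun ψ hψ => (gr_map b (Finset.mem_filter.1 hψ).2 hi (e ψ)).symm
      · simp only [G, hf, and_false, if_false, mul_zero]
        exact Finset.sum_eq_zero fun ψ _ => if_neg fun h => hf (inv_map h (e ψ))
  have a3 : ∀ U, ¬ U ≤ X → ¬ Disjoint U X → U ≠ ⊤ → G U = 0 := fun U k1 k2 k3 => by
    let X' := X.comap U.subtype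
    choose s hs hs' using fun δ : RW X' X' => ext_map U X (U ⊓ X) (U.subtype ∘ₗ δ.1)
      (fun u => ⟨(δ.1 u).2, δ.2.1 u⟩) fun u hu => congrArg Subtype.val (δ.2.2 u hu)
    refine kill _ (fun δ => ⟨s δ, fun v => ((hs δ).1 v).2, (hs δ).2⟩) fun ψ => ?_
    by_cases hU : U ≤ U.comap (f + ψ.1)
    · have hU' : ∀ δ, U ≤ U.comap (f + (ψ.1 + s δ)) := fun δ u hu => by
        have := U.add_mem (hU hu) ((hs δ).1 u).1
        rwa [← LinearMap.add_apply, add_assoc] at this
      rw [← ih _ (hn ▸ Submodule.finrank_lt k3) U rfl X' ((f + ψ.1).restrict hU)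
        (fun h => k2 (Submodule.disjoint_iff_comap_eq_bot.2 h)) (fun h => k1 (Submodule.comap_subtype_eq_top.1 h))
        fun x hx => inv_add hX ψ hx]
      refine Finset.sum_congr rfl fun δ _ => (if_pos (hU' δ)).trans ((gr_restrict b (hU' δ)).trans ?_)
      congr 1
      ext u
      simp [hs' δ u, add_assoc]
    · refine Finset.sum_eq_zero fun δ _ => if_neg fun h => hU fun u hu => ?_
      have := U.sub_mem (h hu) ((hs δ).1 u).1
      simpa [← add_assoc] using this
  have a4 : ∀ U, G U = (if U ≤ X then G U else 0) + (if Disjoint U X then G U else 0) +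
      if U = ⊤ then G U else 0 := fun U => by
    by_cases k3 : U = ⊤
    · simp [k3, h0, h1]
    by_cases k1 : U ≤ X <;> by_cases k2 : Disjoint U X
    · simp [G, k2.eq_bot_of_le k1, gr_bot b hb.one]
    · simp [k1, k2, k3]
    · simp [k1, k2, k3]
    · simp [a3 U k1 k2 k3]
  rw [Finset.sum_congr rfl fun U _ => a4 U, Finset.sum_add_distrib, Finset.sum_add_distrib, a1, a2, mul_add,
    add_eq_left] at tot
  simpa [G] using tot

theorem gr_prim {b : F[X] → ℂ} (hb : Ad b) {X : Submodule F V} {f : End F V} (h0 : X ≠ ⊥) (h1 : X ≠ ⊤)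
    (h : X ≤ X.comap f) : ∑ ψ : RW X X, gr b (f + ψ.1) ⊤ = 0 := gr_prim_aux hb _ V rfl X f h0 h1 h

/-- the signed degree -/
def sdeg (q : ℕ) : ℕ → ℂ
  | 0 => 0
  | m + 1 => ∏ i ∈ Finset.range m, (1 - (q : ℂ) ^ (i + 1))

theorem sdeg_rec (q m : ℕ) : sdeg q (m + 1) + q ^ m * sdeg q m = sdeg q m + if m = 0 then 1 else 0 := by
  cases m with
  | zero => simp [sdeg]
  | succ m => simp [sdeg, Finset.prod_range_succ]; ring

theorem finrank_comap_mkQ (X : Submodule F V) (Y : Submodule F (V ⧸ X)) :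
    finrank F (Y.comap X.mkQ) = finrank F Y + finrank F X := by
  rw [← LinearMap.finrank_range_add_finrank_ker (X.mkQ ∘ₗ (Y.comap X.mkQ).subtype), LinearMap.range_comp,
    Submodule.range_subtype, Submodule.map_comap_eq_of_surjective X.mkQ_surjective, LinearMap.ker_comp,
    Submodule.ker_mkQ, (Submodule.comapSubtypeEquivOfLe (X.le_comap_mkQ Y)).finrank_eq]

theorem sum_sdeg [Finite F] (n : ℕ) : ∀ (V : Type) [AddCommGroup V] [Module F V] [Finite V], finrank F V = n →
    ∑ U : Submodule F V, sdeg (Nat.card F) (finrank F U) = n := by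
  classical
  induction n with
  | zero =>
    intro V _ _ _ hn
    refine (Finset.sum_eq_zero fun U _ => ?_).trans Nat.cast_zero.symm
    rw [Nat.eq_zero_of_le_zero (U.finrank_le.trans_eq hn)]; rfl
  | succ n ih =>
    intro V _ _ _ hn
    have := Module.nontrivial_of_finrank_eq_succ hn
    obtain ⟨v, hv⟩ := exists_ne (0 : V)
    let L := Submodule.span F {v}
    have hL : finrank F L = 1 := finrank_span_singleton hv
    have hQ : finrank F (V ⧸ L) = n := by have := L.finrank_quotient_add_finrank; omega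
    have at' : IsAtom L := nonzero_span_atom v hv
    have s1 : ∑ U : Submodule F V, (if Disjoint U L then 0 else sdeg (Nat.card F) (finrank F U)) =
        ∑ Y : Submodule F (V ⧸ L), sdeg (Nat.card F) (finrank F Y + 1) := by
      simp only [← ite_not (Disjoint _ L)]
      rw [← Finset.sum_filter]
      refine (Finset.sum_bij' (fun Y _ => Y.comap L.mkQ) (fun U _ => U.map L.mkQ) (fun Y _ => ?_)
        (fun _ _ => Finset.mem_univ _) (fun Y _ => Submodule.map_comap_eq_of_surjective L.mkQ_surjective Y)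
        (fun U hU => ?_) fun Y _ => by rw [finrank_comap_mkQ, hL]).symm
      · exact Finset.mem_filter.2 ⟨Finset.mem_univ _, fun h => at'.1 (h.symm.eq_bot_of_le (L.le_comap_mkQ Y))⟩
      · rw [L.comap_map_mkQ, sup_eq_right]
        exact (at'.not_disjoint_iff_le).1 fun h => (Finset.mem_filter.1 hU).2 h.symm
    have s2 : ∑ U : Submodule F V, (if Disjoint U L then sdeg (Nat.card F) (finrank F U) else 0) =
        ∑ Y : Submodule F (V ⧸ L), (Nat.card F : ℂ) ^ finrank F Y * sdeg (Nat.card F) (finrank F Y) := by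
      rw [sum_disj L (fun Y => sdeg (Nat.card F) (finrank F Y)) fun U hU => ?_]
      · refine Finset.sum_congr rfl fun Y _ => ?_
        have := card_compl (L.le_comap_mkQ Y)
        have hY : finrank F Y ≤ n := hQ ▸ Y.finrank_le
        rw [card_RW, card_RW, finrank_comap_mkQ, hL, hn, mul_one, mul_one, Nat.add_sub_cancel,
          show n = finrank F Y + (n + 1 - (finrank F Y + 1)) by omega, pow_add,
          show finrank F Y + (n + 1 - (finrank F Y + 1)) + 1 - (finrank F Y + 1) = n + 1 - (finrank F Y + 1) by omega,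
          Nat.mul_left_inj (pow_ne_zero _ Nat.card_pos.ne')] at this
        rw [this, Nat.cast_pow]
      · have h1 := finrank_comap_mkQ L (U.map L.mkQ)
        have h2 := Submodule.finrank_sup_add_finrank_inf_eq L U
        rw [hU.symm.eq_bot, finrank_bot, ← L.comap_map_mkQ] at h2
        rw [show finrank F U = finrank F (U.map L.mkQ) by omega]
    rw [Finset.sum_congr rfl (g := fun U => (if Disjoint U L then 0 else sdeg (Nat.card F) (finrank F U)) +
      if Disjoint U L then sdeg (Nat.card F) (finrank F U) else 0) fun U _ => by split_ifs <;> simp,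
      Finset.sum_add_distrib, s1, s2, ← Finset.sum_add_distrib, Finset.sum_congr rfl fun Y _ => sdeg_rec _ _,
      Finset.sum_add_distrib, ih _ hQ]
    simp [Submodule.finrank_eq_zero]

theorem gr_scalar [Finite F] {b : F[X] → ℂ} (hb : Ad b) (z : F) :
    gr b (z • 1 : End F V) ⊤ = b (X - C z) * sdeg (Nat.card F) (finrank F V) := by
  classical
  have hi : ∀ U : Submodule F V, U ≤ U.comap (z • 1 : End F V) := fun U u hu => U.smul_mem z hu
  rw [← finrank_top]
  refine gr_uniq b (U₀ := ⊤) (fun U => b (X - C z) * sdeg (Nat.card F) (finrank F U)) (fun U _ => ?_) ⊤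
    (mem_iv.2 ⟨le_rfl, hi _⟩)
  have e : ch (z • 1 : End F V) U = (X - C z) ^ finrank F U := by
    have := LinearMap.charpoly_sub_smul (0 : End F U) (-z)
    rw [ch_eq (hi U), show ((z • 1 : End F V).restrict (hi U) : End F U) = 0 - (-z) • 1 by ext; simp, this,
      LinearMap.charpoly_zero]
    simp [sub_eq_add_neg]
  have p : ∀ m : ℕ, b ((X - C z) ^ m) = b (X - C z) * m := fun m => by
    induction m with
    | zero => simp [hb.one]
    | succ m ih => rw [pow_succ, hb _ _ ((monic_X_sub_C z).pow m) (monic_X_sub_C z), ih]; push_cast; ring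
  rw [e, p, ← Finset.mul_sum, ← sum_sdeg _ U rfl]
  refine congrArg _ (Finset.sum_bij' (fun Y _ => Y.map U.subtype) (fun W _ => W.comap U.subtype)
    (fun Y _ => mem_iv.2 ⟨U.map_subtype_le Y, hi _⟩) (fun _ _ => Finset.mem_univ _)
    (fun Y _ => Submodule.comap_map_eq_of_injective U.injective_subtype Y)
    (fun W hW => (U.map_comap_subtype W).trans (inf_eq_right.2 (mem_iv.1 hW).1))
    fun Y _ => by rw [U.finrank_map_subtype_eq]).symm

end Cfsg.Agent.Dg
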