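import Cfsg.Agent.Dg.P2

/-! Cyclic vectors: the value of `gr`, and sums against functions of the characteristic polynomial. -/

set_option autoImplicit false

namespace Cfsg.Agent.Dg

open Polynomial Module

variable {F V V' : Type} [Field F] [AddCommGroup V] [Module F V] [AddCommGroup V'] [Module F V']

/-- `p ↦ p(f) v` -/
noncomputable def ev (f : End F V) (v : V) : F[X] →ₗ[F] V := LinearMap.applyₗ v ∘ₗ (aeval f).toLinearMap

theorem ev_apply (f : End F V) (v : V) (p : F[X]) : ev f v p = aeval f p v := rfl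

theorem ev_one (f : End F V) (v : V) : ev f v 1 = v := by simp [ev_apply]

theorem ev_mul (f : End F V) (v : V) (p r : F[X]) : ev f v (p * r) = aeval f p (ev f v r) := by simp [ev_apply]

theorem ev_X_mul (f : End F V) (v : V) (r : F[X]) : ev f v (X * r) = f (ev f v r) := by simp [ev_apply]

theorem ev_map {f : End F V} {f' : End F V'} (e : V →ₗ[F] V') (h : ∀ v, f' (e v) = e (f v)) (v : V) (p : F[X]) :
    ev f' (e v) p = e (ev f v p) := by
  induction p using Polynomial.recOnHorner with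
  | M0 => simp
  | MC p a _ _ ih => simp only [map_add, ih]; simp [ev_apply]
  | MX p _ ih => rw [mul_comm, ev_X_mul, ev_X_mul, ih, h]

theorem inv_range (f : End F V) (v : V) : LinearMap.range (ev f v) ≤ (LinearMap.range (ev f v)).comap f := by
  rintro _ ⟨p, rfl⟩
  exact ⟨X * p, ev_X_mul f v p⟩

theorem ev_add {U : Submodule F V} {f : End F V} (h : U ≤ U.comap f) {v : V} (hv : v ∈ U) (ψ : RW U U) :
    ev (f + ψ.1) v = ev f v := LinearMap.ext fun p =>
  (ev_map (f := (f.restrict h : End F U)) U.subtype (fun u => by simp [ψ.2.2 u u.2]) ⟨v, hv⟩ p).trans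
    (ev_map (f := (f.restrict h : End F U)) U.subtype (fun _ => rfl) ⟨v, hv⟩ p).symm

variable [Finite V] [Finite V']

theorem ev_charpoly (f : End F V) (v : V) : ev f v f.charpoly = 0 := by
  simp [ev_apply, LinearMap.aeval_self_charpoly]

theorem charpoly_of_ann {f : End F V} {v : V} (hc : Function.Surjective (ev f v)) {d : F[X]} (hd : d.Monic)
    (h : ∀ p, ev f v p = 0 ↔ d ∣ p) : f.charpoly = d := by
  refine eq_of_monic_of_dvd_of_natDegree_le hd f.charpoly_monic ((h _).1 (ev_charpoly f v)) ?_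
  have : LinearMap.ker (ev f v) = (Ideal.span {d}).restrictScalars F := by
    ext p; simp [h, Ideal.mem_span_singleton]
  rw [f.charpoly_natDegree, ← (LinearMap.quotKerEquivOfSurjective _ hc).finrank_eq,
    (Submodule.quotEquivOfEq _ _ this).finrank_eq, (Submodule.Quotient.restrictScalarsEquiv F _).finrank_eq,
    finrank_quotient_span_eq_natDegree]

theorem ann_iff {f : End F V} {v : V} (hc : Function.Surjective (ev f v)) (p : F[X]) :
    ev f v p = 0 ↔ f.charpoly ∣ p := by
  classical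
  let I : Ideal F[X] :=
    { carrier := {p | ev f v p = 0}
      zero_mem' := map_zero _
      add_mem' := fun {a b} (ha : _ = _) (hb : _ = _) => by simp [ha, hb]
      smul_mem' := fun c a (ha : _ = _) => by simp [ev_mul, ha] }
  obtain ⟨g, hg⟩ := IsPrincipalIdealRing.principal I
  have k : ∀ p, ev f v p = 0 ↔ g ∣ p := fun p => by
    rw [← Ideal.mem_span_singleton, ← Ideal.submodule_span_eq, ← hg]; rfl
  have g0 : g ≠ 0 := fun e => f.charpoly_monic.ne_zero (zero_dvd_iff.1 (e ▸ (k _).1 (ev_charpoly f v)))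
  rw [charpoly_of_ann hc (monic_normalize g0) fun p => (k p).trans normalize_dvd_iff.symm, k, normalize_dvd_iff]

theorem mem_iff_dvd {f : End F V} {v : V} (hc : Function.Surjective (ev f v)) {U : Submodule F V}
    (hU : U ≤ U.comap f) (p : F[X]) : ev f v p ∈ U ↔ f.charpoly ∣ ch f U * p := by
  have e := ev_map (f := f) (f' := U.mapQ U f hU) U.mkQ (fun _ => rfl) v
  have hs : Function.Surjective (ev (U.mapQ U f hU) (U.mkQ v)) := fun y => by
    obtain ⟨y, rfl⟩ := U.mkQ_surjective y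
    obtain ⟨p, rfl⟩ := hc y
    exact ⟨p, e p⟩
  rw [charpoly_split U f hU, ← ch_eq hU, mul_dvd_mul_iff_left (ch_monic f U).ne_zero, ← ann_iff hs, e]
  exact (Submodule.Quotient.mk_eq_zero U).symm

theorem dvd_of_ann {c e e' : F[X]} (hc : c ≠ 0) (h' : e' ∣ c) (h : ∀ p, c ∣ e' * p → c ∣ e * p) : e' ∣ e := by
  obtain ⟨d, rfl⟩ := h'
  exact (mul_dvd_mul_iff_right (right_ne_zero_of_mul hc)).1 (h d dvd_rfl)

theorem ch_dvd {f : End F V} {U : Submodule F V} (hU : U ≤ U.comap f) : ch f U ∣ f.charpoly :=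
  ⟨_, by rw [ch_eq hU]; exact charpoly_split U f hU⟩

/-- `Λ` is the Möbius inverse of `b` -/
def Mo (b Λ : F[X] → ℂ) : Prop :=
  ∀ c : F[X], c.Monic → ∀ s : Finset F[X], (∀ e, e ∈ s ↔ e.Monic ∧ e ∣ c) → ∑ e ∈ s, Λ e = b c

theorem gr_cyc {b Λ : F[X] → ℂ} (h : Mo b Λ) {f : End F V} {v : V} (hc : Function.Surjective (ev f v)) :
    gr b f ⊤ = Λ f.charpoly := by
  classical
  have c0 := f.charpoly_monic.ne_zero
  have le : ∀ {W U : Submodule F V}, W ≤ W.comap f → U ≤ U.comap f → (W ≤ U ↔ ch f W ∣ ch f U) :=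
    fun {W U} hW hU => ⟨fun l => dvd_of_ann c0 (ch_dvd hW) fun p hp =>
      (mem_iff_dvd hc hU p).1 (l ((mem_iff_dvd hc hW p).2 hp)), fun l x hx => by
        obtain ⟨p, rfl⟩ := hc x
        exact (mem_iff_dvd hc hU p).2 (((mem_iff_dvd hc hW p).1 hx).trans (mul_dvd_mul_right l p))⟩
  rw [← ch_top]
  refine gr_uniq b (U₀ := ⊤) (fun U => Λ (ch f U)) (fun U hU => ?_) ⊤ (mem_iv.2 ⟨le_rfl, fun _ _ => trivial⟩)
  have hU := (mem_iv.1 hU).2
  rw [← h _ (ch_monic f U) ((iv f U).image (ch f)) fun e => ?_, Finset.sum_image fun W hW W' hW' e => ?_]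
  · have a := (mem_iv.1 hW).2
    have a' := (mem_iv.1 hW').2
    exact le_antisymm ((le a a').2 e.dvd) ((le a' a).2 e.symm.dvd)
  · simp only [Finset.mem_image, mem_iv]
    refine ⟨fun ⟨W, ⟨a, a'⟩, e⟩ => e ▸ ⟨ch_monic f W, (le a' hU).1 a⟩, fun ⟨m, d⟩ => ?_⟩
    have hW : LinearMap.ker (aeval f e) ≤ (LinearMap.ker (aeval f e)).comap f := fun x hx => by
      obtain ⟨p, rfl⟩ := hc x
      rw [Submodule.mem_comap, LinearMap.mem_ker, ← ev_X_mul, ← ev_mul, mul_left_comm, ev_X_mul, ev_mul, hx,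
        map_zero]
    have k : ∀ p, f.charpoly ∣ ch f (LinearMap.ker (aeval f e)) * p ↔ f.charpoly ∣ e * p := fun p => by
      rw [← mem_iff_dvd hc hW, ← ann_iff hc, ev_mul, LinearMap.mem_ker]
    have : ch f (LinearMap.ker (aeval f e)) = e := eq_of_monic_of_associated (ch_monic _ _) m
      (associated_of_dvd_dvd (dvd_of_ann c0 (ch_dvd hW) fun p => (k p).1)
        (dvd_of_ann c0 (d.trans (ch_dvd hU)) fun p => (k p).2))
    exact ⟨_, ⟨(le hW hU).2 (this.dvd.trans d), hW⟩, this⟩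

omit [Finite V] in
theorem ev_eq {f : End F V} (L : F[X] →ₗ[F] V) (h : ∀ p, L (X * p) = f (L p)) : ev f (L 1) = L :=
  LinearMap.ext fun p => by
    induction p using Polynomial.recOnHorner with
    | M0 => simp
    | MC p a _ _ ih => rw [map_add, map_add, ih, ← mul_one (C a), ← smul_eq_C_mul, map_smul, map_smul, ev_one]
    | MX p _ ih => rw [mul_comm, ev_X_mul, ih, h]

theorem card_cyc {c : F[X]} (hc : c.Monic) (hk : c.natDegree = finrank F V) :
    Nat.card {x : End F V × V // Function.Surjective (ev x.1 x.2) ∧ x.1.charpoly = c} = Nat.card (V ≃ₗ[F] V) := by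
  obtain ⟨f, v, hs, rfl⟩ : ∃ (f : End F V) (v : V), Function.Surjective (ev f v) ∧ f.charpoly = c := by
    have := hc.finite_quotient
    let e : (F[X] ⧸ Ideal.span {c}) ≃ₗ[F] V :=
      LinearEquiv.ofFinrankEq _ _ (finrank_quotient_span_eq_natDegree.trans hk)
    let m := Ideal.Quotient.mkₐ F (Ideal.span {c})
    have k := ev_eq (f := e.conj (LinearMap.mulLeft F (m X))) (e.toLinearMap ∘ₗ m.toLinearMap) fun p => by simp
    have hs : Function.Surjective (e.toLinearMap ∘ₗ m.toLinearMap) :=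
      e.surjective.comp (Ideal.Quotient.mkₐ_surjective F (Ideal.span {c}))
    rw [← k] at hs
    refine ⟨_, _, hs, charpoly_of_ann hs hc fun p => ?_⟩
    rw [k]
    simp [m, Ideal.Quotient.eq_zero_iff_mem, Ideal.mem_span_singleton]
  have k : ∀ (g : V ≃ₗ[F] V) p, ev (g.conj f) (g v) p = g (ev f v p) := fun g p =>
    ev_map g.toLinearMap (fun _ => by simp) v p
  have k' : ∀ g : V ≃ₗ[F] V, Function.Surjective (ev (g.conj f) (g v)) := fun g y => by
    obtain ⟨y, rfl⟩ := g.surjective y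
    obtain ⟨p, rfl⟩ := hs y
    exact ⟨p, k g p⟩
  refine (Nat.card_congr (Equiv.ofBijective (fun g : V ≃ₗ[F] V => ⟨(g.conj f, g v), k' g,
    g.charpoly_conj f⟩) ⟨fun g g' e => LinearEquiv.ext fun y => ?_, fun ⟨⟨f', v'⟩, h1, h2⟩ => ?_⟩)).symm
  · obtain ⟨p, rfl⟩ := hs y
    rw [← k, ← k]
    exact congrArg (fun x => ev x.1.1 x.1.2 p) e
  · obtain ⟨δ, hδ⟩ := exists_factor (ev f v) (ev f' v') fun p hp =>
      (ann_iff h1 p).2 (h2.dvd.trans ((ann_iff hs p).1 hp))
    have su : Function.Surjective δ := fun y => (h1 y).elim fun p hp => ⟨_, (hδ p).trans hp⟩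
    have bi : Function.Bijective δ := ⟨Finite.injective_iff_surjective.2 su, su⟩
    refine ⟨LinearEquiv.ofBijective δ bi, Subtype.ext (Prod.ext
      (LinearMap.ext fun y => ?_) (by simpa [ev_one] using hδ 1))⟩
    obtain ⟨y, rfl⟩ := su y
    obtain ⟨p, rfl⟩ := hs y
    simp only [LinearEquiv.conj_apply_apply, LinearEquiv.ofBijective_symm_apply_apply,
      LinearEquiv.ofBijective_apply]
    rw [← ev_X_mul, hδ, hδ, ev_X_mul]

theorem kill_end {b : F[X] → ℂ} (hb : Ad b) {U : Submodule F V} (h0 : U ≠ ⊥) (h1 : U ≠ ⊤) (c : End F V → ℂ)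
    (hc : ∀ f, U ≤ U.comap f → ∀ ψ : RW U U, c (f + ψ.1) = c f) (hc' : ∀ f, ¬ U ≤ U.comap f → c f = 0) :
    ∑ f, gr b f ⊤ * c f = 0 := by
  refine kill _ (fun ψ : RW U U => ψ.1) fun f => ?_
  by_cases hf : U ≤ U.comap f
  · simp only [hc f hf]
    rw [← Finset.sum_mul, gr_prim hb h0 h1 hf, zero_mul]
  · refine Finset.sum_eq_zero fun ψ _ => ?_
    rw [hc' _ fun h => hf (by simpa using inv_add h (-ψ)), mul_zero]

theorem sum_char [Nontrivial V] {b Λ : F[X] → ℂ} (hb : Ad b) (h : Mo b Λ) (H : F[X] → ℂ) (s : Finset F[X])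
    (hs : ∀ c, c ∈ s ↔ c.Monic ∧ c.natDegree = finrank F V) :
    ((Nat.card V : ℂ) - 1) * ∑ f : End F V, gr b f ⊤ * H f.charpoly =
      Nat.card (V ≃ₗ[F] V) * ∑ c ∈ s, Λ c * H c := by
  classical
  have := Fintype.ofFinite V
  have k : ∀ v : V, (if v = 0 then 0 else ∑ f : End F V, gr b f ⊤ * H f.charpoly) =
      ∑ f : End F V, if Function.Surjective (ev f v) then Λ f.charpoly * H f.charpoly else 0 := fun v => by
    split_ifs with hv
    · refine (Finset.sum_eq_zero fun f _ => if_neg fun h => ?_).symm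
      obtain ⟨w, hw⟩ := exists_ne (0 : V)
      obtain ⟨p, rfl⟩ := h w
      simp [hv, ev_apply] at hw
    rw [Finset.sum_congr rfl (g := fun f => ∑ U : Submodule F V, gr b f ⊤ *
      if LinearMap.range (ev f v) = U then H f.charpoly else 0) fun f _ => by simp, Finset.sum_comm,
      Finset.sum_eq_single ⊤ (fun U _ h1 => ?_) (by simp)]
    · refine Finset.sum_congr rfl fun f _ => ?_
      simp only [LinearMap.range_eq_top]
      split_ifs with hf
      · rw [gr_cyc h hf]
      · rw [mul_zero]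
    by_cases hU : v ∈ U
    · refine kill_end hb (fun e => hv (by simpa [e] using hU)) h1 _ (fun f hf ψ => ?_) fun f hf =>
        if_neg fun e => hf (by rw [← e]; exact inv_range f v)
      rw [ev_add hf hU, charpoly_add hf]
    · exact Finset.sum_eq_zero fun f _ => by
        rw [if_neg fun e => hU (by rw [← e]; exact ⟨1, ev_one f v⟩), mul_zero]
  have k' := Finset.sum_congr (rfl : (Finset.univ : Finset V) = _) fun v _ => k v
  rw [Finset.sum_ite, Finset.sum_const_zero, zero_add, Finset.sum_const, Finset.filter_ne', Finset.card_erase_of_mem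
    (Finset.mem_univ _), nsmul_eq_mul, Finset.card_univ, Nat.cast_sub Fintype.card_pos, ← Nat.card_eq_fintype_card,
    Nat.cast_one] at k'
  rw [k', Finset.sum_comm, ← Fintype.sum_prod_type', ← Finset.sum_filter, ← Finset.sum_fiberwise_of_maps_to
    (t := s) (g := fun x : End F V × V => x.1.charpoly) fun x _ =>
      (hs _).2 ⟨x.1.charpoly_monic, x.1.charpoly_natDegree⟩, Finset.mul_sum]
  refine Finset.sum_congr rfl fun c hc => ?_
  rw [← card_cyc ((hs c).1 hc).1 ((hs c).1 hc).2, Nat.card_eq_fintype_card, Fintype.card_subtype,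
    Finset.filter_filter, ← nsmul_eq_mul, ← Finset.sum_const]
  exact Finset.sum_congr rfl fun x hx => by rw [(Finset.mem_filter.1 hx).2.2]

theorem sum_gr_gr {b b' : F[X] → ℂ} (hb : Ad b) (hb' : b' 1 = 0) (w : F[X] → ℂ) :
    ∑ f : End F V, gr b f ⊤ * (w f.charpoly * starRingEnd ℂ (gr b' f ⊤)) =
      ∑ f : End F V, gr b f ⊤ * (w f.charpoly * starRingEnd ℂ (b' f.charpoly)) := by
  classical
  rw [Finset.sum_congr rfl (f := fun f : End F V => gr b f ⊤ * (w f.charpoly * starRingEnd ℂ (b' f.charpoly)))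
    (g := fun f => ∑ U : Submodule F V, gr b f ⊤ *
      if U ≤ U.comap f then w f.charpoly * starRingEnd ℂ (gr b' f U) else 0) fun f _ => ?_, Finset.sum_comm,
      Finset.sum_eq_single (⊤ : Submodule F V) (fun U _ h1 => ?_) (by simp)]
  · simp
  · by_cases h0 : U = ⊥
    · simp [h0, gr_bot b' hb']
    refine kill_end hb h0 h1 _ (fun f hf ψ => ?_) fun f hf => if_neg hf
    rw [if_pos hf, if_pos (inv_add hf ψ), charpoly_add hf, gr_congr b' hf fun u hu => by simp [ψ.2.2 u hu]]
  · rw [← ch_top f, ← gr_sum b' (f := f) (U := ⊤) fun _ _ => trivial, sum_iv, map_sum, Finset.mul_sum,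
      Finset.mul_sum]
    exact Finset.sum_congr rfl fun U _ => by by_cases h : U ≤ U.comap f <;> simp [h]

end Cfsg.Agent.Dg
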