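import Cfsg.Agent.Dg.P3

/-! Sums over roots in the algebraic closure of a finite field. -/

set_option autoImplicit false

namespace Cfsg.Agent.Dg

open Polynomial Module

variable {F K : Type} [Field F] [Field K] [Algebra F K]

/-- the sum of `φ` over the roots -/
noncomputable def bb (φ : K → ℂ) (c : F[X]) : ℂ := ((c.aroots K).map φ).sum

theorem ad_bb (φ : K → ℂ) : Ad (bb (F := F) φ) := fun c d hc hd => by
  simp [bb, aroots_mul (hc.mul hd).ne_zero]

/-- `t, t^q, ..., t^(q^(k-1))` -/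
def orb (q k : ℕ) (t : K) : Multiset K := (Multiset.range k).map fun i => t ^ q ^ i

theorem orb_mul {q m : ℕ} {t : K} (h : t ^ q ^ m = t) (e : ℕ) : orb q (m * e) t = e • orb q m t := by
  have k : ∀ e, t ^ q ^ (m * e) = t := fun e => by
    induction e with
    | zero => simp
    | succ e ih => rw [Nat.mul_succ, pow_add, pow_mul, ih, h]
  induction e with
  | zero => simp [orb]
  | succ e ih =>
    rw [Nat.mul_succ, orb, Multiset.range_add, Multiset.map_add, ← orb, ih, succ_nsmul, Multiset.map_map]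
    simp [orb, pow_add, pow_mul t, k]

open Classical in
/-- the Möbius inverse of `bb φ` -/
noncomputable def lam (φ : K → ℂ) (d : F[X]) : ℂ := ∑ᶠ t, if ∃ e, 0 < e ∧ d = minpoly F t ^ e then φ t else 0

open Classical in
theorem lam_eq (φ : K → ℂ) (d : F[X]) (T : Finset K) (h : ∀ t e, 0 < e → d = minpoly F t ^ e → t ∈ T) :
    lam φ d = ∑ t ∈ T, if ∃ e, 0 < e ∧ d = minpoly F t ^ e then φ t else 0 :=
  finsum_eq_sum_of_support_subset _ fun t ht => by
    by_contra c
    exact ht (if_neg fun ⟨e, a, b⟩ => c (h t e a b))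

variable [Finite F] [Algebra.IsIntegral F K]

theorem pow_fix_iff (t : K) (n : ℕ) : t ^ Nat.card F ^ n = t ↔ (minpoly F t).natDegree ∣ n := by
  rw [(minpoly.irreducible (Algebra.IsIntegral.isIntegral t)).natDegree_dvd_iff_dvd_X_pow_card_pow_sub_X,
    minpoly.dvd_iff]
  simp [sub_eq_zero]

theorem aroots_minpoly (t : K) : (minpoly F t).aroots K = orb (Nat.card F) (minpoly F t).natDegree t ∧
    ((minpoly F t).aroots K).Nodup := by
  have := Fintype.ofFinite F
  have fr : ∀ i (x : K), (FiniteField.frobeniusAlgHom F K ^ i) x = x ^ Nat.card F ^ i := fun i x => by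
    rw [AlgHom.coe_pow, FiniteField.coe_frobeniusAlgHom, pow_iterate, Nat.card_eq_fintype_card]
  have k : ∀ i j, i < j → j < (minpoly F t).natDegree → t ^ Nat.card F ^ i ≠ t ^ Nat.card F ^ j := fun i j a b e => by
    obtain ⟨d, rfl⟩ := Nat.exists_eq_add_of_lt a
    rw [add_assoc, add_comm, pow_add, pow_mul, ← fr, ← fr i] at e
    have := Nat.le_of_dvd d.succ_pos ((pow_fix_iff t _).1 ((FiniteField.frobeniusAlgHom F K ^ i).injective e).symm)
    omega
  have nd : (orb (Nat.card F) (minpoly F t).natDegree t).Nodup :=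
    (Multiset.nodup_map_iff_inj_on (Multiset.nodup_range _)).2 fun i hi j hj e => by
      rcases lt_trichotomy i j with a | a | a
      exacts [(k i j a (Multiset.mem_range.1 hj) e).elim, a, (k j i a (Multiset.mem_range.1 hi) e.symm).elim]
  have e := Multiset.eq_of_le_of_card_le ((Multiset.le_iff_subset nd).2 fun x hx =>
    (show x ∈ (minpoly F t).aroots K from by
      obtain ⟨i, -, rfl⟩ := Multiset.mem_map.1 hx
      rw [mem_aroots, ← fr, aeval_algHom_apply, minpoly.aeval, map_zero]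
      exact ⟨minpoly.ne_zero (Algebra.IsIntegral.isIntegral t), rfl⟩))
    ((card_roots' _).trans (by simp [orb]))
  exact ⟨e.symm, e ▸ nd⟩

theorem mo_bb (φ : K → ℂ) : Mo (bb (F := F) φ) (lam φ) := fun c hc s hs => by
  classical
  rw [bb, Finset.sum_multiset_map_count, Finset.sum_congr rfl fun d hd => lam_eq φ d (c.aroots K).toFinset
    fun t e he hde => ?_, Finset.sum_comm]
  · refine Finset.sum_congr rfl fun t _ => ?_
    have hi : IsIntegral F t := Algebra.IsIntegral.isIntegral t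
    have hf := minpoly.irreducible hi
    obtain ⟨m, a, ha, e⟩ := WfDvdMonoid.max_power_factor hc.ne_zero hf
    have c1 : ((minpoly F t).aroots K).count t = 1 := Multiset.count_eq_one_of_mem (aroots_minpoly t).2
      (mem_aroots.2 ⟨hf.ne_zero, minpoly.aeval F t⟩)
    have c2 : (a.aroots K).count t = 0 := Multiset.count_eq_zero.2 fun h => ha (minpoly.dvd F t (mem_aroots.1 h).2)
    have c3 : (c.aroots K).count t = m := by
      rw [e, aroots_mul (e ▸ hc.ne_zero), aroots_pow, Multiset.count_add, Multiset.count_nsmul, c1, c2]; simp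
    rw [← Finset.sum_filter, Finset.sum_const, c3]
    congr 1
    have : s.filter (fun d => ∃ e, 0 < e ∧ d = minpoly F t ^ e) = (Finset.Ioc 0 m).image (minpoly F t ^ ·) := by
      ext d
      simp only [Finset.mem_filter, hs, Finset.mem_image, Finset.mem_Ioc]
      refine ⟨fun ⟨⟨_, h⟩, j, hj, hd⟩ => ⟨j, ⟨hj, le_of_not_gt fun l => ha ?_⟩, hd.symm⟩, fun ⟨j, ⟨h, h'⟩, hd⟩ =>
        ⟨⟨hd ▸ (minpoly.monic hi).pow j, hd ▸ e ▸ (pow_dvd_pow _ h').mul_right a⟩, j, h, hd.symm⟩⟩
      have := (pow_dvd_pow _ (Nat.succ_le_of_lt l)).trans (hd ▸ h)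
      rwa [e, pow_succ, mul_dvd_mul_iff_left (pow_ne_zero m hf.ne_zero)] at this
    rw [this, Finset.card_image_of_injective _ fun i j h => ?_, Nat.card_Ioc, Nat.sub_zero]
    have := congrArg natDegree h
    simpa [natDegree_pow, hf.natDegree_pos.ne'] using this
  · refine Multiset.mem_toFinset.2 (mem_aroots.2 ⟨hc.ne_zero, ?_⟩)
    exact minpoly.dvd_iff.1 (((dvd_pow_self _ he.ne').trans hde.symm.dvd).trans ((hs d).1 hd).2)

theorem sum_lam (φ : K → ℂ) {k : ℕ} (hk : 0 < k) (H : Multiset K → ℂ) (s : Finset F[X])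
    (hs : ∀ c, c ∈ s ↔ c.Monic ∧ c.natDegree = k) (T : Finset K) (hT : ∀ t, t ∈ T ↔ t ^ Nat.card F ^ k = t) :
    ∑ c ∈ s, lam φ c * H (c.aroots K) = ∑ t ∈ T, φ t * H (orb (Nat.card F) k t) := by
  classical
  refine (Finset.sum_congr rfl fun c hc => congrArg (· * H (c.aroots K)) (lam_eq φ c T fun t e _ hde => ?_)).trans ?_
  swap
  · simp only [Finset.sum_mul]
    rw [Finset.sum_comm]
    refine Finset.sum_congr rfl fun t ht => ?_
    have hi : IsIntegral F t := Algebra.IsIntegral.isIntegral t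
    obtain ⟨e, he⟩ := (pow_fix_iff t k).1 ((hT t).1 ht)
    rw [Finset.sum_eq_single (minpoly F t ^ e) (fun c hc hne => ?_) fun h => (h ((hs _).2
      ⟨(minpoly.monic hi).pow e, by rw [natDegree_pow, he, mul_comm]⟩)).elim,
      if_pos ⟨e, Nat.pos_of_mul_pos_left (he ▸ hk), rfl⟩, aroots_pow, (aroots_minpoly t).1,
      ← orb_mul ((pow_fix_iff t _).2 dvd_rfl), ← he]
    rw [if_neg, zero_mul]
    rintro ⟨j, -, rfl⟩
    have := ((hs _).1 hc).2
    rw [natDegree_pow, he, mul_comm, Nat.mul_right_inj (minpoly.natDegree_pos hi).ne'] at this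
    exact hne (by rw [this])
  · rw [hT, pow_fix_iff, ← ((hs c).1 hc).2, hde, natDegree_pow]
    exact dvd_mul_left _ _

omit [Finite F] [Algebra.IsIntegral F K] in
theorem sum_roots {θ : K →*₀ ℂ} (hθ : Function.Injective θ) {N : ℕ} (hN : 0 < N) {ζ : K} (hζ : IsPrimitiveRoot ζ N)
    (a : ℤ) : ∑ t ∈ nthRootsFinset N (1 : K), θ t ^ a = if (N : ℤ) ∣ a then (N : ℂ) else 0 := by
  split_ifs with h
  · obtain ⟨a, rfl⟩ := h
    rw [Finset.sum_congr rfl (g := fun _ => 1) fun t ht => by
      rw [zpow_mul, zpow_natCast, ← map_pow, (mem_nthRootsFinset hN 1).1 ht, map_one, one_zpow]]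
    simp [hζ.card_nthRootsFinset]
  · have z0 := hζ.ne_zero hN.ne'
    have : ∑ t ∈ nthRootsFinset N (1 : K), θ t ^ a = θ ζ ^ a * ∑ t ∈ nthRootsFinset N (1 : K), θ t ^ a := by
      rw [Finset.mul_sum]
      refine (Finset.sum_bij' (fun t _ => ζ * t) (fun t _ => ζ⁻¹ * t) (fun t ht => ?_) (fun t ht => ?_)
        (fun t _ => inv_mul_cancel_left₀ z0 t) (fun t _ => mul_inv_cancel_left₀ z0 t)
        fun t _ => by rw [map_mul, mul_zpow]).symm <;>
      simp [mem_nthRootsFinset hN, mul_pow, hζ.pow_eq_one, (mem_nthRootsFinset hN 1).1 ht]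
    by_contra c
    exact h (((hζ.map_of_injective hθ).zpow_eq_one_iff_dvd a).1 ((mul_eq_right₀ c).1 this.symm))

end Cfsg.Agent.Dg
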