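import Cfsg.Agent.Dg.P4
import Cfsg.Agent.H4.IndRep

/-! `gr` is a generalized character; sums over the general linear group. -/

set_option autoImplicit false

namespace Cfsg.Agent.Dg

open Cfsg Cfsg.Agent.H3 Cfsg.Agent.H4 Polynomial Module MulAction

open Classical in
theorem isGen_orb {G X : Type*} [Group G] [Finite G] [MulAction G X] [Fintype X] (Φ : G → X → ℂ)
    (h1 : ∀ h g x, g • x = x → Φ (h * g * h⁻¹) (h • x) = Φ g x)
    (h2 : ∀ x, IsGeneralizedCharacter (stabilizer G x) fun g => Φ g x) :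
    IsGeneralizedCharacter G fun g => ∑ x, if g • x = x then Φ g x else 0 := by
  have := Fintype.ofFinite G
  have := Fintype.ofFinite (orbitRel.Quotient G X)
  convert isGeneralizedCharacter_sum Finset.univ _ fun (ω : orbitRel.Quotient G X) _ =>
    isGeneralizedCharacter_indFun _ (h2 ω.out) using 1
  ext g
  rw [Finset.sum_apply, ← Finset.sum_fiberwise Finset.univ (Quotient.mk (orbitRel G X))]
  refine Finset.sum_congr rfl fun ω _ => ?_
  rw [indFun_apply, eq_inv_mul_iff_mul_eq₀ (natCard_ne_zero_C _), ← Finset.sum_fiberwise_of_maps_to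
    (t := Finset.univ.filter fun x => Quotient.mk (orbitRel G X) x = ω) (g := fun y : G => y • ω.out)
    fun y _ => Finset.mem_filter.2 ⟨Finset.mem_univ _, (Quotient.sound (mem_orbit _ y)).trans ω.out_eq⟩,
    Finset.mul_sum]
  refine Finset.sum_congr rfl fun x hx => ?_
  obtain ⟨y, rfl⟩ : x ∈ orbit G ω.out := Quotient.exact ((Finset.mem_filter.1 hx).2.trans ω.out_eq.symm)
  rw [Finset.sum_congr rfl (g := fun _ => if g • y • ω.out = y • ω.out then Φ g (y • ω.out) else 0)
    fun z hz => ?_, Finset.sum_const, nsmul_eq_mul, Nat.card_eq_fintype_card, Fintype.card_subtype]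
  · congr 2
    refine Finset.card_bij' (fun z _ => y * z) (fun z _ => y⁻¹ * z) (fun z hz => ?_) (fun z hz => ?_)
      (fun _ _ => by simp) fun _ _ => by simp
    · simpa [mul_smul] using hz
    · simpa [mul_smul, inv_smul_eq_iff] using hz
  · rw [← show z • ω.out = y • ω.out from (Finset.mem_filter.1 hz).2]
    have e : z⁻¹ * g * z ∈ stabilizer G ω.out ↔ g • z • ω.out = z • ω.out := by
      simp [mul_smul, inv_smul_eq_iff]
    split_ifs with c
    · rw [ebz_of_mem _ _ (e.2 c), ← h1 z _ _ (e.2 c)]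
      simp [mul_assoc]
    · exact ebz_of_not_mem _ _ (mt e.1 c)

theorem sum_mul_zero {G : Type*} [Group G] {χ : G → ℂ} (hχ : IsCharacter G χ) (R : Subgroup G) [Fintype R]
    (h : ∑ r : R, χ r = 0) (g : G) : ∑ r : R, χ (g * r) = 0 := by
  obtain ⟨n, ρ, rfl⟩ := hχ
  have c := natCard_ne_zero_C R
  have k : ∀ s : R, ρ s * ∑ r : R, ρ r = ∑ r : R, ρ r := fun s => by
    rw [Finset.mul_sum, ← Equiv.sum_comp (Equiv.mulLeft s) fun r : R => ρ r]; simp
  have i : IsIdempotentElem ((Nat.card R : ℂ)⁻¹ • ∑ r : R, ρ r) := by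
    rw [IsIdempotentElem, smul_mul_smul_comm, Finset.sum_mul, Finset.sum_congr rfl fun s _ => k s,
      Finset.sum_const, Finset.card_univ, ← Nat.card_eq_fintype_card, ← Nat.cast_smul_eq_nsmul ℂ, smul_smul,
      inv_mul_cancel_right₀ c]
  have := LinearMap.IsIdempotentElem.eq_zero_of_trace_eq_zero i (by
    rw [map_smul, map_sum]; exact smul_eq_zero_of_right _ h)
  have := congrArg (fun x => LinearMap.trace ℂ _ (ρ g * x)) ((smul_eq_zero_iff_right (inv_ne_zero c)).1 this)
  simpa [Finset.mul_sum, Representation.character] using this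

variable {F V : Type} [Field F] [AddCommGroup V] [Module F V]

/-- the action of the general linear group on subspaces -/
@[reducible] def subAct : MulAction (End F V)ˣ (Submodule F V) where
  smul g U := U.map g.1
  one_smul := Submodule.map_id
  mul_smul g h U := U.map_comp h.1 g.1

theorem unit_inj (g : (End F V)ˣ) : Function.Injective g.1 := ((End.isUnit_iff _).1 g.isUnit).1

variable [Finite V]

theorem map_eq_iff (g : (End F V)ˣ) (U : Submodule F V) : U.map g.1 = U ↔ U ≤ U.comap g.1 :=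
  ⟨fun h => Submodule.map_le_iff_le_comap.1 h.le, fun h => Submodule.eq_of_le_of_finrank_eq
    (Submodule.map_le_iff_le_comap.2 h) (U.equivMapOfInjective _ (unit_inj g)).finrank_eq.symm⟩

theorem gen_gr {b : F[X] → ℂ} (hβ : ∀ k, IsGeneralizedCharacter (GL (Fin k) F) fun g => b g.1.charpoly) (n : ℕ) :
    ∀ (V : Type) [AddCommGroup V] [Module F V] [Finite V], finrank F V = n →
      IsGeneralizedCharacter (End F V)ˣ fun g => gr b g.1 ⊤ := by
  classical
  induction n using Nat.strong_induction_on with | _ n ih => ?_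
  intro V _ _ _ hn
  letI := subAct (F := F) (V := V)
  have sm : ∀ (g : (End F V)ˣ) (U : Submodule F V), g • U = U ↔ U ≤ U.comap g.1 := map_eq_iff
  have h1 := (hβ _).comp (Units.map (LinearMap.toMatrixAlgEquiv (finBasis F V)).toMulEquiv.toMonoidHom)
  have h2 := isGen_orb (fun (g : (End F V)ˣ) (U : Submodule F V) => if U = ⊤ then 0 else gr b g.1 U)
    (fun h g U hU => ?_) fun U => ?_
  · convert h1.sub h2 using 1
    ext g
    rw [Pi.sub_apply, gr_eq, ch_top]
    congr 1
    · exact congrArg b (LinearMap.charpoly_toMatrix _ _).symm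
    · rw [← Finset.filter_ne', Finset.sum_filter, sum_iv]
      exact Finset.sum_congr rfl fun U _ => by simp [sm]
  · refine if_congr ⟨fun e => ?_, fun e => by rw [e]; exact (sm _ _).2 le_top⟩ rfl
      (gr_map b ((sm _ _).1 hU) (fun u _ e => unit_inj h (e.trans (map_zero _).symm)) fun u _ => ?_)
    · rw [← inv_smul_smul h U, e]; exact (sm _ _).2 le_top
    · rw [← End.mul_apply, ← Units.val_mul, inv_mul_cancel_right]; rfl
  · by_cases hU : U = ⊤
    · simpa [hU] using! isGeneralizedCharacter_zero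
    simp only [hU, if_false]
    let r : stabilizer (End F V)ˣ U →* End F U :=
      { toFun g := g.1.1.restrict ((sm _ _).1 g.2)
        map_one' := rfl
        map_mul' _ _ := rfl }
    convert (ih _ (hn ▸ Submodule.finrank_lt hU) U rfl).comp r.toHomUnits using 2 with g
    exact gr_restrict b ((sm _ _).1 g.2)

theorem exists_monics : ∃ s : Finset F[X], ∀ c, c ∈ s ↔ c.Monic ∧ c.natDegree = finrank F V := by
  classical
  refine ⟨Finset.univ.image fun f : End F V => f.charpoly, fun c => ?_⟩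
  simp only [Finset.mem_image, Finset.mem_univ, true_and]
  refine ⟨fun ⟨f, e⟩ => e ▸ ⟨f.charpoly_monic, f.charpoly_natDegree⟩, fun ⟨a, b⟩ => ?_⟩
  have : Finite (V ≃ₗ[F] V) := Finite.of_injective _ DFunLike.coe_injective
  obtain ⟨⟨x⟩, -⟩ := Nat.card_ne_zero.1 ((card_cyc a b).trans_ne Nat.card_pos.ne')
  exact ⟨x.1.1, x.2.2⟩

variable {K : Type} [Field K] [Algebra F K]

theorem isUnit_iff_aroots (f : End F V) : IsUnit f ↔ (0 : K) ∉ f.charpoly.aroots K := by
  rw [f.isUnit_iff_isUnit_det, LinearMap.det_eq_sign_charpoly_coeff, mem_aroots]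
  simp [f.charpoly_monic.ne_zero, ← coeff_zero_eq_aeval_zero']

open Classical in
theorem sum_units [Fintype (End F V)ˣ] (G : End F V → ℂ) :
    ∑ g : (End F V)ˣ, G g = ∑ f : End F V, if (0 : K) ∈ f.charpoly.aroots K then 0 else G f := by
  simp only [← ite_not ((0 : K) ∈ _), ← isUnit_iff_aroots]
  rw [← Finset.sum_filter]
  exact Finset.sum_bij (fun g _ => g.1) (fun g _ => by simp) (fun _ _ _ _ => Units.ext)
    (fun f hf => ((Finset.mem_filter.1 hf).2).elim fun g e => ⟨g, Finset.mem_univ _, e⟩) fun _ _ => rfl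

theorem sum_gr [Finite F] [Algebra.IsIntegral F K] [Nontrivial V] [Fintype (End F V)ˣ] (φ : K → ℂ)
    (H : Multiset K → ℂ) :
    ((Nat.card V : ℂ) - 1) * ∑ g : (End F V)ˣ, gr (bb φ) g.1 ⊤ * H (g.1.charpoly.aroots K) =
      Nat.card (End F V)ˣ * ∑ t ∈ nthRootsFinset (Nat.card V - 1) (1 : K), φ t * H (orb (Nat.card F) (finrank F V) t) := by
  classical
  obtain ⟨s, hs⟩ := exists_monics (F := F) (V := V)
  have hk : 0 < finrank F V := finrank_pos
  have hN : 1 < Nat.card V := Finite.one_lt_card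
  have n0 : (0 : K) ∉ nthRootsFinset (Nat.card V - 1) (1 : K) := fun h =>
    ne_zero_of_mem_nthRootsFinset one_ne_zero h rfl
  have := sum_char (V := V) (ad_bb φ) (mo_bb φ) (fun c => if (0 : K) ∈ c.aroots K then 0 else H (c.aroots K)) s hs
  rw [sum_lam φ hk (fun m => if (0 : K) ∈ m then 0 else H m) s hs
    (insert 0 (nthRootsFinset (Nat.card V - 1) (1 : K))) fun t => ?_, Finset.sum_insert n0,
    if_pos (show (0 : K) ∈ orb _ _ 0 from Multiset.mem_map.2 ⟨0, Multiset.mem_range.2 hk, by simp⟩), mul_zero, zero_add,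
    ← Nat.card_congr (LinearMap.GeneralLinearGroup.generalLinearEquiv F V).toEquiv] at this
  · rw [sum_units (K := K) fun f => gr (bb φ) f ⊤ * H (f.charpoly.aroots K)]
    convert this using 3 with f _ t ht
    · split_ifs <;> simp
    · rw [if_neg fun h => ?_]
      obtain ⟨i, -, e⟩ := Multiset.mem_map.1 h
      exact n0 ((pow_eq_zero_iff'.1 e).1 ▸ ht)
  · rw [Finset.mem_insert, mem_nthRootsFinset (by omega), ← natCard_eq_pow_finrank]
    nth_rw 2 [show Nat.card V = Nat.card V - 1 + 1 by omega]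
    rw [pow_succ]
    by_cases h : t = 0 <;> simp [h]

theorem sum_gr_self [Fintype (End F V)ˣ] (φ : K → ℂ) :
    ∑ g : (End F V)ˣ, gr (bb φ) g.1 ⊤ * starRingEnd ℂ (gr (bb φ) g.1 ⊤) =
      ∑ g : (End F V)ˣ, gr (bb φ) g.1 ⊤ * starRingEnd ℂ (bb φ g.1.charpoly) := by
  classical
  rw [sum_units (K := K) fun f => gr (bb φ) f ⊤ * starRingEnd ℂ (gr (bb φ) f ⊤),
    sum_units (K := K) fun f => gr (bb φ) f ⊤ * starRingEnd ℂ (bb φ f.charpoly)]
  simpa using sum_gr_gr (V := V) (ad_bb φ) (ad_bb (F := F) φ).one fun c => if (0 : K) ∈ c.aroots K then 0 else 1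

end Cfsg.Agent.Dg
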