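import Cfsg.Agent.Dg.P5

/-! Cuspidal characters from a Brauer lift. -/

set_option autoImplicit false

namespace Cfsg.Agent.Dg

open Cfsg Cfsg.Agent.H3 Cfsg.Agent.H4 Polynomial Module

variable {F K : Type} [Field F] [Field K] [Algebra F K] {k : ℕ}

variable (F) in
/-- a Brauer lift of the natural representations, with the Adams operations -/
structure BL (θ : K →*₀ ℂ) : Prop where
  inj : Function.Injective θ
  gen : ∀ k j : ℕ, IsGeneralizedCharacter (GL (Fin k) F) fun g => bb (fun t => θ t ^ j) g.1.charpoly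

theorem sum_rad [Finite F] (X : Submodule F (Fin k → F)) [Fintype (rad X)] (G : End F (Fin k → F) → ℂ) :
    ∑ r : rad X, G (Matrix.toLin' r.1.1) = ∑ ψ : RW X X, G (1 + ψ.1) := by
  have sq : ∀ ψ : RW X X, ψ.1 * ψ.1 = 0 := fun ψ => LinearMap.ext fun v => ψ.2.2 _ (ψ.2.1 v)
  refine Fintype.sum_bijective (fun r => ⟨Matrix.toLin' r.1.1 - 1, r.2.1, fun x hx => sub_eq_zero.2 (r.2.2 x hx)⟩)
    ⟨fun r s e => Subtype.ext (Units.ext (Matrix.toLin'.injective (sub_left_inj.1 (congrArg Subtype.val e)))),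
      fun ψ => ?_⟩ _ _ fun r => by simp
  obtain ⟨g, hg⟩ := Matrix.GeneralLinearGroup.toLin.surjective
    ⟨1 + ψ.1, 1 - ψ.1, by simp [mul_sub, add_mul, sq], by simp [mul_add, sub_mul, sq]⟩
  have hg : Matrix.toLin' g.1 = 1 + ψ.1 := congrArg Units.val hg
  have k : ∀ v, g.1.mulVec v = v + ψ.1 v := fun v => LinearMap.congr_fun hg v
  exact ⟨⟨g, fun v => by simpa [k] using ψ.2.1 v, fun x hx => by simp [k, ψ.2.2 x hx]⟩, Subtype.ext (by simp [hg])⟩

theorem sdeg_sq (q : ℕ) (hq : 0 < q) (hk : 0 < k) :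
    sdeg q k ^ 2 = ((∏ i ∈ Finset.Ico 1 k, (q ^ i - 1) : ℕ) : ℂ) ^ 2 := by
  obtain ⟨m, rfl⟩ := Nat.exists_eq_succ_of_ne_zero hk.ne'
  rw [sdeg, Finset.prod_Ico_eq_prod_range, Nat.cast_prod, ← Finset.prod_pow, ← Finset.prod_pow]
  refine Finset.prod_congr rfl fun i _ => ?_
  rw [Nat.cast_sub (Nat.one_le_pow _ _ hq), add_comm 1 i]; push_cast; ring

variable [Finite F]

theorem exists_prim [IsAlgClosed K] {n : ℕ} (hn : 0 < n) {N : ℕ} (h : N ∣ Nat.card F ^ n - 1) :
    ∃ ζ : K, IsPrimitiveRoot ζ N := by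
  have := Fintype.ofFinite F
  have : NeZero (N : K) := ⟨fun e => by
    obtain ⟨c, hc⟩ := h
    have := congrArg (Nat.cast : ℕ → K) hc
    rw [Nat.cast_mul, e, Nat.cast_sub (Nat.one_le_pow _ _ Nat.card_pos), Nat.cast_pow, ← map_natCast (algebraMap F K),
      Nat.card_eq_fintype_card, FiniteField.cast_card_eq_zero] at this
    simp [hn.ne'] at this⟩
  exact HasEnoughRootsOfUnity.exists_primitiveRoot K N

theorem cusp_gen [IsAlgClosed K] [Algebra.IsIntegral F K] {θ : K →*₀ ℂ} (h : BL F θ) (hk : 0 < k) (j : ℕ)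
    (h1 : ∀ i, 0 < i → i < k → ¬ Nat.card F ^ k - 1 ∣ j * (Nat.card F ^ i - 1)) [Fintype (GL (Fin k) F)] :
    ∃ (σ : GL (Fin k) F → ℂ) (ε : ℂ), ε * ε = 1 ∧ IsIrrCharacter _ σ ∧
      σ 1 = (∏ i ∈ Finset.Ico 1 k, (Nat.card F ^ i - 1) : ℕ) ∧
      (∀ X : Submodule F (Fin k → F), X ≠ ⊥ → X ≠ ⊤ → ∀ g, ∑ᶠ r : rad X, σ (g * r) = 0) ∧
      (∀ z : Fˣ, σ (Matrix.GeneralLinearGroup.scalar _ z) = θ (algebraMap F K z) ^ j * σ 1) ∧
      ((∀ i < k, ¬ Nat.card F ^ k - 1 ∣ j * (Nat.card F ^ i + 1)) → NR σ) ∧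
      ∀ H : Multiset K → ℂ, (Nat.card F ^ k - 1 : ℕ) * ∑ g, σ g * H (g.1.charpoly.aroots K) =
        ε * Nat.card (GL (Fin k) F) *
          ∑ t ∈ nthRootsFinset (Nat.card F ^ k - 1) (1 : K), θ t ^ j * H (orb (Nat.card F) k t) := by
  classical
  set q := Nat.card F with hq
  set N := q ^ k - 1 with hN
  have q1 : 1 < q := Finite.one_lt_card
  have N0 : 0 < N := Nat.sub_pos_of_lt (Nat.one_lt_pow hk.ne' q1)
  have N0' : (N : ℂ) ≠ 0 := Nat.cast_ne_zero.2 N0.ne'
  obtain ⟨ζ, hζ⟩ := exists_prim (F := F) (K := K) hk (N := N) dvd_rfl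
  have : Nonempty (Fin k) := ⟨⟨0, hk⟩⟩
  have := Fintype.ofFinite (End F (Fin k → F))ˣ
  let e : GL (Fin k) F ≃* (End F (Fin k → F))ˣ := Matrix.GeneralLinearGroup.toLin
  let φ : K → ℂ := fun t => θ t ^ j
  let π : GL (Fin k) F → ℂ := fun g => gr (bb φ) (e g).1 ⊤
  have ce : ∀ g, (e g).1.charpoly = g.1.charpoly := fun g => Matrix.charpoly_toLin' _
  have hπ : IsGeneralizedCharacter _ π := (gen_gr (h.gen · j) _ _ rfl).comp e.toMonoidHom
  have GS : ∀ H : Multiset K → ℂ, N * ∑ g, π g * H (g.1.charpoly.aroots K) =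
      Nat.card (GL (Fin k) F) * ∑ t ∈ nthRootsFinset N (1 : K), φ t * H (orb q k t) := fun H => by
    have := sum_gr (F := F) (V := Fin k → F) φ H
    rw [← e.toEquiv.sum_comp, ← Nat.card_congr e.toEquiv, natCard_eq_pow_finrank (K := F), finrank_fin_fun] at this
    rw [← this, hN, Nat.cast_sub (Nat.one_le_pow _ _ (by omega)), Nat.cast_one]
    exact congrArg _ (Finset.sum_congr rfl fun g _ => by rw [← ce]; rfl)
  have SR : ∀ (s : ℤ) (c : ℂ →+* ℂ), (∀ z : ℂ, z ^ N = 1 → c z = z ^ s) →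
      ∑ t ∈ nthRootsFinset N (1 : K), φ t * c ((orb q k t).map φ).sum =
        ∑ i ∈ Finset.range k, if (N : ℤ) ∣ j * (1 + s * q ^ i) then (N : ℂ) else 0 := fun s c hc => by
    simp only [← sum_roots h.inj N0 hζ]
    rw [Finset.sum_comm]
    refine Finset.sum_congr rfl fun t ht => ?_
    have t1 : θ t ^ N = 1 := by rw [← map_pow, (mem_nthRootsFinset N0 1).1 ht, map_one]
    have t0 : θ t ≠ 0 := fun e => by simp [e, N0.ne'] at t1
    rw [orb, Multiset.map_map, ← Finset.range_val, ← Finset.sum_eq_multiset_sum, map_sum, Finset.mul_sum]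
    refine Finset.sum_congr rfl fun i _ => ?_
    simp only [φ, Function.comp, map_pow, hc _ t1]
    rw [← zpow_natCast, ← zpow_natCast, ← zpow_natCast, ← zpow_mul, ← zpow_mul, ← zpow_add₀ t0]
    congr 1; push_cast; ring
  have c0 := natCard_ne_zero_C (GL (Fin k) F)
  have S1 : ∑ g, π g * starRingEnd ℂ (bb φ g.1.charpoly) = Nat.card (GL (Fin k) F) := by
    refine mul_left_cancel₀ N0' ((GS fun m => starRingEnd ℂ (m.map φ).sum).trans ?_)
    rw [SR (-1) _ fun z hz => by rw [zpow_neg_one, inv_eq_conj_of_pow_eq_one N0 hz],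
      Finset.sum_eq_single 0 (fun i hi i0 => if_neg fun d => h1 i (Nat.pos_of_ne_zero i0) (Finset.mem_range.1 hi) ?_)
        (by simp [hk.ne']), if_pos (by simp), mul_comm]
    rw [← Int.natCast_dvd_natCast]
    refine dvd_neg.1 (d.trans (dvd_of_eq ?_))
    rw [Nat.cast_mul, Nat.cast_sub (Nat.one_le_pow i q (by omega))]; push_cast; ring
  have n1 : classInner π π = 1 := by
    have := sum_gr_self (F := F) (V := Fin k → F) φ
    rw [← e.toEquiv.sum_comp, ← e.toEquiv.sum_comp] at this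
    rw [classInner, inv_mul_eq_one₀ c0, ← S1]
    exact (Finset.sum_congr rfl fun g _ => by rw [← ce]; rfl).trans this.symm
  obtain ⟨ε, hε, hσ⟩ : ∃ ε : ℂ, ε * ε = 1 ∧ IsIrrCharacter _ fun g => ε * π g :=
    (hπ.irr_or_neg_irr n1).elim (fun a => ⟨1, one_mul 1, by simpa using a⟩) fun a => ⟨-1, by simp, by simpa using! a⟩
  have ε0 : ε ≠ 0 := left_ne_zero_of_mul_eq_one hε
  have sc : ∀ z : Fˣ, π (Matrix.GeneralLinearGroup.scalar _ z) = φ (algebraMap F K z) * sdeg q k := fun z => by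
    have := gr_scalar (V := Fin k → F) (ad_bb φ) (z : F)
    rw [finrank_fin_fun, bb, aroots_X_sub_C, Multiset.map_singleton, Multiset.sum_singleton] at this
    rw [← this]
    refine congrArg (gr _ · ⊤) (LinearMap.ext fun v => ?_)
    simp [e, Matrix.GeneralLinearGroup.toLin, Matrix.GeneralLinearGroup.scalar]
  have s1 : π 1 = sdeg q k := by simpa [φ] using sc 1
  refine ⟨_, ε, hε, hσ, ?_, fun X h0 h1 g => ?_, fun z => by rw [sc, s1]; ring, fun h2 => ?_, fun H => ?_⟩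
  · obtain ⟨n, -, hn⟩ := hσ.exists_apply_one
    have := congrArg (· ^ 2) hn
    simp only [mul_pow, s1, sdeg_sq q (by omega) hk, sq ε, hε, one_mul] at this
    exact hn.trans (congrArg _ (Nat.pow_left_injective two_ne_zero (by exact_mod_cast this.symm)))
  · have := Fintype.ofFinite (rad X)
    rw [finsum_eq_sum_of_fintype]
    refine sum_mul_zero hσ.isCharacter _ ?_ g
    rw [← Finset.mul_sum]
    exact mul_eq_zero_of_right _ ((sum_rad X (gr (bb φ) · ⊤)).trans (gr_prim (ad_bb φ) h0 h1 fun _ hx => hx))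
  · have dd : Function.Involutive (du : GL (Fin k) F → _) := fun a => Units.ext (Matrix.transpose_transpose _)
    by_contra c
    have := hσ.eq_of_classInner_ne_zero (hσ.comp_of_surjective du fun a => ⟨_, dd a⟩) (by rwa [← ip_eq])
    have pd : ∀ g, π (du g) = π g := fun g => (mul_left_cancel₀ ε0 (congrFun this g)).symm
    have S2 := GS fun m => RingHom.id ℂ (m.map φ).sum
    rw [SR 1 _ fun z _ => by simp, Finset.sum_eq_zero fun i hi => if_neg fun d => h2 i (Finset.mem_range.1 hi) ?_,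
      mul_zero, mul_eq_zero_iff_left N0', ← Equiv.sum_comp dd.toPerm] at S2
    · refine c0 (S1.symm.trans (Eq.trans (Finset.sum_congr rfl fun g _ => ?_) S2))
      rw [← (h.gen k j).apply_inv g, ← Matrix.charpoly_transpose, ← pd]; rfl
    · rw [← Int.natCast_dvd_natCast]
      refine d.trans (dvd_of_eq ?_)
      push_cast; ring
  · simp only [mul_assoc]
    rw [← Finset.mul_sum, mul_left_comm, GS]

end Cfsg.Agent.Dg
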