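import Cfsg.Agent.Dg.I

/-! Rank 3 permutation characters (abstract part of the slice SRG of `S4984`). -/

set_option autoImplicit false

namespace Cfsg.Agent.Dg

open Cfsg Cfsg.Agent.H3 Module
open scoped Matrix

variable {Γ X : Type} [Group Γ] [MulAction Γ X]

/-- the character afforded by the image of an invariant idempotent matrix -/
theorem isCharacter_idem [Fintype X] [DecidableEq X] (M : Matrix X X ℂ) (hM : M * M = M)
    (hi : ∀ (g : Γ) x y, M (g • x) (g • y) = M x y) : IsCharacter Γ fun g => ∑ x, M x (g • x) := by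
  let ρ : Representation ℂ Γ (X → ℂ) :=
    { toFun g := LinearMap.funLeft ℂ ℂ fun x => g⁻¹ • x
      map_one' := by ext; simp
      map_mul' g h := by ext; simp [mul_smul] }
  have hρ : ∀ g f x, ρ g f x = f (g⁻¹ • x) := fun _ _ _ => rfl
  have hc : ∀ g f, M *ᵥ ρ g f = ρ g (M *ᵥ f) := fun g f => by
    ext x
    rw [hρ]
    simp only [Matrix.mulVec, dotProduct, hρ]
    exact Fintype.sum_equiv (MulAction.toPerm g⁻¹) _ _ fun y => by simp [hi]
  let U : Subrepresentation ρ := ⟨LinearMap.range M.mulVecLin, by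
    rintro g _ ⟨f, rfl⟩; exact ⟨ρ g f, hc g f⟩⟩
  have := isCharacter_character U.toRepresentation
  convert this using 1
  ext g
  have e1 : U.toRepresentation g = (M.mulVecLin.rangeRestrict ∘ₗ ρ g) ∘ₗ
      (LinearMap.range M.mulVecLin).subtype := by
    ext ⟨_, f, rfl⟩ x
    simp [hc, hM]
  rw [Representation.character, e1, LinearMap.trace_comp_comm', ← LinearMap.comp_assoc,
    show (LinearMap.range M.mulVecLin).subtype ∘ₗ M.mulVecLin.rangeRestrict = M.mulVecLin from rfl,
    LinearMap.trace_eq_matrix_trace ℂ (Pi.basisFun ℂ X)]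
  simp only [Matrix.trace, Matrix.diag, LinearMap.toMatrix_apply, Pi.basisFun_apply, Pi.basisFun_repr,
    LinearMap.comp_apply, Matrix.mulVecLin_apply, Matrix.mulVec, dotProduct, hρ, Pi.single_apply,
    inv_smul_eq_iff, mul_ite, mul_one, mul_zero, Finset.sum_ite_eq', Finset.mem_univ, if_true]

theorem irr_of_sum [Finite Γ] {χ ψ π : Γ → ℂ} (hχ : IsCharacter Γ χ) (hψ : IsCharacter Γ ψ)
    (hπ : π = 1 + χ + ψ) {N : ℕ} (hN : ip π π = N) (h0 : χ 1 ≠ 0) (h : N ≤ 2 ∨ (N ≤ 3 ∧ ψ 1 ≠ 0)) :
    IsIrrCharacter Γ χ := by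
  letI := Fintype.ofFinite Γ
  obtain ⟨a, ha⟩ := hχ.exists_nat_classInner hχ
  obtain ⟨b, hb⟩ := hψ.exists_nat_classInner hψ
  obtain ⟨c, hc⟩ := hχ.exists_nat_classInner hψ
  obtain ⟨d, hd⟩ := hψ.exists_nat_classInner hχ
  obtain ⟨e, he⟩ := (hχ.add hψ).exists_nat_classInner isCharacter_one
  obtain ⟨f, hf⟩ := isCharacter_one.exists_nat_classInner (hχ.add hψ)
  rw [ip_eq, hπ, add_assoc, classInner_add_left, classInner_add_right 1 1, classInner_add_right _ 1, he,
    hf, classInner_one_one, classInner_add_left, classInner_add_right, classInner_add_right, ha, hb, hc,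
    hd] at hN
  have hN' : 1 + f + (e + (a + c + (d + b))) = N := by exact_mod_cast hN
  have a0 : a ≠ 0 := fun h' => h0 (by
    rw [h', Nat.cast_zero, classInner_self_eq_zero] at ha; rw [ha]; rfl)
  have b0 : ψ 1 ≠ 0 → b ≠ 0 := fun h1 h' => h1 (by
    rw [h', Nat.cast_zero, classInner_self_eq_zero] at hb; rw [hb]; rfl)
  have a1 : a = 1 := by
    rcases h with h | ⟨h, h'⟩
    · omega
    · have := b0 h'; omega
  exact isIrrCharacter_iff.2 ⟨hχ, by rw [ha, a1, Nat.cast_one]⟩

/-- the orbits on pairs are among `x = y`, `x ≠ y` related, unrelated -/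
def Rk3 (Γ : Type) [Group Γ] [MulAction Γ X] (R : X → X → Prop) : Prop :=
  ∀ x y x' y' : X, (x = y ↔ x' = y') → (R x y ↔ R x' y') → ∃ g : Γ, g • x = x' ∧ g • y = y'

theorem Rk3.card_le {R : X → X → Prop} (h : Rk3 Γ R) (hr : ∀ x, R x x) :
    Nat.card (MulAction.orbitRel.Quotient Γ (X × X)) ≤ 3 ∧
      ((∀ x y, R x y → x = y) → Nat.card (MulAction.orbitRel.Quotient Γ (X × X)) ≤ 2) := by
  classical
  have key : ∀ {n : ℕ} (f : X × X → Fin n), (∀ p p', f p = f p' → (p.1 = p.2 ↔ p'.1 = p'.2) ∧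
      (R p.1 p.2 ↔ R p'.1 p'.2)) → Nat.card (MulAction.orbitRel.Quotient Γ (X × X)) ≤ n := by
    intro n f hf
    have := Nat.card_le_card_of_injective
      (fun o : MulAction.orbitRel.Quotient Γ (X × X) => f o.out) fun o o' e => by
        obtain ⟨g, h1, h2⟩ := h _ _ _ _ (hf _ _ e.symm).1 (hf _ _ e.symm).2
        rw [← o.out_eq, ← o'.out_eq]
        exact Quotient.sound ⟨g, Prod.ext h1 h2⟩
    simpa using this
  refine ⟨key (fun p => if p.1 = p.2 then 0 else if R p.1 p.2 then 1 else 2) fun p p' e => ?_,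
    fun h2 => key (fun p => if p.1 = p.2 then 0 else 1) fun p p' e => ?_⟩
  · by_cases h1 : p.1 = p.2 <;> by_cases h2 : p'.1 = p'.2 <;> by_cases h3 : R p.1 p.2 <;>
      by_cases h4 : R p'.1 p'.2 <;> simp_all
  · have k : ∀ x y, R x y ↔ x = y := fun x y => ⟨h2 x y, fun e => e ▸ hr x⟩
    by_cases h1 : p.1 = p.2 <;> by_cases h2 : p'.1 = p'.2 <;> simp_all

/-- the number of points moved to a related point -/
noncomputable def relCnt (R : X → X → Prop) (g : Γ) : ℕ := Nat.card {x // R x (g • x)}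

/-- a strongly regular relation with eigenvalues `K, a, -b` -/
structure Srg (Γ : Type) [Group Γ] [MulAction Γ X] (R : X → X → Prop) (K μ a b : ℕ) : Prop where
  refl : ∀ x, R x x
  symm : ∀ x y, R x y → R y x
  inv : ∀ (g : Γ) x y, R (g • x) (g • y) ↔ R x y
  deg : ∀ x, Nat.card {z // R x z} = K
  adj : ∀ x y, x ≠ y → R x y → Nat.card {z // R x z ∧ R y z} + b = a + μ
  non : ∀ x y, ¬ R x y → Nat.card {z // R x z ∧ R y z} = μ
  rel : K + b = a + a * b + μ
  tot : (K : ℂ) * K + b * K = a * K + a * b + μ * Nat.card X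
  pos : a + b ≠ 0
  ne : Nonempty X

theorem Srg.exists_char [Finite X] {R : X → X → Prop} {K μ a b : ℕ} (h : Srg Γ R K μ a b) :
    ∃ χ ψ : Γ → ℂ, IsCharacter Γ χ ∧ IsCharacter Γ ψ ∧
      (fun g : Γ => (Nat.card (MulAction.fixedBy X g) : ℂ)) = 1 + χ + ψ ∧
      ∀ g, χ g * (a + b) = relCnt R g + b * Nat.card (MulAction.fixedBy X g) - (K + b) := by
  classical
  letI := Fintype.ofFinite X
  haveI := h.ne
  let A : Matrix X X ℂ := Matrix.of fun x y => if R x y then 1 else 0
  let J : Matrix X X ℂ := Matrix.of fun _ _ => 1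
  have cnt : ∀ p : X → Prop, (∑ z, if p z then 1 else 0 : ℂ) = Nat.card {z // p z} := fun p => by
    rw [Finset.sum_boole, Nat.card_eq_fintype_card, Fintype.card_subtype]
  have sy : ∀ x y, R x y ↔ R y x := fun x y => ⟨h.symm x y, h.symm y x⟩
  have v0 : (Nat.card X : ℂ) ≠ 0 := Nat.cast_ne_zero.2 Nat.card_pos.ne'
  have ab0 : (a + b : ℂ) ≠ 0 := by exact_mod_cast h.pos
  have AJ : A * J = (K : ℂ) • J := by
    ext x y
    simp only [A, J, Matrix.mul_apply, Matrix.of_apply, mul_one, cnt, h.deg, Matrix.smul_apply,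
      smul_eq_mul]
  have JA : J * A = (K : ℂ) • J := by
    ext x y
    simp only [A, J, Matrix.mul_apply, Matrix.of_apply, mul_one, one_mul, sy _ y, cnt, h.deg,
      Matrix.smul_apply, smul_eq_mul]
  have JJ : J * J = (Nat.card X : ℂ) • J := by
    ext x y; simp [J, Matrix.mul_apply]
  have AA : A * A = ((a : ℂ) - b) • A + ((a : ℂ) * b) • (1 : Matrix X X ℂ) + (μ : ℂ) • J := by
    ext x y
    have e : (A * A) x y = Nat.card {z // R x z ∧ R y z} := by
      rw [← cnt, Matrix.mul_apply]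
      exact Finset.sum_congr rfl fun z _ => by
        by_cases h1 : R x z <;> by_cases h2 : R y z <;> simp [A, sy _ y, h1, h2]
    rw [e]
    by_cases h1 : x = y
    · subst h1
      have := congrArg (Nat.cast : ℕ → ℂ) h.rel
      simp only [and_self, h.deg]
      simp [A, J, h.refl]; push_cast at this; linear_combination this
    · by_cases h2 : R x y
      · have := congrArg (Nat.cast : ℕ → ℂ) (h.adj x y h1 h2)
        simp only [Nat.cast_add] at this
        simp only [A, J, Matrix.add_apply, Matrix.smul_apply, Matrix.of_apply, if_pos h2,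
          Matrix.one_apply_ne h1, smul_eq_mul]
        linear_combination this
      · rw [h.non x y h2]; simp [A, J, h2, h1]
  obtain ⟨c, hc⟩ : ∃ c : ℂ, c * Nat.card X = K + b := ⟨_, div_mul_cancel₀ _ v0⟩
  obtain ⟨i, hi⟩ : ∃ i : ℂ, i * (a + b) = 1 := ⟨_, inv_mul_cancel₀ ab0⟩
  obtain ⟨j, hj⟩ : ∃ j : ℂ, j * Nat.card X = 1 := ⟨_, inv_mul_cancel₀ v0⟩
  have hμ : (μ : ℂ) = c * (K - a) := mul_right_cancel₀ v0 (by linear_combination -h.tot - (K - a) * hc)
  let E : Matrix X X ℂ := i • (A + (b : ℂ) • (1 : Matrix X X ℂ) - c • J)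
  have EE : E * E = E := by
    simp only [E, Matrix.smul_mul, Matrix.mul_smul, Matrix.mul_sub, Matrix.sub_mul, Matrix.mul_add,
      Matrix.add_mul, AA, AJ, JA, JJ, Matrix.mul_one, Matrix.one_mul, hμ]
    match_scalars
    · linear_combination i * hi
    · linear_combination i * b * hi
    · linear_combination (-(i * c)) * hi + i * i * c * hc
  have EJ : E * J = 0 := by
    simp only [E, Matrix.smul_mul, Matrix.sub_mul, Matrix.add_mul, AJ, JJ, Matrix.one_mul]
    match_scalars
    linear_combination (-i) * hc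
  have JE : J * E = 0 := by
    simp only [E, Matrix.mul_smul, Matrix.mul_sub, Matrix.mul_add, JA, JJ, Matrix.mul_one]
    match_scalars
    linear_combination (-i) * hc
  have E2 : (1 - j • J - E) * (1 - j • J - E) = 1 - j • J - E := by
    simp only [Matrix.smul_mul, Matrix.mul_smul, Matrix.mul_sub, Matrix.sub_mul, JJ, EE, EJ, JE,
      Matrix.mul_one, Matrix.one_mul]
    match_scalars
    · ring
    · linear_combination j * hj
    · ring
  have Ei : ∀ (g : Γ) x y, E (g • x) (g • y) = E x y := fun g x y => by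
    simp [E, A, J, h.inv, Matrix.one_apply]
  have fx : ∀ g : Γ, ∑ x, (1 : Matrix X X ℂ) x (g • x) = Nat.card (MulAction.fixedBy X g) := fun g => by
    simp only [Matrix.one_apply, cnt]
    exact congrArg _ (Nat.card_congr (Equiv.subtypeEquivRight fun x => eq_comm))
  refine ⟨_, _, isCharacter_idem E EE Ei, isCharacter_idem _ E2 fun g x y => by
    simp [Ei, J, Matrix.one_apply], ?_, fun g => ?_⟩
  · ext g
    simp only [Pi.add_apply, Pi.one_apply, Matrix.sub_apply, Finset.sum_sub_distrib, fx]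
    simp only [J, Matrix.smul_apply, Matrix.of_apply, smul_eq_mul, mul_one, Finset.sum_const,
      Finset.card_univ, nsmul_eq_mul, ← Nat.card_eq_fintype_card]
    linear_combination hj
  · simp only [E, Matrix.smul_apply, Matrix.sub_apply, Matrix.add_apply, smul_eq_mul, ← Finset.mul_sum,
      Finset.sum_sub_distrib, Finset.sum_add_distrib, fx]
    simp only [A, J, Matrix.of_apply, cnt, mul_one, Finset.sum_const, Finset.card_univ, nsmul_eq_mul,
      ← Nat.card_eq_fintype_card, relCnt]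
    linear_combination ((Nat.card {x // R x (g • x)} : ℂ) + b * Nat.card (MulAction.fixedBy X g) -
      c * Nat.card X) * hi - hc

end Cfsg.Agent.Dg
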