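import Cfsg.Agent.Dg.S1
import Cfsg.Agent.Dg.G3
import Cfsg.Agent.Dg.D1
import Cfsg.Agent.H3.Orth

/-! Slice SRG of `S4984`: the constituents of the action on singular points. -/

set_option autoImplicit false

namespace Cfsg.Agent.Dg

open Cfsg Cfsg.Agent.H3 Module
open scoped Matrix

section Abs
variable {Γ X : Type} [Group Γ] [MulAction Γ X] [Finite Γ] [Finite X] {R : X → X → Prop} {K μ a b : ℕ}

theorem Srg.main (h : Srg Γ R K μ a b) (h3 : Rk3 Γ R) :
    ∃ (χ ψ : Γ → ℂ) (f g : ℕ), IsCharacter Γ χ ∧ IsCharacter Γ ψ ∧ χ 1 = f ∧ ψ 1 = g ∧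
      (∀ x, (Nat.card (MulAction.fixedBy X x) : ℂ) = 1 + χ x + ψ x) ∧
      (∀ x, χ x * (a + b) = relCnt R x + b * Nat.card (MulAction.fixedBy X x) - (K + b)) ∧
      Nat.card X = 1 + f + g ∧ f * (a + b) + (K + b) = Nat.card X + b * Nat.card X ∧
      (f ≠ 0 → ((∀ x y, R x y → x = y) ∨ g ≠ 0) → IsIrrCharacter Γ χ) ∧
      (f ≠ 0 → g ≠ 0 → IsIrrCharacter Γ ψ) ∧
      ∀ x : Γ, (∀ y : X, x • y = y) → χ x = χ 1 ∧ ψ x = ψ 1 := by
  letI := Fintype.ofFinite Γ
  obtain ⟨χ, ψ, hχ, hψ, hs, hf⟩ := h.exists_char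
  obtain ⟨f, f1⟩ := hχ.exists_apply_one
  obtain ⟨g, g1⟩ := hψ.exists_apply_one
  have hs' : ∀ x : Γ, (Nat.card (MulAction.fixedBy X x) : ℂ) = 1 + χ x + ψ x := congrFun hs
  have fx : ∀ x : Γ, (∀ y : X, x • y = y) → Nat.card (MulAction.fixedBy X x) = Nat.card X ∧
      relCnt R x = Nat.card X := fun x hx =>
    ⟨Nat.card_congr (Equiv.subtypeUnivEquiv hx),
      Nat.card_congr (Equiv.subtypeUnivEquiv fun y => (hx y).symm ▸ h.refl y)⟩
  have hN := classInner_permChar_permChar (G := Γ) X X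
  rw [← ip_eq] at hN
  have hc := h3.card_le h.refl
  have o1 := fx 1 (one_smul Γ)
  refine ⟨χ, ψ, f, g, hχ, hψ, f1, g1, hs', hf, ?_, ?_, fun f0 h' => ?_, fun f0 g0 => ?_, fun x hx => ?_⟩
  · have := hs' 1
    rw [o1.1, f1, g1] at this
    exact_mod_cast this
  · have := hf 1
    rw [o1.1, o1.2, f1, eq_sub_iff_add_eq] at this
    exact_mod_cast this
  · exact irr_of_sum hχ hψ hs hN (by rw [f1]; exact_mod_cast f0)
      (h'.imp hc.2 fun g0 => ⟨hc.1, by rw [g1]; exact_mod_cast g0⟩)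
  · exact irr_of_sum hψ hχ (hs.trans (add_right_comm _ _ _)) hN (by rw [g1]; exact_mod_cast g0)
      (Or.inr ⟨hc.1, by rw [f1]; exact_mod_cast f0⟩)
  · have ab0 : (a + b : ℂ) ≠ 0 := by exact_mod_cast h.pos
    have e : χ x = χ 1 := mul_right_cancel₀ ab0 (by rw [hf, hf, (fx x hx).1, (fx x hx).2, o1.1, o1.2])
    refine ⟨e, ?_⟩
    have e1 := hs' x
    have e2 := hs' 1
    rw [(fx x hx).1] at e1
    rw [o1.1] at e2
    linear_combination e2 - e1 - e

omit [Finite Γ] in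
theorem Srg.center_fix (h : Srg Γ R K μ a b) (h3 : Rk3 Γ R) (hK : 3 ≤ K) (hv : K + 2 ≤ Nat.card X)
    {z : Γ} (hz : z ∈ Subgroup.center Γ) (x : X) : z • x = x := by
  classical
  letI := Fintype.ofFinite X
  by_contra hne
  have hd : (Finset.univ.filter fun y => R x y).card = K := by
    rw [← h.deg x, Nat.card_eq_fintype_card, Fintype.card_subtype]
  rw [Nat.card_eq_fintype_card] at hv
  obtain ⟨y, h1, h2, h4⟩ : ∃ y, y ≠ x ∧ y ≠ z • x ∧ (R x (z • x) ↔ R x y) := by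
    by_cases hR : R x (z • x)
    · obtain ⟨y, hy, hy'⟩ := Finset.exists_mem_notMem_of_card_lt_card
        (s := {x, z • x}) (t := Finset.univ.filter fun y => R x y) (lt_of_le_of_lt Finset.card_le_two (by omega))
      simp only [Finset.mem_insert, Finset.mem_singleton, not_or] at hy'
      exact ⟨y, hy'.1, hy'.2, iff_of_true hR (Finset.mem_filter.1 hy).2⟩
    · have := Finset.card_filter_add_card_filter_not (s := Finset.univ) fun y => R x y
      rw [Finset.card_univ] at this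
      obtain ⟨y, hy, hy'⟩ := Finset.exists_mem_notMem_of_card_lt_card
        (s := {z • x}) (t := Finset.univ.filter fun y => ¬ R x y) (by rw [Finset.card_singleton]; omega)
      have h5 := (Finset.mem_filter.1 hy).2
      exact ⟨y, fun e => h5 (e ▸ h.refl x), by simpa using hy', iff_of_false hR h5⟩
  obtain ⟨g, g1, g2⟩ := h3 x (z • x) x y (iff_of_false (Ne.symm hne) h1.symm) h4
  rw [smul_smul, Subgroup.mem_center_iff.1 hz g, mul_smul, g1] at g2
  exact h2 g2.symm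

end Abs

variable {F V : Type} [Field F] [Finite F] [AddCommGroup V] [Module F V] [Finite V] {o : Bool} {Q : V → F}
  {B : LinearMap.BilinForm F V} {d m n : ℕ}

/-- singular points -/
def Pt (Q : V → F) : Type := {x : Sb (F := F) Q // x.1 ≠ ⊥}

instance finite_sb (Q : V → F) : Finite (Sb (F := F) Q) :=
  Finite.of_injective (fun x => (x.1 : Set V)) fun _ _ e => Subtype.ext (SetLike.coe_injective e)

instance finite_pt (Q : V → F) : Finite (Pt (F := F) Q) := Subtype.finite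

instance ptAction (Q : V → F) (B : LinearMap.BilinForm F V) : MulAction (Iso Q B) (Pt Q) where
  smul g x := ⟨g • x.1, fun e => x.2 ((Submodule.map_eq_bot_iff (e := g.1)).1 e)⟩
  one_smul x := Subtype.ext (one_smul _ x.1)
  mul_smul g h x := Subtype.ext (mul_smul g h x.1)

omit [Finite F] [Finite V] in
theorem pt_smul (g : Iso Q B) (x : Pt Q) : (g • x).1.1 = x.1.1.map g.1.toLinearMap := rfl

/-- perpendicular points -/
def Perp (B : LinearMap.BilinForm F V) (x y : Pt Q) : Prop := ∀ u ∈ x.1.1, ∀ v ∈ y.1.1, B u v = 0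

/-- the point spanned by a singular vector -/
def pt (h : Pol o Q B) (v : V) (h0 : v ≠ 0) (hq : Q v = 0) : Pt Q :=
  ⟨⟨F ∙ v, (finrank_span_singleton h0).le, fun w hw => by
    obtain ⟨c, rfl⟩ := Submodule.mem_span_singleton.1 hw
    rw [h.smul, hq, mul_zero]⟩, fun e => h0 (Submodule.span_singleton_eq_bot.1 e)⟩

omit [Finite F] in
theorem exists_pt (h : Pol o Q B) (x : Pt Q) : ∃ v h0 hq, x = pt h v h0 hq := by
  obtain ⟨v, hv, h0⟩ := Submodule.exists_mem_ne_zero_of_ne_bot x.2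
  refine ⟨v, h0, x.1.2.2 v hv, Subtype.ext (Subtype.ext (Submodule.eq_of_le_of_finrank_le
    ((Submodule.span_singleton_le_iff_mem _ _).2 hv) ?_).symm)⟩
  rw [finrank_span_singleton h0]; exact x.1.2.1

omit [Finite F] [Finite V] in
theorem pt_eq_iff (h : Pol o Q B) {v w : V} {h0 hq h0' hq'} :
    pt h v h0 hq = pt h w h0' hq' ↔ ∃ c : Fˣ, c • v = w :=
  (Subtype.ext_iff.trans Subtype.ext_iff).trans Submodule.span_singleton_eq_span_singleton

omit [Finite F] [Finite V] in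
theorem perp_pt (h : Pol o Q B) {v w : V} {h0 hq h0' hq'} :
    Perp B (pt h v h0 hq) (pt h w h0' hq') ↔ B v w = 0 :=
  ⟨fun H => H v (Submodule.mem_span_singleton_self v) w (Submodule.mem_span_singleton_self w),
    fun H u hu x hx => by
      obtain ⟨c, rfl⟩ := Submodule.mem_span_singleton.1 hu
      obtain ⟨c', rfl⟩ := Submodule.mem_span_singleton.1 hx
      simp [H]⟩

omit [Finite F] [Finite V] in
theorem smul_pt (h : Pol o Q B) (g : Iso Q B) {v w : V} {h0 hq h0' hq'} (e : g.1 v = w) :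
    g • pt h v h0 hq = pt h w h0' hq' :=
  Subtype.ext (Subtype.ext ((Submodule.map_span _ _).trans (by subst e; rw [Set.image_singleton]; rfl)))

omit [Finite F] [Finite V] in
theorem smul_pt' (h : Pol o Q B) (g : Iso Q B) {v : V} {h0 hq} :
    g • pt h v h0 hq = pt h (g.1 v) (by simpa using h0) ((Iso.q g v).trans hq) := smul_pt h g rfl

/-- counting points by counting vectors -/
theorem card_pt (h : Pol o Q B) (P : Pt Q → Prop) (p : V → Prop) (p0 : p 0)
    (hp : ∀ v h0 hq, P (pt h v h0 hq) ↔ p v) :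
    Nat.card {x // P x} * (Nat.card F - 1) + 1 = Nat.card {v // Q v = 0 ∧ p v} := by
  classical
  choose r r0 rq hr using exists_pt h
  have hs : ∀ x (c : Fˣ), pt h (c • r x) ((smul_ne_zero_iff_ne c).2 (r0 x))
      (by rw [Units.smul_def, h.smul, rq, mul_zero]) = x := fun x c =>
    ((hr x).trans ((pt_eq_iff h).2 ⟨c, rfl⟩)).symm
  rw [← Nat.card_units, ← Nat.card_prod, ← Finite.card_option]
  refine Nat.card_eq_of_bijective (fun z => match z with
    | none => ⟨0, h.zero, p0⟩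
    | some z => ⟨z.2 • r z.1, by rw [Units.smul_def, h.smul, rq, mul_zero],
        (hp _ _ _).1 ((hs z.1 z.2).symm ▸ z.1.2)⟩) ⟨?_, ?_⟩
  · rintro (_ | ⟨x, c⟩) (_ | ⟨x', c'⟩) e
    · rfl
    · exact absurd (congrArg Subtype.val e).symm ((smul_ne_zero_iff_ne c').2 (r0 _))
    · exact absurd (congrArg Subtype.val e) ((smul_ne_zero_iff_ne c).2 (r0 _))
    · have e' : c • r x = c' • r x' := congrArg Subtype.val e
      have e1 : x = x' := Subtype.ext (by rw [← hs x c, ← hs x' c']; simp only [e'])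
      subst e1
      rw [Units.ext (smul_left_injective F (r0 x) e')]
  · rintro ⟨v, hq, hv⟩
    by_cases h0 : v = 0
    · exact ⟨none, Subtype.ext h0.symm⟩
    · obtain ⟨c, hc⟩ := (pt_eq_iff h).1 (hr (pt h v h0 hq)).symm
      exact ⟨some (⟨_, (hp v h0 hq).2 hv⟩, c), Subtype.ext hc⟩

theorem card_perp {k : ℕ} (T : Ty o d (m + k) Q B) {x : Fin k → V} (hx : TS Q B x) :
    Nat.card {v // Q v = 0 ∧ ∀ i, B (x i) v = 0} =
      Nat.card F ^ k * (NN (Nat.card F) (ee o d) m + 1) := by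
  obtain ⟨V', _, _, _, Q', B', T', e, h1, h2, h3⟩ := T.exists_std hx
  have e1 : {v // Q v = 0 ∧ ∀ i, B (x i) v = 0} ≃ {v : HV k F V' // v.2.2 = 0 ∧ Q' v.2.1 = 0} :=
    e.toEquiv.subtypeEquiv fun v => by
      have a1 : (∀ i, B (x i) v = 0) ↔ (e v).2.2 = 0 := by
        simp [← h2, h3, std, funext_iff]
      rw [a1, ← h1]
      by_cases a3 : (e v).2.2 = 0 <;> simp [hQ, a3]
  have e2 : {v : HV k F V' // v.2.2 = 0 ∧ Q' v.2.1 = 0} ≃ (Fin k → F) × {v // Q' v = 0} :=
    { toFun v := (v.1.1, ⟨v.1.2.1, v.2.2⟩)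
      invFun p := ⟨(p.1, p.2.1, 0), rfl, p.2.2⟩
      left_inv v := Subtype.ext (Prod.ext rfl (Prod.ext rfl v.2.1.symm))
      right_inv _ := rfl }
  rw [Nat.card_congr (e1.trans e2), Nat.card_prod, Nat.card_fun, Nat.card_eq_fintype_card
    (α := Fin k), Fintype.card_fin, card_sing T']

omit [Finite F] [Finite V] in
theorem ts_one (h : Pol o Q B) {x : V} (h0 : x ≠ 0) (hq : Q x = 0) : TS Q B ![x] :=
  ⟨linearIndependent_unique_iff.2 h0, fun i => by fin_cases i; exact hq,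
    fun i j => by fin_cases i; fin_cases j; exact h.self_of_sing hq⟩

omit [Finite F] [Finite V] in
theorem ts_two (h : Pol o Q B) {x y : V} {h0 hq h0' hq'} (hne : pt h x h0 hq ≠ pt h y h0' hq')
    (hb : B x y = 0) : TS Q B ![x, y] := by
  refine ⟨(LinearIndependent.pair_iff' h0).2 fun c e => hne ((pt_eq_iff h).2
    ⟨Units.mk0 c fun hc => h0' (by rw [← e, hc, zero_smul]), e⟩), fun i => ?_, fun i j => ?_⟩
  · fin_cases i
    exacts [hq, hq']
  · fin_cases i <;> fin_cases j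
    exacts [h.self_of_sing hq, hb, h.perp_comm.1 hb, h.self_of_sing hq']

theorem card_opp (T : Ty o d (m + 1) Q B) {x y : V} (h0 : x ≠ 0) (hq : Q x = 0) (hb : B x y ≠ 0) :
    Nat.card {v // Q v = 0 ∧ B x v = 0 ∧ B y v = 0} = NN (Nat.card F) (ee o d) m + 1 := by
  obtain ⟨V', _, _, _, Q', B', T', e, h1, h2, h3⟩ := T.exists_std (ts_one T.pol h0 hq)
  have a1 : ∀ v, B x v = (e v).2.2 0 := fun v => by
    have := h3 0
    simp only [Matrix.cons_val_zero] at this
    simp [← h2, this, std]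
  rw [a1] at hb
  have hb' : ep F o * (e y).2.2 0 ≠ 0 := mul_ne_zero (ep_ne o) hb
  rw [← card_sing T']
  refine Nat.card_eq_of_bijective (fun v => ⟨(e v.1).2.1, ?_⟩) ⟨fun v w h => ?_, fun u => ?_⟩
  · have := h1 v.1
    have h4 := v.2.2.1
    rw [a1] at h4
    simpa [hQ, dotProduct, h4, v.2.1] using this
  · have h' : (e v.1).2.1 = (e w.1).2.1 := congrArg Subtype.val h
    have v1 := v.2.2.1
    have w1 := w.2.2.1
    have v2 := v.2.2.2
    have w2 := w.2.2.2
    rw [a1] at v1 w1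
    rw [← h2] at v2 w2
    simp only [hB_apply, dotProduct, Fin.sum_univ_one, v1, w1, h'] at v2 w2
    refine Subtype.ext (e.injective (Prod.ext (funext fun i => ?_) (Prod.ext h' (funext fun i => ?_))))
    · rw [Subsingleton.elim i 0]
      exact mul_left_cancel₀ hb' (by linear_combination v2 - w2)
    · rw [Subsingleton.elim i 0, v1, w1]
  · refine ⟨⟨e.symm (fun _ => -(B' (e y).2.1 u / (ep F o * (e y).2.2 0)), u, 0), ?_, ?_, ?_⟩, ?_⟩
    · rw [← h1]; simp [hQ, u.2]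
    · rw [a1]; simp
    · rw [← h2]; simp only [LinearEquiv.apply_symm_apply, hB_apply, dotProduct, Fin.sum_univ_one]
      rw [← mul_assoc, mul_neg, mul_div_cancel₀ _ hb']; simp
    · simp

omit [Finite F] in
/-- the stabiliser of a singular vector is transitive on the opposite singular points -/
theorem exists_opp (h : Pol o Q B) {w y y' : V} (hw : Q w = 0) (hy : Q y = 0) (hy' : Q y' = 0)
    (hb : B w y ≠ 0) (e : B w y' = B w y) : ∃ g : Iso Q B, g.1 w = w ∧ g.1 y = y' := by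
  have ww := h.self_of_sing hw
  have ha : B w ((B w y)⁻¹ • (y' - y)) = 0 := by simp [e]
  obtain ⟨c, hc⟩ : ∃ c : F, (h.ei w _ hw ha).1 y = y' - c • w :=
    ⟨_, by rw [h.ei_apply, smul_smul, mul_inv_cancel₀ hb, one_smul, add_sub_cancel]⟩
  have f1 : (h.ei w _ hw ha).1 w = w := by
    rw [h.ei_apply, ww, h.perp_comm.1 ha]; simp
  have hq := Iso.q (h.ei w _ hw ha) y
  rw [hc, h.sub, h.smul, hw, hy, hy', map_smul, smul_eq_mul] at hq
  have h1 : B y' w ≠ 0 := fun h' => hb (e ▸ h.perp_comm.1 h')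
  have h2 : c * dl F o = 0 := mul_right_cancel₀ h1 (by linear_combination -hq)
  refine ⟨h.qr w (-c * (B w y)⁻¹) (by rw [hw]; linear_combination (B w y)⁻¹ * h2) * h.ei w _ hw ha, ?_, ?_⟩
  · rw [Iso.mul_apply, f1, h.qr_apply, ww, mul_zero, zero_smul, sub_zero]
  · rw [Iso.mul_apply, hc, h.qr_apply, map_sub, map_smul, ww, smul_zero, sub_zero, e,
      inv_mul_cancel_right₀ hb, neg_smul, sub_neg_eq_add, sub_add_cancel]

theorem rk3_vec (h : Pol o Q B) (x y x' y' : Pt Q) (h1 : x = y ↔ x' = y')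
    (h2 : Perp B x y ↔ Perp B x' y') : ∃ g : Iso Q B, g • x = x' ∧ g • y = y' := by
  obtain ⟨x, x0, xq, rfl⟩ := exists_pt h x
  obtain ⟨x', x0', xq', rfl⟩ := exists_pt h x'
  by_cases e : pt h x x0 xq = y
  · obtain ⟨g, hg⟩ := witt_one h x0 x0' xq xq'
    exact ⟨g, smul_pt h g hg, e ▸ h1.1 e ▸ smul_pt h g hg⟩
  obtain ⟨y, y0, yq, rfl⟩ := exists_pt h y
  obtain ⟨y', y0', yq', rfl⟩ := exists_pt h y'
  rw [perp_pt, perp_pt] at h2
  by_cases hb : B x y = 0
  · obtain ⟨g, hg⟩ := witt h (ts_two h e hb) (ts_two h (fun e' => e (h1.2 e')) (h2.1 hb))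
    exact ⟨g, smul_pt h g (hg 0), smul_pt h g (hg 1)⟩
  · obtain ⟨g, hg⟩ := witt_one h x0 x0' xq xq'
    have hb' : B x' y' ≠ 0 := fun e' => hb (h2.2 e')
    have b1 : B x' (g.1 y) = B x y := by rw [← hg, Iso.b]
    obtain ⟨g', g1, g2⟩ := exists_opp h (y := g.1 y) (y' := (B x y / B x' y') • y') xq'
      ((Iso.q g y).trans yq) (by rw [h.smul, yq', mul_zero]) (b1 ▸ hb) (by
        rw [b1, map_smul, smul_eq_mul, div_mul_cancel₀ _ hb'])
    refine ⟨g' * g, smul_pt h _ (by rw [Iso.mul_apply, hg, g1]), ?_⟩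
    rw [smul_pt']
    exact ((pt_eq_iff h).2 ⟨Units.mk0 _ (div_ne_zero hb hb'), by rw [Iso.mul_apply, g2]; rfl⟩).symm

theorem rk3_iso (h : Pol o Q B) : Rk3 (Iso Q B) (Perp (Q := Q) B) := rk3_vec h

theorem rk3_omega (h : Pol true Q B) (hd : 6 ≤ finrank F V) :
    Rk3 (commutator (Iso Q B)) (Perp (Q := Q) B) := fun x y x' y' h1 h2 => by
  obtain ⟨g, rfl, rfl⟩ := rk3_vec h x y x' y' h1 h2
  obtain ⟨x, x0, xq, rfl⟩ := exists_pt h x
  obtain ⟨y, y0, yq, rfl⟩ := exists_pt h y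
  obtain ⟨ω, hω, e1, e2⟩ := h.gen_fix hd x y g
  exact ⟨⟨ω, hω⟩, by rw [smul_pt' h g]; exact smul_pt h ω e1, by rw [smul_pt' h g]; exact smul_pt h ω e2⟩

end Cfsg.Agent.Dg
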