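import Cfsg.Agent.Dg.S2
import Cfsg.Agent.Dg.D2

/-! Slice SRG of `S4984`: degrees. -/

set_option autoImplicit false

namespace Cfsg.Agent.Dg

open Cfsg Cfsg.Agent.H3 Module
open scoped Matrix

theorem NN_cast {q : ℕ} (hq : 1 ≤ q) (e i : ℕ) :
    (NN q e i : ℤ) = ((q : ℤ) ^ i - 1) * ((q : ℤ) ^ (i - 1 + e) + 1) := by
  rw [NN]; push_cast [Nat.one_le_pow i q hq]; rfl

theorem NN_top {q e m t : ℕ} (hq : 1 ≤ q) (h : m + e = t + 1) :
    (NN q e (m + 1) : ℤ) = (q * (q : ℤ) ^ m - 1) * (q * (q : ℤ) ^ t + 1) := by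
  rw [NN_cast hq, Nat.add_sub_cancel, h]; ring

theorem NN_mid {q e m t : ℕ} (hq : 1 ≤ q) (h : m + e = t + 1) :
    (NN q e m : ℤ) = ((q : ℤ) ^ m - 1) * ((q : ℤ) ^ t + 1) := by
  rw [NN_cast hq]
  rcases m with _ | m
  · simp
  · rw [show m + 1 - 1 + e = t by omega]

theorem NN_low {q e m t : ℕ} (hq : 1 ≤ q) (h : m + 1 + e = t + 1) :
    (q : ℤ) ^ 2 * NN q e m = ((q : ℤ) ^ (m + 1) - q) * ((q : ℤ) ^ t + q) := by
  rw [NN_cast hq]
  rcases m with _ | m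
  · simp
  · rw [show t = m + 1 - 1 + e + 1 by omega]; ring

variable {F V : Type} [Field F] [Finite F] [AddCommGroup V] [Module F V] [Finite V] {o : Bool} {Q : V → F}
  {B : LinearMap.BilinForm F V} {d m n t : ℕ}

theorem two_le_q : 2 ≤ Nat.card F := Finite.one_lt_card

theorem card_Pt (T : Ty o d n Q B) :
    Nat.card (Pt (F := F) Q) * (Nat.card F - 1) = NN (Nat.card F) (ee o d) n := by
  have := card_pt T.pol (fun _ => True) (fun _ => True) trivial fun _ _ _ => Iff.rfl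
  rw [Nat.card_congr (Equiv.subtypeUnivEquiv fun _ => trivial)] at this
  simp only [and_true] at this
  rw [card_sing T] at this
  omega

theorem srg_iso (T : Ty o d (m + 1) Q B) (ht : m + ee o d = t + 1) {μ : ℕ}
    (hμ : μ * (Nat.card F - 1) = NN (Nat.card F) (ee o d) m) :
    Srg (Iso Q B) (Perp (Q := Q) B) (Nat.card F * μ + 1) μ (Nat.card F ^ m) (Nat.card F ^ t) := by
  have h := T.pol
  have q2 := two_le_q (F := F)
  have q1 : 1 ≤ Nat.card F := by omega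
  have q0 : (Nat.card F : ℤ) - 1 ≠ 0 := by omega
  have hμ' : (μ : ℤ) * (Nat.card F - 1) = ((Nat.card F : ℤ) ^ m - 1) * ((Nat.card F : ℤ) ^ t + 1) := by
    rw [← NN_mid q1 ht, ← hμ]; push_cast [q1]; rfl
  have hv : (Nat.card (Pt (F := F) Q) : ℤ) * (Nat.card F - 1) =
      (Nat.card F * (Nat.card F : ℤ) ^ m - 1) * (Nat.card F * (Nat.card F : ℤ) ^ t + 1) := by
    rw [← NN_top q1 ht, ← card_Pt T]; push_cast [q1]; rfl
  refine ⟨fun x => ?_, fun x y H u hu v hv => h.perp_comm.1 (H v hv u hu), fun g x y => ?_, fun x => ?_,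
    fun x y hne hp => ?_, fun x y hp => ?_, ?_, ?_, by positivity, ?_⟩
  · obtain ⟨x, x0, xq, rfl⟩ := exists_pt h x
    exact (perp_pt h).2 (h.self_of_sing xq)
  · obtain ⟨x, x0, xq, rfl⟩ := exists_pt h x
    obtain ⟨y, y0, yq, rfl⟩ := exists_pt h y
    rw [smul_pt', smul_pt', perp_pt, perp_pt, Iso.b]
  · obtain ⟨x, x0, xq, rfl⟩ := exists_pt h x
    have h1 := card_pt h (Perp B (pt h x x0 xq)) (fun v => ∀ i, B (![x] i) v = 0) (by simp)
      fun v _ _ => by rw [perp_pt]; simp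
    rw [card_perp T (ts_one h x0 xq), ← hμ] at h1
    zify [q1] at h1 ⊢
    exact mul_right_cancel₀ q0 (by linear_combination h1)
  · obtain ⟨x, x0, xq, rfl⟩ := exists_pt h x
    obtain ⟨y, y0, yq, rfl⟩ := exists_pt h y
    have ts := ts_two h hne ((perp_pt h).1 hp)
    rcases m with _ | m
    · have a1 := h.sing_span (s := Set.range ![x, y]) (by rintro _ ⟨i, rfl⟩; exact ts.q i)
        (by rintro _ ⟨i, rfl⟩ _ ⟨j, rfl⟩; exact ts.b i j)
      have := T.nomid (k := 2) (by omega) _ a1.1 a1.2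
      rw [finrank_span_eq_card ts.li] at this
      simp at this
    have h1 := card_pt h (fun z => Perp B (pt h x x0 xq) z ∧ Perp B (pt h y y0 yq) z)
      (fun v => ∀ i, B (![x, y] i) v = 0) (by simp) fun v _ _ => by
        rw [perp_pt, perp_pt]; simp [Fin.forall_fin_two]
    rw [card_perp (m := m) (k := 2) T ts] at h1
    have h2 := NN_low q1 ht
    zify [q1] at h1 ⊢
    exact mul_right_cancel₀ q0 (by linear_combination h1 + h2 - hμ')
  · obtain ⟨x, x0, xq, rfl⟩ := exists_pt h x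
    obtain ⟨y, y0, yq, rfl⟩ := exists_pt h y
    have h1 := card_pt h (fun z => Perp B (pt h x x0 xq) z ∧ Perp B (pt h y y0 yq) z)
      (fun v => B x v = 0 ∧ B y v = 0) (by simp) fun v _ _ => by rw [perp_pt, perp_pt]
    rw [card_opp T x0 xq (fun e => hp ((perp_pt h).2 e)), ← hμ] at h1
    exact Nat.eq_of_mul_eq_mul_right (by omega) (Nat.add_right_cancel h1)
  · zify
    linear_combination hμ'
  · have : ((Nat.card F * μ + 1 : ℕ) : ℤ) * (Nat.card F * μ + 1 : ℕ) +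
        (Nat.card F ^ t : ℕ) * (Nat.card F * μ + 1 : ℕ) = (Nat.card F ^ m : ℕ) * (Nat.card F * μ + 1 : ℕ) +
        (Nat.card F ^ m : ℕ) * (Nat.card F ^ t : ℕ) + μ * Nat.card (Pt (F := F) Q) := by
      push_cast
      generalize (Nat.card F : ℤ) ^ m = a at *
      generalize (Nat.card F : ℤ) ^ t = b at *
      generalize (Nat.card F : ℤ) = q at *
      refine mul_right_cancel₀ q0 ?_
      linear_combination (-μ) * hv + (q ^ 2 * μ + q - 1) * hμ'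
    exact_mod_cast this
  · have := card_Pt T
    have h2 : 0 < NN (Nat.card F) (ee o d) (m + 1) := by
      exact Nat.mul_pos (Nat.sub_pos_of_lt (Nat.one_lt_pow (Nat.succ_ne_zero m) q2)) (Nat.succ_pos _)
    rw [← this] at h2
    exact (Nat.card_pos_iff.1 (Nat.pos_of_mul_pos_right h2)).1

theorem exists_mu (q e m : ℕ) : ∃ μ, μ * (q - 1) = NN q e m := by
  obtain ⟨c, hc⟩ := Nat.sub_one_dvd_pow_sub_one q m
  exact ⟨c * (q ^ (m - 1 + e) + 1), by rw [NN, hc]; ring⟩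

theorem deg_arith {q e m t μ v f g : ℕ} (q2 : 2 ≤ q) (ht : m + e = t + 1) (hμ : μ * (q - 1) = NN q e m)
    (hv : v * (q - 1) = NN q e (m + 1)) (h1 : v = 1 + f + g)
    (h2 : f * (q ^ m + q ^ t) + (q * μ + 1 + q ^ t) = v + q ^ t * v) :
    f * ((q - 1) * (q + q ^ e)) = q ^ (1 + e) * (q ^ (m + 1) - 1) * (q ^ (m + 1 + e - 2) + 1) ∧
    g * ((q - 1) * (q + q ^ e)) = q ^ 2 * (q ^ (m + 1 - 1) - 1) * (q ^ (m + 1 - 1 + e) + 1) ∧
    v = q * μ + 1 + q * (q ^ m * q ^ t) := by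
  have q1 : 1 ≤ q := by omega
  have q0 : (q : ℤ) - 1 ≠ 0 := by omega
  have hμ' : (μ : ℤ) * (q - 1) = ((q : ℤ) ^ m - 1) * ((q : ℤ) ^ t + 1) := by
    rw [← NN_mid q1 ht, ← hμ]; push_cast [q1]; rfl
  have hv' : (v : ℤ) * (q - 1) = (q * (q : ℤ) ^ m - 1) * (q * (q : ℤ) ^ t + 1) := by
    rw [← NN_top q1 ht, ← hv]; push_cast [q1]; rfl
  have he : (q : ℤ) ^ m * q ^ e = q * q ^ t := by rw [← pow_add, ht]; ring
  have a0 : (q : ℤ) ^ m ≠ 0 := by positivity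
  rw [show m + 1 + e - 2 = t by omega, Nat.add_sub_cancel, ht]
  zify [q1, Nat.one_le_pow _ q q1] at h1 h2 ⊢
  simp only [pow_add, pow_one]
  generalize (q : ℤ) ^ m = a at *
  generalize (q : ℤ) ^ t = b at *
  generalize (q : ℤ) ^ e = c at *
  refine ⟨mul_left_cancel₀ a0 ?_, mul_left_cancel₀ a0 ?_, mul_right_cancel₀ q0 ?_⟩
  · linear_combination (f * (q - 1) - q * (a * q - 1) * (b + 1)) * he + q * (q - 1) * h2 +
      q * (1 + b) * hv' - q * q * hμ'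
  · linear_combination (g * (q - 1)) * he - q * (q - 1) * h2 - q * (q - 1) * (a + b) * h1 +
      q * (a - 1) * hv' + q * q * hμ'
  · linear_combination hv' - q * hμ'

omit [Finite F] in
theorem card_fix_sb (h : Pol o Q B) (g : Iso Q B) : Nat.card (MulAction.fixedBy (Sb Q) g) =
    Nat.card (MulAction.fixedBy (Pt Q) g) + 1 := by
  rw [← Finite.card_option]
  refine (Nat.card_eq_of_bijective (fun z => match z with
    | none => ⟨⟨⊥, by simp, fun v hv => by rw [(Submodule.mem_bot F).1 hv, h.zero]⟩,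
        Subtype.ext (Submodule.map_bot _)⟩
    | some x => ⟨x.1.1, congrArg Subtype.val x.2⟩) ⟨?_, ?_⟩).symm
  · rintro (_ | x) (_ | y) e
    · rfl
    · exact absurd (congrArg (fun z => z.1.1) e).symm y.1.2
    · exact absurd (congrArg (fun z => z.1.1) e) x.1.2
    · exact congrArg some (Subtype.ext (Subtype.ext (congrArg (fun z => z.1) e)))
  · intro x
    by_cases e : x.1.1 = ⊥
    · exact ⟨none, Subtype.ext (Subtype.ext e.symm)⟩
    · exact ⟨some ⟨⟨x.1, e⟩, Subtype.ext x.2⟩, rfl⟩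

omit [Finite F] in
theorem neg_fix (h : Pol o Q B) {z : Iso Q B} (hz : ∀ v, z.1 v = -v) (x : Pt Q) : z • x = x := by
  obtain ⟨v, h0, hq, rfl⟩ := exists_pt h x
  rw [smul_pt']
  exact ((pt_eq_iff h).2 ⟨-1, by rw [hz]; simp⟩).symm

theorem taus {Γ : Type} [Group Γ] [Finite Γ] [MulAction Γ (Pt (F := F) Q)] (T : Ty o d n Q B) (hn : 1 ≤ n)
    (he : 2 ≤ n + ee o d) (hi : ∀ (g : Γ) x y, Perp (Q := Q) B (g • x) (g • y) ↔ Perp B x y)
    (h3 : Rk3 Γ (Perp (Q := Q) B)) {μ : ℕ} (hμ : μ * (Nat.card F - 1) = NN (Nat.card F) (ee o d) (n - 1)) :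
    ∃ χ ψ : Γ → ℂ, IsIrrCharacter Γ χ ∧ IsCharacter Γ ψ ∧ (2 ≤ n → IsIrrCharacter Γ ψ) ∧
      χ 1 = ff (Nat.card F) (ee o d) n ∧ ψ 1 = gg (Nat.card F) (ee o d) n ∧
      (∀ x, (Nat.card (MulAction.fixedBy (Pt (F := F) Q) x) : ℂ) = 1 + χ x + ψ x) ∧
      (∀ x, χ x * (Nat.card F ^ (n - 1) + Nat.card F ^ (n + ee o d - 2)) = relCnt (Perp (Q := Q) B) x +
        Nat.card F ^ (n + ee o d - 2) * Nat.card (MulAction.fixedBy (Pt (F := F) Q) x) -
          (Nat.card F * μ + 1 + Nat.card F ^ (n + ee o d - 2))) ∧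
      ∀ x : Γ, (∀ y : Pt (F := F) Q, x • y = y) → χ x = χ 1 ∧ ψ x = ψ 1 := by
  obtain ⟨m, rfl⟩ : ∃ m, n = m + 1 := ⟨n - 1, by omega⟩
  obtain ⟨t, ht⟩ : ∃ t, m + ee o d = t + 1 := ⟨m + ee o d - 1, by omega⟩
  have q2 := two_le_q (F := F)
  rw [Nat.add_sub_cancel] at hμ
  have S := srg_iso T ht hμ
  obtain ⟨χ, ψ, f, g, hχ, hψ, f1, g1, hs, hf, a1, a2, i1, i2, hc⟩ :=
    Srg.main (Γ := Γ) ⟨S.refl, S.symm, hi, S.deg, S.adj, S.non, S.rel, S.tot, S.pos, S.ne⟩ h3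
  obtain ⟨b1, b2, -⟩ := deg_arith q2 ht hμ (card_Pt T) a1 a2
  have d0 : 0 < (Nat.card F - 1) * (Nat.card F + Nat.card F ^ ee o d) := Nat.mul_pos (by omega) (by positivity)
  have p : ∀ i, i ≠ 0 → 0 < Nat.card F ^ i - 1 := fun i hi => Nat.sub_pos_of_lt (Nat.one_lt_pow hi q2)
  have f0 : f ≠ 0 := fun e => by
    rw [e, zero_mul] at b1
    exact (Nat.mul_pos (Nat.mul_pos (by positivity) (p _ (by omega))) (Nat.succ_pos _)).ne b1
  have g0 : m ≠ 0 → g ≠ 0 := fun hm e => by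
    rw [e, zero_mul] at b2
    exact (Nat.mul_pos (Nat.mul_pos (by positivity) (p _ (by omega))) (Nat.succ_pos _)).ne b2
  refine ⟨χ, ψ, i1 f0 ?_, hψ, fun h2 => i2 f0 (g0 (by omega)), ?_, ?_, hs, fun x => ?_, hc⟩
  · refine (eq_or_ne m 0).imp (fun hm x y hp => ?_) g0
    subst hm
    have h1 := S.deg x
    have : μ = 0 := by simpa [NN, show Nat.card F - 1 ≠ 0 by omega] using hμ
    rw [this, mul_zero, zero_add, Nat.card_eq_one_iff_unique] at h1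
    exact congrArg Subtype.val (h1.1.elim ⟨x, S.refl x⟩ ⟨y, hp⟩)
  · rw [f1, ff, ← b1, Nat.mul_div_cancel _ d0]
  · rw [g1, gg, ← b2, Nat.mul_div_cancel _ d0]
  · have := hf x
    rw [show m + 1 + ee o d - 2 = t by omega, Nat.add_sub_cancel]
    push_cast at this
    exact this

theorem perp_smul (h : Pol o Q B) (g : Iso Q B) (x y : Pt Q) : Perp B (g • x) (g • y) ↔ Perp B x y := by
  obtain ⟨x, x0, xq, rfl⟩ := exists_pt h x
  obtain ⟨y, y0, yq, rfl⟩ := exists_pt h y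
  rw [smul_pt', smul_pt', perp_pt, perp_pt, Iso.b]

theorem un_of (h : Pol o Q B) {χ ψ : Iso Q B → ℂ} (hψ : IsCharacter _ ψ)
    (hs : ∀ x, (Nat.card (MulAction.fixedBy (Pt (F := F) Q) x) : ℂ) = 1 + χ x + ψ x) : Un χ := by
  have : (fun g : Iso Q B => (Nat.card (MulAction.fixedBy (Sb Q) g) : ℂ) - χ g) = 1 + 1 + ψ := funext fun g => by
    rw [card_fix_sb h]; push_cast; rw [hs]; simp; ring
  rw [Un, this]
  exact (isCharacter_one.add isCharacter_one).add hψ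

/-- the constituent of degree `ff`, with a formula for its values -/
theorem tau_f' (T : Ty o d n Q B) (hn : 1 ≤ n) (he : 2 ≤ n + ee o d) {μ : ℕ}
    (hμ : μ * (Nat.card F - 1) = NN (Nat.card F) (ee o d) (n - 1)) :
    ∃ τ : Iso Q B → ℂ, IsIrrCharacter _ τ ∧ τ 1 = ff (Nat.card F) (ee o d) n ∧ Cen τ ∧ Un τ ∧
      ∀ x, τ x * (Nat.card F ^ (n - 1) + Nat.card F ^ (n + ee o d - 2)) = relCnt (Perp (Q := Q) B) x +
        Nat.card F ^ (n + ee o d - 2) * Nat.card (MulAction.fixedBy (Pt (F := F) Q) x) -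
          (Nat.card F * μ + 1 + Nat.card F ^ (n + ee o d - 2)) := by
  obtain ⟨χ, ψ, h1, h2, -, h4, -, h6, h7, h8⟩ := taus T hn he (perp_smul T.pol) (rk3_iso T.pol) hμ
  exact ⟨χ, h1, h4, fun z hz => (h8 z (neg_fix T.pol hz)).1, un_of T.pol h2 h6, h7⟩

theorem tau_f (T : Ty o d n Q B) (hn : 1 ≤ n) (he : 2 ≤ n + ee o d) :
    ∃ τ : Iso Q B → ℂ, IsIrrCharacter _ τ ∧ τ 1 = ff (Nat.card F) (ee o d) n ∧ Cen τ ∧ Un τ := by
  obtain ⟨μ, hμ⟩ := exists_mu (Nat.card F) (ee o d) (n - 1)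
  obtain ⟨τ, h1, h2, h3, h4, -⟩ := tau_f' T hn he hμ
  exact ⟨τ, h1, h2, h3, h4⟩

theorem tau_g (T : Ty o d n Q B) (hn : 2 ≤ n) :
    ∃ τ : Iso Q B → ℂ, IsIrrCharacter _ τ ∧ τ 1 = gg (Nat.card F) (ee o d) n ∧ Cen τ ∧ Un τ := by
  obtain ⟨μ, hμ⟩ := exists_mu (Nat.card F) (ee o d) (n - 1)
  obtain ⟨χ, ψ, h1, -, h3, -, h5, h6, -, h8⟩ :=
    taus T (by omega) (by omega) (perp_smul T.pol) (rk3_iso T.pol) hμ
  exact ⟨ψ, h3 hn, h5, fun z hz => (h8 z (neg_fix T.pol hz)).2,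
    un_of T.pol h1.isCharacter fun x => (h6 x).trans (add_right_comm _ _ _)⟩

theorem un_one (h : Pol o Q B) : Un (1 : Iso Q B → ℂ) := by
  have : (fun g : Iso Q B => (Nat.card (MulAction.fixedBy (Sb Q) g) : ℂ) - (1 : Iso Q B → ℂ) g) =
      fun g : Iso Q B => (Nat.card (MulAction.fixedBy (Pt Q) g) : ℂ) := funext fun g => by
    rw [card_fix_sb h]; simp
  rw [Un, this]
  exact isCharacter_permChar _

theorem tau_one (h : Pol o Q B) :
    ∃ τ : Iso Q B → ℂ, IsIrrCharacter _ τ ∧ τ 1 = (1 : ℕ) ∧ Cen τ ∧ Un τ :=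
  ⟨1, isIrrCharacter_one, by simp, fun _ _ => rfl, un_one h⟩

theorem dvd_aux0 (q c i j : ℕ) (h : Even i ∨ Odd j) : (q - 1) * (q + 1) ∣ c * (q ^ i - 1) * (q ^ j + 1) := by
  rcases h with ⟨k, rfl⟩ | h
  · rw [← two_mul, pow_mul, mul_comm (q - 1), ← Nat.sq_sub_sq q 1, one_pow]
    exact ((Nat.sub_one_dvd_pow_sub_one _ k).mul_left c).mul_right _
  · exact mul_dvd_mul ((Nat.sub_one_dvd_pow_sub_one q i).mul_left c) (by simpa using h.nat_add_dvd_pow_add_pow q 1)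

theorem dvd_aux1 (q i j : ℕ) : (q - 1) * (q + q ^ 1) ∣ q ^ 2 * (q ^ i - 1) * (q ^ j + 1) := by
  rw [show (q - 1) * (q + q ^ 1) = q * (q - 1) * 2 by ring,
    show q ^ 2 * (q ^ i - 1) * (q ^ j + 1) = q * (q ^ i - 1) * (q * (q ^ j + 1)) by ring]
  refine mul_dvd_mul (mul_dvd_mul_left q (Nat.sub_one_dvd_pow_sub_one q i)) (even_iff_two_dvd.1 ?_)
  rcases Nat.even_or_odd q with h | h
  exacts [h.mul_right _, h.pow.add_one.mul_left _]

theorem dvd_aux2 (q c i j : ℕ) (h : Even i ∨ Odd j) :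
    (q - 1) * (q + q ^ 2) ∣ q ^ (c + 1) * (q ^ i - 1) * (q ^ j + 1) := by
  rw [show (q - 1) * (q + q ^ 2) = q * ((q - 1) * (q + 1)) by ring, pow_succ', mul_assoc q, mul_assoc q]
  exact mul_dvd_mul_left q (dvd_aux0 q _ i j h)

theorem ff_mul {q e n : ℕ} (he : e ≤ 2) (hn : 2 ≤ n + e) :
    ff q e n * ((q - 1) * (q + q ^ e)) = q ^ (1 + e) * (q ^ n - 1) * (q ^ (n + e - 2) + 1) := by
  refine Nat.div_mul_cancel ?_
  interval_cases e
  · exact dvd_aux0 q _ _ _ (by rw [Nat.even_iff, Nat.odd_iff]; omega)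
  · exact dvd_aux1 q _ _
  · exact dvd_aux2 q 2 _ _ (by rw [Nat.even_iff, Nat.odd_iff]; omega)

theorem gg_mul {q e n : ℕ} (he : e ≤ 2) :
    gg q e n * ((q - 1) * (q + q ^ e)) = q ^ 2 * (q ^ (n - 1) - 1) * (q ^ (n - 1 + e) + 1) := by
  refine Nat.div_mul_cancel ?_
  interval_cases e
  · exact dvd_aux0 q _ _ _ (by rw [Nat.even_iff, Nat.odd_iff]; omega)
  · exact dvd_aux1 q _ _
  · exact dvd_aux2 q 1 _ _ (by rw [Nat.even_iff, Nat.odd_iff]; omega)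

theorem po_fg (T : Ty true d n Q B) (hn : 3 ≤ n) :
    ff (Nat.card F) d n ∈ charDegrees (PO Q B) ∧ gg (Nat.card F) d n ∈ charDegrees (PO Q B) := by
  obtain ⟨μ, hμ⟩ := exists_mu (Nat.card F) (ee true d) (n - 1)
  obtain ⟨χ, ψ, h1, -, h3, h4, h5, -, -, h8⟩ := taus (Γ := commutator (Iso Q B)) T (by omega) (by omega)
    (fun g => perp_smul T.pol g.1) (rk3_omega T.pol (by rw [T.finrank_eq]; omega)) hμ
  exact ⟨po_of_irr T hn h1 h4 fun z hz => (h8 z (neg_fix T.pol hz)).1,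
    po_of_irr T hn (h3 (by omega)) h5 fun z hz => (h8 z (neg_fix T.pol hz)).2⟩

theorem po_f (T : Ty true d n Q B) (hn : 3 ≤ n) : ff (Nat.card F) d n ∈ charDegrees (PO Q B) :=
  (po_fg T hn).1

theorem po_g (T : Ty true d n Q B) (hn : 3 ≤ n) : gg (Nat.card F) d n ∈ charDegrees (PO Q B) :=
  (po_fg T hn).2

end Cfsg.Agent.Dg
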