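import Cfsg.Agent.Dg.S3

/-! Slice SRG of `S4984`: the counts in vector form. -/

set_option autoImplicit false

namespace Cfsg.Agent.Dg

open Cfsg Module

variable {F V : Type} [Field F] [Finite F] [AddCommGroup V] [Module F V] [Finite V] {o : Bool} {Q : V → F}
  {B : LinearMap.BilinForm F V}

theorem relCnt_vec (h : Pol o Q B) (g : Iso Q B) : relCnt (Perp (Q := Q) B) g * (Nat.card F - 1) + 1 =
    Nat.card {v // Q v = 0 ∧ B v (g.1 v) = 0} :=
  card_pt h _ _ (by simp) fun v _ _ => by rw [smul_pt', perp_pt]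

theorem fix_vec (h : Pol o Q B) (g : Iso Q B) :
    Nat.card (MulAction.fixedBy (Pt Q) g) * (Nat.card F - 1) + 1 =
      Nat.card {v // Q v = 0 ∧ ∃ c : F, g.1 v = c • v} :=
  card_pt h (fun x => g • x = x) _ ⟨0, by simp⟩ fun v h0 _ => by
    rw [smul_pt', eq_comm, pt_eq_iff]
    exact ⟨fun ⟨c, e⟩ => ⟨c, e.symm⟩, fun ⟨c, e⟩ => ⟨Units.mk0 c fun hc => h0 (by simpa [hc] using e), e.symm⟩⟩

end Cfsg.Agent.Dg
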