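import Cfsg.Agent.Dg.H1
import Cfsg.Agent.Dg.M4

/-! Harish-Chandra induction of self-dual cuspidal characters (slice T4 of `S4984`). -/

set_option autoImplicit false

namespace Cfsg.Agent.Dg

open Cfsg Cfsg.Agent.H3 Cfsg.Agent.H4 Module Finset
open scoped Matrix

variable {F V : Type} [Field F] [Finite F] [AddCommGroup V] [Module F V] [Finite V] {k : ℕ} {o : Bool}
  {Q : V → F} {B : LinearMap.BilinForm F V} {σ : GL (Fin k) F → ℂ} {τ : Iso Q B → ℂ}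

omit [Finite F] [Finite V] in
theorem xi_mul_lv (p : PP k o Q B) {x : GG k o Q B} (hx : x ∈ PP k o Q B) {a : GL (Fin k) F} {g : Iso Q B}
    (e : x = lv o a g) : xi o σ τ (p * ⟨x, hx⟩) = σ (pa k o Q B p * a) * τ (pb k o Q B p * g) := by
  subst e
  rw [xi, map_mul, map_mul, pa_lv, pb_lv]

theorem big_cell (h : Pol o Q B) (j : GL (Fin k) F) {y : Fin k → V} (Z : GL (Fin k) F) (c : UC o Q B y Z) :
    ∃ u₁ ∈ UU k o Q B, ∃ g : Iso Q B, ∃ u₃ ∈ UU k o Q B,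
      sw k o Q B * lv o j 1 * uu h y Z c * (sw k o Q B * lv o j 1) =
        u₁ * lv o (du (j * Z)) g * (sw k o Q B * lv o j 1) * u₃ ∧
      ∀ v, g.1 v = v + ∑ i, ((↑Z⁻¹ : Matrix (Fin k) (Fin k) F) *ᵥ fun l => B v (y l)) i • y i := by
  set w := sw k o Q B * lv o j 1 with hw
  have h3 : ∀ a, ((w * uu h y Z c * w).1 (a, 0)).2.2 = (↑(j * Z * j) : Matrix (Fin k) (Fin k) F) *ᵥ a :=
    fun a => by simp [hw, mul_assoc, ← Pi.zero_def]
  obtain ⟨u, hu, p, hp, e⟩ := exists_uu_sw h (g := w * uu h y Z c * w) fun a ha => by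
    rw [h3] at ha
    have := congrArg ((↑(j * Z * j)⁻¹ : Matrix (Fin k) (Fin k) F) *ᵥ ·) ha
    simpa only [Matrix.mulVec_mulVec, Units.inv_mul, Matrix.one_mulVec, Matrix.mulVec_zero] using this
  have hα : pa k o Q B ⟨p, hp⟩ = j * Z * j := gl_ext fun a => by
    rw [← h3, e]
    obtain ⟨y', Z', c', rfl⟩ := (mem_UU h).1 hu
    have := pa_apply ⟨p, hp⟩ a
    simp only [Iso.mul_apply, this, sw_apply, uu_apply]
  have hd := UU_conj (inv_mem (lv_mem (pa k o Q B ⟨p, hp⟩) (pb k o Q B ⟨p, hp⟩))) (PP.decomp ⟨p, hp⟩)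
  refine ⟨u, hu, pb k o Q B ⟨p, hp⟩, _, hd, ?_, fun v => ?_⟩
  · have : lv o (du (j * Z)) (pb k o Q B ⟨p, hp⟩) * w =
        sw k o Q B * lv o (pa k o Q B ⟨p, hp⟩) (pb k o Q B ⟨p, hp⟩) := by
      rw [hw, ← mul_assoc, ← sw_lv, mul_assoc, ← lv_mul, mul_one, hα]
    rw [e, mul_assoc u _ w, this]; group
  · set x : Fin k → F := (↑(Z * j)⁻¹ : Matrix (Fin k) (Fin k) F) *ᵥ fun l => B v (y l) with hx
    have hj : (j : Matrix (Fin k) (Fin k) F) *ᵥ x = (↑Z⁻¹ : Matrix (Fin k) (Fin k) F) *ᵥ fun l => B v (y l) := by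
      rw [hx, Matrix.mulVec_mulVec, ← Units.val_mul, mul_inv_rev, mul_inv_cancel_left]
    have e1 := congrArg (fun g : GG k o Q B => (g.1 (x, v, 0)).2) e
    obtain ⟨y', Z', c', rfl⟩ := (mem_UU h).1 hu
    have e2 := pb_apply ⟨p, hp⟩ (x := (x, v, 0)) rfl
    simp only [hw, Iso.mul_apply, sw_apply, lv_apply, uu_apply, hj, e2, Matrix.mulVec_zero, smul_zero,
      Iso.one_apply, Matrix.mulVec_mulVec, Units.mul_inv, Matrix.one_mulVec, zero_sub, neg_add_cancel,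
      Prod.mk.injEq] at e1
    rw [e1.1, ← e1.2]; simp

omit [Finite F] [Finite V] in
theorem third_eq_zero {p : GG k o Q B} (hp : p ∈ PP k o Q B) {x : HV k F V} (hx : (p.1 x).2.2 = 0) :
    x.2.2 = 0 := by simpa using PP.perp ⟨p⁻¹, inv_mem hp⟩ hx

theorem small_cell (h : Pol o Q B) (j : GL (Fin k) F) {y : Fin k → V} {Z : Matrix (Fin k) (Fin k) F}
    (c : UC o Q B y Z) (hZ : Z.det = 0) {p p' : GG k o Q B} (hp : p ∈ PP k o Q B) (hp' : p' ∈ PP k o Q B) :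
    sw k o Q B * lv o j 1 * uu h y Z c * (sw k o Q B * lv o j 1) ≠ p * (sw k o Q B * lv o j 1) * p' := by
  intro e
  obtain ⟨a, ha, h0⟩ := Matrix.exists_mulVec_eq_zero_iff.2 hZ
  have e1 := congrArg (fun g : GG k o Q B => (g.1 ((↑j⁻¹ : Matrix (Fin k) (Fin k) F) *ᵥ a, 0)).2.2) e
  simp only [Iso.mul_apply, sw_apply, lv_apply, uu_apply, Matrix.mulVec_mulVec, Units.mul_inv, Matrix.one_mulVec,
    h0, Prod.snd_zero, Prod.fst_zero, Matrix.mulVec_zero, smul_zero, map_zero, LinearMap.zero_apply] at e1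
  have e2 := third_eq_zero hp (e1.symm.trans (by simp [← Pi.zero_def]))
  have e3 := pa_apply ⟨p', hp'⟩ ((↑j⁻¹ : Matrix (Fin k) (Fin k) F) *ᵥ a)
  simp only [e3, Matrix.mulVec_mulVec, ← Units.val_mul] at e2
  have := congrArg ((↑(j * (pa k o Q B ⟨p', hp'⟩ * j⁻¹))⁻¹ : Matrix (Fin k) (Fin k) F) *ᵥ ·) e2
  simp only [Matrix.mulVec_mulVec, Units.inv_mul, Matrix.one_mulVec, Matrix.mulVec_zero] at this
  exact ha this

/-- the constituents of `Psi` for a self-dual cuspidal character -/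
theorem hk_par (h : Pol o Q B) (hσ : Cusp σ) (hτ : IsIrrCharacter _ τ) (mid : NoMid k Q B ∨ Un τ)
    (j : GL (Fin k) F) (hj : ∀ g a, σ (g * (j⁻¹ * du a * j)) = σ (g * a))
    (hj2 : ∀ g, σ (g * (du j * epG F k o * j)) = σ g)
    (f : {p : (Fin k → V) × Matrix (Fin k) (Fin k) F // UC o Q B p.1 p.2} → ℂ)
    (hf : ∀ p (Z : GL (Fin k) F) (g : Iso Q B), p.1.2 = (Z : Matrix (Fin k) (Fin k) F) →
      (∀ v, g.1 v = v + ∑ i, ((↑Z⁻¹ : Matrix (Fin k) (Fin k) F) *ᵥ fun l => B v (p.1.1 l)) i • p.1.1 i) →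
        f p = σ (du (j * Z)) * τ g)
    (hf0 : ∀ p, p.1.2.det = 0 → f p = 0) {μ₁ μ₂ : ℂ} (hμ : μ₁ ≠ μ₂)
    (hp : μ₁ * μ₂ = -((Nat.card V ^ k * Nat.card F ^ Fintype.card (Free k o) : ℕ) : ℂ))
    (hs : (μ₁ + μ₂) * (σ 1 * τ 1) = ∑ᶠ p, f p) :
    ∃ D : ℕ, CD (σ (-1) = σ 1 ∧ Cen τ) (hQ k o Q) (hB k o B) D ∧ D * (μ₁ - μ₂) = Psi o σ τ 1 * μ₁ := by
  classical
  set w := sw k o Q B * lv o j 1 with hw
  have hw1 : w ∉ PP k o Q B := fun hm =>
    sw_notMem hσ.one_le (by simpa [hw] using mul_mem hm (inv_mem (lv_mem j (1 : Iso Q B))))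
  have H : HkD (PP k o Q B) (UU k o Q B) (lvHom o).range (xi o σ τ) w fun u => f ((uuEquiv h).symm u) := by
    refine ⟨xi_irr hσ.irr hτ, UU_le, ?_, fun p hp => ⟨_, PP.decomp ⟨p, hp⟩, lv o (pa k o Q B ⟨p, hp⟩)
      (pb k o Q B ⟨p, hp⟩), ⟨_, rfl⟩, by simp⟩, fun p u => ?_, ?_, ?_, hw1, fun u hu hm => ?_, fun u => ?_⟩
    · rintro _ ⟨a, rfl⟩; exact lv_mem a.1 a.2
    · obtain ⟨_, h1, h2⟩ := mem_UU_iff.1 u.2
      rw [xi, map_mul, map_mul, h1, h2, mul_one, mul_one, xi]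
    · rintro ⟨_, a, rfl⟩
      have e : w⁻¹ * lvHom o a * w = lv o (j⁻¹ * du a.1 * j) a.2 := by
        rw [show a.2 = 1⁻¹ * a.2 * 1 by simp, lv_mul, lv_mul, lv_inv, ← sw_conj_lv, hw]
        simp only [mul_inv_rev, mul_assoc]; rfl
      exact ⟨e ▸ lv_mem _ _, fun p => by rw [xi_mul_lv p _ e, hj]; exact (xi_mul_lv p _ rfl).symm⟩
    · have e : w * w = lv o (du j * epG F k o * j) 1 := by
        rw [show (1 : Iso Q B) = 1 * 1 * 1 by simp, lv_mul, lv_mul, ← sw_sw, hw, sw_lv j]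
        nth_rw 2 [← sw_lv]
        simp only [mul_assoc]
      exact ⟨e ▸ lv_mem _ _, fun p => by rw [xi_mul_lv p _ e, hj2, mul_one, xi]⟩
    · have := sw_conj_eq_one (UU_conj (lv_mem j 1) hu) (by simpa [hw, mul_assoc] using hm) h
      simpa using this
    · obtain ⟨⟨⟨y, Z⟩, c⟩, rfl⟩ := (uuEquiv h).surjective u
      rw [Equiv.symm_apply_apply, uuEquiv_apply]
      by_cases hZ : Z.det = 0
      · exact Or.inr ⟨hf0 _ hZ, fun p hp p' hp' => small_cell h j c hZ hp hp'⟩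
      · obtain ⟨u₁, h₁, g, u₃, h₃, e, e'⟩ := big_cell h j (Matrix.GeneralLinearGroup.mkOfDetNeZero Z hZ) c
        exact Or.inl ⟨u₁, h₁, ⟨_, lv_mem _ g⟩, u₃, h₃, e, by
          rw [hf ⟨(y, Z), c⟩ (Matrix.GeneralLinearGroup.mkOfDetNeZero Z hZ) g rfl e', xi, pa_lv, pb_lv]⟩
  have := Fintype.ofFinite (GL (Fin k) F)
  have := Fintype.ofFinite (GG k o Q B)
  obtain ⟨χ, h1, h2, h3⟩ := hk H (μ₁ := μ₁) (μ₂ := μ₂) (by
      change (ip (Psi o σ τ) (Psi o σ τ)).re ≤ 2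
      rw [ip_Psi h hσ hτ mid, ip_eq, hσ.irr.classInner_eq_ite
        (hσ.irr.comp_of_surjective du fun a => ⟨du a, du_du a⟩)]
      split_ifs <;> norm_num) hμ (by rw [hp, card_UU h])
    (by rw [xi, map_one, map_one, hs]; exact (finsum_comp_equiv (uuEquiv h).symm).symm)
  obtain ⟨D, hD⟩ := h1.isCharacter.exists_apply_one
  rw [ip_eq] at h2
  exact ⟨D, ⟨χ, h1, hD, fun hz z e => (Psi_char hσ.irr.isCharacter hτ.isCharacter).constituent_apply_eq h1 h2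
    (Psi_cen h hz.1 hz.2 z e)⟩, hD ▸ h3⟩

end Cfsg.Agent.Dg
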