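import Cfsg.Agent.Dg.T1
import Cfsg.Agent.Dg.A9
import Cfsg.Agent.Dg.S4

/-! The symplectic case of slice T4 of `S4984`. -/

set_option autoImplicit false

namespace Cfsg.Agent.Dg

open Cfsg Cfsg.Agent.H3 Cfsg.Agent.H4 Module Finset
open scoped Matrix

variable {F V : Type} [Field F] [Finite F] [AddCommGroup V] [Module F V] [Finite V]
  {Q : V → F} {B : LinearMap.BilinForm F V}

variable (F) in
/-- the standard symplectic matrix -/
def jj : GL (Fin 2) F :=
  ⟨!![0, 1; -1, 0], !![0, -1; 1, 0], by simp [Matrix.one_fin_two], by simp [Matrix.one_fin_two]⟩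

omit [Finite F] in
theorem jj_conj (a : GL (Fin 2) F) : (jj F)⁻¹ * du a * jj F =
    a * Matrix.GeneralLinearGroup.scalar _ (Matrix.GeneralLinearGroup.det a)⁻¹ := by
  have hd : (a : Matrix (Fin 2) (Fin 2) F).det ≠ 0 := a.det_ne_zero
  refine Units.ext ?_
  have e1 : (↑(Matrix.GeneralLinearGroup.scalar (Fin 2) (Matrix.GeneralLinearGroup.det a)⁻¹) :
    Matrix (Fin 2) (Fin 2) F) = Matrix.diagonal fun _ => (a : Matrix (Fin 2) (Fin 2) F).det⁻¹ := by
    simp [Matrix.GeneralLinearGroup.scalar, -Matrix.coe_units_inv]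
  rw [Units.val_mul, Units.val_mul, Units.val_mul, e1, coe_du, Matrix.coe_units_inv a, Matrix.inv_def,
    Matrix.adjugate_fin_two, show (↑(jj F)⁻¹ : Matrix (Fin 2) (Fin 2) F) = !![0, -1; 1, 0] from rfl]
  ext i j
  rw [Matrix.mul_diagonal]
  fin_cases i <;> fin_cases j <;> simp [jj, Matrix.mul_apply, Matrix.vecMul, dotProduct, Fin.sum_univ_two, mul_comm]

omit [Finite F] in
theorem jj_sq : du (jj F) * epG F 2 false * jj F = 1 := by
  refine Units.ext ?_
  ext i j
  fin_cases i <;> fin_cases j <;> simp [jj, coe_du, epG, ep, Matrix.mul_apply, Fin.sum_univ_two]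

theorem sum_form_zero [Fintype V] [Fintype F] (φ : V →ₗ[F] F) {v : V} (hv : φ v = 1) (g : F → ℂ)
    (hg : ∑ c, g c = 0) : ∑ y, g (φ y) = 0 := by
  have : ∀ c : F, ∑ y, g (φ y) = ∑ y, g (φ y + c) := fun c =>
    (Fintype.sum_equiv (Equiv.addRight (c • v)) _ _ fun y => by simp [hv]).symm
  have h2 : ∑ _c : F, ∑ y, g (φ y) = 0 := by
    rw [Finset.sum_congr rfl fun c _ => this c, Finset.sum_comm]
    exact Finset.sum_eq_zero fun y _ => (Fintype.sum_equiv (Equiv.addLeft (φ y)) _ _ fun _ => rfl).trans hg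
  simpa using h2

theorem irr_sum_zero {G : Type*} [Group G] [Fintype G] {σ : G → ℂ} (h : IsIrrCharacter G σ) (h1 : σ ≠ 1) :
    ∑ g, σ g = 0 := by
  simpa [classInner] using h.classInner_of_ne isIrrCharacter_one h1

theorem t4a {m : ℕ} (T : Ty false 0 (m + 2) Q B) : ∃ D, CD True Q B D ∧
    D * ((Nat.card F ^ 2 - 1) * (Nat.card F + 1)) =
      Nat.card F * NN (Nat.card F) 1 (m + 1) * NN (Nat.card F) 1 (m + 2) := by
  classical
  obtain ⟨V', _, _, _, Q', B', T', e⟩ := T.split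
  obtain ⟨σ, s1, s2, s, s3, s4⟩ := cusp_sd F
  have := Fintype.ofFinite F
  have := Fintype.ofFinite V'
  have h := T'.pol
  have hc := s1.irr.isCharacter
  have hj : ∀ g a, σ (g * ((jj F)⁻¹ * du a * jj F)) = σ (g * a) := fun g a => by
    rw [jj_conj, ← mul_assoc, hc.apply_mul_of_eq_apply_one (s2 _)]
  have hdu : ∀ a, σ (du a) = σ a := fun a => by
    simpa [hc.isClassFunction.conj_inv] using hj 1 a
  set σ₀ : Matrix (Fin 2) (Fin 2) F → ℂ := Function.extend Units.val σ 0 with hσ₀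
  have e1 : ∀ Y : GL (Fin 2) F, σ₀ Y = σ Y := fun Y => Units.val_injective.extend_apply _ _ Y
  have e0 : ∀ M, M ∉ Set.range (Units.val : GL (Fin 2) F → _) → σ₀ M = 0 := fun M hM =>
    Function.extend_apply' _ _ _ hM
  set S : F → ℂ := fun c => ∑ Y : GL (Fin 2) F, if Matrix.trace Y.1 = -c then σ Y else 0 with hS
  have hS0 : S 0 = s * Nat.card F * (Nat.card F - 1) ^ 2 := by
    rw [← s4, finsum_eq_sum_of_fintype, hS]
    simp only [neg_zero]
    rw [← Finset.sum_filter]
    exact Finset.sum_subtype _ (by simp) _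
  have hS1 : ∑ c, S c = 0 := by
    rw [hS, Finset.sum_comm]
    exact (Finset.sum_congr rfl fun Y _ => by simp [← neg_eq_iff_eq_neg]).trans (irr_sum_zero s1.irr s1.ne)
  have hU : ∀ (y : Fin 2 → V') Z, UC false Q' B' y Z ↔ Matrix.trace ((jj F).1 * Z) = -B' (y 0) (y 1) :=
    fun y Z => by
    have a1 := h.sym (y 1) (y 0)
    have a2 := fun v => h.self_of_sing (h.sp rfl v)
    simp only [UC, Fin.forall_fin_two, a1, a2, h.sp rfl, ep, dl, jj, Matrix.trace_fin_two, Matrix.mul_apply,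
      Fin.sum_univ_two]
    simp
    exact ⟨fun h => by linear_combination h.1, fun h => ⟨by linear_combination h, by linear_combination -h⟩⟩
  have hsum : ∑ᶠ p : {p : (Fin 2 → V') × Matrix (Fin 2) (Fin 2) F // UC false Q' B' p.1 p.2},
      σ₀ ((jj F).1 * p.1.2) = Nat.card V' * S 0 := by
    rw [finsum_eq_sum_of_fintype, ← Finset.sum_subtype (univ.filter fun p => UC false Q' B' p.1 p.2) (by simp)
      fun p : (Fin 2 → V') × Matrix (Fin 2) (Fin 2) F => σ₀ ((jj F).1 * p.2), Finset.sum_filter,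
      Fintype.sum_prod_type]
    have : ∀ y : Fin 2 → V', (∑ Z, if UC false Q' B' y Z then σ₀ ((jj F).1 * Z) else 0) = S (B' (y 0) (y 1)) :=
      fun y => by
      simp only [hU]
      refine (Fintype.sum_equiv (jj F).mulLeft _
        (fun M => if Matrix.trace M = -B' (y 0) (y 1) then σ₀ M else 0) fun _ => rfl).trans ?_
      exact (Fintype.sum_of_injective Units.val Units.val_injective _ _ (fun M hM => by simp [e0 M hM])
        fun Y => by rw [e1]).symm
    rw [Finset.sum_congr rfl fun y _ => this y,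
      Fintype.sum_equiv (finTwoArrowEquiv V') (fun y => S (B' (y 0) (y 1))) (fun p => S (B' p.1 p.2))
        fun _ => rfl, Fintype.sum_prod_type,
      Finset.sum_eq_single 0 _ (by simp)]
    · simp
    · intro y _ hy
      obtain ⟨v, hv⟩ : ∃ v, B' y v ≠ 0 := by
        by_contra! h0; exact hy (h.nd y h0)
      exact sum_form_zero (B' y) (v := (B' y v)⁻¹ • v) (by simp [hv]) S hS1
  have hq : (Nat.card F : ℂ) ≠ 0 := natCard_ne_zero_C F
  have hs : s ≠ 0 := by rintro rfl; simp at s3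
  have q1 : 1 ≤ Nat.card F := Nat.card_pos
  have hq1 : (Nat.card F : ℂ) + 1 ≠ 0 := Nat.cast_add_one_ne_zero _
  have hσ1 : σ 1 = Nat.card F - 1 := by rw [s1.deg]; simp [-Nat.card_eq_fintype_card, Nat.cast_sub q1]
  obtain ⟨D, hD, hD'⟩ := hk_par h s1 isIrrCharacter_one
    (Or.inr (un_one h)) (jj F) hj
    (fun g => by rw [jj_sq, mul_one]) (fun p => σ₀ ((jj F).1 * p.1.2))
    (fun p Z g e _ => by rw [e, ← Units.val_mul, e1, hdu, Pi.one_apply, mul_one])
    (fun p hp => e0 _ (by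
      rintro ⟨Y, hY⟩
      exact Matrix.GeneralLinearGroup.det_ne_zero Y (by rw [hY, Matrix.det_mul, hp, mul_zero])))
    (μ₁ := s * Nat.card F ^ (2 * m + 2)) (μ₂ := -s * Nat.card F ^ (2 * m + 1))
    (fun h => mul_ne_zero (mul_ne_zero hs (pow_ne_zero (2 * m + 1) hq)) hq1 (by linear_combination h))
    (by rw [T'.card_eq, card_free_two]; push_cast; linear_combination -(Nat.card F : ℂ) ^ (4 * m + 3) * s3)
    (by rw [hsum, hS0, hσ1, T'.card_eq]; push_cast; simp only [Pi.one_apply]; ring)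
  have hΨ := Psi_one (τ := (1 : Iso Q' B' → ℂ)) T' s1
  obtain ⟨χ, c1, c2, c3⟩ := hD
  refine ⟨D, e.cd ⟨χ, c1, c2, fun _ => c3 ⟨?_, fun _ _ => rfl⟩⟩, ?_⟩
  · rw [← s2 (-1)]; congr 1; ext i j; fin_cases i <;> fin_cases j <;> simp
  · have h1 : D * ((Nat.card F : ℂ) + 1) = Psi false σ (1 : Iso Q' B' → ℂ) 1 * Nat.card F :=
      mul_left_cancel₀ (mul_ne_zero hs (pow_ne_zero (2 * m + 1) hq)) (by linear_combination hD')
    rw [Finset.prod_Ioc_succ_top (by omega), Finset.prod_Ioc_succ_top (by omega), Finset.Ioc_self,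
      Finset.prod_empty, one_mul, Pi.one_apply, mul_one] at hΨ
    refine Nat.cast_injective (R := ℂ) ?_
    simp only [Nat.cast_mul, Nat.cast_add, Nat.cast_one, ee, Bool.false_eq_true, if_false] at hΨ ⊢
    linear_combination ((Nat.card F ^ 2 - 1 : ℕ) : ℂ) * h1 + Nat.card F * hΨ

end Cfsg.Agent.Dg
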