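import Cfsg.Agent.Dg.T2
import Cfsg.Agent.Dg.D1

/-! The quadratic character case of slice T4 of `S4984`. -/

set_option autoImplicit false

namespace Cfsg.Agent.Dg

open Cfsg Cfsg.Agent.H3 Cfsg.Agent.H4 Module Finset
open scoped Matrix

variable {F V : Type} [Field F] [Finite F] [AddCommGroup V] [Module F V] [Finite V]
  {Q : V → F} {B : LinearMap.BilinForm F V}

/-- a similarity with multiplier `c` -/
def Sim (Q : V → F) (B : LinearMap.BilinForm F V) (c : F) : Prop :=
  ∃ s : V ≃ₗ[F] V, (∀ v, Q (s v) = c * Q v) ∧ ∀ u v, B (s u) (s v) = c * B u v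

theorem sim_plane (h : Pol true Q B) (h2 : (2 : F) ≠ 0) (hd : finrank F V = 2) (h0 : ∀ v, Q v = 0 → v = 0)
    {c : F} (hc : c ≠ 0) : Sim Q B c := by
  classical
  have := Fintype.ofFinite F
  have : Nontrivial V := Module.nontrivial_of_finrank_pos (R := F) (by omega)
  obtain ⟨x, hx⟩ := exists_ne (0 : V)
  have qx : Q x ≠ 0 := fun e => hx (h0 x e)
  obtain ⟨y, hy, qy⟩ := h.dns (W := Submodule.span F {x})
    (Or.inr ⟨by rw [finrank_span_singleton hx, hd], x, Submodule.mem_span_singleton_self x, qx⟩)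
  have b : B x y = 0 := hy x (Submodule.mem_span_singleton_self x)
  have b' : B y x = 0 := (h.osym y x).trans b
  have li : LinearIndependent F ![x, y] := LinearIndependent.pair_iff.2 fun s t e => by
    have e1 := congrArg (B x) e
    have e2 := congrArg (B y) e
    simp only [map_add, map_smul, b, b', h.self, smul_eq_mul, map_zero, mul_zero, add_zero, zero_add] at e1 e2
    exact ⟨by simpa [h2, qx] using e1, by simpa [h2, qy] using e2⟩
  have sp : ∀ v, ∃ s t : F, s • x + t • y = v := fun v => by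
    have := li.span_eq_top_of_card_eq_finrank (by simp [hd])
    rw [Matrix.range_cons_cons_empty] at this
    exact Submodule.mem_span_pair.1 (this ▸ Submodule.mem_top)
  obtain ⟨α, β, e⟩ : ∃ α β : F, α ^ 2 + Q x * Q y * β ^ 2 = c := by
    obtain ⟨α, β, e⟩ := FiniteField.exists_root_sum_quadratic (f := Polynomial.X ^ 2 - Polynomial.C c)
      (g := Polynomial.C (Q x * Q y) * Polynomial.X ^ 2) (Polynomial.degree_X_pow_sub_C (by decide) c)
      (Polynomial.degree_C_mul_X_pow 2 (mul_ne_zero qx qy))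
      (FiniteField.odd_card_of_char_ne_two fun e => h2 (by exact_mod_cast e ▸ ringChar.Nat.cast_ringChar))
    exact ⟨α, β, by simp at e; linear_combination e⟩
  let s : V →ₗ[F] V := α • LinearMap.id + (β / 2) • ((B x).smulRight y - (B y).smulRight x)
  have hs : ∀ a a' : F, s (a • x + a' • y) = (α * a - β * Q y * a') • x + (α * a' + β * Q x * a) • y :=
    fun a a' => by
    simp only [s, LinearMap.add_apply, LinearMap.smul_apply, LinearMap.id_apply, LinearMap.sub_apply,
      LinearMap.smulRight_apply, map_add, map_smul, b, b', h.self]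
    match_scalars <;> field_simp <;> ring
  have hB : ∀ u v, B (s u) (s v) = c * B u v := fun u v => by
    obtain ⟨a, a', rfl⟩ := sp u
    obtain ⟨d, d', rfl⟩ := sp v
    simp only [hs]
    simp only [map_add, map_smul, LinearMap.add_apply, LinearMap.smul_apply, b, b', h.self, smul_eq_mul, ← e]
    ring
  refine ⟨LinearEquiv.ofInjectiveEndo s ((injective_iff_map_eq_zero s).2 fun v hv => h.nd v fun u => ?_),
    fun v => mul_left_cancel₀ h2 ?_, hB⟩
  · simpa [hv, hc] using hB v u
  · rw [← h.self, mul_left_comm, ← h.self]; exact hB v v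

omit [Finite F] [Finite V] in
theorem Sim.hv {c : F} (h : Sim Q B c) (hc : c ≠ 0) (k : ℕ) (o : Bool) : Sim (hQ k o Q) (hB k o B) c := by
  obtain ⟨s, h1, h2⟩ := h
  refine ⟨(LinearEquiv.smulOfNeZero F _ c hc).prodCongr (s.prodCongr (LinearEquiv.refl F _)), fun v => ?_,
    fun u v => ?_⟩
  · simp [hQ, h1]; ring
  · simp [h2]; ring

omit [Finite F] [Finite V] in
theorem Isom.sim {V' : Type} [AddCommGroup V'] [Module F V'] {Q' : V' → F} {B' : LinearMap.BilinForm F V'}
    (h : Isom Q B Q' B') {c : F} (h' : Sim Q' B' c) : Sim Q B c := by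
  obtain ⟨e, h1, h2⟩ := h
  obtain ⟨s, h3, h4⟩ := h'
  exact ⟨e.trans (s.trans e.symm), fun v => by rw [← h1, ← h1 v, ← h3]; simp,
    fun u v => by rw [← h2, ← h2 u, ← h4]; simp⟩

omit [Finite V] in
theorem Ty.sim {n : ℕ} (T : Ty true 2 n Q B) (h2 : (2 : F) ≠ 0) {c : F} (hc : c ≠ 0) : Sim Q B c := by
  obtain ⟨V₀, _, _, _, Q₀, B₀, h, hd, h0, e⟩ := T
  have := Module.finite_of_finite F (M := V₀)
  exact e.sim ((sim_plane h h2 hd h0 hc).hv hc n true)

theorem cnt_sim {o : Bool} (h : Pol o Q B) {c : F} (hc : c ≠ 0) {s : V ≃ₗ[F] V} (h1 : ∀ v, Q (s v) = c * Q v)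
    (h2 : ∀ u v, B (s u) (s v) = c * B u v) {g g' : Iso Q B} (e : ∀ v, g'.1 (s v) = s (g.1 v)) :
    relCnt (Perp (Q := Q) B) g' = relCnt (Perp (Q := Q) B) g ∧
      Nat.card (MulAction.fixedBy (Pt Q) g') = Nat.card (MulAction.fixedBy (Pt Q) g) := by
  have hq : 0 < Nat.card F - 1 := by have := two_le_q (F := F); omega
  constructor <;> refine Nat.eq_of_mul_eq_mul_right hq (Nat.add_right_cancel (m := 1) ?_)
  · rw [relCnt_vec h, relCnt_vec h]
    exact (Nat.card_congr (s.toEquiv.subtypeEquiv fun v => by simp [h1, e, h2, hc])).symm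
  · rw [fix_vec h, fix_vec h]
    exact (Nat.card_congr (s.toEquiv.subtypeEquiv fun v => by simp [h1, e, hc, ← map_smul])).symm

theorem cusp_one {σ : GL (Fin 1) F →* ℂ} (h : (σ : GL (Fin 1) F → ℂ) ≠ 1) : Cusp (σ : GL (Fin 1) F → ℂ) := by
  refine ⟨isIrrCharacter_monoidHom σ, by simp, fun X h0 h1 => ?_, h⟩
  have := Submodule.finrank_lt h1
  rw [finrank_fin_fun, Nat.lt_one_iff, Submodule.finrank_eq_zero] at this
  exact absurd this h0

theorem t4d (hq : Odd (Nat.card F)) (T : Ty true 2 3 Q B) : ∃ D, CD (Nat.card F % 4 = 1) Q B D ∧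
    2 * D * (Nat.card F - 1) = NN (Nat.card F) 2 3 * ff (Nat.card F) 2 2 := by
  classical
  obtain ⟨V', _, _, _, Q', B', T', e⟩ := Ty.split (m := 2) (k := 1) T
  have := Fintype.ofFinite F
  have h := T'.pol
  have hch : ringChar F ≠ 2 := fun e => by
    have := FiniteField.even_card_of_char_two e
    rw [Nat.card_eq_fintype_card, Nat.odd_iff] at hq; omega
  have h2 : (2 : F) ≠ 0 := Ring.two_ne_zero hch
  let η : F →* ℂ := (Int.castRingHom ℂ).toMonoidHom.comp (quadraticChar F).toMonoidHom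
  have hη : ∀ a, η a = quadraticChar F a := fun _ => rfl
  let σ : GL (Fin 1) F →* ℂ := η.comp (Matrix.detMonoidHom.comp (Units.coeHom _))
  have hσ : ∀ g, σ g = η (g : Matrix (Fin 1) (Fin 1) F).det := fun _ => rfl
  obtain ⟨c, hc⟩ := quadraticChar_exists_neg_one hch
  have c0 : c ≠ 0 := by rintro rfl; simp at hc
  have hc' : η c = -1 := by rw [hη, hc]; simp
  have s1 : Cusp σ := cusp_one fun e => by
    have := congrFun e (Matrix.GeneralLinearGroup.scalar _ (Units.mk0 c c0))
    rw [hσ] at this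
    simp [hc'] at this
    norm_num at this
  have hsq : ∀ a, σ a * σ a = 1 := fun a => by
    rw [hσ, hη, ← Int.cast_mul, ← sq, quadraticChar_sq_one a.det_ne_zero, Int.cast_one]
  have hdu : ∀ a, σ (du a) = σ a := fun a => by
    rw [hσ, coe_du, Matrix.det_transpose, ← hσ, map_inv, inv_eq_of_mul_eq_one_right (hsq a)]
  obtain ⟨μ, hμ⟩ := exists_mu (Nat.card F) (ee true 2) (2 - 1)
  obtain ⟨τ, t1, t2, t3, t4, t5⟩ := tau_f' T' (by decide) (by decide) hμ
  obtain ⟨s, q1, q2⟩ := T'.sim h2 c0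
  have hq0 : (Nat.card F : ℂ) ≠ 0 := natCard_ne_zero_C F
  have hτ : ∀ y, τ (h.rf (s y)) = τ (h.rf y) := fun y => by
    obtain ⟨a1, a2⟩ := cnt_sim h c0 q1 q2 (g := h.rf y) (g' := h.rf (s y)) fun v => by
      simp only [h.rf_apply, q1, q2, map_sub, map_smul]
      congr 2
      rw [mul_inv, mul_mul_mul_comm, inv_mul_cancel₀ c0, one_mul]
    refine mul_right_cancel₀ ?_ ((t5 _).trans (by rw [a1, a2, t5]))
    exact_mod_cast (Nat.add_pos_left (Nat.pow_pos Nat.card_pos) _).ne'
  let f : {p : (Fin 1 → V') × Matrix (Fin 1) (Fin 1) F // UC true Q' B' p.1 p.2} → ℂ :=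
    fun p => η p.1.2.det * τ (h.rf (p.1.1 0))
  have hsum : ∑ᶠ p, f p = 0 := by
    let φ : {p : (Fin 1 → V') × Matrix (Fin 1) (Fin 1) F // UC true Q' B' p.1 p.2} →
        {p : (Fin 1 → V') × Matrix (Fin 1) (Fin 1) F // UC true Q' B' p.1 p.2} := fun p =>
      ⟨(fun i => s (p.1.1 i), c • p.1.2), fun i j => by
        simp only [q2, Matrix.smul_apply, smul_eq_mul]; linear_combination c * p.2.1 i j, fun i => by
        simp only [q1, Matrix.smul_apply, smul_eq_mul]; linear_combination c * p.2.2 i⟩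
    have hφ : Function.Bijective φ := Finite.injective_iff_bijective.1 fun p p' e => by
      obtain ⟨e1, e2⟩ := Prod.ext_iff.1 (congrArg Subtype.val e)
      exact Subtype.ext (Prod.ext (funext fun i => s.injective (congrFun e1 i)) (smul_right_injective _ c0 e2))
    have e1 := finsum_comp φ hφ (g := f)
    have e2 : ∀ p, f (φ p) = -f p := fun p => by simp [f, φ, hτ, hc']
    simp only [e2, finsum_neg_distrib] at e1
    linear_combination -e1 / 2
  obtain ⟨D, ⟨χ, c1, c2, c3⟩, hD'⟩ := hk_par h s1 t1 (Or.inr t4) 1 (fun g a => by simp [hdu])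
    (fun g => by rw [map_one, show epG F 1 true = 1 from Units.ext (by simp [epG, ep])]; simp) f
    (fun p Z g e e' => by
      have a1 : (Z : Matrix (Fin 1) (Fin 1) F) 0 0 = -Q' (p.1.1 0) := by
        have := p.2.2 0
        rw [e, dl, if_pos rfl] at this
        linear_combination this
      rw [one_mul, hdu, hσ, ← e]
      refine congrArg (η p.1.2.det * τ ·) (Iso.ext fun v => ?_)
      rw [e', h.rf_apply, h.osym]
      simp [Matrix.mulVec, dotProduct, a1, sub_eq_add_neg])
    (fun p hp => by simp only [f, hp, hη]; simp) (μ₁ := Nat.card F ^ 3) (μ₂ := -Nat.card F ^ 3)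
    (fun h => pow_ne_zero 3 hq0 (by linear_combination h / 2))
    (by rw [T'.card_eq, card_free_one, if_pos rfl]; push_cast; ring) (by rw [hsum]; ring)
  have hΨ := Psi_one (τ := τ) T' s1
  refine ⟨D, e.cd ⟨χ, c1, c2, fun hz => c3 ⟨?_, t3⟩⟩, ?_⟩
  · rw [map_one, hσ, hη]
    simp only [Units.val_neg, Units.val_one, Matrix.det_neg, Fintype.card_fin, pow_one, Matrix.det_one, mul_one]
    rw [quadraticChar_neg_one hch, ZMod.χ₄_nat_one_mod_four (by simpa using hz), Int.cast_one]
  · have h1 : 2 * D = Psi true σ τ 1 := mul_left_cancel₀ (pow_ne_zero 3 hq0) (by linear_combination hD')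
    rw [← h1, t2, pow_one, Finset.prod_Ioc_succ_top (by omega), Finset.Ioc_self, Finset.prod_empty,
      one_mul] at hΨ
    exact_mod_cast hΨ

end Cfsg.Agent.Dg
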