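import Cfsg.Agent.Dg.T3

/-! The field of two elements in slice T4 of `S4984`. -/

set_option autoImplicit false

namespace Cfsg.Agent.Dg

open Cfsg Cfsg.Agent.H3 Cfsg.Agent.H4 Module Finset
open scoped Matrix

/-- the sign of a matrix over the field of two elements -/
def sgB (a t s d : Bool) : ℤ := bif (a && d) ^^ (t && s) then (bif (a ^^ d) || (!t && !s) then 1 else -1) else 0

theorem sgB_mul : ∀ a t s d a' t' s' d' : Bool, sgB ((a && a') ^^ (t && s')) ((a && t') ^^ (t && d'))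
    ((s && a') ^^ (d && s')) ((s && t') ^^ (d && d')) = sgB a t s d * sgB a' t' s' d' := by decide

/-- the contribution of one vector -/
def inn (e₀ e₁ e a t s d β₀ β₁ : Bool) (β : ℕ) : ℕ :=
  (bif (((d && β₀) ^^ (t && β₁)) && β₀) ^^ (((s && β₀) ^^ (a && β₁)) && β₁) then 0 else 1) +
    bif (bif (d && β₀) ^^ (t && β₁) then (bif (s && β₀) ^^ (a && β₁) then e else e₀)
      else (bif (s && β₀) ^^ (a && β₁) then e₁ else true)) then β else 0

/-- the sum over the unipotent radical -/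
def tot {M : Type} [DecidableEq M] (L S : List M) (z : M) (q : M → Bool) (b : M → M → Bool) (β : ℕ) (γ : ℤ) : ℤ :=
  (L.map fun y₀ => (L.map fun y₁ => ([false, true].map fun t =>
    bif (q y₀ && q y₁) ^^ (t && (t ^^ b y₀ y₁)) then sgB (q y₀) t (t ^^ b y₀ y₁) (q y₁) *
      (((S.map fun v => inn (decide (y₀ = z)) (decide (y₁ = z)) (decide (y₀ = y₁)) (q y₀) t (t ^^ b y₀ y₁) (q y₁)
        (b v y₀) (b v y₁) β).sum : ℕ) - γ) else 0).sum).sum).sum

theorem sum_list {M A : Type} [Fintype M] [AddCommMonoid A] {L : List M} (hn : L.Nodup) (ha : ∀ m, m ∈ L)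
    (f : M → A) : (L.map f).sum = ∑ m, f m := by
  classical
  rw [← List.sum_toFinset f hn, Finset.eq_univ_iff_forall.2 fun m => List.mem_toFinset.2 (ha m)]

theorem sum_filter_list {M : Type} (L : List M) (p : M → Bool) (f : M → ℕ) :
    ((L.filter p).map f).sum = (L.map fun m => bif p m then f m else 0).sum := by
  induction L with
  | nil => rfl
  | cons a L ih => cases h : p a <;> simp [h, ih]

variable {F V : Type} [Field F] [Finite F] [AddCommGroup V] [Module F V] [Finite V]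
  {Q : V → F} {B : LinearMap.BilinForm F V}

variable (F) in
/-- a bit as a field element -/
def bf (b : Bool) : F := bif b then 1 else 0

section
omit [Finite F]
@[simp] theorem bf_true : bf F true = 1 := rfl
@[simp] theorem bf_false : bf F false = 0 := rfl
theorem bf_and (a b : Bool) : bf F (a && b) = bf F a * bf F b := by cases a <;> cases b <;> simp
theorem bf_inj {a b : Bool} : bf F a = bf F b ↔ a = b := by cases a <;> cases b <;> simp
theorem bf_eq_zero {a : Bool} : bf F a = 0 ↔ a = false := bf_inj (b := false)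
theorem bf_eq_one {a : Bool} : bf F a = 1 ↔ a = true := bf_inj (b := true)
end

open Classical in
/-- the sign of a matrix -/
noncomputable def sg0 (M : Matrix (Fin 2) (Fin 2) F) : ℂ :=
  sgB (decide (M 0 0 = 1)) (decide (M 0 1 = 1)) (decide (M 1 0 = 1)) (decide (M 1 1 = 1))

omit [Finite F] in
theorem sg0_bf (a t s d : Bool) : sg0 !![bf F a, bf F t; bf F s, bf F d] = sgB a t s d := by
  simp [sg0, bf_eq_one]

section Two
variable (h2 : Nat.card F = 2)
include h2

theorem two_zero : (1 + 1 : F) = 0 := by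
  have := Fintype.ofFinite F
  have h := FiniteField.cast_card_eq_zero F
  rw [← Nat.card_eq_fintype_card, h2] at h
  exact one_add_one_eq_two.trans (by exact_mod_cast h)

omit [Finite F] in
theorem exists_bf (a : F) : ∃ b, a = bf F b := by
  obtain ⟨y, -, hy⟩ := (Nat.card_eq_two_iff' (0 : F)).1 h2
  by_cases h : a = 0
  · exact ⟨false, h⟩
  · exact ⟨true, (hy a h).trans (hy 1 one_ne_zero).symm⟩

theorem bf_xor (a b : Bool) : bf F (a ^^ b) = bf F a + bf F b := by
  cases a <;> cases b <;> simp [two_zero h2]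

omit [Finite V] in
theorem add_self_two (v : V) : v + v = 0 := by rw [← one_smul F v, ← add_smul, two_zero h2, zero_smul]

omit [Finite V] in
theorem neg_two (v : V) : -v = v := neg_eq_of_add_eq_zero_left (add_self_two h2 v)

omit [Finite F] in
theorem exists_mat (M : Matrix (Fin 2) (Fin 2) F) : ∃ a t s d, M = !![bf F a, bf F t; bf F s, bf F d] := by
  choose g hg using exists_bf h2
  exact ⟨g (M 0 0), g (M 0 1), g (M 1 0), g (M 1 1), (Matrix.eta_fin_two M).trans (by simp only [← hg])⟩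

theorem det_bf (a t s d : Bool) : !![bf F a, bf F t; bf F s, bf F d].det = bf F ((a && d) ^^ (t && s)) := by
  rw [Matrix.det_fin_two_of, bf_xor h2, bf_and, bf_and, sub_eq_add_neg, neg_two h2]

/-- the sign character -/
noncomputable def sgn : GL (Fin 2) F →* ℂ where
  toFun g := sg0 g.1
  map_one' := by simp [sg0, sgB]
  map_mul' g g' := by
    obtain ⟨a, t, s, d, e⟩ := exists_mat h2 g.1
    obtain ⟨a', t', s', d', e'⟩ := exists_mat h2 g'.1
    rw [Units.val_mul, e, e', Matrix.mul_fin_two]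
    simp only [← bf_and, ← bf_xor h2, sg0_bf, sgB_mul, Int.cast_mul]

theorem sgn_du (g : GL (Fin 2) F) : sgn h2 (du g) = sgn h2 g := by
  have h0 : sgn h2 g⁻¹ * sgn h2 g = 1 := by rw [← map_mul, inv_mul_cancel, map_one]
  obtain ⟨a, t, s, d, e⟩ := exists_mat h2 g⁻¹.1
  have h1 : sgn h2 (du g) = sgB a s t d := by
    rw [← sg0_bf (F := F)]
    exact congrArg sg0 (by rw [coe_du, e]; ext i j; fin_cases i <;> fin_cases j <;> rfl)
  have h3 : sgn h2 g⁻¹ = sgB a t s d := (congrArg sg0 e).trans (sg0_bf ..)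
  have h4 : ∀ a t s d, sgB a s t d = sgB a t s d * sgB a t s d * sgB a t s d ∧
    sgB a t s d * sgB a t s d * sgB a t s d = sgB a t s d := by decide
  have h5 : (sgB a t s d : ℂ) * sgB a t s d * sgB a t s d = sgB a t s d := by exact_mod_cast (h4 a t s d).2
  rw [h1, (h4 a t s d).1, (h4 a t s d).2, ← h3]
  rw [← h3] at h5
  linear_combination -(sgn h2 g⁻¹ * sgn h2 g⁻¹ * sgn h2 g + sgn h2 g⁻¹ - sgn h2 g) * h0 + sgn h2 g ^ 2 * h5

theorem sgn_inv {M : Matrix (Fin 2) (Fin 2) F} (hM : M * M = 1) (h1 : M ≠ 1) : sg0 M = -1 := by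
  obtain ⟨a, t, s, d, rfl⟩ := exists_mat h2 M
  rw [Matrix.one_fin_two, ← bf_true, ← bf_false] at hM h1
  rw [Matrix.mul_fin_two] at hM
  simp only [← bf_and, ← bf_xor h2, Matrix.of_apply, EmbeddingLike.apply_eq_iff_eq, Matrix.vecCons_inj, bf_inj,
    and_true, ne_eq] at hM h1
  rw [sg0_bf]
  revert a t s d
  simp [sgB]

theorem cusp_sgn : Cusp (sgn h2) := by
  have key : ∀ X : Submodule F (Fin 2 → F), X ≠ ⊥ → X ≠ ⊤ → ∃ r ∈ rad X, sgn h2 r = -1 := fun X h0 h1 => by
    obtain ⟨d, hd, d0⟩ := X.exists_mem_ne_zero_of_ne_bot h0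
    obtain ⟨φ, φ0, hφ⟩ := X.exists_le_ker_of_lt_top h1.lt_top
    have e : ∀ v, LinearMap.toMatrix' (LinearMap.id + φ.smulRight d) *ᵥ v = v + φ v • d := fun v =>
      LinearMap.toMatrix'_mulVec _ v
    have hM : LinearMap.toMatrix' (LinearMap.id + φ.smulRight d) * LinearMap.toMatrix' (LinearMap.id +
        φ.smulRight d) = 1 := Matrix.ext_iff_mulVec.2 fun v => by
      rw [← Matrix.mulVec_mulVec, e, e, map_add, map_smul, show φ d = 0 from hφ hd, smul_zero, add_zero,
        add_assoc, add_self_two h2, add_zero, Matrix.one_mulVec]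
    refine ⟨⟨_, _, hM, hM⟩, ⟨fun v => ?_, fun x hx => ?_⟩, sgn_inv h2 hM fun h => φ0 (LinearMap.ext fun v => ?_)⟩
    · rw [e, add_sub_cancel_left]; exact X.smul_mem _ hd
    · rw [e, show φ x = 0 from hφ hx, zero_smul, add_zero]
    · have := e v
      rw [show LinearMap.toMatrix' (LinearMap.id + φ.smulRight d) = 1 from h] at this
      simpa [d0] using this
  refine ⟨isIrrCharacter_monoidHom _, by simp [-Nat.card_eq_fintype_card, h2], fun X h0 h1 g => ?_, fun h => ?_⟩
  · obtain ⟨r, hr, e⟩ := key X h0 h1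
    have := finsum_comp_equiv (Equiv.mulRight (⟨r, hr⟩ : rad X)) (f := fun r : rad X => sgn h2 (g * r))
    simp only [Equiv.coe_mulRight, Subgroup.coe_mul, ← mul_assoc, map_mul _ _ r, e, mul_neg, mul_one,
      finsum_neg_distrib] at this
    linear_combination -this / 2
  · obtain ⟨r, -, e⟩ := key (Submodule.span F {Pi.single 0 1}) (by simp) fun h => by
      have := finrank_span_singleton (K := F) (v := (Pi.single 0 1 : Fin 2 → F)) (by simp)
      rw [h] at this; simp at this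
    rw [h] at e; norm_num at e

omit [Finite V] in
theorem CD.two {z : Prop} {D : ℕ} (h : CD z Q B D) : CD True Q B D := by
  obtain ⟨χ, h1, h3, -⟩ := h
  exact ⟨χ, h1, h3, fun _ z hz => congrArg χ (Iso.ext fun v => (hz v).trans (neg_two h2 v))⟩

/-- a model of a quadratic space over the field of two elements -/
structure Mod (Q : V → F) (B : LinearMap.BilinForm F V) {M : Type} (ψ : M → V) (q : M → Bool)
    (b : M → M → Bool) : Prop where
  bij : Function.Bijective ψ
  hq : ∀ m, Q (ψ m) = bf F (q m)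
  hb : ∀ m n, B (ψ m) (ψ n) = bf F (b m n)

omit h2 [Finite F] in
theorem Mod.of {M : Type} {ψ : M → V} {q : M → Bool} {b : M → M → Bool} (hc : Nat.card M = Nat.card V)
    (hq : ∀ m, Q (ψ m) = bf F (q m)) (hb : ∀ m n, B (ψ m) (ψ n) = bf F (b m n))
    (sep : ∀ m n, (∀ l, b m l = b n l) → m = n) : Mod Q B ψ q b :=
  ⟨(Nat.bijective_iff_injective_and_card ψ).2
    ⟨fun m n e => sep m n fun l => bf_inj.1 (by rw [← hb, ← hb, e]), hc⟩, hq, hb⟩

omit h2 [Finite V] [AddCommGroup V] in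
theorem card_model {M : Type} [Fintype M] {ψ : M → V} (hψ : Function.Bijective ψ) (P : V → Prop)
    (p : M → Bool) (h : ∀ m, P (ψ m) ↔ p m = true) : Nat.card {v // P v} = ∑ m, bif p m then 1 else 0 := by
  rw [← Nat.card_congr ((Equiv.ofBijective ψ hψ).subtypeEquiv (p := fun m => p m = true) fun m => (h m).symm),
    Nat.card_eq_fintype_card, Fintype.card_subtype, Finset.card_filter]
  exact Finset.sum_congr rfl fun m _ => by cases p m <;> rfl

theorem t4two (h : Pol true Q B) {M : Type} [Fintype M] [DecidableEq M] {ψ : M → V} {q : M → Bool}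
    {b : M → M → Bool} (H : Mod Q B ψ q b) {z : M} (hz : ψ z = 0) {L S : List M} (hn : L.Nodup)
    (ha : ∀ m, m ∈ L) {ε : Bool} (hS : S = L.filter fun v => q v == ε) {τ : Iso Q B → ℂ}
    (hτ : IsIrrCharacter _ τ) (mid : NoMid 2 Q B ∨ Un τ) {β : ℕ} {γ : ℤ} {δ : ℂ} (hδ : δ ≠ 0)
    (hf : ∀ g, τ g * δ = Nat.card {v // Q v = bf F ε ∧ B v (g.1 v) = 0} +
      β * Nat.card {v // Q v = bf F ε ∧ g.1 v = v} - γ) {μ₁ μ₂ : ℂ} (hμ : μ₁ ≠ μ₂)
    (hp : μ₁ * μ₂ = -(Nat.card V ^ 2 * 2 : ℕ)) (hs : (μ₁ + μ₂) * τ 1 * δ = tot L S z q b β γ) :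
    ∃ D : ℕ, CD True (hQ 2 true Q) (hB 2 true B) D ∧ D * (μ₁ - μ₂) = Psi true (sgn h2) τ 1 * μ₁ := by
  let hv : (Fin 2 → V) × Matrix (Fin 2) (Fin 2) F → V → V := fun p v =>
    v + ∑ i, (p.2.adjugate *ᵥ fun l => B v (p.1 l)) i • p.1 i
  let f : {p : (Fin 2 → V) × Matrix (Fin 2) (Fin 2) F // UC true Q B p.1 p.2} → ℂ := fun p =>
    sg0 p.1.2 * (((Nat.card {v // Q v = bf F ε ∧ B v (hv p v) = 0} +
      β * Nat.card {v // Q v = bf F ε ∧ hv p v = v} : ℕ) - γ) / δ)
  have h0 : ∀ m, ψ m = 0 ↔ m = z := fun m => by rw [← hz, H.bij.1.eq_iff]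
  have h1 : ∀ m n, ψ m + ψ n = 0 ↔ m = n := fun m n => by rw [add_eq_zero_iff_eq_neg, neg_two h2, H.bij.1.eq_iff]
  let φ : M × M × Bool → {p : (Fin 2 → V) × Matrix (Fin 2) (Fin 2) F // UC true Q B p.1 p.2} := fun x =>
    ⟨(![ψ x.1, ψ x.2.1], !![bf F (q x.1), bf F x.2.2; bf F (x.2.2 ^^ b x.1 x.2.1), bf F (q x.2.1)]), by
      have a1 := h.osym (ψ x.2.1) (ψ x.1)
      have a2 := two_zero h2
      simp only [UC, Fin.forall_fin_two, ep, dl, h.self, a1, bf_xor h2, ← H.hq, ← H.hb]
      simp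
      refine ⟨⟨⟨?_, ?_⟩, ?_, ?_⟩, ?_, ?_⟩
      · linear_combination 2 * Q (ψ x.1) * a2
      · linear_combination (bf F x.2.2 + B (ψ x.1) (ψ x.2.1)) * a2
      · linear_combination (bf F x.2.2 + B (ψ x.1) (ψ x.2.1)) * a2 + a1
      · linear_combination 2 * Q (ψ x.2.1) * a2
      · linear_combination Q (ψ x.1) * a2
      · linear_combination Q (ψ x.2.1) * a2⟩
  have hφ : Function.Bijective φ := by
    refine ⟨fun x x' e => ?_, fun ⟨⟨y, Z⟩, c⟩ => ?_⟩
    · obtain ⟨e1, e2⟩ := Prod.ext_iff.1 (congrArg Subtype.val e)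
      exact Prod.ext (H.bij.1 (congrFun e1 0)) (Prod.ext (H.bij.1 (congrFun e1 1))
        (bf_inj.1 (congrFun (congrFun e2 0) 1)))
    · obtain ⟨m, hm⟩ := H.bij.2 (y 0)
      obtain ⟨n, hn⟩ := H.bij.2 (y 1)
      obtain ⟨t, ht⟩ := exists_bf h2 (Z 0 1)
      have a2 := two_zero h2
      have c0 := c.2 0
      have c1 := c.2 1
      have c2 := c.1 0 1
      simp only [dl, ep, if_true, one_mul] at c0 c1 c2
      refine ⟨(m, n, t), Subtype.ext (Prod.ext ?_ ?_)⟩
      · ext i; fin_cases i <;> assumption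
      · ext i j
        fin_cases i <;> fin_cases j <;> simp only [φ, bf_xor h2, ← H.hq, ← H.hb, hm, hn, ← ht] <;> simp
        · linear_combination c0 - Z 0 0 * a2
        · linear_combination c2 - Z 1 0 * a2
        · linear_combination c1 - Z 1 1 * a2
  have hsum : (∑ᶠ p, f p) * δ = tot L S z q b β γ := by
    rw [← finsum_comp φ hφ, finsum_eq_sum_of_fintype, tot, Finset.sum_mul]
    simp only [sum_list hn ha, sum_list (L := [false, true]) (by decide) (by decide), hS, sum_filter_list,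
      Fintype.sum_prod_type, Int.cast_sum]
    refine Finset.sum_congr rfl fun y₀ _ => Finset.sum_congr rfl fun y₁ _ => Finset.sum_congr rfl fun t _ => ?_
    have e : ∀ v, hv (φ (y₀, y₁, t)) (ψ v) = ψ v + (bf F ((q y₁ && b v y₀) ^^ (t && b v y₁)) • ψ y₀ +
        bf F (((t ^^ b y₀ y₁) && b v y₀) ^^ (q y₀ && b v y₁)) • ψ y₁) := fun v => by
      simp [hv, φ, Matrix.adjugate_fin_two, Matrix.mulVec, dotProduct, H.hb, bf_xor h2, bf_and, neg_two h2]
    simp only [f, φ, sg0_bf]
    rw [card_model H.bij _ (fun v => q v == ε && !((((q y₁ && b v y₀) ^^ (t && b v y₁)) && b v y₀) ^^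
      ((((t ^^ b y₀ y₁) && b v y₀) ^^ (q y₀ && b v y₁)) && b v y₁))) fun v => by
        rw [e, map_add, map_add, map_smul, map_smul, h.self, ← one_add_one_eq_two, two_zero h2, zero_mul, zero_add,
          H.hq, H.hb, H.hb, smul_eq_mul, smul_eq_mul, ← bf_and, ← bf_and, ← bf_xor h2, bf_inj, bf_eq_zero]
        simp only [Bool.and_eq_true, beq_iff_eq, Bool.not_eq_true'],
      card_model H.bij _ (fun v => q v == ε && (bif (q y₁ && b v y₀) ^^ (t && b v y₁) then
        (bif ((t ^^ b y₀ y₁) && b v y₀) ^^ (q y₀ && b v y₁) then decide (y₀ = y₁) else decide (y₀ = z))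
        else (bif ((t ^^ b y₀ y₁) && b v y₀) ^^ (q y₀ && b v y₁) then decide (y₁ = z) else true))) fun v => by
        rw [e, add_eq_left, H.hq, bf_inj]
        cases (q y₁ && b v y₀) ^^ (t && b v y₁) <;> cases ((t ^^ b y₀ y₁) && b v y₀) ^^ (q y₀ && b v y₁) <;>
          simp [h0, h1],
      Finset.mul_sum, ← Finset.sum_add_distrib, mul_assoc, div_mul_cancel₀ _ hδ]
    cases hd : (q y₀ && q y₁) ^^ (t && (t ^^ b y₀ y₁))
    · simp [sgB, hd]
    · simp only [cond_true, Int.cast_mul, Int.cast_sub, Int.cast_natCast]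
      congr 3
      refine Finset.sum_congr rfl fun v _ => ?_
      rw [inn]
      generalize (q v == ε) = x, (_ ^^ _ : Bool) = y, (bif _ then _ else _ : Bool) = w
      cases x <;> cases y <;> cases w <;> simp
  obtain ⟨D, hD, hD'⟩ := hk_par h (cusp_sgn h2) hτ mid 1 (fun g a => by simp [sgn_du])
    (fun g => by rw [map_one, show epG F 2 true = 1 from Units.ext (by simp [epG, ep])]; simp) f
    (fun p Z g e e' => by
      obtain ⟨x, hx⟩ := exists_bf h2 Z.1.det
      have hd : Z.1.det = 1 := by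
        cases x
        · exact absurd hx Z.det_ne_zero
        · exact hx
      have : ∀ v, hv p v = g.1 v := fun v => by
        rw [e', Matrix.coe_units_inv, Matrix.inv_def, hd, Ring.inverse_one, one_smul, ← e]
      simp only [f, this]
      rw [one_mul, sgn_du, e, Nat.cast_add, Nat.cast_mul, ← hf, mul_div_cancel_right₀ _ hδ]; rfl)
    (fun p hp => by
      obtain ⟨a, t, s, d, e⟩ := exists_mat h2 p.1.2
      rw [e, det_bf h2, bf_eq_zero] at hp
      simp only [f, e, sg0_bf, sgB, hp]; simp) hμ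
    (by rw [hp, card_free_two, h2]; rfl)
    (mul_right_cancel₀ hδ (by rw [hsum, ← hs, map_one, one_mul]))
  exact ⟨D, hD.two h2, hD'⟩

end Two

end Cfsg.Agent.Dg
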