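import Cfsg.Agent.Dg.S3

/-! Arithmetic for `S4984`. -/

set_option autoImplicit false

namespace Cfsg.Agent.Dg

open Finset

variable {S : Set ℕ} {q e c D r m k n t : ℕ}

/-- `r` divides `D` often enough to survive division by `c` -/
def See (c D r : ℕ) : Prop := r ∣ D ∧ (2 ∣ r → 2 * c ∣ D)

instance decSee (c D r : ℕ) : Decidable (See c D r) := inferInstanceAs (Decidable (_ ∧ _))

/-- the primes in `T` divide a common element of `S` -/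
def Cl (S : Set ℕ) (T : ℕ → Prop) : Prop := ∃ d ∈ S, ∀ r, r.Prime → T r → r ∣ d

/-- any two primes in `P` divide a common element of `S` -/
def Goal (S : Set ℕ) (P : ℕ → Prop) : Prop := ∀ r s, r.Prime → s.Prime → P r → P s → ∃ d ∈ S, r ∣ d ∧ s ∣ d

/-- the possible indices -/
def Cq (c q : ℕ) : Prop := c = 1 ∨ (Even q ∧ c = 2) ∨ (Odd q ∧ c = 4)

theorem cq_ite (q : ℕ) : Cq (if Even q then 2 else 4) q := by
  by_cases h : Even q <;> simp [Cq, h, Nat.not_even_iff_odd.1]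

theorem cl_of (hc : Cq c q) (h : ∃ D' ∈ S, D ∣ c * D') : Cl S (See c D) := by
  obtain ⟨d, hd, h⟩ := h
  refine ⟨d, hd, fun r hr ⟨a, b⟩ => ?_⟩
  by_cases h2 : r = 2
  · subst h2
    exact Nat.dvd_of_mul_dvd_mul_left (k := c) (by rcases hc with h | h | h <;> omega)
      (mul_comm 2 c ▸ (b dvd_rfl).trans h)
  · refine (hr.dvd_mul.1 (a.trans h)).resolve_left fun l => h2 ((Nat.prime_dvd_prime_iff_eq hr Nat.prime_two).1
      (hr.dvd_of_dvd_pow (n := 2) (l.trans ?_)))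
    rcases hc with h | h | h <;> simp [h]

theorem cl_one (h : D ∈ S) : Cl S (· ∣ D) := ⟨D, h, fun _ _ h => h⟩

theorem see_one (h : r ∣ D) : See 1 D r := ⟨h, fun a => a.trans h⟩

theorem see_odd (hr : r.Prime) (h2 : r ≠ 2) (h : r ∣ D) : See c D r :=
  ⟨h, fun a => (h2 ((Nat.prime_dvd_prime_iff_eq Nat.prime_two hr).1 a).symm).elim⟩

theorem goal_one {P T : ℕ → Prop} (c : Cl S T) (h : ∀ r, r.Prime → P r → T r) : Goal S P :=
  fun r s hr hs a b => c.imp fun _ hd => ⟨hd.1, hd.2 r hr (h r hr a), hd.2 s hs (h s hs b)⟩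

theorem goal_tri {P T₀ T₁ T₂ : ℕ → Prop} (c0 : Cl S T₀) (c1 : Cl S T₁) (c2 : Cl S T₂)
    (h : ∀ r, r.Prime → P r → (T₀ r ∨ T₁ r ∧ T₂ r) ∧ (T₁ r ∨ T₂ r)) : Goal S P := fun r s hr hs a b => by
  have k : ∀ {T}, Cl S T → T r → T s → ∃ d ∈ S, r ∣ d ∧ s ∣ d := fun c x y =>
    c.imp fun _ hd => ⟨hd.1, hd.2 r hr x, hd.2 s hs y⟩
  obtain ⟨x | x, x'⟩ := h r hr a <;> obtain ⟨y | y, y'⟩ := h s hs b
  exacts [k c0 x y, x'.elim (k c1 · y.1) (k c2 · y.2), y'.elim (k c1 x.1) (k c2 x.2), k c1 x.1 y.1]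

/-- the primes that can divide the group order -/
def Pr (q e n r : ℕ) : Prop := r ∣ q ∨ r = 2 ∨ (∃ i, 1 ≤ i ∧ i ≤ n ∧ r ∣ q ^ i - 1) ∨
  (∃ j, e ≤ j ∧ j < n + e ∧ r ∣ q ^ j + 1) ∨ (e = 2 ∧ r ∣ q ^ 1 + 1)

theorem goal_small (L : List ℕ) (cs : List (ℕ × ℕ)) (h1 : ∀ x ∈ cs, Cl S (See x.1 x.2))
    (h2 : ∀ a ∈ L, ∀ b ∈ L, ∃ x ∈ cs, See x.1 x.2 a ∧ See x.1 x.2 b)
    (h3 : 2 * q ∣ L.prod ∧ (∀ i ≤ n, 1 ≤ i → q ^ i - 1 ∣ L.prod ^ 9) ∧ ∀ j < n + e, q ^ j + 1 ∣ L.prod ^ 9)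
    (hn : 2 ≤ n) : Goal S (Pr q e n) := fun r s hr hs a b => by
  have k : ∀ r, r.Prime → Pr q e n r → ∃ a ∈ L, r ∣ a := fun r hr h => hr.prime.dvd_prod_iff.1 (by
    rcases h with h | h | ⟨i, a, b, h⟩ | ⟨j, -, b, h⟩ | ⟨-, h⟩
    exacts [(h.mul_left 2).trans h3.1, h ▸ (dvd_mul_right 2 q).trans h3.1,
      hr.dvd_of_dvd_pow (h.trans (h3.2.1 i b a)), hr.dvd_of_dvd_pow (h.trans (h3.2.2 j b)),
      hr.dvd_of_dvd_pow (h.trans (h3.2.2 1 (by omega)))])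
  obtain ⟨a, ha, ra⟩ := k r hr a
  obtain ⟨b, hb, sb⟩ := k s hs b
  obtain ⟨x, hx, u, v⟩ := h2 a ha b hb
  exact (h1 x hx).imp fun d hd => ⟨hd.1, hd.2 r hr ⟨ra.trans u.1, fun l => u.2 (l.trans ra)⟩,
    hd.2 s hs ⟨sb.trans v.1, fun l => v.2 (l.trans sb)⟩⟩

/-- the degree of the induced character -/
def DD (q e m k t : ℕ) : ℕ :=
  (∏ i ∈ (Ioc m (m + k)).erase k, (q ^ i - 1)) * (∏ i ∈ Ioc m (m + k), (q ^ (i - 1 + e) + 1)) * t

theorem DD_mul (h : m < k) : DD q e m k t * (q ^ k - 1) = (∏ i ∈ Ioc m (m + k), NN q e i) * t := by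
  simp only [NN, DD]
  rw [prod_mul_distrib, ← prod_erase_mul _ (q ^ · - 1) (a := k) (mem_Ioc.2 ⟨h, by omega⟩)]
  ring

/-- the primes visible in `DD` -/
def Inn (q e m k r : ℕ) : Prop := r = 2 ∨ (∃ i, m < i ∧ i ≤ m + k ∧ i ≠ k ∧ r ∣ q ^ i - 1) ∨
  ∃ j, m + e ≤ j ∧ j < m + k + e ∧ r ∣ q ^ j + 1

theorem two_dvd_a (h : Odd q) (i : ℕ) : 2 ∣ q ^ i - 1 := (Nat.Odd.sub_odd h.pow odd_one).two_dvd

theorem two_dvd_b (h : Odd q) (i : ℕ) : 2 ∣ q ^ i + 1 := (h.pow.add_one).two_dvd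

theorem Cq.dvd (hc : Cq c q) : 2 * c ∣ 8 := by rcases hc with h | h | h <;> simp [h]

theorem Cq.dvd' (hc : Cq c q) (h : Even q) : 2 * c ∣ 4 := by
  rcases hc with h | h | h' <;> simp [*]
  exact (Nat.not_even_iff_odd.2 h'.1 h).elim

theorem Cq.sq (hc : Cq c q) (h : Even q) : 2 * c ∣ q ^ 2 := (hc.dvd' h).trans (pow_dvd_pow_of_dvd h.two_dvd 2)

theorem see_DD (hc : Cq c q) (hk : 2 ≤ k) (hm : m < k) (hr : r.Prime) (ht : Even q → r = 2 → 2 * c ∣ t)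
    (h : r ∣ t ∨ Inn q e m k r) : See c (DD q e m k t) r := by
  by_cases h2 : r = 2
  · suffices 2 * c ∣ DD q e m k t from ⟨h2 ▸ (dvd_mul_right 2 c).trans this, fun _ => this⟩
    rcases q.even_or_odd with o | o
    · exact (ht o h2).mul_left _
    have a := prod_dvd_prod_of_dvd (s := (Ioc m (m + k)).erase k) (fun _ => 2) _ fun i _ => two_dvd_a o i
    have b := prod_dvd_prod_of_dvd (s := Ioc m (m + k)) (fun _ => 2) _ fun i _ => two_dvd_b o (i - 1 + e)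
    rw [prod_const, card_erase_of_mem (mem_Ioc.2 ⟨hm, by omega⟩), Nat.card_Ioc] at a
    rw [prod_const, Nat.card_Ioc] at b
    exact hc.dvd.trans ((mul_dvd_mul ((pow_dvd_pow 2 (show 1 ≤ _ by omega)).trans a)
      ((pow_dvd_pow 2 (show 2 ≤ _ by omega)).trans b)).mul_right _)
  refine see_odd hr h2 ?_
  rcases h with h | h | ⟨i, a, b, c, h⟩ | ⟨j, a, b, h⟩
  · exact h.mul_left _
  · exact (h2 h).elim
  · exact ((h.trans (dvd_prod_of_mem (q ^ · - 1) (mem_erase.2 ⟨c, mem_Ioc.2 ⟨a, b⟩⟩))).mul_right _).mul_right _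
  · refine ((h.trans (Eq.dvd ?_ |>.trans (dvd_prod_of_mem (fun i => q ^ (i - 1 + e) + 1)
      (a := j + 1 - e) (mem_Ioc.2 ⟨by omega, by omega⟩)))).mul_left _).mul_right _
    rw [show j + 1 - e - 1 + e = j by omega]

theorem see_DD0 (hc : Cq c q) (hk : 2 ≤ k) (hm : m < k) (hr : r.Prime) (hq : ¬ r ∣ q) (h : Inn q e m k r) :
    See c (DD q e m k t) r := see_DD hc hk hm hr (fun a b => (hq (b ▸ a.two_dvd)).elim) (.inr h)

theorem a_up {i j : ℕ} (h : r ∣ q ^ i - 1) (d : i ∣ j) : r ∣ q ^ j - 1 := h.trans (Nat.pow_sub_one_dvd_pow_sub_one q d)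

theorem a_two (q h : ℕ) : q ^ (2 * h) - 1 = (q ^ h - 1) * (q ^ h + 1) := by
  rw [mul_comm 2, pow_mul, mul_comm, ← Nat.sq_sub_sq, one_pow]

theorem b_up {i j : ℕ} (h : r ∣ q ^ i + 1) (d : 2 * i ∣ j) : r ∣ q ^ j - 1 := a_up (a_two q i ▸ h.mul_left _) d

theorem b_three {i : ℕ} (h : r ∣ q ^ i + 1) : r ∣ q ^ (i * 3) + 1 :=
  h.trans (by simpa [pow_mul] using Odd.nat_add_dvd_pow_add_pow (q ^ i) 1 (show Odd 3 by decide))

theorem a_split {h : ℕ} (hr : r.Prime) (d : r ∣ q ^ (2 * h) - 1) : r ∣ q ^ h - 1 ∨ r ∣ q ^ h + 1 :=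
  hr.dvd_mul.1 (a_two q h ▸ d)

/-- the geometric sum -/
def Ph (q k : ℕ) : ℕ := ∑ i ∈ range k, q ^ i

theorem a_eq (hq : 1 ≤ q) (k : ℕ) : q ^ k - 1 = (q - 1) * Ph q k := by
  obtain ⟨p, rfl⟩ := Nat.exists_eq_add_of_le' hq
  rw [← geom_sum_mul_add, Nat.add_sub_cancel, Nat.add_sub_cancel, mul_comm, Ph]

theorem a_ph (hq : 1 ≤ q) (hr : r.Prime) (d : r ∣ q ^ k - 1) : r ∣ q ^ 1 - 1 ∨ r ∣ Ph q k :=
  hr.dvd_mul.1 (by rwa [pow_one, ← a_eq hq])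

theorem odd_ph3 (q : ℕ) : Odd (Ph q 3) := by
  have : Ph q 3 = q * (q + 1) + 1 := by simp [Ph, sum_range_succ]; ring
  exact this ▸ (Nat.even_mul_succ_self q).add_one

theorem inn_a {i : ℕ} (h : r ∣ q ^ i - 1) (a : m < i := by omega) (b : i ≤ m + k := by omega)
    (c : i ≠ k := by omega) : Inn q e m k r := .inr (.inl ⟨i, a, b, c, h⟩)

theorem inn_b {j : ℕ} (h : r ∣ q ^ j + 1) (a : m + e ≤ j := by omega) (b : j < m + k + e := by omega) :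
    Inn q e m k r := .inr (.inr ⟨j, a, b, h⟩)

theorem inn0 (hn : 2 ≤ n) (he : e = 2 → 3 ≤ n) (P : Pr q e n r) : r ∣ q ∨ Inn q e 0 n r ∨ r ∣ q ^ n - 1 := by
  rcases P with h | h | ⟨i, a, b, h⟩ | ⟨j, a, b, h⟩ | ⟨a, h⟩
  · exact .inl h
  · exact .inr (.inl (.inl h))
  · by_cases c : i = n
    exacts [.inr (.inr (c ▸ h)), .inr (.inl (inn_a h))]
  · exact .inr (.inl (inn_b h))
  · have := he a
    exact .inr (.inl (inn_a (b_up h dvd_rfl)))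

theorem inn0e (hr : r.Prime) (hn : 2 ≤ n) (he : 2 * e ≤ n) (ev : Even n) (P : Pr q e n r) :
    r ∣ q ∨ Inn q e 0 n r := by
  obtain ⟨h, rfl⟩ := ev.two_dvd
  refine (inn0 hn (by omega) P).imp_right fun a => a.elim id fun a => ?_
  exact (a_split hr a).elim (inn_a ·) (inn_b ·)

theorem inn1 (hq : 1 ≤ q) (hr : r.Prime) (hk : 2 ≤ k) (e1 : 1 ≤ e) (e2 : e ≤ 2) (P : Pr q e (1 + k) r) :
    r ∣ q ∨ Inn q e 1 k r ∨ (Odd k ∧ r ∣ Ph q k) ∨ (k = 2 ∧ e = 2 ∧ r ∣ q ^ 2 + 1) := by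
  have A1 : r ∣ q ^ 1 - 1 → Inn q e 1 k r := fun h => inn_a (a_up h (one_dvd (1 + k)))
  have B1 : r ∣ q ^ 1 + 1 → Inn q e 1 k r := fun h => inn_b (b_three h)
  have B : ∀ j, 1 ≤ j → j < 1 + k + e → r ∣ q ^ j + 1 → Inn q e 1 k r ∨ (k = 2 ∧ e = 2 ∧ r ∣ q ^ 2 + 1) :=
    fun j a b h => by
      by_cases c : 1 + e ≤ j
      · exact .inl (inn_b h)
      obtain rfl | ⟨rfl, rfl⟩ : j = 1 ∨ j = 2 ∧ e = 2 := by omega
      · exact .inl (B1 h)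
      obtain rfl | rfl | d : k = 2 ∨ k = 3 ∨ 4 ≤ k := by omega
      exacts [.inr ⟨rfl, rfl, h⟩, .inl (inn_a (b_up h dvd_rfl)), .inl (inn_b (b_three h))]
  rcases P with h | h | ⟨i, a, b, h⟩ | ⟨j, a, b, h⟩ | ⟨a, h⟩
  · exact .inl h
  · exact .inr (.inl (.inl h))
  · obtain rfl | c | rfl : i = 1 ∨ (1 < i ∧ i ≠ k) ∨ i = k := by omega
    · exact .inr (.inl (A1 h))
    · exact .inr (.inl (inn_a h))
    obtain ⟨l, rfl⟩ | o := i.even_or_odd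
    · rw [← two_mul] at *
      rcases a_split hr h with h | h
      · by_cases c : l = 1
        exacts [.inr (.inl (A1 (c ▸ h))), .inr (.inl (inn_a h))]
      · exact .inr ((B l (by omega) (by omega) h).imp_right .inr)
    · exact .inr ((a_ph hq hr h).imp A1 fun h => .inl ⟨o, h⟩)
  · exact .inr ((B j (by omega) b h).imp_right .inr)
  · exact .inr (.inl (B1 h))

theorem pr_zero {T : Prop} (P : Pr q 0 n r) (hq : r ∣ q → T) (h2 : r = 2 → T) (hr : r.Prime)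
    (ha : ∀ i, 1 ≤ i → i ≤ n → r ∣ q ^ i - 1 → T) (hb : ∀ j, 1 ≤ j → j < n → r ∣ q ^ j + 1 → T) : T := by
  rcases P with h | h | ⟨i, a, b, h⟩ | ⟨j, a, b, h⟩ | ⟨a, h⟩
  exacts [hq h, h2 h, ha i a b h, j.eq_zero_or_pos.elim
    (fun c => h2 ((Nat.prime_dvd_prime_iff_eq hr Nat.prime_two).1 (by simpa [c] using h))) fun c => hb j c b h,
    absurd a (by decide)]

theorem inn2 (hr : r.Prime) (hk : 4 ≤ k) (ev : Even k) (P : Pr q 0 (2 + k) r) : r ∣ q ∨ Inn q 0 2 k r := by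
  obtain ⟨l, rfl⟩ := ev.two_dvd
  have A : ∀ i, 1 ≤ i → i ≤ 2 + 2 * l → i ≠ 2 * l → r ∣ q ^ i - 1 → Inn q 0 2 (2 * l) r := fun i a b c h => by
    by_cases d : 2 < i
    · exact inn_a h
    exact inn_a (a_up h (j := 2 + 2 * l) (by rcases (by omega : i = 1 ∨ i = 2) with rfl | rfl <;> omega))
  refine pr_zero P .inl (fun h => .inr (.inl h)) hr (fun i a b h => .inr ?_) fun j a b h => .inr ?_
  · by_cases c : i = 2 * l
    · exact (a_split hr (c ▸ h)).elim (A l (by omega) (by omega) (by omega)) (inn_b ·)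
    · exact A i a b c h
  · by_cases c : j = 1
    exacts [A 2 (by omega) (by omega) (by omega) (b_up h (by simp [c])), inn_b h]

theorem inn3 (hr : r.Prime) (hk : 4 ≤ k) (ev : Even k) (P : Pr q 0 (3 + k) r) :
    r ∣ q ^ 2 * (q ^ 2 + 1) ∨ Inn q 0 3 k r := by
  obtain ⟨l, rfl⟩ := ev.two_dvd
  have A : ∀ i, 1 ≤ i → i ≤ 3 + 2 * l → i ≠ 2 * l → r ∣ q ^ i - 1 → Inn q 0 3 (2 * l) r := fun i a b c h => by
    obtain d | d | rfl : 3 < i ∨ i ≤ 2 ∨ i = 3 := by omega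
    · exact inn_a h
    · exact inn_a (a_up h (j := 2 + 2 * l) (by rcases (by omega : i = 1 ∨ i = 2) with rfl | rfl <;> omega))
    · obtain d | d | d : l % 3 = 0 ∨ l % 3 = 1 ∨ l % 3 = 2 := by omega
      exacts [inn_a (a_up h (j := 3 + 2 * l) (by omega)), inn_a (a_up h (j := 1 + 2 * l) (by omega)),
        inn_a (a_up h (j := 2 + 2 * l) (by omega))]
  have B : ∀ j, 1 ≤ j → j < 3 + 2 * l → r ∣ q ^ j + 1 → r ∣ q ^ 2 * (q ^ 2 + 1) ∨ Inn q 0 3 (2 * l) r :=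
    fun j a b h => by
      obtain rfl | rfl | d : j = 1 ∨ j = 2 ∨ 3 ≤ j := by omega
      exacts [.inr (A 2 (by omega) (by omega) (by omega) (b_up h dvd_rfl)), .inl (h.mul_left _), .inr (inn_b h)]
  refine pr_zero P (fun h => .inl ((h.pow two_ne_zero).mul_right _)) (fun h => .inr (.inl h)) hr
    (fun i a b h => ?_) B
  by_cases c : i = 2 * l
  · exact (a_split hr (c ▸ h)).elim (fun h => .inr (A l (by omega) (by omega) (by omega) h))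
      (B l (by omega) (by omega))
  · exact .inr (A i a b c h)

theorem inn4 (hr : r.Prime) (P : Pr q 0 5 r) : r ∣ q ∨ Inn q 0 1 4 r := by
  refine pr_zero P .inl (fun h => .inr (.inl h)) hr (fun i a b h => .inr ?_) fun j a b h => .inr (inn_b h)
  obtain rfl | rfl | d : i = 1 ∨ i = 4 ∨ (1 < i ∧ i ≠ 4) := by omega
  exacts [inn_a (a_up h (one_dvd 2)), (a_split (h := 2) hr h).elim (inn_a ·) (inn_b ·), inn_a h]

theorem inn5 (hq : 1 ≤ q) (hr : r.Prime) (P : Pr q 0 5 r) : r ∣ q ∨ Inn q 0 2 3 r ∨ r ∣ Ph q 3 := by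
  refine pr_zero P .inl (fun h => .inr (.inl (.inl h))) hr (fun i a b h => .inr ?_) fun j a b h => .inr (.inl ?_)
  · obtain rfl | rfl | rfl | d : i = 1 ∨ i = 2 ∨ i = 3 ∨ 3 < i := by omega
    exacts [.inl (inn_a (a_up h (one_dvd 4))), .inl (inn_a (a_up h (j := 4) (by decide))),
      (a_ph hq hr h).imp_left fun h => inn_a (a_up h (one_dvd 4)), .inl (inn_a h)]
  · by_cases c : j = 1
    exacts [inn_a (b_up h (j := 4) (by simp [c])), inn_b h]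

end Cfsg.Agent.Dg
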