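import Cfsg.Agent.Dg.Z1

/-! Arithmetic for `S4984`, family by family. -/

set_option autoImplicit false

namespace Cfsg.Agent.Dg

open Finset

variable {S : Set ℕ} {q e c D r m k n t : ℕ}

theorem ff_eq (hq : 2 ≤ q) (he : e ≤ 2) (hn : 2 ≤ n + e) {a X : ℕ}
    (h : a * (q ^ (1 + e) * Ph q n * (q ^ (n + e - 2) + 1)) = X * (q + q ^ e)) : a * ff q e n = X := by
  refine Nat.eq_of_mul_eq_mul_right (m := (q - 1) * (q + q ^ e)) (Nat.mul_pos (by omega) (by positivity)) ?_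
  rw [mul_assoc, ff_mul he hn, a_eq (by omega), mul_left_comm X, ← h]; ring

theorem gg_eq (hq : 2 ≤ q) (he : e ≤ 2) {X : ℕ}
    (h : q ^ 2 * Ph q (n - 1) * (q ^ (n - 1 + e) + 1) = X * (q + q ^ e)) : gg q e n = X := by
  refine Nat.eq_of_mul_eq_mul_right (m := (q - 1) * (q + q ^ e)) (Nat.mul_pos (by omega) (by positivity)) ?_
  rw [gg_mul he, a_eq (by omega), mul_left_comm X, ← h]; ring

theorem ff_one (hq : 2 ≤ q) (e1 : 1 ≤ e) (e2 : e ≤ 2) : ff q e 1 = q ^ e := by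
  refine (one_mul _).symm.trans (ff_eq hq e2 (by omega) ?_)
  rcases (by omega : e = 1 ∨ e = 2) with rfl | rfl <;> simp [Ph] <;> ring

theorem gg02 (hq : 2 ≤ q) : gg q 0 2 = q ^ 2 := gg_eq hq (by omega) (by simp [Ph])

theorem gg03 (hq : 2 ≤ q) : gg q 0 3 = q ^ 2 * (q ^ 2 + 1) := gg_eq hq (by omega) (by simp [Ph, sum_range_succ]; ring)

theorem ff03 (hq : 2 ≤ q) : ff q 0 3 = q * Ph q 3 :=
  (one_mul _).symm.trans (ff_eq hq (by omega) (by omega) (by simp))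

theorem ff22 (hq : 2 ≤ q) : ff q 2 2 = q ^ 2 * (q ^ 2 + 1) :=
  (one_mul _).symm.trans (ff_eq hq (by omega) (by omega) (by simp [Ph, sum_range_succ]; ring))

theorem ff12 (hq : 2 ≤ q) : 2 * ff q 1 2 = q * (q + 1) ^ 2 :=
  ff_eq hq (by omega) (by omega) (by simp [Ph, sum_range_succ]; ring)

theorem gg_dvd (hq : 2 ≤ q) (h : e = 1 ∧ Odd q ∨ e = 2 ∧ Odd k) : q * Ph q k ∣ gg q e (1 + k) := by
  obtain ⟨b, hb⟩ : 1 + q ^ (e - 1) ∣ q ^ (k + e) + 1 := by
    rcases h with ⟨rfl, h⟩ | ⟨rfl, h⟩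
    · simpa using two_dvd_b h (k + 1)
    · simpa [add_comm] using Odd.nat_add_dvd_pow_add_pow q 1 (h.add_even even_two)
  refine ⟨b, gg_eq hq (by omega) ?_⟩
  obtain ⟨l, rfl⟩ : ∃ l, e = l + 1 := ⟨e - 1, by omega⟩
  rw [Nat.add_sub_cancel_left, hb, Nat.add_sub_cancel]; ring

theorem t4a_dvd (hq : 2 ≤ q) (ev : Even m)
    (h : D * ((q ^ 2 - 1) * (q + 1)) = q * NN q 1 (m + 1) * NN q 1 (m + 2)) :
    q * (q ^ (m + 1) - 1) * (q ^ (m + 2) + 1) ∣ D := by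
  obtain ⟨a, ha⟩ := Nat.pow_sub_one_dvd_pow_sub_one q (ev.add even_two).two_dvd
  obtain ⟨b, hb⟩ := Odd.nat_add_dvd_pow_add_pow q 1 ev.add_one
  refine ⟨a * b, Nat.eq_of_mul_eq_mul_right (Nat.mul_pos (Nat.sub_pos_of_lt (Nat.one_lt_pow two_ne_zero hq))
    q.succ_pos) (h.trans ?_)⟩
  rw [one_pow] at hb
  rw [NN, NN, ha, Nat.add_sub_cancel, hb, show m + 2 - 1 + 1 = m + 2 by omega, Nat.succ_eq_add_one]; ring

theorem goal_odd (hc : Cq c q) (hq : 2 ≤ q) (e1 : 1 ≤ e) (e2 : e ≤ 2) (hk : 2 ≤ k) (ev : Even k)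
    (hk' : k = 2 → e ≠ 2) (h2 : Even q → 2 * c ∣ q ^ e) (c1 : Cl S (See c (DD q e 1 k (ff q e 1)))) :
    Goal S (Pr q e (1 + k)) := goal_one c1 fun r hr P => by
  rw [ff_one hq e1 e2]
  refine see_DD hc hk hk hr (fun a _ => h2 a) ?_
  rcases inn1 (by omega) hr hk e1 e2 P with h | h | h | h
  exacts [.inl (h.pow (by omega)), .inr h, (Nat.not_even_iff_odd.2 h.1 ev).elim, (hk' h.1 h.2.1).elim]

theorem goal_even (hc : Cq c q) (hq : 2 ≤ q) (e1 : 1 ≤ e) (e2 : e ≤ 2) (hk : 3 ≤ k) (od : Odd k)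
    (h2 : Even q → 2 * c ∣ q ^ e) (c0 : Cl S (See c (DD q e 0 (1 + k) 1)))
    (c1 : Cl S (See c (DD q e 1 k (ff q e 1)))) (c2 : D ∈ S) (hD : q * Ph q k ∣ D) :
    Goal S (Pr q e (1 + k)) := goal_tri c0 c1 (cl_one c2) fun r hr P => by
  rw [ff_one hq e1 e2]
  have s := see_DD (e := e) hc (by omega) (show 1 < k by omega) hr fun a _ => h2 a
  by_cases p : r ∣ q
  · exact ⟨.inr ⟨s (.inl (p.pow (by omega))), (p.mul_right _).trans hD⟩, .inl (s (.inl (p.pow (by omega))))⟩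
  refine ⟨.inl (see_DD0 hc (by omega) (by omega) hr p
    ((inn0e hr (by omega) (by omega) (odd_one.add_odd od) P).resolve_left p)), ?_⟩
  rcases inn1 (by omega) hr (by omega) e1 e2 P with h | h | h | h
  exacts [(p h).elim, .inl (s (.inr h)), .inr ((h.2.mul_left _).trans hD), by omega]

theorem goal_C2 (hq : 2 ≤ q) (h4 : Even q → 4 ∣ q) (c0 : Cl S (See 1 (DD q 1 0 2 1))) (c1 : D ∈ S)
    (hD : q * (q ^ 1 - 1) * (q ^ 2 + 1) ∣ D) (c2 : ff q 1 2 ∈ S) : Goal S (Pr q 1 2) :=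
  goal_tri c0 (cl_one c1) (cl_one c2) fun r hr P => by
    have f : r ∣ q * (q + 1) → (r = 2 → 4 ∣ q * (q + 1) ^ 2) → r ∣ ff q 1 2 := fun a b => by
      rw [← ff12 hq] at b
      by_cases c : r = 2
      · have := b c
        subst c; omega
      refine (hr.dvd_mul.1 (ff12 hq ▸ a.trans (mul_dvd_mul_left q (dvd_pow_self _ two_ne_zero)))).resolve_left
        fun l => c ((Nat.prime_dvd_prime_iff_eq hr Nat.prime_two).1 l)
    by_cases p : r ∣ q
    · have a := ((p.mul_right _).mul_right _).trans hD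
      exact ⟨.inr ⟨a, f (p.mul_right _) fun c => (h4 (even_iff_two_dvd.2 (c ▸ p))).mul_right _⟩, .inl a⟩
    refine ⟨.inl (see_DD0 (.inl rfl) le_rfl two_pos hr p ((inn0e hr le_rfl le_rfl even_two P).resolve_left p)), ?_⟩
    have A : r ∣ q ^ 1 - 1 → r ∣ D := fun h => ((h.mul_left _).mul_right _).trans hD
    by_cases c : r = 2
    · exact .inl (A (c ▸ two_dvd_a (Nat.not_even_iff_odd.1 fun l => p (c ▸ l.two_dvd)) 1))
    have B : r ∣ q ^ 1 + 1 → r ∣ ff q 1 2 := fun h => f ((pow_one q ▸ h).mul_left _) fun l => (c l).elim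
    rcases P with h | h | ⟨i, a, b, h⟩ | ⟨j, a, b, h⟩ | ⟨a, h⟩
    · exact (p h).elim
    · exact (c h).elim
    · exact (a_split (h := 1) hr (a_up h (by rcases (by omega : i = 1 ∨ i = 2) with rfl | rfl <;> simp))).imp A B
    · rcases (by omega : j = 1 ∨ j = 2) with rfl | rfl
      exacts [.inr (B h), .inl ((h.mul_left _).trans hD)]
    · omega

theorem goal_E3 (hc : Cq c q) (hq : 2 ≤ q) (c0 : Cl S (See c (DD q 2 0 3 1)))
    (c1 : Cl S (See c (DD q 2 1 2 (ff q 2 1)))) (c2 : Cl S (See c D)) {a : ℕ} (ha : a = 1 ∨ a = 2 ∧ Odd q)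
    (hD : a * D * (q - 1) = NN q 2 3 * ff q 2 2) : Goal S (Pr q 2 3) := goal_tri c0 c1 c2 fun r hr P => by
  have e : a * D = q ^ 2 * (Ph q 3 * (q ^ 2 + 1)) * (q ^ 4 + 1) := Nat.eq_of_mul_eq_mul_right (m := q - 1) (by omega)
    (hD.trans (by rw [ff22 hq, NN, a_eq (by omega)]; ring))
  have o : r ≠ 2 → r ∣ q ^ 2 * (Ph q 3 * (q ^ 2 + 1)) → See c D r := fun h2 h =>
    see_odd hr h2 ((hr.dvd_mul.1 (e ▸ h.mul_right _)).resolve_left fun l => by
      rcases ha with rfl | ⟨rfl, -⟩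
      exacts [hr.not_dvd_one l, h2 ((Nat.prime_dvd_prime_iff_eq hr Nat.prime_two).1 l)])
  rw [ff_one hq one_le_two le_rfl]
  have s := see_DD (e := 2) hc le_rfl one_lt_two hr fun a _ => hc.sq a
  by_cases p : r ∣ q
  · have a1 := s (.inl (p.pow two_ne_zero))
    refine ⟨.inr ⟨a1, ?_⟩, .inl a1⟩
    by_cases h2 : r = 2
    · have ev := even_iff_two_dvd.2 (h2 ▸ p)
      obtain rfl : a = 1 := ha.resolve_right fun l => Nat.not_even_iff_odd.2 l.2 ev
      have : q ^ 2 ∣ D := by rw [← one_mul D, e]; exact (dvd_mul_right _ _).mul_right _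
      exact ⟨(p.pow two_ne_zero).trans this, fun _ => (hc.sq ev).trans this⟩
    · exact o h2 ((p.pow two_ne_zero).mul_right _)
  by_cases h2 : r = 2
  · exact ⟨.inl (see_DD0 hc (by omega) (by omega) hr p (.inl h2)), .inl (s (.inr (.inl h2)))⟩
  constructor
  · rcases inn0 (by omega) (fun _ => le_rfl) P with h | h | h
    · exact (p h).elim
    · exact .inl (see_DD0 hc (by omega) (by omega) hr p h)
    · exact (a_ph (by omega) hr h).imp (fun h => see_DD0 hc (by omega) (by omega) hr p (inn_a h))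
        fun l => ⟨s (.inr (inn_a h)), o h2 ((l.mul_right _).mul_left _)⟩
  · rcases inn1 (k := 2) (by omega) hr le_rfl one_le_two le_rfl P with h | h | h | h
    exacts [(p h).elim, .inl (s (.inr h)), absurd h.1 (by decide), .inr (o h2 ((h.2.2.mul_left _).mul_left _))]

theorem goal_De (hc : Cq c q) (hq : 2 ≤ q) (hk : 4 ≤ k) (ev : Even k) (c1 : Cl S (See c (DD q 0 2 k (gg q 0 2)))) :
    Goal S (Pr q 0 (2 + k)) := goal_one c1 fun r hr P => by
  rw [gg02 hq]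
  exact see_DD hc (by omega) (by omega) hr (fun a _ => hc.sq a) ((inn2 hr hk ev P).imp_left (·.pow two_ne_zero))

theorem goal_Do (hc : Cq c q) (hq : 2 ≤ q) (hk : 4 ≤ k) (ev : Even k) (c1 : Cl S (See c (DD q 0 3 k (gg q 0 3)))) :
    Goal S (Pr q 0 (3 + k)) := goal_one c1 fun r hr P => by
  rw [gg03 hq]
  exact see_DD hc (by omega) (by omega) hr (fun a _ => (hc.sq a).mul_right _) (inn3 hr hk ev P)

theorem D5_mul (hq : 2 ≤ q) : q * Ph q 3 * ((q ^ 2 + 1) * (q ^ 3 + 1) * NN q 0 5) * (q ^ 2 - 1) =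
    (∏ i ∈ Ioc 3 (3 + 2), NN q 0 i) * ff q 0 3 := by
  rw [ff03 hq, prod_Ioc_succ_top (by omega), prod_Ioc_succ_top le_rfl, Ioc_self, prod_empty, NN.eq_1 q 0 (3 + 1),
    a_two q 2]
  ring

theorem goal_D5 (hc : Cq c q) (hq : 2 ≤ q) (h4 : Even q → 4 ∣ q) (c0 : Cl S (See c (DD q 0 1 4 1)))
    (c1 : Cl S (See c (DD q 0 2 3 (gg q 0 2)))) (c2 : Cl S (See c (q * Ph q 3 * D))) : Goal S (Pr q 0 5) :=
  goal_tri c0 c1 c2 fun r hr P => by
    rw [gg02 hq]
    have s := see_DD (e := 0) hc (by omega) (show 2 < 3 by omega) hr fun a _ => hc.sq a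
    by_cases p : r ∣ q
    · have a := s (.inl (p.pow two_ne_zero))
      refine ⟨.inr ⟨a, (p.mul_right _).mul_right _, fun l => ?_⟩, .inl a⟩
      have ev := even_iff_two_dvd.2 (l.trans p)
      exact (((hc.dvd' ev).trans (h4 ev)).mul_right _).mul_right _
    refine ⟨.inl (see_DD0 hc (by omega) (by omega) hr p ((inn4 hr P).resolve_left p)), ?_⟩
    exact ((inn5 (by omega) hr P).resolve_left p).imp (fun h => s (.inr h)) fun h => see_odd hr
      (fun l => Nat.not_even_iff_odd.2 (odd_ph3 q) (even_iff_two_dvd.2 (l ▸ h))) ((h.mul_left _).mul_right _)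

theorem D4_mul (hq : 2 ≤ q) : (q ^ 3 - 1) * (q ^ 2 + 1) * (q ^ 3 + 1) * (q ^ 2 + 1) * q ^ 2 * (q ^ 2 - 1) =
    (∏ i ∈ Ioc 2 (2 + 2), NN q 0 i) * gg q 0 2 := by
  rw [gg02 hq, prod_Ioc_succ_top (by omega), prod_Ioc_succ_top le_rfl, Ioc_self, prod_empty, NN, NN, a_two q 2]
  ring

theorem goal_D4 (hc : Cq c q)
    (c1 : Cl S (See c ((q ^ 3 - 1) * (q ^ 2 + 1) * (q ^ 3 + 1) * (q ^ 2 + 1) * q ^ 2))) : Goal S (Pr q 0 4) :=
  goal_one c1 fun r hr P => by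
    by_cases h2 : r = 2
    · suffices 2 * c ∣ _ from ⟨(h2.dvd.mul_right c).trans this, fun _ => this⟩
      rcases q.even_or_odd with o | o
      · exact (hc.sq o).mul_left _
      · exact hc.dvd.trans (((mul_dvd_mul (mul_dvd_mul (two_dvd_a o 3) (two_dvd_b o 2))
          (two_dvd_b o 3)).mul_right _).mul_right _)
    refine see_odd hr h2 ?_
    have A : r ∣ q ^ 3 - 1 → r ∣ _ := fun h =>
      (((h.mul_right (q ^ 2 + 1)).mul_right (q ^ 3 + 1)).mul_right (q ^ 2 + 1)).mul_right (q ^ 2)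
    have B : r ∣ q ^ 3 + 1 → r ∣ _ := fun h =>
      ((h.mul_left ((q ^ 3 - 1) * (q ^ 2 + 1))).mul_right (q ^ 2 + 1)).mul_right (q ^ 2)
    have C : r ∣ q ^ 2 + 1 → r ∣ _ := fun h =>
      (h.mul_left ((q ^ 3 - 1) * (q ^ 2 + 1) * (q ^ 3 + 1))).mul_right (q ^ 2)
    have E := fun h => (a_split (h := 1) hr h).elim (fun h => A (a_up h (one_dvd 3))) fun h => B (b_three h)
    refine pr_zero P (fun h => (h.pow two_ne_zero).mul_left _) (fun h => (h2 h).elim) hr (fun i a b h => ?_)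
      fun j a b h => ?_
    · rcases (by omega : i = 1 ∨ i = 2 ∨ i = 3 ∨ i = 4) with rfl | rfl | rfl | rfl
      exacts [A (a_up h (one_dvd 3)), E h, A h, (a_split (h := 2) hr h).elim E C]
    · rcases (by omega : j = 1 ∨ j = 2 ∨ j = 3) with rfl | rfl | rfl
      exacts [B (b_three h), C h, B h]

end Cfsg.Agent.Dg
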