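import Cfsg.Agent.Dg.Z2
import Cfsg.Agent.Dg.T5
import Cfsg.Agent.Dg.A9
import Cfsg.Agent.Dg.M4
import Cfsg.Agent.Dg.D3
import Cfsg.Agent.Dg.D4
import Cfsg.Agent.Dg.T2
import Cfsg.Agent.Dg.T3

/-! Assembly of `S4984`. -/

set_option autoImplicit false
set_option maxHeartbeats 400000

namespace Cfsg.Agent.Dg

open Cfsg Finset

variable {F V : Type} [Field F] [Finite F] [AddCommGroup V] [Module F V] [Finite V] {k d m n t D e : ℕ} {o : Bool}
  {Q : V → F} {B : LinearMap.BilinForm F V} {z : Prop}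

variable (F) in
/-- a unipotent character of degree `t` on every space of the given type -/
def Tau (o : Bool) (d m t : ℕ) : Prop :=
  ∀ (V' : Type) [AddCommGroup V'] [Module F V'] [Finite V'] (Q' : V' → F) (B' : LinearMap.BilinForm F V'),
    Ty o d m Q' B' → ∃ τ : Iso Q' B' → ℂ, IsIrrCharacter _ τ ∧ τ 1 = t ∧ Cen τ ∧ Un τ

theorem Tau.one : Tau F o d m 1 := fun _ _ _ _ _ _ T => tau_one T.pol

theorem Tau.f (h : 1 ≤ m := by omega) (h' : 2 ≤ m + e := by omega) (he : ee o d = e := by rfl) :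
    Tau F o d m (ff (Nat.card F) e m) := by
  subst he; exact fun _ _ _ _ _ _ T => tau_f T h h'

theorem Tau.g (h : 2 ≤ m := by omega) (he : ee o d = e := by rfl) : Tau F o d m (gg (Nat.card F) e m) := by
  subst he; exact fun _ _ _ _ _ _ T => tau_g T h

variable (F) in
/-- a suitable cuspidal character exists -/
def Cz (z : Prop) (k : ℕ) : Prop := ∃ σ : GL (Fin k) F → ℂ, Cusp σ ∧ NR σ ∧ (z → σ (-1) = σ 1)

theorem Cz.big (h : 3 ≤ k := by omega) : Cz F z k :=
  (cusp_cen (by omega) (by omega)).imp fun _ h => ⟨h.1, h.2.1, fun _ => h.2.2⟩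

theorem Cz.two (hk : 2 ≤ k) (h : k = 2 → Nat.card F ≠ 2 ∧ (z → Nat.card F ≠ 3)) : Cz F z k := by
  by_cases c : z
  · exact (cusp_cen (by omega) (by simp only [c, true_imp_iff] at h; omega)).imp
      fun _ h => ⟨h.1, h.2.1, fun _ => h.2.2⟩
  · exact (cusp_nr (by omega) (by omega)).imp fun _ h => ⟨h.1, h.2, fun l => (c l).elim⟩

theorem hc' (T : Ty o d (m + k) Q B) (hσ : Cz F z k) (hτ : Tau F o d m t)
    (hD : D * (Nat.card F ^ k - 1) = (∏ i ∈ Ioc m (m + k), NN (Nat.card F) e i) * t) (he : ee o d = e := by rfl) :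
    CD z Q B D := by
  subst he
  exact hc T hσ (fun V' _ _ _ Q' B' T' => (hτ V' Q' B' T').imp fun _ h =>
    ⟨h.1, h.2.1, fun _ => h.2.2.1, .inr h.2.2.2⟩) hD

theorem hcD (T : Ty o d (m + k) Q B) (hσ : Cz F z k) (hτ : Tau F o d m t) (h : m < k := by omega)
    (he : ee o d = e := by rfl) : CD z Q B (DD (Nat.card F) e m k t) := hc' T hσ hτ (DD_mul h) he

theorem hc0 (T : Ty o d k Q B) (hσ : Cz F z k) (h : 0 < k := by omega) (he : ee o d = e := by rfl) :
    CD z Q B (DD (Nat.card F) e 0 k 1) := hcD (by rwa [zero_add]) hσ .one h he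

theorem four_dvd (h : Nat.card F ≠ 2) (ev : Even (Nat.card F)) : 4 ∣ Nat.card F := by
  have := Fintype.ofFinite F
  obtain ⟨p, hp⟩ := CharP.exists F
  obtain ⟨⟨n, n0⟩, hp, e⟩ := FiniteField.card F p
  rw [Nat.card_eq_fintype_card, e] at h ev ⊢
  obtain rfl := (Nat.prime_dvd_prime_iff_eq Nat.prime_two hp).1 (Nat.prime_two.dvd_of_dvd_pow ev.two_dvd)
  refine pow_dvd_pow 2 (show 2 ≤ n from Nat.lt_of_le_of_ne n0 fun l => h ?_)
  subst l; rfl

theorem cl_sp (T : Ty false 0 n Q B) (h : CD True Q B D) :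
    Cl (charDegrees (Iso Q B ⧸ Subgroup.center _)) (See 1 D) :=
  cl_of (q := 0) (.inl rfl) ⟨D, ds_sp T.pol h, by simp⟩

theorem cl_o (T : Ty true d n Q B) (hn : 3 ≤ n) (hz : z ∨ Even (Nat.card F) ∨ NoNeg Q B) (h : CD z Q B D) :
    Cl (charDegrees (PO Q B)) (See (if Even (Nat.card F) then 2 else 4) D) := cl_of (cq_ite _) (ds_o T hn h hz)

theorem cl_see {S : Set ℕ} (h : D ∈ S) : Cl S (See 1 D) := ⟨D, h, fun _ _ h => h.1⟩

theorem main_C (T : Ty false 0 n Q B) (hn : 2 ≤ n) (h2 : n = 2 → 3 ≤ Nat.card F) :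
    Goal (charDegrees (Iso Q B ⧸ Subgroup.center _)) (Pr (Nat.card F) 1 n) := by
  have q2 : 2 ≤ Nat.card F := two_le_q
  obtain ⟨m, rfl⟩ := Nat.exists_eq_add_of_le' hn
  obtain ⟨D, hD, e⟩ := t4a T
  by_cases s : (m = 0 ∧ Nat.card F = 3) ∨ (m = 1 ∧ Nat.card F = 2) ∨ (m = 1 ∧ Nat.card F = 3)
  · have := cl_sp T hD
    rcases s with ⟨rfl, s⟩ | ⟨rfl, s⟩ | ⟨rfl, s⟩ <;> rw [s] at e ⊢ <;> simp [NN] at e
    · exact goal_small [60] [(1, 60)] (by simpa [← show D = 60 by omega]) (by decide) (by decide) le_rfl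
    · exact goal_small [210, 2] [(1, 210)] (by simpa [← show D = 210 by omega]) (by decide) (by decide) (by omega)
    · exact goal_small [5460] [(1, 5460)] (by simpa [← show D = 5460 by omega]) (by decide) (by decide) (by omega)
  rcases m.even_or_odd with ev | od
  · have dv := t4a_dvd q2 ev e
    rcases m.eq_zero_or_pos with rfl | m0
    · obtain ⟨τ, a, b, c, -⟩ := tau_f T one_le_two (by decide)
      exact goal_C2 q2 (four_dvd (by omega)) (cl_sp T (hc0 T (.two le_rfl (by omega)))) (ds_sp T.pol hD) dv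
        (ds_sp T.pol ⟨τ, a, b, fun _ => c⟩)
    · obtain ⟨l, rfl⟩ := ev
      rw [show l + l + 2 = 1 + (l + l + 1) by omega] at T ⊢
      exact goal_even (.inl rfl) q2 le_rfl one_le_two (by omega) ⟨l, by omega⟩ (by simpa using Even.two_dvd)
        (cl_sp T (hc0 T .big)) (cl_sp T (hcD T .big .f)) (ds_sp T.pol hD)
        ((mul_dvd_mul_left _ (a_eq (one_le_two.trans q2) _ ▸ dvd_mul_left _ _)).trans ((dvd_mul_right _ _).trans dv))
  · obtain ⟨l, rfl⟩ := od
    rw [show 2 * l + 1 + 2 = 1 + (2 * l + 2) by omega] at T ⊢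
    exact goal_odd (.inl rfl) q2 le_rfl one_le_two (by omega) ⟨l + 1, by omega⟩ (by omega)
      (by simpa using Even.two_dvd) (cl_sp T (hcD T (.two (by omega) (by omega)) .f))

theorem main_B (T : Ty true 1 n Q B) (hn : 3 ≤ n) (od : Odd (Nat.card F)) :
    Goal (charDegrees (PO Q B)) (Pr (Nat.card F) 1 n) := by
  have q2 : 2 ≤ Nat.card F := two_le_q
  have c := fun D => cl_o (D := D) (z := False) T hn (.inr (.inr (noneg_B T)))
  obtain ⟨k, rfl⟩ := Nat.exists_eq_add_of_le (show 1 ≤ n by omega)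
  have ne := fun ev => (Nat.not_even_iff_odd.2 od ev).elim (C := 2 * (if Even (Nat.card F) then 2 else 4) ∣ Nat.card F ^ 1)
  rcases k.even_or_odd with ev | ok
  · exact goal_odd (cq_ite _) q2 le_rfl one_le_two (by omega) ev (by omega) ne
      (c _ (hcD T (.two (by omega) fun _ => ⟨fun l => by rw [l] at od; exact absurd od (by decide), False.elim⟩) .f))
  · have : 3 ≤ k := by obtain ⟨l, rfl⟩ := ok; omega
    exact goal_even (cq_ite _) q2 le_rfl one_le_two this ok ne (c _ (hc0 T .big)) (c _ (hcD T .big .f))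
      (po_g T hn) (gg_dvd q2 (.inl ⟨rfl, od⟩))

theorem main_E (T : Ty true 2 n Q B) (hn : 3 ≤ n) : Goal (charDegrees (PO Q B)) (Pr (Nat.card F) 2 n) := by
  have q2 : 2 ≤ Nat.card F := two_le_q
  have c := fun D => cl_o (D := D) T hn (.inl trivial)
  obtain ⟨k, rfl⟩ := Nat.exists_eq_add_of_le (show 1 ≤ n by omega)
  obtain rfl | hk : k = 2 ∨ 3 ≤ k := by omega
  swap
  · rcases k.even_or_odd with ev | ok
    · exact goal_odd (cq_ite _) q2 one_le_two le_rfl (by omega) ev (by omega) (cq_ite _).sq (c _ (hcD T .big .f))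
    · exact goal_even (cq_ite _) q2 one_le_two le_rfl hk ok (cq_ite _).sq (c _ (hc0 T .big)) (c _ (hcD T .big .f))
        (po_g T hn) (gg_dvd q2 (.inr ⟨rfl, ok⟩))
  have c0 := c _ (hc0 (e := _) T .big (by omega) rfl)
  by_cases h2 : Nat.card F = 2
  · have c1 := c _ (t4c h2 T)
    have c2 := cl_see (po_f T hn)
    rw [h2] at c0 c1 c2 ⊢
    exact goal_small [2, 2, 3, 5, 7, 17] [(_, _), (_, _), (_, _)] (by simpa using ⟨c0, c1, c2⟩) (by decide)
      (by decide) (by omega)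
  have nn : Nat.card F ≠ 3 ∨ Even (Nat.card F) ∨ NoNeg Q B :=
    (eq_or_ne _ 3).symm.imp_right fun h => .inr (noneg_3 h (.inl T))
  have c1 := cl_o T hn nn (hcD (e := 2) T (.two le_rfl fun _ => ⟨h2, id⟩) (.f (e := 2)))
  by_cases h : Nat.card F % 4 = 1 ∨ Nat.card F = 3
  · have od : Odd (Nat.card F) := Nat.odd_iff.2 (by omega)
    obtain ⟨D, hD, e⟩ := t4d od T
    exact goal_E3 (cq_ite _) q2 c0 c1 (cl_o T hn (h.imp_right fun h => .inr (noneg_3 h (.inl T))) hD)
      (.inr ⟨rfl, od⟩) e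
  · obtain ⟨μ, hμ⟩ := exists_mu (Nat.card F) 2 3
    have e : 1 * (μ * ff (Nat.card F) 2 2) * (Nat.card F - 1) = NN (Nat.card F) 2 3 * ff (Nat.card F) 2 2 := by
      rw [← hμ]; ring
    refine goal_E3 (cq_ite _) q2 c0 c1 (c _ (hc' (m := 2) (k := 1) T
      ((cusp_cen le_rfl (by omega)).imp fun _ h => ⟨h.1, h.2.1, fun _ => h.2.2⟩) .f ?_)) (.inl rfl) e
    simpa using! e

theorem main_D (T : Ty true 0 n Q B) (hn : 4 ≤ n) : Goal (charDegrees (PO Q B)) (Pr (Nat.card F) 0 n) := by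
  have q2 : 2 ≤ Nat.card F := two_le_q
  have c := fun D => cl_o (D := D) T (by omega) (.inl trivial)
  obtain rfl | rfl | hk : n = 4 ∨ n = 5 ∨ 6 ≤ n := by omega
  · by_cases h : Nat.card F = 2 ∨ Nat.card F = 3
    · have c0 := c _ (hc0 (e := _) T .big (by omega) rfl)
      have c1 := cl_see (po_f T (by omega))
      have c2 := cl_see (po_g T (by omega))
      rcases h with h | h <;> rw [h] at c0 c1 c2 ⊢
      · exact goal_small [2, 2, 3, 5, 7] [(_, _), (_, _), (_, _)] (by simpa using ⟨c0, c1, c2⟩) (by decide)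
          (by decide) (by omega)
      · exact goal_small [2, 3, 5, 7, 13] [(_, _), (_, _), (_, _)] (by simpa using ⟨c0, c1, c2⟩) (by decide)
          (by decide) (by omega)
    · exact goal_D4 (cq_ite _) (c _ (hc' (m := 2) (k := 2) T (.two le_rfl (by omega)) .g (D4_mul q2)))
  · by_cases h2 : Nat.card F = 2
    · have c1 := c _ (t4b h2 T)
      rw [h2] at c1 ⊢
      exact goal_small [221340] [(_, _)] (by simpa using c1) (by decide) (by decide) (by omega)
    · exact goal_D5 (cq_ite _) q2 (four_dvd h2) (c _ (hcD (m := 1) T .big .one)) (c _ (hcD (m := 2) T .big .g))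
        (cl_o T (by omega) ((eq_or_ne _ 3).symm.imp_right fun h => .inr (noneg_3 h (.inr T)))
          (hc' (m := 3) (k := 2) T (.two le_rfl fun _ => ⟨h2, id⟩) .f (D5_mul q2)))
  · rcases n.even_or_odd with ⟨l, rfl⟩ | ⟨l, rfl⟩
    · obtain ⟨k, e⟩ := Nat.exists_eq_add_of_le (show 2 ≤ l + l by omega)
      rw [e] at T ⊢
      exact goal_De (cq_ite _) q2 (by omega) ⟨l - 1, by omega⟩ (c _ (hcD T .big .g))
    · obtain ⟨k, e⟩ := Nat.exists_eq_add_of_le (show 3 ≤ 2 * l + 1 by omega)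
      rw [e] at T ⊢
      exact goal_Do (cq_ite _) q2 (by omega) ⟨l - 1, by omega⟩ (c _ (hcD T .big .g))

theorem pr_of {r : ℕ} (T : Ty o d n Q B) (hd : d ≤ 2) (ho : d = 2 → o = true) (hr : r.Prime)
    (h : r ∣ Nat.card (Iso Q B)) : Pr (Nat.card F) (ee o d) n r := by
  rcases prime_card T hd hr h with h | h | ⟨i, hi, h⟩ | h
  · exact .inl h
  · exact .inr (.inl h)
  · have := mem_Icc.1 hi
    exact .inr (.inr ((hr.dvd_mul.1 h).imp (fun h => ⟨i, this.1, this.2, h⟩)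
      fun h => .inl ⟨_, by omega, by omega, h⟩))
  · exact .inr (.inr (.inr (.inr ⟨by simp [ee, ho h.1, h.1], by simpa using h.2⟩)))

theorem adj_of {G H : Type*} [Group G] [Group H] [Finite H] (e : G ≃* H) {P : ℕ → Prop}
    (h : Goal (charDegrees H) P) (hP : ∀ r, r.Prime → r ∣ Nat.card H → P r) {r s : ℕ}
    (hr : r ∈ degreePrimes G) (hs : s ∈ degreePrimes G) (hrs : r ≠ s) : (degreeGraph G).Adj r s := by
  have k : ∀ r ∈ degreePrimes G, P r := fun r ⟨a, d, hd, b⟩ => by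
    obtain ⟨χ, rfl⟩ := charDegrees_congr e ▸ hd
    exact hP r a (b.trans χ.2.charDegree_dvd_card)
  obtain ⟨d, hd, a, b⟩ := h r s hr.1 hs.1 (k r hr) (k s hs)
  exact ⟨hrs, hr.1, hs.1, d, (charDegrees_congr e).symm ▸ hd,
    ((Nat.coprime_primes hr.1 hs.1).2 hrs).mul_dvd_of_dvd_of_dvd a b⟩

omit [Finite F] in
theorem card_PO_dvd : Nat.card (PO Q B) ∣ Nat.card (Iso Q B) :=
  (Subgroup.card_quotient_dvd_card _).trans (Subgroup.card_subgroup_dvd_card _)

end Cfsg.Agent.Dg
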